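import Mathlib
import Cfsg.Agent.Lib.Classical.Herm.Basic

/-!
# Definitions for Ore's conjecture for `SU_n(q)`

The model: `V = W ⊕ V₀ ⊕ W'` with index type `Ix m ε = Fin m ⊕ (Fin ε ⊕ Fin m)`, the hermitian form pairing
`inl i` with `inr (inr i)` and `inr (inl j)` with itself; `n = 2 m + ε`, `ε ≤ 1`.
-/

set_option autoImplicit false
set_option linter.unusedSectionVars false

namespace Cfsg.Agent.Lib.OreU

open Matrix Polynomial

variable {F : Type*} [Field F] {m ε : ℕ}

/-- The index type. -/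
abbrev Ix (m ε : ℕ) := Fin m ⊕ (Fin ε ⊕ Fin m)

/-- The opposition involution of the index type. -/
def rv : Ix m ε → Ix m ε
  | .inl i => .inr (.inr i)
  | .inr (.inl j) => .inr (.inl j)
  | .inr (.inr i) => .inl i

@[simp] theorem rv_rv (i : Ix m ε) : rv (rv i) = i := by
  rcases i with i | j | i <;> rfl

/-- The adjoint for the form. -/
def adj (q : ℕ) (M : Matrix (Ix m ε) (Ix m ε) F) : Matrix (Ix m ε) (Ix m ε) F :=
  of fun r c => M (rv c) (rv r) ^ q

theorem adj_apply (q : ℕ) (M : Matrix (Ix m ε) (Ix m ε) F) (r c : Ix m ε) :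
    adj q M r c = M (rv c) (rv r) ^ q := rfl

/-- The conjugate transpose on the Levi factor. -/
def ct (q : ℕ) (A : Matrix (Fin m) (Fin m) F) : Matrix (Fin m) (Fin m) F :=
  of fun r c => A c r ^ q

theorem ct_apply (q : ℕ) (A : Matrix (Fin m) (Fin m) F) (r c : Fin m) : ct q A r c = A c r ^ q := rfl

/-- The `W' ← W'` block. -/
def blkD (M : Matrix (Ix m ε) (Ix m ε) F) : Matrix (Fin m) (Fin m) F :=
  of fun i j => M (.inr (.inr i)) (.inr (.inr j))

/-- The `W' ← W` block. -/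
def blkC (M : Matrix (Ix m ε) (Ix m ε) F) : Matrix (Fin m) (Fin m) F :=
  of fun i j => M (.inr (.inr i)) (.inl j)

/-- The `W' ← V₀` block. -/
def blkZ (M : Matrix (Ix m ε) (Ix m ε) F) : Matrix (Fin m) (Fin ε) F :=
  of fun i j => M (.inr (.inr i)) (.inr (.inl j))


section Cell

/-- The upper unitriangular matrix with `V₀ ← W'` block `Z` and `W ← W'` block `S`. -/
def mkU (q : ℕ) (Z : Matrix (Fin ε) (Fin m) F) (S : Matrix (Fin m) (Fin m) F) : Matrix (Ix m ε) (Ix m ε) F :=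
  of fun r c => match r, c with
    | .inl i, .inl j => if i = j then 1 else 0
    | .inl i, .inr (.inl j) => - (Z j i) ^ q
    | .inl i, .inr (.inr j) => S i j
    | .inr (.inl _), .inl _ => 0
    | .inr (.inl i), .inr (.inl j) => if i = j then 1 else 0
    | .inr (.inl i), .inr (.inr j) => Z i j
    | .inr (.inr _), .inl _ => 0
    | .inr (.inr _), .inr (.inl _) => 0
    | .inr (.inr i), .inr (.inr j) => if i = j then 1 else 0

/-- The lower unitriangular matrix: the `rv`-reflection of `mkU`. -/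
def mkL (q : ℕ) (Z : Matrix (Fin ε) (Fin m) F) (S : Matrix (Fin m) (Fin m) F) : Matrix (Ix m ε) (Ix m ε) F :=
  of fun r c => mkU q Z S (rv r) (rv c)

/-- The condition for `mkU q Z S` to be unitary: `S + S^* + Z^* Z = 0`. -/
def IsAdm (q : ℕ) (Z : Matrix (Fin ε) (Fin m) F) (S : Matrix (Fin m) (Fin m) F) : Prop :=
  ∀ i j, S i j + S j i ^ q + ∑ k, Z k i ^ q * Z k j = 0

/-- The Levi matrix of `B` (with inverse `B'`): blocks `(ct B')`, `1`, `B`. -/
def leviM (q : ℕ) (B B' : Matrix (Fin m) (Fin m) F) : Matrix (Ix m ε) (Ix m ε) F :=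
  of fun r c => match r, c with
    | .inl i, .inl j => B' j i ^ q
    | .inr (.inl i), .inr (.inl j) => if i = j then 1 else 0
    | .inr (.inr i), .inr (.inr j) => B i j
    | _, _ => 0

end Cell

section Groups

variable [Fintype F] {q : ℕ}

theorem adj_mul (hF : Fintype.card F = q ^ 2) (M N : Matrix (Ix m ε) (Ix m ε) F) :
    adj q (M * N) = adj q N * adj q M := by
  ext r c
  simp only [adj_apply, Matrix.mul_apply]
  rw [Cfsg.Agent.Lib.Classical.Herm.Basic.pow_q_sum hF]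
  simp only [mul_pow]
  have hinv : Function.Involutive (rv (m := m) (ε := ε)) := fun i => rv_rv i
  rw [← Equiv.sum_comp hinv.toPerm]
  refine Finset.sum_congr rfl fun k _ => ?_
  simp [mul_comm]

theorem adj_adj (hF : Fintype.card F = q ^ 2) (M : Matrix (Ix m ε) (Ix m ε) F) :
    adj q (adj q M) = M := by
  ext r c
  simp only [adj_apply, rv_rv]
  exact Cfsg.Agent.Lib.Classical.Herm.Basic.pow_q_pow_q hF _

theorem adj_one (hF : Fintype.card F = q ^ 2) : adj q (1 : Matrix (Ix m ε) (Ix m ε) F) = 1 := by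
  have hq : q ≠ 0 := by
    have := Cfsg.Agent.Lib.Classical.Herm.Basic.two_le_q hF
    omega
  ext r c
  simp only [adj_apply, Matrix.one_apply]
  have hinj : Function.Involutive (rv (m := m) (ε := ε)) := fun i => rv_rv i
  by_cases h : r = c
  · subst h
    simp
  · have h' : rv c ≠ rv r := fun e => h (hinj.injective e).symm
    simp [h, h', hq]

/-- The group `SU_{2m+ε}(q)` in the model, inside `GL`. -/
def SUM (hF : Fintype.card F = q ^ 2) (m ε : ℕ) : Subgroup (GL (Ix m ε) F) where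
  carrier := {g | adj q (g : Matrix (Ix m ε) (Ix m ε) F) * (g : Matrix (Ix m ε) (Ix m ε) F) = 1 ∧
    (g : Matrix (Ix m ε) (Ix m ε) F).det = 1}
  one_mem' := by
    simp [adj_one hF]
  mul_mem' := by
    rintro a b ⟨ha, ha'⟩ ⟨hb, hb'⟩
    refine ⟨?_, ?_⟩
    · simp only [Units.val_mul]
      rw [adj_mul hF, Matrix.mul_assoc, ← Matrix.mul_assoc (adj q _) (a : Matrix (Ix m ε) (Ix m ε) F),
        ha, Matrix.one_mul, hb]
    · simp [Matrix.det_mul, ha', hb']
  inv_mem' := by
    rintro a ⟨ha, ha'⟩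
    have h1 : ((a⁻¹ : GL (Ix m ε) F) : Matrix (Ix m ε) (Ix m ε) F) = adj q (a : Matrix (Ix m ε) (Ix m ε) F) := by
      have h2 : adj q (a : Matrix (Ix m ε) (Ix m ε) F) * (a : Matrix (Ix m ε) (Ix m ε) F) = 1 := ha
      have h3 : (a : Matrix (Ix m ε) (Ix m ε) F) * ((a⁻¹ : GL (Ix m ε) F) : Matrix (Ix m ε) (Ix m ε) F) = 1 := by
        rw [← Units.val_mul, mul_inv_cancel, Units.val_one]
      calc ((a⁻¹ : GL (Ix m ε) F) : Matrix (Ix m ε) (Ix m ε) F)
          = (adj q (a : Matrix (Ix m ε) (Ix m ε) F) * (a : Matrix (Ix m ε) (Ix m ε) F)) *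
              ((a⁻¹ : GL (Ix m ε) F) : Matrix (Ix m ε) (Ix m ε) F) := by rw [h2, Matrix.one_mul]
        _ = _ := by rw [Matrix.mul_assoc, h3, Matrix.mul_one]
    refine ⟨?_, ?_⟩
    · rw [h1, adj_adj hF]
      rw [← h1, ← Units.val_mul, mul_inv_cancel, Units.val_one]
    · have h4 : (a : Matrix (Ix m ε) (Ix m ε) F).det * ((a⁻¹ : GL (Ix m ε) F) : Matrix (Ix m ε) (Ix m ε) F).det = 1 := by
        rw [← Matrix.det_mul, ← Units.val_mul, mul_inv_cancel, Units.val_one, Matrix.det_one]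
      rw [ha', one_mul] at h4
      exact h4

theorem mem_SUM (hF : Fintype.card F = q ^ 2) (g : GL (Ix m ε) F) :
    g ∈ SUM hF m ε ↔ adj q (g : Matrix (Ix m ε) (Ix m ε) F) * (g : Matrix (Ix m ε) (Ix m ε) F) = 1 ∧
      (g : Matrix (Ix m ε) (Ix m ε) F).det = 1 := Iff.rfl

/-- The fixed-point-free conditions on a Levi element. -/
structure GoodM (q : ℕ) (B : Matrix (Fin m) (Fin m) F) : Prop where
  u_herm : ∀ A : Matrix (Fin m) (Fin m) F, ct q B * A * B = A → A = 0
  l_herm : ∀ A : Matrix (Fin m) (Fin m) F, B * A * ct q B = A → A = 0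
  vec_r : ∀ x : Fin m → F, B *ᵥ x = x → x = 0
  vec_l : ∀ x : Fin m → F, x ᵥ* B = x → x = 0

/-- The factorization of a matrix used by the cell method. -/
def Fac (q : ℕ) (T : GL (Fin m) F) : Prop :=
  ∃ B D G : GL (Fin m) F, T = B * D⁻¹ ∧ G * D * G⁻¹ = B ∧ (G : Matrix (Fin m) (Fin m) F).det = 1 ∧
    (B : Matrix (Fin m) (Fin m) F).det = 1 ∧ GoodM q (B : Matrix (Fin m) (Fin m) F) ∧
    GoodM q (D : Matrix (Fin m) (Fin m) F)

/-- The polynomial whose value at `(ct q B)⁻¹` vanishes when `f` vanishes at `B`. -/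
noncomputable def dag (hF : Fintype.card F = q ^ 2) (f : F[X]) : F[X] :=
  (f.reverse).map (Cfsg.Agent.Lib.Classical.Herm.Basic.sigma hF)

end Groups

end Cfsg.Agent.Lib.OreU
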