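import Mathlib
import Cfsg.Agent.Lib.OreU.Defs

/-!
# Fixed-point-free conditions from a coprime annihilating polynomial (piece G of `SU_n` Ore)
-/

set_option autoImplicit false
set_option linter.unusedSectionVars false

namespace Cfsg.Agent.Lib.OreU

open Matrix Polynomial

variable {F : Type*} [Field F] [Fintype F] {q m : ℕ}

namespace Good

theorem aeval_reflect_mul_pow {R : Type*} [Ring R] [Algebra F R] (A A' : R) (h' : A' * A = 1)
    (N : ℕ) (f : F[X]) (hf : f.natDegree ≤ N) :
    aeval A' (reflect N f) * A ^ N = aeval A f := by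
  refine induction_with_natDegree_le
    (fun f => aeval A' (reflect N f) * A ^ N = aeval A f) N ?_ ?_ ?_ f hf
  · simp
  · intro n r _ hnN
    simp only [revAt_le hnN, reflect_C_mul_X_pow, map_mul, aeval_C, map_pow, aeval_X]
    have hsplit : A ^ N = A ^ (N - n) * A ^ n := by
      rw [← pow_add, Nat.sub_add_cancel hnN]
    have hpow : ∀ k : ℕ, A' ^ k * A ^ k = 1 := by
      intro k
      induction k with
      | zero => simp
      | succ k ih =>
        rw [pow_succ A', pow_succ' A, mul_assoc, ← mul_assoc A', h', one_mul, ih]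
    rw [hsplit, ← mul_assoc, mul_assoc (algebraMap F R r), hpow, mul_one]
  · intro f g _ _ hf' hg'
    simp only [reflect_add, map_add, add_mul, hf', hg']

theorem aeval_reverse_eq_zero {R : Type*} [Ring R] [Algebra F R] (A A' : R) (h : A * A' = 1)
    (h' : A' * A = 1) (f : F[X]) (hf : aeval A f = 0) : aeval A' f.reverse = 0 := by
  have h1 := aeval_reflect_mul_pow A A' h' f.natDegree f le_rfl
  rw [hf] at h1
  have hpow : ∀ k : ℕ, A ^ k * A' ^ k = 1 := by
    intro k
    induction k with
    | zero => simp
    | succ k ih =>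
      rw [pow_succ A, pow_succ' A', mul_assoc, ← mul_assoc A, h, one_mul, ih]
  calc aeval A' f.reverse = aeval A' f.reverse * (A ^ f.natDegree * A' ^ f.natDegree) := by
        rw [hpow, mul_one]
    _ = (aeval A' (reflect f.natDegree f) * A ^ f.natDegree) * A' ^ f.natDegree := by
        rw [mul_assoc]; rfl
    _ = 0 := by rw [h1, zero_mul]

theorem ct_add (hF : Fintype.card F = q ^ 2) (X Y : Matrix (Fin m) (Fin m) F) :
    ct q (X + Y) = ct q X + ct q Y := by
  ext r c
  simp only [ct_apply, Matrix.add_apply, Cfsg.Agent.Lib.Classical.Herm.Basic.pow_q_add hF]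

theorem ct_smul (a : F) (X : Matrix (Fin m) (Fin m) F) :
    ct q (a • X) = a ^ q • ct q X := by
  ext r c
  simp only [ct_apply, Matrix.smul_apply, smul_eq_mul, mul_pow]

theorem ct_mul (hF : Fintype.card F = q ^ 2) (X Y : Matrix (Fin m) (Fin m) F) :
    ct q (X * Y) = ct q Y * ct q X := by
  ext r c
  simp only [ct_apply, Matrix.mul_apply]
  rw [Cfsg.Agent.Lib.Classical.Herm.Basic.pow_q_sum hF]
  refine Finset.sum_congr rfl fun k _ => ?_
  simp only [mul_pow, mul_comm]

theorem ct_one (hF : Fintype.card F = q ^ 2) : ct q (1 : Matrix (Fin m) (Fin m) F) = 1 := by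
  have hq : q ≠ 0 := by
    have := Cfsg.Agent.Lib.Classical.Herm.Basic.two_le_q hF
    omega
  ext r c
  simp only [ct_apply, Matrix.one_apply]
  by_cases h : r = c
  · subst h; simp
  · have h' : c ≠ r := fun e => h e.symm
    simp [h, h', hq]

theorem ct_pow (hF : Fintype.card F = q ^ 2) (X : Matrix (Fin m) (Fin m) F) (k : ℕ) :
    ct q (X ^ k) = ct q X ^ k := by
  induction k with
  | zero => simp [ct_one hF]
  | succ k ih => rw [pow_succ, ct_mul hF, ih, pow_succ']

theorem aeval_ct_map (hF : Fintype.card F = q ^ 2) (X : Matrix (Fin m) (Fin m) F) (g : F[X]) :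
    aeval (ct q X) (g.map (Cfsg.Agent.Lib.Classical.Herm.Basic.sigma hF)) = ct q (aeval X g) := by
  induction g using Polynomial.induction_on' with
  | add p r hp hr => simp only [Polynomial.map_add, map_add, hp, hr, ct_add hF]
  | monomial n a =>
    simp only [map_monomial, aeval_monomial, Cfsg.Agent.Lib.Classical.Herm.Basic.sigma_apply,
      Algebra.algebraMap_eq_smul_one, smul_mul_assoc, one_mul, ct_smul,
      ct_pow hF]

/-- `A X = Y A` passes to polynomials. -/
theorem intertwine {R : Type*} [Ring R] [Algebra F R] (A X Y : R) (h : A * X = Y * A) (g : F[X]) :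
    A * aeval X g = aeval Y g * A := by
  induction g using Polynomial.induction_on' with
  | add p r hp hr => simp only [map_add, mul_add, add_mul, hp, hr]
  | monomial n a =>
    have hpow : A * X ^ n = Y ^ n * A := by
      induction n with
      | zero => simp
      | succ n ih => rw [pow_succ, ← mul_assoc, ih, mul_assoc, h, pow_succ, mul_assoc]
    simp only [aeval_monomial, ← mul_assoc, (Algebra.commutes a A).symm]
    rw [mul_assoc (algebraMap F R a), hpow, mul_assoc]

theorem mulVec_aeval (M : Matrix (Fin m) (Fin m) F) (x : Fin m → F) (hx : M *ᵥ x = x) (g : F[X]) :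
    aeval M g *ᵥ x = g.eval 1 • x := by
  induction g using Polynomial.induction_on' with
  | add p r hp hr => simp only [map_add, Matrix.add_mulVec, hp, hr, eval_add, add_smul]
  | monomial n a =>
    have hpow : (M ^ n) *ᵥ x = x := by
      induction n with
      | zero => simp
      | succ n ih => rw [pow_succ, ← Matrix.mulVec_mulVec, hx, ih]
    simp only [aeval_monomial, eval_monomial, one_pow, mul_one, Algebra.algebraMap_eq_smul_one,
      smul_mul_assoc, one_mul, Matrix.smul_mulVec, hpow]

theorem vecMul_aeval (M : Matrix (Fin m) (Fin m) F) (x : Fin m → F) (hx : x ᵥ* M = x) (g : F[X]) :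
    x ᵥ* aeval M g = g.eval 1 • x := by
  induction g using Polynomial.induction_on' with
  | add p r hp hr => simp only [map_add, Matrix.vecMul_add, hp, hr, eval_add, add_smul]
  | monomial n a =>
    have hpow : x ᵥ* (M ^ n) = x := by
      induction n with
      | zero => simp
      | succ n ih => rw [pow_succ', ← Matrix.vecMul_vecMul, hx, ih]
    simp only [aeval_monomial, eval_monomial, one_pow, mul_one, Algebra.algebraMap_eq_smul_one,
      smul_mul_assoc, one_mul, Matrix.vecMul_smul, hpow]

theorem eval_one_ne_zero (f : F[X]) (h2 : IsCoprime f (X - 1)) : f.eval 1 ≠ 0 := by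
  obtain ⟨u, v, huv⟩ := h2
  intro h0
  have := congrArg (Polynomial.eval 1) huv
  simp [h0] at this

end Good

open Good in
/-- Piece G. -/
theorem goodM_of_coprime (hF : Fintype.card F = q ^ 2) (B : GL (Fin m) F) (f : F[X])
    (h0 : f.coeff 0 ≠ 0) (hB : aeval (B : Matrix (Fin m) (Fin m) F) f = 0)
    (h1 : IsCoprime f (dag hF f)) (h2 : IsCoprime f (X - 1)) :
    GoodM q (B : Matrix (Fin m) (Fin m) F) := by
  set M : Matrix (Fin m) (Fin m) F := (B : Matrix (Fin m) (Fin m) F) with hM
  set M' : Matrix (Fin m) (Fin m) F := ((B⁻¹ : GL (Fin m) F) : Matrix (Fin m) (Fin m) F) with hM'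
  have hMM' : M * M' = 1 := by
    rw [hM, hM', ← Units.val_mul, mul_inv_cancel, Units.val_one]
  have hM'M : M' * M = 1 := by
    rw [hM, hM', ← Units.val_mul, inv_mul_cancel, Units.val_one]
  set C : Matrix (Fin m) (Fin m) F := ct q M' with hC
  have hC1 : C * ct q M = 1 := by rw [hC, ← ct_mul hF, hMM', ct_one hF]
  have hC2 : ct q M * C = 1 := by rw [hC, ← ct_mul hF, hM'M, ct_one hF]
  have hdag : aeval C (dag hF f) = 0 := by
    unfold dag
    rw [hC, aeval_ct_map hF, aeval_reverse_eq_zero M M' hMM' hM'M f hB]
    ext r c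
    simp only [ct_apply, Matrix.zero_apply]
    exact Cfsg.Agent.Lib.Classical.Herm.Basic.zero_pow_q hF
  obtain ⟨u, v, huv⟩ := h1
  have hP : aeval C u * aeval C f = 1 := by
    have := congrArg (aeval C) huv
    simpa [map_add, map_mul, hdag] using this
  have hP' : aeval C f * aeval C u = 1 := by
    exact mul_eq_one_comm.mp hP
  refine ⟨?_, ?_, ?_, ?_⟩
  · intro A hA
    have hAM : A * M = C * A := by
      calc A * M = C * (ct q M * A * M) := by
            rw [← mul_assoc C, ← mul_assoc C, hC1, one_mul]
        _ = C * A := by rw [hA]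
    have h3 := intertwine A M C hAM f
    rw [hB, mul_zero] at h3
    calc A = aeval C u * aeval C f * A := by rw [hP, one_mul]
      _ = aeval C u * (aeval C f * A) := by rw [mul_assoc]
      _ = 0 := by rw [← h3, mul_zero]
  · intro A hA
    have hAM : A * C = M * A := by
      calc A * C = (M * A * ct q M) * C := by rw [hA]
        _ = M * A := by rw [mul_assoc, hC2, mul_one]
    have h3 := intertwine A C M hAM f
    rw [hB, zero_mul] at h3
    calc A = A * (aeval C f * aeval C u) := by rw [hP', mul_one]
      _ = (A * aeval C f) * aeval C u := by rw [mul_assoc]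
      _ = 0 := by rw [h3, zero_mul]
  · intro x hx
    have h3 := mulVec_aeval M x hx f
    rw [hB, Matrix.zero_mulVec] at h3
    exact (smul_eq_zero.mp h3.symm).resolve_left (eval_one_ne_zero f h2)
  · intro x hx
    have h3 := vecMul_aeval M x hx f
    rw [hB, Matrix.vecMul_zero] at h3
    exact (smul_eq_zero.mp h3.symm).resolve_left (eval_one_ne_zero f h2)

end Cfsg.Agent.Lib.OreU
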