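import Mathlib
import Cfsg.Agent.Lib.OreU.Good

/-!
# The unitary model: vectors, blocks, Levi elements, radicals
-/

set_option autoImplicit false
set_option linter.unusedSectionVars false
set_option linter.unusedSimpArgs false
set_option linter.unusedVariables false

namespace Cfsg.Agent.Lib.OreU

open Matrix Polynomial
open Cfsg.Agent.Lib.Classical.Herm.Basic

variable {F : Type*} [Field F] {m ε : ℕ}

/-- Vectors of the model. -/
abbrev VU (m ε : ℕ) (F : Type*) := Ix m ε → F

/-- The vector with coordinates `(x, z, y)`. -/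
def mkV (x : Fin m → F) (z : Fin ε → F) (y : Fin m → F) : VU m ε F := Sum.elim x (Sum.elim z y)

/-- Coordinates. -/
def xc (v : VU m ε F) : Fin m → F := fun i => v (Sum.inl i)
/-- Coordinates. -/
def zc (v : VU m ε F) : Fin ε → F := fun i => v (Sum.inr (Sum.inl i))
/-- Coordinates. -/
def yc (v : VU m ε F) : Fin m → F := fun i => v (Sum.inr (Sum.inr i))

@[simp] theorem xc_mkV (x : Fin m → F) (z : Fin ε → F) (y : Fin m → F) : xc (mkV x z y) = x := rfl
@[simp] theorem zc_mkV (x : Fin m → F) (z : Fin ε → F) (y : Fin m → F) : zc (mkV x z y) = z := rfl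
@[simp] theorem yc_mkV (x : Fin m → F) (z : Fin ε → F) (y : Fin m → F) : yc (mkV x z y) = y := rfl

theorem mkV_eta (v : VU m ε F) : mkV (xc v) (zc v) (yc v) = v := by
  ext k
  rcases k with i | i | i <;> rfl

theorem vext {a b : VU m ε F} (h1 : xc a = xc b) (h2 : zc a = zc b) (h3 : yc a = yc b) : a = b := by
  rw [← mkV_eta a, ← mkV_eta b, h1, h2, h3]

@[simp] theorem xc_add (a b : VU m ε F) : xc (a + b) = xc a + xc b := rfl
@[simp] theorem zc_add (a b : VU m ε F) : zc (a + b) = zc a + zc b := rfl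
@[simp] theorem yc_add (a b : VU m ε F) : yc (a + b) = yc a + yc b := rfl
@[simp] theorem xc_sub (a b : VU m ε F) : xc (a - b) = xc a - xc b := rfl
@[simp] theorem zc_sub (a b : VU m ε F) : zc (a - b) = zc a - zc b := rfl
@[simp] theorem yc_sub (a b : VU m ε F) : yc (a - b) = yc a - yc b := rfl
@[simp] theorem xc_smul (t : F) (a : VU m ε F) : xc (t • a) = t • xc a := rfl
@[simp] theorem zc_smul (t : F) (a : VU m ε F) : zc (t • a) = t • zc a := rfl
@[simp] theorem yc_smul (t : F) (a : VU m ε F) : yc (t • a) = t • yc a := rfl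
@[simp] theorem xc_zero : xc (0 : VU m ε F) = 0 := rfl
@[simp] theorem zc_zero : zc (0 : VU m ε F) = 0 := rfl
@[simp] theorem yc_zero : yc (0 : VU m ε F) = 0 := rfl

theorem mkV_zero : mkV (0 : Fin m → F) (0 : Fin ε → F) 0 = 0 := by
  apply vext <;> rfl

theorem mkV_add (x x' : Fin m → F) (z z' : Fin ε → F) (y y' : Fin m → F) :
    mkV x z y + mkV x' z' y' = mkV (x + x') (z + z') (y + y') := by
  apply vext <;> rfl

theorem mkV_smul (t : F) (x : Fin m → F) (z : Fin ε → F) (y : Fin m → F) :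
    t • mkV x z y = mkV (t • x) (t • z) (t • y) := by
  apply vext <;> rfl

/-- The nine blocks. -/
def bWW (M : Matrix (Ix m ε) (Ix m ε) F) : Matrix (Fin m) (Fin m) F := of fun i j => M (.inl i) (.inl j)
/-- The nine blocks. -/
def bWZ (M : Matrix (Ix m ε) (Ix m ε) F) : Matrix (Fin m) (Fin ε) F := of fun i j => M (.inl i) (.inr (.inl j))
/-- The nine blocks. -/
def bWY (M : Matrix (Ix m ε) (Ix m ε) F) : Matrix (Fin m) (Fin m) F := of fun i j => M (.inl i) (.inr (.inr j))
/-- The nine blocks. -/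
def bZW (M : Matrix (Ix m ε) (Ix m ε) F) : Matrix (Fin ε) (Fin m) F := of fun i j => M (.inr (.inl i)) (.inl j)
/-- The nine blocks. -/
def bZZ (M : Matrix (Ix m ε) (Ix m ε) F) : Matrix (Fin ε) (Fin ε) F := of fun i j => M (.inr (.inl i)) (.inr (.inl j))
/-- The nine blocks. -/
def bZY (M : Matrix (Ix m ε) (Ix m ε) F) : Matrix (Fin ε) (Fin m) F := of fun i j => M (.inr (.inl i)) (.inr (.inr j))

theorem xc_mulVec (M : Matrix (Ix m ε) (Ix m ε) F) (x : Fin m → F) (z : Fin ε → F) (y : Fin m → F) :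
    xc (M *ᵥ mkV x z y) = bWW M *ᵥ x + bWZ M *ᵥ z + bWY M *ᵥ y := by
  ext i
  simp only [xc, Matrix.mulVec, dotProduct, Fintype.sum_sum_type, Pi.add_apply, mkV, Sum.elim_inl, Sum.elim_inr, bWW, bWZ, bWY,
    of_apply, add_assoc]

theorem zc_mulVec (M : Matrix (Ix m ε) (Ix m ε) F) (x : Fin m → F) (z : Fin ε → F) (y : Fin m → F) :
    zc (M *ᵥ mkV x z y) = bZW M *ᵥ x + bZZ M *ᵥ z + bZY M *ᵥ y := by
  ext i
  simp only [zc, Matrix.mulVec, dotProduct, Fintype.sum_sum_type, Pi.add_apply, mkV, Sum.elim_inl, Sum.elim_inr, bZW, bZZ, bZY,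
    of_apply, add_assoc]

theorem yc_mulVec (M : Matrix (Ix m ε) (Ix m ε) F) (x : Fin m → F) (z : Fin ε → F) (y : Fin m → F) :
    yc (M *ᵥ mkV x z y) = blkC M *ᵥ x + blkZ M *ᵥ z + blkD M *ᵥ y := by
  ext i
  simp only [yc, Matrix.mulVec, dotProduct, Fintype.sum_sum_type, Pi.add_apply, mkV, Sum.elim_inl, Sum.elim_inr, blkC, blkZ, blkD,
    of_apply, add_assoc]

/-- The action. -/
abbrev ac (g : GL (Ix m ε) F) (v : VU m ε F) : VU m ε F := (g : Matrix (Ix m ε) (Ix m ε) F) *ᵥ v

theorem ac_mul (g h : GL (Ix m ε) F) (v : VU m ε F) : ac (g * h) v = ac g (ac h v) := by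
  simp [ac, Matrix.mulVec_mulVec]

theorem ac_one (v : VU m ε F) : ac (1 : GL (Ix m ε) F) v = v := by
  simp [ac]

theorem ac_inv_ac (g : GL (Ix m ε) F) (v : VU m ε F) : ac g⁻¹ (ac g v) = v := by
  rw [← ac_mul, inv_mul_cancel, ac_one]

theorem ac_ac_inv (g : GL (Ix m ε) F) (v : VU m ε F) : ac g (ac g⁻¹ v) = v := by
  rw [← ac_mul, mul_inv_cancel, ac_one]

theorem ac_add (g : GL (Ix m ε) F) (a b : VU m ε F) : ac g (a + b) = ac g a + ac g b := Matrix.mulVec_add _ _ _
theorem ac_sub (g : GL (Ix m ε) F) (a b : VU m ε F) : ac g (a - b) = ac g a - ac g b := Matrix.mulVec_sub _ _ _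
theorem ac_smul (g : GL (Ix m ε) F) (t : F) (a : VU m ε F) : ac g (t • a) = t • ac g a := Matrix.mulVec_smul _ _ _
theorem ac_zero (g : GL (Ix m ε) F) : ac g (0 : VU m ε F) = 0 := Matrix.mulVec_zero _

theorem gl_ext {g h : GL (Ix m ε) F} (H : ∀ v, ac g v = ac h v) : g = h := by
  apply Units.ext
  exact Matrix.ext_of_mulVec_single (fun j => H _)

theorem ac_inj (g : GL (Ix m ε) F) {a b : VU m ε F} (h : ac g a = ac g b) : a = b := by
  rw [← ac_inv_ac g a, h, ac_inv_ac]

/-- Coordinatewise Frobenius. -/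
def cj (q : ℕ) {ι : Type*} (v : ι → F) : ι → F := fun i => v i ^ q

@[simp] theorem cj_apply (q : ℕ) {ι : Type*} (v : ι → F) (i : ι) : cj q v i = v i ^ q := rfl

/-- The hermitian form of the model. -/
def hf (q : ℕ) (u v : VU m ε F) : F := ∑ i, (u (rv i)) ^ q * v i

theorem hf_mkV (q : ℕ) (x x' y y' : Fin m → F) (z z' : Fin ε → F) :
    hf q (mkV x z y) (mkV x' z' y') = cj q y ⬝ᵥ x' + cj q z ⬝ᵥ z' + cj q x ⬝ᵥ y' := by
  simp only [hf, Fintype.sum_sum_type, rv, mkV, Sum.elim_inl, Sum.elim_inr, dotProduct, cj, add_assoc]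

theorem hf_eq (q : ℕ) (u v : VU m ε F) :
    hf q u v = cj q (yc u) ⬝ᵥ xc v + cj q (zc u) ⬝ᵥ zc v + cj q (xc u) ⬝ᵥ yc v := by
  conv_lhs => rw [← mkV_eta u, ← mkV_eta v]
  rw [hf_mkV]

section Fintype

variable [Fintype F] {q : ℕ} (hF : Fintype.card F = q ^ 2)

include hF

theorem hf_add_right (u a b : VU m ε F) : hf q u (a + b) = hf q u a + hf q u b := by
  simp only [hf, Pi.add_apply, mul_add, Finset.sum_add_distrib]

theorem hf_smul_right (u a : VU m ε F) (t : F) : hf q u (t • a) = t * hf q u a := by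
  simp only [hf, Pi.smul_apply, smul_eq_mul, Finset.mul_sum]
  exact Finset.sum_congr rfl fun _ _ => by ring

/-- The adjoint identity. -/
theorem hf_mulVec (M : Matrix (Ix m ε) (Ix m ε) F) (u v : VU m ε F) :
    hf q (M *ᵥ u) v = hf q u (adj q M *ᵥ v) := by
  simp only [hf, Matrix.mulVec, dotProduct, adj_apply]
  have h1 : ∀ i, (∑ k, M (rv i) k * u k) ^ q = ∑ k, (M (rv i) k) ^ q * (u k) ^ q := by
    intro i
    rw [pow_q_sum hF]
    exact Finset.sum_congr rfl fun _ _ => mul_pow _ _ _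
  simp only [h1, Finset.mul_sum, Finset.sum_mul]
  rw [Finset.sum_comm]
  have hinv : Function.Involutive (rv (m := m) (ε := ε)) := fun i => rv_rv i
  rw [← Equiv.sum_comp hinv.toPerm]
  refine Finset.sum_congr rfl fun k _ => ?_
  refine Finset.sum_congr rfl fun i _ => ?_
  simp only [Function.Involutive.coe_toPerm, rv_rv]
  ring

/-- Elements of the group preserve the form. -/
theorem hf_ac {g : GL (Ix m ε) F} (hg : g ∈ SUM hF m ε) (u v : VU m ε F) : hf q (ac g u) (ac g v) = hf q u v := by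
  have h1 := hf_mulVec hF (g : Matrix (Ix m ε) (Ix m ε) F) u (ac g v)
  rw [mulVec_mulVec, hg.1, one_mulVec] at h1
  exact h1

/-- The other side of the unitarity condition. -/
theorem mul_adj {g : GL (Ix m ε) F} (hg : g ∈ SUM hF m ε) :
    (g : Matrix (Ix m ε) (Ix m ε) F) * adj q (g : Matrix (Ix m ε) (Ix m ε) F) = 1 :=
  mul_eq_one_comm.1 hg.1

theorem cj_inj {ι : Type*} {a b : ι → F} (h : cj q a = cj q b) : a = b := by
  funext i
  have := congrFun h i
  simp only [cj_apply] at this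
  rw [← pow_q_pow_q hF (a i), this, pow_q_pow_q hF]

theorem cj_zero {ι : Type*} : cj q (0 : ι → F) = 0 := by
  funext i
  simp only [cj_apply, Pi.zero_apply]
  exact zero_pow_q hF

/-- Separation by the isotropic subspaces. -/
theorem eq_of_dot_single {a b : Fin m → F} (h : ∀ i, cj q a ⬝ᵥ (Pi.single i 1 : Fin m → F) = cj q b ⬝ᵥ Pi.single i 1) : a = b := by
  apply cj_inj hF
  funext i
  simpa [dotProduct_single] using h i

end Fintype

section Levi

variable [Fintype F] {q : ℕ} (hF : Fintype.card F = q ^ 2)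

theorem ct_one (hF : Fintype.card F = q ^ 2) : ct q (1 : Matrix (Fin m) (Fin m) F) = 1 := by
  have hq : q ≠ 0 := by
    have := two_le_q hF
    omega
  ext r c
  simp only [ct_apply, Matrix.one_apply]
  by_cases h : r = c
  · subst h
    simp
  · have h' : c ≠ r := Ne.symm h
    simp [h, h', hq]

theorem ct_mul' (hF : Fintype.card F = q ^ 2) (M N : Matrix (Fin m) (Fin m) F) : ct q (M * N) = ct q N * ct q M := by
  ext r c
  simp only [ct_apply, Matrix.mul_apply]
  rw [pow_q_sum hF]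
  refine Finset.sum_congr rfl fun k _ => ?_
  rw [mul_pow, mul_comm]

theorem ct_ct (hF : Fintype.card F = q ^ 2) (M : Matrix (Fin m) (Fin m) F) : ct q (ct q M) = M := by
  ext r c
  simp only [ct_apply]
  exact pow_q_pow_q hF _

theorem det_ct (hF : Fintype.card F = q ^ 2) (M : Matrix (Fin m) (Fin m) F) : (ct q M).det = M.det ^ q := by
  have h1 : ct q M = (M.map (sigma hF))ᵀ := by
    ext r c
    rfl
  rw [h1, det_transpose]
  have := RingHom.map_det (sigma hF) M
  simp only [sigma_apply] at this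
  rw [this]
  rfl

end Levi

end Cfsg.Agent.Lib.OreU
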