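import Mathlib
import Cfsg.Agent.Lib.OreU.Model

/-!
# Row data for the position lemma: `(c, e, d)` is the `W'`-row of an element of `SUM`
-/

set_option autoImplicit false
set_option linter.unusedSectionVars false

namespace Cfsg.Agent.Lib.OreU

open Matrix

variable {F : Type*} [Field F] {m ε : ℕ}

/-- `A^*` for a rectangular block. -/
def cst (q : ℕ) {a b : ℕ} (A : Matrix (Fin a) (Fin b) F) : Matrix (Fin b) (Fin a) F :=
  of fun r c => A c r ^ q

theorem cst_apply (q : ℕ) {a b : ℕ} (A : Matrix (Fin a) (Fin b) F) (r : Fin b) (c : Fin a) :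
    cst q A r c = A c r ^ q := rfl

/-- The unitarity relation of the row `(c, e, d)`: `c d^* + e e^* + d c^* = 0`. -/
def RowRel (q : ℕ) (c : Matrix (Fin m) (Fin m) F) (e : Matrix (Fin m) (Fin ε) F)
    (d : Matrix (Fin m) (Fin m) F) : Prop :=
  c * ct q d + e * cst q e + d * ct q c = 0

/-- The row `(c, e, d)` has full rank `m`. -/
def RowFull (c : Matrix (Fin m) (Fin m) F) (e : Matrix (Fin m) (Fin ε) F)
    (d : Matrix (Fin m) (Fin m) F) : Prop :=
  ∀ ξ : Fin m → F, ξ ᵥ* c = 0 → ξ ᵥ* e = 0 → ξ ᵥ* d = 0 → ξ = 0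

/-- The new `d` block after conjugating by `mkU q Z S`: `d + c S^* - e Z`. -/
def updD (q : ℕ) (c : Matrix (Fin m) (Fin m) F) (e : Matrix (Fin m) (Fin ε) F)
    (d : Matrix (Fin m) (Fin m) F) (Z : Matrix (Fin ε) (Fin m) F) (S : Matrix (Fin m) (Fin m) F) :
    Matrix (Fin m) (Fin m) F :=
  d + c * ct q S - e * Z

/-- The new `e` block after conjugating by `mkU q Z S`: `e + c Z^*`. -/
def updE (q : ℕ) (c : Matrix (Fin m) (Fin m) F) (e : Matrix (Fin m) (Fin ε) F)
    (Z : Matrix (Fin ε) (Fin m) F) : Matrix (Fin m) (Fin ε) F :=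
  e + c * cst q Z

end Cfsg.Agent.Lib.OreU
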