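import Mathlib
import Cfsg.Agent.Lib.OreU.PosDefs

/-!
# The unipotent elements `mkU`, `mkL` of `SUM`
-/

set_option autoImplicit false
set_option linter.unusedSectionVars false
set_option linter.unusedSimpArgs false
set_option linter.unusedVariables false

namespace Cfsg.Agent.Lib.OreU

open Matrix
open Cfsg.Agent.Lib.Classical.Herm.Basic

variable {F : Type*} [Field F] {m ε : ℕ}

section Entries
variable (q : ℕ) (Z : Matrix (Fin ε) (Fin m) F) (S : Matrix (Fin m) (Fin m) F)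

@[simp] theorem mkU_ww (i j : Fin m) : mkU q Z S (.inl i) (.inl j) = if i = j then 1 else 0 := rfl
@[simp] theorem mkU_wv (i : Fin m) (j : Fin ε) : mkU q Z S (.inl i) (.inr (.inl j)) = - (Z j i) ^ q := rfl
@[simp] theorem mkU_wy (i j : Fin m) : mkU q Z S (.inl i) (.inr (.inr j)) = S i j := rfl
@[simp] theorem mkU_vw (i : Fin ε) (j : Fin m) : mkU q Z S (.inr (.inl i)) (.inl j) = 0 := rfl
@[simp] theorem mkU_vv (i j : Fin ε) : mkU q Z S (.inr (.inl i)) (.inr (.inl j)) = if i = j then 1 else 0 := rfl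
@[simp] theorem mkU_vy (i : Fin ε) (j : Fin m) : mkU q Z S (.inr (.inl i)) (.inr (.inr j)) = Z i j := rfl
@[simp] theorem mkU_yw (i j : Fin m) : mkU q Z S (.inr (.inr i)) (.inl j) = 0 := rfl
@[simp] theorem mkU_yv (i : Fin m) (j : Fin ε) : mkU q Z S (.inr (.inr i)) (.inr (.inl j)) = 0 := rfl
@[simp] theorem mkU_yy (i j : Fin m) : mkU q Z S (.inr (.inr i)) (.inr (.inr j)) = if i = j then 1 else 0 := rfl

theorem mkL_apply (r c : Ix m ε) : mkL q Z S r c = mkU q Z S (rv r) (rv c) := rfl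

end Entries

/-- `rv` as an equivalence. -/
def rvE : Ix m ε ≃ Ix m ε where
  toFun := rv
  invFun := rv
  left_inv := rv_rv
  right_inv := rv_rv

theorem mkL_eq_submatrix (q : ℕ) (Z : Matrix (Fin ε) (Fin m) F) (S : Matrix (Fin m) (Fin m) F) :
    mkL q Z S = (mkU q Z S).submatrix rvE rvE := rfl

variable [Fintype F] {q : ℕ}

theorem mkU_zero_zero (hq : q ≠ 0) : mkU q (0 : Matrix (Fin ε) (Fin m) F) 0 = 1 := by
  ext r c
  rcases r with i | i | i <;> rcases c with j | j | j <;>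
    simp [Matrix.one_apply, hq]

theorem mkU_mul (hF : Fintype.card F = q ^ 2) (Z Z' : Matrix (Fin ε) (Fin m) F) (S S' : Matrix (Fin m) (Fin m) F) :
    mkU q Z S * mkU q Z' S' = mkU q (Z + Z') (S + S' - cst q Z * Z') := by
  ext r c
  rw [Matrix.mul_apply, Fintype.sum_sum_type, Fintype.sum_sum_type]
  rcases r with i | i | i <;> rcases c with j | j | j
  · simp [Finset.sum_ite_eq, Finset.sum_ite_eq']
  · simp only [mkU_ww, mkU_wv, mkU_wy, mkU_vw, mkU_vv, mkU_vy, mkU_yw, mkU_yv, mkU_yy, Matrix.add_apply,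
      pow_q_add hF, mul_zero, Finset.sum_const_zero, add_zero, ite_mul, one_mul, zero_mul, mul_ite, mul_one,
      Finset.sum_ite_eq, Finset.sum_ite_eq', Finset.mem_univ, if_true]
    ring
  · simp only [mkU_ww, mkU_wv, mkU_wy, mkU_vw, mkU_vv, mkU_vy, mkU_yw, mkU_yv, mkU_yy, Matrix.add_apply,
      Matrix.sub_apply, Matrix.mul_apply, cst_apply, mul_zero, Finset.sum_const_zero, add_zero, ite_mul, one_mul,
      zero_mul, mul_ite, mul_one, Finset.sum_ite_eq, Finset.sum_ite_eq', Finset.mem_univ, if_true, neg_mul,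
      Finset.sum_neg_distrib]
    ring
  · simp [Finset.sum_ite_eq, Finset.sum_ite_eq']
  · simp [Finset.sum_ite_eq, Finset.sum_ite_eq']
  · simp [Finset.sum_ite_eq, Finset.sum_ite_eq']
    ring
  · simp [Finset.sum_ite_eq, Finset.sum_ite_eq']
  · simp [Finset.sum_ite_eq, Finset.sum_ite_eq']
  · simp [Finset.sum_ite_eq, Finset.sum_ite_eq']

theorem adj_mkU (hF : Fintype.card F = q ^ 2) (Z : Matrix (Fin ε) (Fin m) F) (S : Matrix (Fin m) (Fin m) F) :
    adj q (mkU q Z S) = mkU q (-Z) (ct q S) := by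
  have hq : q ≠ 0 := by
    have := two_le_q hF
    omega
  have hite : ∀ (a : ℕ) (x y : Fin a), ((if x = y then (1 : F) else 0)) ^ q = if y = x then 1 else 0 := by
    intro a x y
    by_cases h : x = y
    · subst h; simp
    · have h' : ¬ y = x := fun e => h e.symm
      simp [h, h', hq]
  ext r c
  rw [adj_apply]
  rcases r with i | i | i <;> rcases c with j | j | j <;>
    simp only [rv, mkU_ww, mkU_wv, mkU_wy, mkU_vw, mkU_vv, mkU_vy, mkU_yw, mkU_yv, mkU_yy, Matrix.neg_apply,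
      ct_apply, hite, zero_pow_q hF, pow_q_neg hF, pow_q_pow_q hF, neg_neg]

theorem isAdm_neg (hF : Fintype.card F = q ^ 2) {Z : Matrix (Fin ε) (Fin m) F} {S : Matrix (Fin m) (Fin m) F}
    (h : IsAdm q Z S) : IsAdm q (-Z) (ct q S) := by
  intro i j
  have := h j i
  simp only [Matrix.neg_apply, ct_apply, pow_q_neg hF, pow_q_pow_q hF, neg_mul, mul_neg, neg_neg]
  have h2 := h i j
  calc S j i ^ q + S i j + ∑ k, Z k i ^ q * Z k j = S i j + S j i ^ q + ∑ k, Z k i ^ q * Z k j := by ring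
    _ = 0 := h2

theorem mkU_mul_adj (hF : Fintype.card F = q ^ 2) {Z : Matrix (Fin ε) (Fin m) F} {S : Matrix (Fin m) (Fin m) F}
    (h : IsAdm q Z S) : mkU q Z S * mkU q (-Z) (ct q S) = 1 := by
  have hq : q ≠ 0 := by
    have := two_le_q hF
    omega
  rw [mkU_mul hF, add_neg_cancel, ← mkU_zero_zero (F := F) (m := m) (ε := ε) hq]
  congr 1
  ext i j
  have h2 := h i j
  simp only [Matrix.sub_apply, Matrix.add_apply, Matrix.mul_apply, cst_apply, ct_apply, Matrix.neg_apply, mul_neg,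
    Finset.sum_neg_distrib, Matrix.zero_apply]
  rw [sub_neg_eq_add]
  exact h2

theorem adj_mkU_mul (hF : Fintype.card F = q ^ 2) {Z : Matrix (Fin ε) (Fin m) F} {S : Matrix (Fin m) (Fin m) F}
    (h : IsAdm q Z S) : mkU q (-Z) (ct q S) * mkU q Z S = 1 :=
  mul_eq_one_comm.mp (mkU_mul_adj hF h)

theorem det_mkU (q : ℕ) (Z : Matrix (Fin ε) (Fin m) F) (S : Matrix (Fin m) (Fin m) F) : (mkU q Z S).det = 1 := by
  have h : mkU q Z S = fromBlocks 1 (of fun i j => Sum.elim (fun j => -(Z j i) ^ q) (fun j => S i j) j) 0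
      (fromBlocks 1 Z 0 1) := by
    ext r c
    rcases r with i | i | i <;> rcases c with j | j | j <;> simp [Matrix.one_apply]
  rw [h, Matrix.det_fromBlocks_zero₂₁, Matrix.det_fromBlocks_zero₂₁]
  simp

/-- `mkU` as an element of `GL`. -/
noncomputable def mkUG (hF : Fintype.card F = q ^ 2) {Z : Matrix (Fin ε) (Fin m) F} {S : Matrix (Fin m) (Fin m) F}
    (h : IsAdm q Z S) : GL (Ix m ε) F :=
  ⟨mkU q Z S, mkU q (-Z) (ct q S), mkU_mul_adj hF h, adj_mkU_mul hF h⟩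

@[simp] theorem mkUG_val (hF : Fintype.card F = q ^ 2) {Z : Matrix (Fin ε) (Fin m) F} {S : Matrix (Fin m) (Fin m) F}
    (h : IsAdm q Z S) : ((mkUG hF h : GL (Ix m ε) F) : Matrix (Ix m ε) (Ix m ε) F) = mkU q Z S := rfl

@[simp] theorem mkUG_inv_val (hF : Fintype.card F = q ^ 2) {Z : Matrix (Fin ε) (Fin m) F}
    {S : Matrix (Fin m) (Fin m) F} (h : IsAdm q Z S) :
    (((mkUG hF h)⁻¹ : GL (Ix m ε) F) : Matrix (Ix m ε) (Ix m ε) F) = mkU q (-Z) (ct q S) := rfl

theorem mkUG_mem (hF : Fintype.card F = q ^ 2) {Z : Matrix (Fin ε) (Fin m) F} {S : Matrix (Fin m) (Fin m) F}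
    (h : IsAdm q Z S) : mkUG hF h ∈ SUM hF m ε := by
  refine ⟨?_, ?_⟩
  · rw [mkUG_val, adj_mkU hF]
    exact adj_mkU_mul hF h
  · rw [mkUG_val, det_mkU]

theorem adj_mkL (hF : Fintype.card F = q ^ 2) (Z : Matrix (Fin ε) (Fin m) F) (S : Matrix (Fin m) (Fin m) F) :
    adj q (mkL q Z S) = mkL q (-Z) (ct q S) := by
  ext r c
  rw [adj_apply, mkL_apply, mkL_apply, ← adj_mkU hF, adj_apply]

theorem mkL_mul_adj (hF : Fintype.card F = q ^ 2) {Z : Matrix (Fin ε) (Fin m) F} {S : Matrix (Fin m) (Fin m) F}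
    (h : IsAdm q Z S) : mkL q Z S * mkL q (-Z) (ct q S) = 1 := by
  rw [mkL_eq_submatrix, mkL_eq_submatrix, Matrix.submatrix_mul_equiv, mkU_mul_adj hF h, Matrix.submatrix_one_equiv]

theorem adj_mkL_mul (hF : Fintype.card F = q ^ 2) {Z : Matrix (Fin ε) (Fin m) F} {S : Matrix (Fin m) (Fin m) F}
    (h : IsAdm q Z S) : mkL q (-Z) (ct q S) * mkL q Z S = 1 :=
  mul_eq_one_comm.mp (mkL_mul_adj hF h)

theorem det_mkL (q : ℕ) (Z : Matrix (Fin ε) (Fin m) F) (S : Matrix (Fin m) (Fin m) F) : (mkL q Z S).det = 1 := by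
  rw [mkL_eq_submatrix, Matrix.det_submatrix_equiv_self, det_mkU]

/-- `mkL` as an element of `GL`. -/
noncomputable def mkLG (hF : Fintype.card F = q ^ 2) {Z : Matrix (Fin ε) (Fin m) F} {S : Matrix (Fin m) (Fin m) F}
    (h : IsAdm q Z S) : GL (Ix m ε) F :=
  ⟨mkL q Z S, mkL q (-Z) (ct q S), mkL_mul_adj hF h, adj_mkL_mul hF h⟩

@[simp] theorem mkLG_val (hF : Fintype.card F = q ^ 2) {Z : Matrix (Fin ε) (Fin m) F} {S : Matrix (Fin m) (Fin m) F}
    (h : IsAdm q Z S) : ((mkLG hF h : GL (Ix m ε) F) : Matrix (Ix m ε) (Ix m ε) F) = mkL q Z S := rfl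

@[simp] theorem mkLG_inv_val (hF : Fintype.card F = q ^ 2) {Z : Matrix (Fin ε) (Fin m) F}
    {S : Matrix (Fin m) (Fin m) F} (h : IsAdm q Z S) :
    (((mkLG hF h)⁻¹ : GL (Ix m ε) F) : Matrix (Ix m ε) (Ix m ε) F) = mkL q (-Z) (ct q S) := rfl

theorem mkLG_mem (hF : Fintype.card F = q ^ 2) {Z : Matrix (Fin ε) (Fin m) F} {S : Matrix (Fin m) (Fin m) F}
    (h : IsAdm q Z S) : mkLG hF h ∈ SUM hF m ε := by
  refine ⟨?_, ?_⟩
  · rw [mkLG_val, adj_mkL hF]
    exact adj_mkL_mul hF h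
  · rw [mkLG_val, det_mkL]

end Cfsg.Agent.Lib.OreU
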