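import Mathlib
import Cfsg.Agent.Lib.OreU.Unip
import Cfsg.Agent.Lib.OreOmega.Comm

/-!
# The cell decomposition and commutators in `SUM`
-/

set_option autoImplicit false
set_option linter.unusedSectionVars false
set_option linter.unusedSimpArgs false
set_option linter.unusedVariables false

namespace Cfsg.Agent.Lib.OreU

open Matrix
open Cfsg.Agent.Lib.Classical.Herm.Basic

variable {F : Type*} [Field F] {m ε : ℕ}

section Entries
variable (q : ℕ) (B B' : Matrix (Fin m) (Fin m) F) (M : Matrix (Ix m ε) (Ix m ε) F)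

@[simp] theorem leviM_ww (i j : Fin m) : leviM (ε := ε) q B B' (.inl i) (.inl j) = B' j i ^ q := rfl
@[simp] theorem leviM_wv (i : Fin m) (j : Fin ε) : leviM (ε := ε) q B B' (.inl i) (.inr (.inl j)) = 0 := rfl
@[simp] theorem leviM_wy (i j : Fin m) : leviM (ε := ε) q B B' (.inl i) (.inr (.inr j)) = 0 := rfl
@[simp] theorem leviM_vw (i : Fin ε) (j : Fin m) : leviM (ε := ε) q B B' (.inr (.inl i)) (.inl j) = 0 := rfl
@[simp] theorem leviM_vv (i j : Fin ε) : leviM (ε := ε) q B B' (.inr (.inl i)) (.inr (.inl j)) = if i = j then 1 else 0 := rfl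
@[simp] theorem leviM_vy (i : Fin ε) (j : Fin m) : leviM (ε := ε) q B B' (.inr (.inl i)) (.inr (.inr j)) = 0 := rfl
@[simp] theorem leviM_yw (i j : Fin m) : leviM (ε := ε) q B B' (.inr (.inr i)) (.inl j) = 0 := rfl
@[simp] theorem leviM_yv (i : Fin m) (j : Fin ε) : leviM (ε := ε) q B B' (.inr (.inr i)) (.inr (.inl j)) = 0 := rfl
@[simp] theorem leviM_yy (i j : Fin m) : leviM (ε := ε) q B B' (.inr (.inr i)) (.inr (.inr j)) = B i j := rfl

theorem leviM_mul_w (i : Fin m) (c : Ix m ε) : (leviM q B B' * M : Matrix (Ix m ε) (Ix m ε) F) (.inl i) c = ∑ k, B' k i ^ q * M (.inl k) c := by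
  rw [Matrix.mul_apply, Fintype.sum_sum_type, Fintype.sum_sum_type]
  simp

theorem leviM_mul_v (i : Fin ε) (c : Ix m ε) : (leviM q B B' * M : Matrix (Ix m ε) (Ix m ε) F) (.inr (.inl i)) c = M (.inr (.inl i)) c := by
  rw [Matrix.mul_apply, Fintype.sum_sum_type, Fintype.sum_sum_type]
  simp [Finset.sum_ite_eq]

theorem leviM_mul_y (i : Fin m) (c : Ix m ε) : (leviM q B B' * M : Matrix (Ix m ε) (Ix m ε) F) (.inr (.inr i)) c = ∑ k, B i k * M (.inr (.inr k)) c := by
  rw [Matrix.mul_apply, Fintype.sum_sum_type, Fintype.sum_sum_type]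
  simp

theorem mul_leviM_w (r : Ix m ε) (j : Fin m) : (M * leviM q B B' : Matrix (Ix m ε) (Ix m ε) F) r (.inl j) = ∑ k, M r (.inl k) * B' j k ^ q := by
  rw [Matrix.mul_apply, Fintype.sum_sum_type, Fintype.sum_sum_type]
  simp

theorem mul_leviM_v (r : Ix m ε) (j : Fin ε) : (M * leviM q B B' : Matrix (Ix m ε) (Ix m ε) F) r (.inr (.inl j)) = M r (.inr (.inl j)) := by
  rw [Matrix.mul_apply, Fintype.sum_sum_type, Fintype.sum_sum_type]
  simp [Finset.sum_ite_eq']

theorem mul_leviM_y (r : Ix m ε) (j : Fin m) : (M * leviM q B B' : Matrix (Ix m ε) (Ix m ε) F) r (.inr (.inr j)) = ∑ k, M r (.inr (.inr k)) * B k j := by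
  rw [Matrix.mul_apply, Fintype.sum_sum_type, Fintype.sum_sum_type]
  simp

end Entries

variable [Fintype F] {q : ℕ}

theorem leviM_mul (hF : Fintype.card F = q ^ 2) (B B' C C' : Matrix (Fin m) (Fin m) F) :
    (leviM q B B' * leviM q C C' : Matrix (Ix m ε) (Ix m ε) F) = leviM q (B * C) (C' * B') := by
  ext r c
  rcases r with i | i | i
  · rw [leviM_mul_w]
    rcases c with j | j | j
    · simp only [leviM_ww, Matrix.mul_apply, pow_q_sum hF, mul_pow]
      exact Finset.sum_congr rfl fun k _ => by ring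
    · simp
    · simp
  · rw [leviM_mul_v]
    rcases c with j | j | j <;> simp
  · rw [leviM_mul_y]
    rcases c with j | j | j
    · simp
    · simp
    · simp [Matrix.mul_apply]

theorem leviM_one (hF : Fintype.card F = q ^ 2) : leviM (ε := ε) q (1 : Matrix (Fin m) (Fin m) F) 1 = 1 := by
  have hq : q ≠ 0 := by
    have := two_le_q hF
    omega
  ext r c
  rcases r with i | i | i <;> rcases c with j | j | j
  · by_cases h : i = j
    · subst h; simp [Matrix.one_apply]
    · have h' : ¬ j = i := fun e => h e.symm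
      simp [Matrix.one_apply, h, h', hq]
  all_goals simp [Matrix.one_apply]

theorem adj_leviM (hF : Fintype.card F = q ^ 2) (B B' : Matrix (Fin m) (Fin m) F) :
    adj q (leviM (ε := ε) q B B') = leviM q B' B := by
  have hq : q ≠ 0 := by
    have := two_le_q hF
    omega
  ext r c
  rw [adj_apply]
  rcases r with i | i | i <;> rcases c with j | j | j <;> simp [rv, hq, pow_q_pow_q hF]
  by_cases h : i = j
  · subst h; simp
  · have h' : ¬ j = i := fun e => h e.symm
    simp [h, h', hq]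

theorem det_leviM (hF : Fintype.card F = q ^ 2) (B B' : Matrix (Fin m) (Fin m) F) :
    (leviM (ε := ε) q B B').det = B'.det ^ q * B.det := by
  have h : leviM (ε := ε) q B B' = fromBlocks (ct q B') 0 0 (fromBlocks 1 0 0 B) := by
    ext r c
    rcases r with i | i | i <;> rcases c with j | j | j <;> simp [Matrix.one_apply, ct_apply]
  rw [h, Matrix.det_fromBlocks_zero₂₁, Matrix.det_fromBlocks_zero₂₁, det_ct hF]
  simp

/-- The Levi element of an invertible matrix. -/
noncomputable def levG (hF : Fintype.card F = q ^ 2) (ε : ℕ) (B : GL (Fin m) F) : GL (Ix m ε) F :=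
  ⟨leviM q (B : Matrix (Fin m) (Fin m) F) ((B⁻¹ : GL (Fin m) F) : Matrix (Fin m) (Fin m) F),
   leviM q ((B⁻¹ : GL (Fin m) F) : Matrix (Fin m) (Fin m) F) (B : Matrix (Fin m) (Fin m) F),
   by
    rw [leviM_mul hF, ← Units.val_mul, mul_inv_cancel, Units.val_one, leviM_one hF],
   by
    rw [leviM_mul hF, ← Units.val_mul, inv_mul_cancel, Units.val_one, leviM_one hF]⟩

@[simp] theorem levG_val (hF : Fintype.card F = q ^ 2) (B : GL (Fin m) F) :
    ((levG hF ε B : GL (Ix m ε) F) : Matrix (Ix m ε) (Ix m ε) F) =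
      leviM q (B : Matrix (Fin m) (Fin m) F) ((B⁻¹ : GL (Fin m) F) : Matrix (Fin m) (Fin m) F) := rfl

@[simp] theorem levG_inv_val (hF : Fintype.card F = q ^ 2) (B : GL (Fin m) F) :
    (((levG hF ε B)⁻¹ : GL (Ix m ε) F) : Matrix (Ix m ε) (Ix m ε) F) =
      leviM q ((B⁻¹ : GL (Fin m) F) : Matrix (Fin m) (Fin m) F) (B : Matrix (Fin m) (Fin m) F) := rfl

theorem levG_mul (hF : Fintype.card F = q ^ 2) (B C : GL (Fin m) F) :
    levG hF ε (B * C) = levG hF ε B * levG hF ε C := by
  apply Units.ext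
  show leviM q _ _ = leviM q _ _ * leviM q _ _
  rw [leviM_mul hF]
  simp only [_root_.mul_inv_rev, Units.val_mul]

theorem levG_inv (hF : Fintype.card F = q ^ 2) (B : GL (Fin m) F) :
    levG hF ε B⁻¹ = (levG hF ε B)⁻¹ := by
  apply Units.ext
  show leviM q _ _ = leviM q _ _
  simp only [inv_inv]

theorem det_inv_val (B : GL (Fin m) F) (h : (B : Matrix (Fin m) (Fin m) F).det = 1) :
    ((B⁻¹ : GL (Fin m) F) : Matrix (Fin m) (Fin m) F).det = 1 := by
  have h2 : (B : Matrix (Fin m) (Fin m) F).det * ((B⁻¹ : GL (Fin m) F) : Matrix (Fin m) (Fin m) F).det = 1 := by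
    rw [← Matrix.det_mul, ← Units.val_mul, mul_inv_cancel, Units.val_one, Matrix.det_one]
  rwa [h, one_mul] at h2

theorem levG_mem (hF : Fintype.card F = q ^ 2) (B : GL (Fin m) F) (h : (B : Matrix (Fin m) (Fin m) F).det = 1) :
    levG hF ε B ∈ SUM hF m ε := by
  refine ⟨?_, ?_⟩
  · rw [levG_val, adj_leviM hF, leviM_mul hF, ← Units.val_mul, inv_mul_cancel, Units.val_one, leviM_one hF]
  · rw [levG_val, det_leviM hF, h, det_inv_val B h]
    simp [Nat.pos_of_ne_zero (by have := two_le_q hF; omega : q ≠ 0)]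

/-- Conjugating `mkU` by a Levi matrix. -/
theorem leviM_conj_mkU (hF : Fintype.card F = q ^ 2) (B B' : Matrix (Fin m) (Fin m) F) (h : B * B' = 1)
    (Z : Matrix (Fin ε) (Fin m) F) (S : Matrix (Fin m) (Fin m) F) :
    (leviM q B B' * mkU q Z S * leviM q B' B : Matrix (Ix m ε) (Ix m ε) F) = mkU q (Z * B') (ct q B' * S * B') := by
  have hq : q ≠ 0 := by
    have := two_le_q hF
    omega
  have hite : ∀ (x y : Fin m), ((if x = y then (1 : F) else 0)) ^ q = if y = x then 1 else 0 := by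
    intro x y
    by_cases h : x = y
    · subst h; simp
    · have h' : ¬ y = x := fun e => h e.symm
      simp [h, h', hq]
  ext r c
  rcases c with j | j | j
  · rw [mul_leviM_w]
    rcases r with i | i | i
    · simp only [leviM_mul_w, mkU_ww, mkU_vw, mkU_yw]
      have e1 : ∀ k, (∑ x, B' x i ^ q * (if x = k then (1 : F) else 0)) = B' k i ^ q := by
        intro k
        simp
      simp only [e1]
      have h2 : (B * B') j i = if j = i then 1 else 0 := by
        rw [h, Matrix.one_apply]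
      rw [Matrix.mul_apply] at h2
      have h3 := congrArg (· ^ q) h2
      simp only [pow_q_sum hF, mul_pow, hite] at h3
      rw [show (∑ k, B' k i ^ q * B j k ^ q) = ∑ k, B j k ^ q * B' k i ^ q from
        Finset.sum_congr rfl fun k _ => mul_comm _ _, h3]
    · simp [leviM_mul_v]
    · simp [leviM_mul_y]
  · rw [mul_leviM_v]
    rcases r with i | i | i
    · rw [leviM_mul_w]
      simp only [mkU_wv, Matrix.mul_apply, pow_q_neg hF, pow_q_sum hF, mul_pow, mul_neg,
        Finset.sum_neg_distrib]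
      congr 1
      exact Finset.sum_congr rfl fun k _ => by ring
    · simp [leviM_mul_v]
    · simp [leviM_mul_y]
  · rw [mul_leviM_y]
    rcases r with i | i | i
    · simp only [leviM_mul_w, mkU_wy]
      simp only [Matrix.mul_apply, ct_apply, Finset.sum_mul]
    · simp [leviM_mul_v, Matrix.mul_apply]
    · simp only [leviM_mul_y, mkU_yy, mkU_yw]
      have e1 : ∀ k, (∑ x, B i x * (if x = k then (1 : F) else 0)) = B i k := by
        intro k
        simp
      simp only [e1]
      have h2 : (B * B') i j = if i = j then 1 else 0 := by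
        rw [h, Matrix.one_apply]
      rw [Matrix.mul_apply] at h2
      exact h2

/-- The reflection of a Levi matrix. -/
theorem leviM_reflect (hF : Fintype.card F = q ^ 2) (B B' : Matrix (Fin m) (Fin m) F) :
    leviM (ε := ε) q B B' = (leviM q (ct q B') (ct q B)).submatrix rvE rvE := by
  ext r c
  show _ = leviM q (ct q B') (ct q B) (rv r) (rv c)
  rcases r with i | i | i <;> rcases c with j | j | j <;> simp [rv, ct_apply, pow_q_pow_q hF]

/-- Conjugating `mkL` by a Levi matrix. -/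
theorem leviM_conj_mkL (hF : Fintype.card F = q ^ 2) (B B' : Matrix (Fin m) (Fin m) F) (h : B * B' = 1)
    (Z : Matrix (Fin ε) (Fin m) F) (S : Matrix (Fin m) (Fin m) F) :
    (leviM q B B' * mkL q Z S * leviM q B' B : Matrix (Ix m ε) (Ix m ε) F) = mkL q (Z * ct q B) (B * S * ct q B) := by
  have h1 : ct q B' * ct q B = 1 := by
    rw [← ct_mul' hF, h, ct_one hF]
  have h2 := leviM_conj_mkU hF (ct q B') (ct q B) h1 Z S
  rw [ct_ct hF] at h2
  rw [leviM_reflect hF B B', leviM_reflect hF B' B, mkL_eq_submatrix, mkL_eq_submatrix,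
    Matrix.submatrix_mul_equiv, Matrix.submatrix_mul_equiv, h2]

theorem mkU_inj {Z Z' : Matrix (Fin ε) (Fin m) F} {S S' : Matrix (Fin m) (Fin m) F}
    (h : mkU q Z S = mkU q Z' S') : Z = Z' ∧ S = S' := by
  constructor
  · ext i j
    have := congrFun (congrFun h (.inr (.inl i))) (.inr (.inr j))
    simpa using this
  · ext i j
    have := congrFun (congrFun h (.inl i)) (.inr (.inr j))
    simpa using this

theorem mkL_inj {Z Z' : Matrix (Fin ε) (Fin m) F} {S S' : Matrix (Fin m) (Fin m) F}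
    (h : mkL q Z S = mkL q Z' S') : Z = Z' ∧ S = S' := by
  apply mkU_inj (q := q)
  ext r c
  have := congrFun (congrFun h (rv r)) (rv c)
  simpa [mkL_apply] using this

/-- The upper unipotent radical. -/
def QuS (hF : Fintype.card F = q ^ 2) (m ε : ℕ) : Subgroup (GL (Ix m ε) F) where
  carrier := {g | g ∈ SUM hF m ε ∧ ∃ (Z : Matrix (Fin ε) (Fin m) F) (S : Matrix (Fin m) (Fin m) F),
    (g : Matrix (Ix m ε) (Ix m ε) F) = mkU q Z S}
  one_mem' := by
    refine ⟨one_mem _, 0, 0, ?_⟩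
    rw [mkU_zero_zero (by have := two_le_q hF; omega)]
    rfl
  mul_mem' := by
    rintro a b ⟨ha, Z, S, h1⟩ ⟨hb, Z', S', h2⟩
    refine ⟨mul_mem ha hb, Z + Z', S + S' - cst q Z * Z', ?_⟩
    rw [Units.val_mul, h1, h2, mkU_mul hF]
  inv_mem' := by
    rintro a ⟨ha, Z, S, h1⟩
    refine ⟨inv_mem ha, -Z, ct q S, ?_⟩
    have h2 : ((a⁻¹ : GL (Ix m ε) F) : Matrix (Ix m ε) (Ix m ε) F) = adj q (a : Matrix (Ix m ε) (Ix m ε) F) := by
      have h3 : adj q (a : Matrix (Ix m ε) (Ix m ε) F) * (a : Matrix (Ix m ε) (Ix m ε) F) = 1 := ha.1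
      calc ((a⁻¹ : GL (Ix m ε) F) : Matrix (Ix m ε) (Ix m ε) F)
          = (adj q (a : Matrix (Ix m ε) (Ix m ε) F) * (a : Matrix (Ix m ε) (Ix m ε) F)) *
              ((a⁻¹ : GL (Ix m ε) F) : Matrix (Ix m ε) (Ix m ε) F) := by rw [h3, Matrix.one_mul]
        _ = _ := by rw [Matrix.mul_assoc, ← Units.val_mul, mul_inv_cancel, Units.val_one, Matrix.mul_one]
    rw [h2, h1, adj_mkU hF]

theorem mkL_mul (hF : Fintype.card F = q ^ 2) (Z Z' : Matrix (Fin ε) (Fin m) F) (S S' : Matrix (Fin m) (Fin m) F) :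
    mkL q Z S * mkL q Z' S' = mkL q (Z + Z') (S + S' - cst q Z * Z') := by
  rw [mkL_eq_submatrix, mkL_eq_submatrix, Matrix.submatrix_mul_equiv, mkU_mul hF, mkL_eq_submatrix]

theorem mkL_zero_zero (hq : q ≠ 0) : mkL q (0 : Matrix (Fin ε) (Fin m) F) 0 = 1 := by
  rw [mkL_eq_submatrix, mkU_zero_zero hq, Matrix.submatrix_one_equiv]

/-- The lower unipotent radical. -/
def QlS (hF : Fintype.card F = q ^ 2) (m ε : ℕ) : Subgroup (GL (Ix m ε) F) where
  carrier := {g | g ∈ SUM hF m ε ∧ ∃ (Z : Matrix (Fin ε) (Fin m) F) (S : Matrix (Fin m) (Fin m) F),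
    (g : Matrix (Ix m ε) (Ix m ε) F) = mkL q Z S}
  one_mem' := by
    refine ⟨one_mem _, 0, 0, ?_⟩
    rw [mkL_zero_zero (by have := two_le_q hF; omega)]
    rfl
  mul_mem' := by
    rintro a b ⟨ha, Z, S, h1⟩ ⟨hb, Z', S', h2⟩
    refine ⟨mul_mem ha hb, Z + Z', S + S' - cst q Z * Z', ?_⟩
    rw [Units.val_mul, h1, h2, mkL_mul hF]
  inv_mem' := by
    rintro a ⟨ha, Z, S, h1⟩
    refine ⟨inv_mem ha, -Z, ct q S, ?_⟩
    have h2 : ((a⁻¹ : GL (Ix m ε) F) : Matrix (Ix m ε) (Ix m ε) F) = adj q (a : Matrix (Ix m ε) (Ix m ε) F) := by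
      have h3 : adj q (a : Matrix (Ix m ε) (Ix m ε) F) * (a : Matrix (Ix m ε) (Ix m ε) F) = 1 := ha.1
      calc ((a⁻¹ : GL (Ix m ε) F) : Matrix (Ix m ε) (Ix m ε) F)
          = (adj q (a : Matrix (Ix m ε) (Ix m ε) F) * (a : Matrix (Ix m ε) (Ix m ε) F)) *
              ((a⁻¹ : GL (Ix m ε) F) : Matrix (Ix m ε) (Ix m ε) F) := by rw [h3, Matrix.one_mul]
        _ = _ := by rw [Matrix.mul_assoc, ← Units.val_mul, mul_inv_cancel, Units.val_one, Matrix.mul_one]
    rw [h2, h1, adj_mkL hF]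

theorem conj_levG_QuS (hF : Fintype.card F = q ^ 2) (B : GL (Fin m) F) (h : (B : Matrix (Fin m) (Fin m) F).det = 1)
    (r : GL (Ix m ε) F) (hr : r ∈ QuS hF m ε) : levG hF ε B * r * (levG hF ε B)⁻¹ ∈ QuS hF m ε := by
  obtain ⟨hr1, Z, S, hr2⟩ := hr
  refine ⟨mul_mem (mul_mem (levG_mem hF B h) hr1) (inv_mem (levG_mem hF B h)), Z * ((B⁻¹ : GL (Fin m) F) : Matrix (Fin m) (Fin m) F), ct q ((B⁻¹ : GL (Fin m) F) : Matrix (Fin m) (Fin m) F) * S * ((B⁻¹ : GL (Fin m) F) : Matrix (Fin m) (Fin m) F), ?_⟩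
  rw [Units.val_mul, Units.val_mul, hr2, levG_val, levG_inv_val]
  refine leviM_conj_mkU hF _ _ ?_ Z S
  rw [← Units.val_mul, mul_inv_cancel, Units.val_one]

theorem conj_levG_QlS (hF : Fintype.card F = q ^ 2) (B : GL (Fin m) F) (h : (B : Matrix (Fin m) (Fin m) F).det = 1)
    (r : GL (Ix m ε) F) (hr : r ∈ QlS hF m ε) : levG hF ε B * r * (levG hF ε B)⁻¹ ∈ QlS hF m ε := by
  obtain ⟨hr1, Z, S, hr2⟩ := hr
  refine ⟨mul_mem (mul_mem (levG_mem hF B h) hr1) (inv_mem (levG_mem hF B h)), Z * ct q (B : Matrix (Fin m) (Fin m) F), (B : Matrix (Fin m) (Fin m) F) * S * ct q (B : Matrix (Fin m) (Fin m) F), ?_⟩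
  rw [Units.val_mul, Units.val_mul, hr2, levG_val, levG_inv_val]
  refine leviM_conj_mkL hF _ _ ?_ Z S
  rw [← Units.val_mul, mul_inv_cancel, Units.val_one]

theorem fpf_levG_QuS (hF : Fintype.card F = q ^ 2) (B : GL (Fin m) F) (hB : GoodM q (B : Matrix (Fin m) (Fin m) F))
    (r : GL (Ix m ε) F) (hr : r ∈ QuS hF m ε) (hfix : levG hF ε B * r * (levG hF ε B)⁻¹ = r) : r = 1 := by
  obtain ⟨hr1, Z, S, hr2⟩ := hr
  have h11 : (B : Matrix (Fin m) (Fin m) F) * ((B⁻¹ : GL (Fin m) F) : Matrix (Fin m) (Fin m) F) = 1 := by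
    rw [← Units.val_mul, mul_inv_cancel, Units.val_one]
  have h12 : ((B⁻¹ : GL (Fin m) F) : Matrix (Fin m) (Fin m) F) * (B : Matrix (Fin m) (Fin m) F) = 1 := by
    rw [← Units.val_mul, inv_mul_cancel, Units.val_one]
  have h3 := congrArg (fun x : GL (Ix m ε) F => (x : Matrix (Ix m ε) (Ix m ε) F)) hfix
  simp only [Units.val_mul] at h3
  rw [hr2, levG_val, levG_inv_val, leviM_conj_mkU hF _ _ h11 Z S] at h3
  obtain ⟨h4, h5⟩ := mkU_inj h3
  have hZ : Z = 0 := by
    have h6 : Z * (B : Matrix (Fin m) (Fin m) F) = Z := by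
      conv_lhs => rw [← h4]
      rw [Matrix.mul_assoc, h12, Matrix.mul_one]
    ext k l
    have h7 : (Z k) ᵥ* (B : Matrix (Fin m) (Fin m) F) = Z k := by
      ext j
      exact congrFun (congrFun h6 k) j
    have := hB.vec_l _ h7
    exact congrFun this l
  have hS : S = 0 := by
    apply hB.u_herm
    have h8 : ct q (B : Matrix (Fin m) (Fin m) F) * ct q ((B⁻¹ : GL (Fin m) F) : Matrix (Fin m) (Fin m) F) = 1 := by
      rw [← ct_mul' hF, h12, ct_one hF]
    conv_lhs => rw [← h5]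
    calc ct q (B : Matrix (Fin m) (Fin m) F) * (ct q ((B⁻¹ : GL (Fin m) F) : Matrix (Fin m) (Fin m) F) * S * ((B⁻¹ : GL (Fin m) F) : Matrix (Fin m) (Fin m) F)) * (B : Matrix (Fin m) (Fin m) F)
        = (ct q (B : Matrix (Fin m) (Fin m) F) * ct q ((B⁻¹ : GL (Fin m) F) : Matrix (Fin m) (Fin m) F)) * S * (((B⁻¹ : GL (Fin m) F) : Matrix (Fin m) (Fin m) F) * (B : Matrix (Fin m) (Fin m) F)) := by
          simp only [Matrix.mul_assoc]
      _ = S := by rw [h8, h12, Matrix.one_mul, Matrix.mul_one]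
  apply Units.ext
  rw [hr2, hZ, hS, mkU_zero_zero (by have := two_le_q hF; omega), Units.val_one]

theorem fpf_levG_QlS (hF : Fintype.card F = q ^ 2) (B : GL (Fin m) F) (hB : GoodM q (B : Matrix (Fin m) (Fin m) F))
    (r : GL (Ix m ε) F) (hr : r ∈ QlS hF m ε) (hfix : levG hF ε B * r * (levG hF ε B)⁻¹ = r) : r = 1 := by
  obtain ⟨hr1, Z, S, hr2⟩ := hr
  have h11 : (B : Matrix (Fin m) (Fin m) F) * ((B⁻¹ : GL (Fin m) F) : Matrix (Fin m) (Fin m) F) = 1 := by
    rw [← Units.val_mul, mul_inv_cancel, Units.val_one]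
  have h3 := congrArg (fun x : GL (Ix m ε) F => (x : Matrix (Ix m ε) (Ix m ε) F)) hfix
  simp only [Units.val_mul] at h3
  rw [hr2, levG_val, levG_inv_val, leviM_conj_mkL hF _ _ h11 Z S] at h3
  obtain ⟨h4, h5⟩ := mkL_inj h3
  have hZ : Z = 0 := by
    ext k l
    have h7 : (B : Matrix (Fin m) (Fin m) F) *ᵥ cj q (Z k) = cj q (Z k) := by
      ext j
      have h6 := congrFun (congrFun h4 k) j
      simp only [Matrix.mul_apply, ct_apply] at h6
      have h9 := congrArg (· ^ q) h6
      simp only [pow_q_sum hF, mul_pow, pow_q_pow_q hF] at h9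
      simp only [Matrix.mulVec, dotProduct, cj]
      rw [← h9]
      exact Finset.sum_congr rfl fun x _ => mul_comm _ _
    have h10 := hB.vec_r _ h7
    have h13 : cj q (Z k) l = 0 := congrFun h10 l
    have h14 := congrArg (· ^ q) h13
    simpa [cj, pow_q_pow_q hF, zero_pow_q hF] using h14
  have hS : S = 0 := hB.l_herm _ h5
  apply Units.ext
  rw [hr2, hZ, hS, mkL_zero_zero (by have := two_le_q hF; omega), Units.val_one]

/-- The row relation. -/
theorem rowRel_of_mem (hF : Fintype.card F = q ^ 2) {g : GL (Ix m ε) F} (hg : g ∈ SUM hF m ε) :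
    RowRel q (blkC (g : Matrix (Ix m ε) (Ix m ε) F)) (blkZ (g : Matrix (Ix m ε) (Ix m ε) F))
      (blkD (g : Matrix (Ix m ε) (Ix m ε) F)) := by
  have h1 := mul_adj hF hg
  ext i j
  have h2 := congrFun (congrFun h1 (.inr (.inr i))) (.inl j)
  rw [Matrix.mul_apply, Fintype.sum_sum_type, Fintype.sum_sum_type] at h2
  simp only [adj_apply, rv, Matrix.one_apply, reduceCtorEq, if_false] at h2
  simp only [RowRel, Matrix.add_apply, Matrix.mul_apply, ct_apply, cst_apply, blkC, blkD, blkZ, of_apply,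
    Matrix.zero_apply]
  rw [← h2]
  ring

/-- The row has full rank. -/
theorem rowFull_of_gl (g : GL (Ix m ε) F) :
    RowFull (blkC (g : Matrix (Ix m ε) (Ix m ε) F)) (blkZ (g : Matrix (Ix m ε) (Ix m ε) F))
      (blkD (g : Matrix (Ix m ε) (Ix m ε) F)) := by
  intro ξ h1 h2 h3
  have h4 : (mkV 0 0 ξ : VU m ε F) ᵥ* (g : Matrix (Ix m ε) (Ix m ε) F) = 0 := by
    ext c
    simp only [Matrix.vecMul, dotProduct, Fintype.sum_sum_type, Pi.zero_apply]
    have e1 : ∀ x : Fin m, (mkV 0 0 ξ : VU m ε F) (.inl x) = 0 := fun x => rfl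
    have e2 : ∀ x : Fin ε, (mkV 0 0 ξ : VU m ε F) (.inr (.inl x)) = 0 := fun x => rfl
    have e3 : ∀ x : Fin m, (mkV 0 0 ξ : VU m ε F) (.inr (.inr x)) = ξ x := fun x => rfl
    simp only [e1, e2, e3, zero_mul, Finset.sum_const_zero, zero_add]
    rcases c with j | j | j
    · exact congrFun h1 j
    · exact congrFun h2 j
    · exact congrFun h3 j
  have h5 : (mkV 0 0 ξ : VU m ε F) = 0 := by
    have h6 := congrArg (fun x => x ᵥ* ((g⁻¹ : GL (Ix m ε) F) : Matrix (Ix m ε) (Ix m ε) F)) h4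
    simp only [Matrix.vecMul_vecMul, ← Units.val_mul, mul_inv_cancel, Units.val_one, Matrix.vecMul_one,
      Matrix.zero_vecMul] at h6
    exact h6
  ext i
  exact congrFun h5 (.inr (.inr i))

/-- A unitary element with `W'`-row `(0,0,1)` is in the unipotent radical. -/
theorem mem_QuS_of_row (hF : Fintype.card F = q ^ 2) (hε : ε ≤ 1) {u : GL (Ix m ε) F} (hu : u ∈ SUM hF m ε)
    (hrow : ∀ (i : Fin m) (r : Ix m ε), (u : Matrix (Ix m ε) (Ix m ε) F) (.inr (.inr i)) r =
      (1 : Matrix (Ix m ε) (Ix m ε) F) (.inr (.inr i)) r) : u ∈ QuS hF m ε := by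
  have hq : q ≠ 0 := by
    have := two_le_q hF
    omega
  refine ⟨hu, bZY (u : Matrix (Ix m ε) (Ix m ε) F), bWY (u : Matrix (Ix m ε) (Ix m ε) F), ?_⟩
  have hrow1 : ∀ (i j : Fin m), (u : Matrix (Ix m ε) (Ix m ε) F) (.inr (.inr i)) (.inl j) = 0 := by
    intro i j
    rw [hrow]; simp [Matrix.one_apply]
  have hrow2 : ∀ (i : Fin m) (j : Fin ε), (u : Matrix (Ix m ε) (Ix m ε) F) (.inr (.inr i)) (.inr (.inl j)) = 0 := by
    intro i j
    rw [hrow]; simp [Matrix.one_apply]
  have hrow3 : ∀ (i j : Fin m), (u : Matrix (Ix m ε) (Ix m ε) F) (.inr (.inr i)) (.inr (.inr j)) = if i = j then 1 else 0 := by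
    intro i j
    rw [hrow]; simp [Matrix.one_apply]
  -- the columns of `W`
  have hadj := mul_adj hF hu
  have hcol : ∀ (j : Fin m) (r : Ix m ε), (u : Matrix (Ix m ε) (Ix m ε) F) r (.inl j) =
      (1 : Matrix (Ix m ε) (Ix m ε) F) r (.inl j) := by
    intro j r
    have h2 := congrFun (congrFun hadj r) (.inl j)
    rw [Matrix.mul_apply] at h2
    rw [← h2, Finset.sum_eq_single (Sum.inl j)]
    · have : adj q (u : Matrix (Ix m ε) (Ix m ε) F) (.inl j) (.inl j) = 1 := by
        rw [adj_apply]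
        show (u : Matrix (Ix m ε) (Ix m ε) F) (.inr (.inr j)) (.inr (.inr j)) ^ q = 1
        rw [hrow3]; simp
      rw [this, mul_one]
    · intro b _ hb
      have : adj q (u : Matrix (Ix m ε) (Ix m ε) F) b (.inl j) = 0 := by
        rw [adj_apply]
        show (u : Matrix (Ix m ε) (Ix m ε) F) (.inr (.inr j)) (rv b) ^ q = 0
        rw [hrow]
        have : (1 : Matrix (Ix m ε) (Ix m ε) F) (.inr (.inr j)) (rv b) = 0 := by
          rw [Matrix.one_apply, if_neg]
          intro e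
          apply hb
          have := congrArg rv e
          rw [rv_rv] at this
          exact this.symm
        rw [this, zero_pow_q hF]
      rw [this, mul_zero]
    · simp
  -- the middle block has determinant one
  have hmid : ∀ i j : Fin ε, (u : Matrix (Ix m ε) (Ix m ε) F) (.inr (.inl i)) (.inr (.inl j)) = if i = j then 1 else 0 := by
    have h3 : (u : Matrix (Ix m ε) (Ix m ε) F) = fromBlocks 1
        (of fun i j => Sum.elim (fun j => (u : Matrix (Ix m ε) (Ix m ε) F) (.inl i) (.inr (.inl j)))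
          (fun j => (u : Matrix (Ix m ε) (Ix m ε) F) (.inl i) (.inr (.inr j))) j) 0
        (fromBlocks (bZZ (u : Matrix (Ix m ε) (Ix m ε) F)) (bZY (u : Matrix (Ix m ε) (Ix m ε) F)) 0 1) := by
      ext r c
      rcases c with j | j | j
      · rw [hcol]
        rcases r with i | i | i <;> simp [Matrix.one_apply]
      · rcases r with i | i | i
        · simp
        · simp [bZZ]
        · simp [hrow2]
      · rcases r with i | i | i
        · simp
        · simp [bZY]
        · simp [hrow3, Matrix.one_apply]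
    have h4 : (bZZ (u : Matrix (Ix m ε) (Ix m ε) F)).det = 1 := by
      have h5 := hu.2
      rw [h3, Matrix.det_fromBlocks_zero₂₁, Matrix.det_fromBlocks_zero₂₁] at h5
      simpa using h5
    interval_cases ε
    · intro i
      exact i.elim0
    · intro i j
      have hi : i = 0 := Subsingleton.elim _ _
      have hj : j = 0 := Subsingleton.elim _ _
      subst hi; subst hj
      rw [Matrix.det_fin_one] at h4
      simpa [bZZ] using h4
  -- the row `W` against `V₀`
  have hadj2 : adj q (u : Matrix (Ix m ε) (Ix m ε) F) * (u : Matrix (Ix m ε) (Ix m ε) F) = 1 := hu.1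
  ext r c
  rcases c with j | j | j
  · rw [hcol]
    rcases r with i | i | i <;> simp [Matrix.one_apply]
  · rcases r with i | i | i
    · have h2 := congrFun (congrFun hadj2 (.inl i)) (.inr (.inl j))
      rw [Matrix.mul_apply, Fintype.sum_sum_type, Fintype.sum_sum_type] at h2
      simp only [adj_apply, rv, Matrix.one_apply, reduceCtorEq, if_false, hrow3, hmid] at h2
      have e1 : ∀ x : Fin m, (if x = i then (1 : F) else 0) ^ q * (u : Matrix (Ix m ε) (Ix m ε) F) (.inl x) (.inr (.inl j)) =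
          if x = i then (u : Matrix (Ix m ε) (Ix m ε) F) (.inl x) (.inr (.inl j)) else 0 := by
        intro x
        by_cases hx : x = i <;> simp [hx, hq]
      simp only [e1, Finset.sum_ite_eq', Finset.mem_univ, if_true, mul_ite, mul_one, mul_zero, Finset.sum_ite_eq',
        hrow2, Finset.sum_const_zero, add_zero] at h2
      rw [mkU_wv, bZY, of_apply]
      linear_combination h2
    · simp [hmid]
    · simp [hrow2]
  · rcases r with i | i | i
    · simp [bWY]
    · simp [bZY]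
    · simp [hrow3]

/-- The cell decomposition. -/
theorem exists_cell (hF : Fintype.card F = q ^ 2) (hε : ε ≤ 1) {g : GL (Ix m ε) F} (hg : g ∈ SUM hF m ε)
    (D : GL (Fin m) F) (hD : blkD (g : Matrix (Ix m ε) (Ix m ε) F) = (D : Matrix (Fin m) (Fin m) F))
    (hdet : (D : Matrix (Fin m) (Fin m) F).det = 1) :
    ∃ u ∈ QuS hF m ε, ∃ v ∈ QlS hF m ε, g = u * levG hF ε D * v := by
  have hq : q ≠ 0 := by
    have := two_le_q hF
    omega
  set D' : Matrix (Fin m) (Fin m) F := ((D⁻¹ : GL (Fin m) F) : Matrix (Fin m) (Fin m) F) with hD'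
  set D0 : Matrix (Fin m) (Fin m) F := (D : Matrix (Fin m) (Fin m) F) with hD0
  have h11 : D0 * D' = 1 := by
    rw [hD0, hD', ← Units.val_mul, mul_inv_cancel, Units.val_one]
  have h12 : D' * D0 = 1 := by
    rw [hD0, hD', ← Units.val_mul, inv_mul_cancel, Units.val_one]
  have hct : ct q D0 * ct q D' = 1 := by
    rw [← ct_mul' hF, h12, ct_one hF]
  have hct2 : ct q D' * ct q D0 = 1 := by
    rw [← ct_mul' hF, h11, ct_one hF]
  set c := blkC (g : Matrix (Ix m ε) (Ix m ε) F) with hc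
  set e := blkZ (g : Matrix (Ix m ε) (Ix m ε) F) with he
  have hR : RowRel q c e D0 := by
    have := rowRel_of_mem hF hg
    rwa [hD] at this
  set S := D' * c with hS
  set Z := -cst q (D' * e) with hZ
  have hcstZ : cst q Z = -(D' * e) := by
    ext i j
    simp only [cst_apply, hZ, Matrix.neg_apply, pow_q_neg hF, pow_q_pow_q hF]
  have hadm : IsAdm q Z S := by
    intro i j
    have h1 : S + ct q S + cst q Z * Z = D' * (c * ct q D0 + e * cst q e + D0 * ct q c) * ct q D' := by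
      have h2 : ct q S = ct q c * ct q D' := by rw [hS, ct_mul' hF]
      have h3 : Z = - (cst q e * ct q D') := by
        ext i j
        simp only [hZ, Matrix.neg_apply, cst_apply, Matrix.mul_apply, ct_apply, pow_q_sum hF, mul_pow]
        congr 1
        exact Finset.sum_congr rfl fun k _ => mul_comm _ _
      rw [h2, hcstZ, h3, hS]
      simp only [Matrix.mul_add, Matrix.add_mul, Matrix.mul_assoc, Matrix.neg_mul, Matrix.mul_neg, neg_neg]
      have e1 : D' * (D0 * (ct q c * ct q D')) = ct q c * ct q D' := by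
        rw [← Matrix.mul_assoc, h12, Matrix.one_mul]
      have e2 : c * (ct q D0 * ct q D') = c := by
        rw [hct, Matrix.mul_one]
      rw [e1, e2]
      abel
    have h4 : D' * (c * ct q D0 + e * cst q e + D0 * ct q c) * ct q D' = 0 := by
      have := hR
      rw [RowRel] at this
      rw [this]
      simp
    have h5 := congrFun (congrFun (h1.trans h4) i) j
    simpa [Matrix.add_apply, Matrix.mul_apply, ct_apply, cst_apply] using h5
  let v := mkLG hF hadm
  have hvmem : v ∈ QlS hF m ε := ⟨mkLG_mem hF hadm, Z, S, rfl⟩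
  let h := levG hF ε D * v
  have hhmem : h ∈ SUM hF m ε := mul_mem (levG_mem hF D hdet) (mkLG_mem hF hadm)
  -- the row of `h` agrees with the row of `g`
  have hrowh : ∀ (i : Fin m) (r : Ix m ε), (h : Matrix (Ix m ε) (Ix m ε) F) (.inr (.inr i)) r =
      (g : Matrix (Ix m ε) (Ix m ε) F) (.inr (.inr i)) r := by
    intro i r
    have e0 : (h : Matrix (Ix m ε) (Ix m ε) F) = leviM q D0 D' * mkL q Z S := rfl
    rw [e0, leviM_mul_y]
    have hDent : ∀ i j, (g : Matrix (Ix m ε) (Ix m ε) F) (.inr (.inr i)) (.inr (.inr j)) = D0 i j :=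
      fun i j => congrFun (congrFun hD i) j
    rcases r with j | j | j
    · have e1 : ∀ k, mkL q Z S (.inr (.inr k)) (.inl j) = S k j := fun k => rfl
      simp only [e1]
      have : (D0 * S) i j = c i j := by
        rw [hS, ← Matrix.mul_assoc, h11, Matrix.one_mul]
      rw [Matrix.mul_apply] at this
      exact this
    · have e1 : ∀ k, mkL q Z S (.inr (.inr k)) (.inr (.inl j)) = - (Z j k) ^ q := fun k => rfl
      simp only [e1]
      have : (D0 * (D' * e)) i j = e i j := by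
        rw [← Matrix.mul_assoc, h11, Matrix.one_mul]
      have h6 : ∀ k, -(Z j k) ^ q = (D' * e) k j := by
        intro k
        have := congrFun (congrFun hcstZ k) j
        simpa [cst_apply, Matrix.neg_apply] using congrArg Neg.neg this
      simp only [h6]
      rw [Matrix.mul_apply] at this
      exact this
    · have e1 : ∀ k, mkL q Z S (.inr (.inr k)) (.inr (.inr j)) = if k = j then 1 else 0 := fun k => rfl
      simp only [e1, hDent]
      simp
  let u := g * h⁻¹
  have humem : u ∈ SUM hF m ε := mul_mem hg (inv_mem hhmem)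
  have hurow : ∀ (i : Fin m) (r : Ix m ε), (u : Matrix (Ix m ε) (Ix m ε) F) (.inr (.inr i)) r =
      (1 : Matrix (Ix m ε) (Ix m ε) F) (.inr (.inr i)) r := by
    intro i r
    have e0 : (u : Matrix (Ix m ε) (Ix m ε) F) = (g : Matrix (Ix m ε) (Ix m ε) F) * ((h⁻¹ : GL (Ix m ε) F) : Matrix (Ix m ε) (Ix m ε) F) := rfl
    have e1 : (1 : Matrix (Ix m ε) (Ix m ε) F) = (h : Matrix (Ix m ε) (Ix m ε) F) * ((h⁻¹ : GL (Ix m ε) F) : Matrix (Ix m ε) (Ix m ε) F) := by
      rw [← Units.val_mul, mul_inv_cancel, Units.val_one]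
    rw [e0, e1, Matrix.mul_apply, Matrix.mul_apply]
    exact Finset.sum_congr rfl fun s _ => by rw [hrowh]
  refine ⟨u, mem_QuS_of_row hF hε humem hurow, v, hvmem, ?_⟩
  show g = g * h⁻¹ * levG hF ε D * v
  have : g * h⁻¹ * levG hF ε D * v = g * h⁻¹ * (levG hF ε D * v) := by group
  rw [this]
  show g = g * h⁻¹ * h
  group

/-- The commutator of the cell method for `Fac`. -/
theorem comm_of_fac (hF : Fintype.card F = q ^ 2) (hε : ε ≤ 1) {g : GL (Ix m ε) F} (hg : g ∈ SUM hF m ε)
    (D : GL (Fin m) F) (hD : blkD (g : Matrix (Ix m ε) (Ix m ε) F) = (D : Matrix (Fin m) (Fin m) F))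
    (hdet : (D : Matrix (Fin m) (Fin m) F).det = 1) (hfac : Fac q D) :
    ∃ a ∈ SUM hF m ε, ∃ b ∈ SUM hF m ε, g = a * b * a⁻¹ * b⁻¹ := by
  obtain ⟨u, hu, v, hv, rfl⟩ := exists_cell hF hε hg D hD hdet
  obtain ⟨B, D₁, G, h1, h2, h3, h4, h5, h6⟩ := hfac
  have hD1 : (D₁ : Matrix (Fin m) (Fin m) F).det = 1 := by
    have h7 := congrArg (fun x : GL (Fin m) F => (x : Matrix (Fin m) (Fin m) F).det) h2
    simp only [Units.val_mul, Matrix.det_mul] at h7
    rw [h3, h4, one_mul, det_inv_val G h3, mul_one] at h7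
    exact h7
  have hQu : QuS hF m ε ≤ SUM hF m ε := fun x hx => hx.1
  have hQl : QlS hF m ε ≤ SUM hF m ε := fun x hx => hx.1
  haveI : Finite (QuS hF m ε) := inferInstance
  haveI : Finite (QlS hF m ε) := inferInstance
  have hcomm := Cfsg.Agent.Lib.OreOmega.exists_comm_of_cell (SUM hF m ε) (QuS hF m ε) (QlS hF m ε) hQu hQl
    (levG hF ε B) (levG hF ε D₁) (levG hF ε G) u v
    (conj_levG_QuS hF B h4) (fpf_levG_QuS hF B h5) (conj_levG_QlS hF D₁ hD1) (fpf_levG_QlS hF D₁ h6)
    (by rw [← levG_inv, ← levG_mul, ← levG_mul, h2]) (levG_mem hF B h4) (levG_mem hF G h3) hu hv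
  obtain ⟨a, ha, w, hw, hc⟩ := hcomm
  refine ⟨a, ha, w, hw, ?_⟩
  rw [← hc, h1, levG_mul, levG_inv]
  group

end Cfsg.Agent.Lib.OreU
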