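import Mathlib
import Cfsg.Agent.Lib.OreU.Cell

/-!
# Commutators in `SUM hF 1 1` for unipotent-position elements (`n = 3`, `q ≥ 3`)
-/

set_option autoImplicit false
set_option linter.unusedSectionVars false
set_option linter.unusedSimpArgs false
set_option linter.unusedVariables false

namespace Cfsg.Agent.Lib.OreU

open Matrix
open Cfsg.Agent.Lib.Classical.Herm.Basic

variable {F : Type*} [Field F] [Fintype F] {q : ℕ}

/-- The diagonal entries of the torus element. -/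
def dgA (a b c : F) : Ix 1 1 → F := Sum.elim (fun _ => a) (Sum.elim (fun _ => b) (fun _ => c))

/-- The torus element. -/
noncomputable def dgG (a b c : F) (ha : a ≠ 0) (hb : b ≠ 0) (hc : c ≠ 0) : GL (Ix 1 1) F :=
  ⟨diagonal (dgA a b c), diagonal (dgA a⁻¹ b⁻¹ c⁻¹),
    by
      rw [Matrix.diagonal_mul_diagonal, ← Matrix.diagonal_one]
      congr 1
      funext k
      rcases k with i | i | i <;> simp [dgA, ha, hb, hc],
    by
      rw [Matrix.diagonal_mul_diagonal, ← Matrix.diagonal_one]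
      congr 1
      funext k
      rcases k with i | i | i <;> simp [dgA, ha, hb, hc]⟩

theorem dgG_mem (hF : Fintype.card F = q ^ 2) (a b c : F) (ha : a ≠ 0) (hb : b ≠ 0) (hc : c ≠ 0)
    (h1 : c ^ q * a = 1) (h2 : b ^ q * b = 1) (h3 : a ^ q * c = 1) (h4 : a * b * c = 1) :
    dgG a b c ha hb hc ∈ SUM hF 1 1 := by
  have hq : q ≠ 0 := by
    have := two_le_q hF
    omega
  refine ⟨?_, ?_⟩
  · show adj q (diagonal (dgA a b c)) * diagonal (dgA a b c) = 1
    have hadj : adj q (diagonal (dgA a b c)) = diagonal (dgA (c ^ q) (b ^ q) (a ^ q)) := by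
      ext r s
      rw [adj_apply]
      rcases r with i | i | i <;> rcases s with j | j | j <;>
        simp [rv, dgA, Matrix.diagonal_apply, Subsingleton.elim i j, hq, zero_pow_q hF]
    rw [hadj, Matrix.diagonal_mul_diagonal, ← Matrix.diagonal_one]
    congr 1
    funext k
    rcases k with i | i | i <;> simp [dgA, h1, h2, h3]
  · show (diagonal (dgA a b c)).det = 1
    rw [Matrix.det_diagonal]
    simp [dgA, Fintype.prod_sum_type, h4]
    linear_combination h4

theorem dgG_conj_mkU (a b c : F) (ha : a ≠ 0) (hb : b ≠ 0) (hc : c ≠ 0) (r s : Ix 1 1)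
    (M : Matrix (Ix 1 1) (Ix 1 1) F) :
    (diagonal (dgA a b c) * M * diagonal (dgA a⁻¹ b⁻¹ c⁻¹)) r s = dgA a b c r * M r s * dgA a⁻¹ b⁻¹ c⁻¹ s := by
  rw [Matrix.mul_diagonal, Matrix.diagonal_mul]

theorem levG_one (hF : Fintype.card F = q ^ 2) (m ε : ℕ) : levG hF ε (1 : GL (Fin m) F) = 1 := by
  apply Units.ext
  show leviM q _ _ = _
  simp only [inv_one, Units.val_one]
  exact leviM_one hF

theorem dgG_conj_QuS (hF : Fintype.card F = q ^ 2) (a b c : F) (ha : a ≠ 0) (hb : b ≠ 0) (hc : c ≠ 0)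
    (h1 : c ^ q * a = 1) (h2 : b ^ q * b = 1) (Z : Matrix (Fin 1) (Fin 1) F) (S : Matrix (Fin 1) (Fin 1) F) :
    diagonal (dgA a b c) * mkU q Z S * diagonal (dgA a⁻¹ b⁻¹ c⁻¹) = mkU q ((b * c⁻¹) • Z) ((a * c⁻¹) • S) := by
  have hq : q ≠ 0 := by
    have := two_le_q hF
    omega
  have hcq : c ^ q ≠ 0 := pow_ne_zero _ hc
  have e1 : a = (c ^ q)⁻¹ := by
    field_simp
    linear_combination h1
  have e2 : b⁻¹ = b ^ q := by
    field_simp
    linear_combination -h2
  ext r s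
  rw [dgG_conj_mkU a b c ha hb hc]
  rcases r with i | i | i <;> rcases s with j | j | j
  · simp only [dgA, Sum.elim_inl, mkU_ww]
    by_cases h : i = j
    · simp [h, ha]
    · simp [h]
  · simp only [dgA, Sum.elim_inl, Sum.elim_inr, mkU_wv, Matrix.smul_apply, smul_eq_mul, mul_pow, inv_pow, e2]
    rw [e1]
    field_simp
  · simp only [dgA, Sum.elim_inl, Sum.elim_inr, mkU_wy, Matrix.smul_apply, smul_eq_mul]
    ring
  · simp [dgA]
  · simp only [dgA, Sum.elim_inl, Sum.elim_inr, mkU_vv]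
    by_cases h : i = j
    · simp [h, hb]
    · simp [h]
  · simp only [dgA, Sum.elim_inl, Sum.elim_inr, mkU_vy, Matrix.smul_apply, smul_eq_mul]
    ring
  · simp [dgA]
  · simp [dgA]
  · simp only [dgA, Sum.elim_inl, Sum.elim_inr, mkU_yy]
    by_cases h : i = j
    · simp [h, hc]
    · simp [h]

theorem dgG_conj_QlS (hF : Fintype.card F = q ^ 2) (a b c : F) (ha : a ≠ 0) (hb : b ≠ 0) (hc : c ≠ 0)
    (h2 : b ^ q * b = 1) (h3 : a ^ q * c = 1) (Z : Matrix (Fin 1) (Fin 1) F) (S : Matrix (Fin 1) (Fin 1) F) :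
    diagonal (dgA a b c) * mkL q Z S * diagonal (dgA a⁻¹ b⁻¹ c⁻¹) = mkL q ((b * a⁻¹) • Z) ((c * a⁻¹) • S) := by
  have haq : a ^ q ≠ 0 := pow_ne_zero _ ha
  have e1 : c = (a ^ q)⁻¹ := by
    field_simp
    linear_combination h3
  have e2 : b⁻¹ = b ^ q := by
    field_simp
    linear_combination -h2
  ext r s
  rw [dgG_conj_mkU a b c ha hb hc]
  rcases r with i | i | i <;> rcases s with j | j | j
  · simp only [dgA, Sum.elim_inl, mkL_apply, rv, mkU_yy]
    by_cases h : i = j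
    · simp [h, ha]
    · simp [h]
  · simp [dgA, mkL_apply, rv]
  · simp [dgA, mkL_apply, rv]
  · simp only [dgA, Sum.elim_inl, Sum.elim_inr, mkL_apply, rv, mkU_vy, Matrix.smul_apply, smul_eq_mul]
    ring
  · simp only [dgA, Sum.elim_inl, Sum.elim_inr, mkL_apply, rv, mkU_vv]
    by_cases h : i = j
    · simp [h, hb]
    · simp [h]
  · simp [dgA, mkL_apply, rv]
  · simp only [dgA, Sum.elim_inl, Sum.elim_inr, mkL_apply, rv, mkU_wy, Matrix.smul_apply, smul_eq_mul]
    ring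
  · simp only [dgA, Sum.elim_inl, Sum.elim_inr, mkL_apply, rv, mkU_wv, Matrix.smul_apply, smul_eq_mul, mul_pow,
      inv_pow, e2]
    rw [e1]
    field_simp
  · simp only [dgA, Sum.elim_inl, Sum.elim_inr, mkL_apply, rv, mkU_ww]
    by_cases h : i = j
    · simp [h, hc]
    · simp [h]

/-- The commutator for `n = 3`, `q ≥ 3`, with `W'`-block `1`. -/
theorem comm_one_m1 (hF : Fintype.card F = q ^ 2) (hq : 3 ≤ q) {g : GL (Ix 1 1) F} (hg : g ∈ SUM hF 1 1)
    (hD : blkD (g : Matrix (Ix 1 1) (Ix 1 1) F) = 1) :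
    ∃ a ∈ SUM hF 1 1, ∃ b ∈ SUM hF 1 1, g = a * b * a⁻¹ * b⁻¹ := by
  classical
  obtain ⟨u, hu, v, hv, rfl⟩ := exists_cell hF (le_refl 1) hg (1 : GL (Fin 1) F) (by rw [hD]; rfl) (by simp)
  rw [levG_one, mul_one]
  obtain ⟨κ', hκ'⟩ := IsCyclic.exists_ofOrder_eq_natCard (α := Fˣ)
  have hcard : Nat.card Fˣ = q ^ 2 - 1 := by
    rw [Nat.card_eq_fintype_card, Fintype.card_units, hF]
  set κ : F := (κ' : F) with hκ
  have hκ0 : κ ≠ 0 := κ'.ne_zero
  have hord : ∀ n : ℕ, 0 < n → n < q ^ 2 - 1 → κ ^ n ≠ 1 := by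
    intro n h0 h1 h2
    have h3 : κ' ^ n = 1 := by
      apply Units.ext
      simpa [hκ] using h2
    have h4 := orderOf_dvd_of_pow_eq_one h3
    rw [hκ', hcard] at h4
    have := Nat.le_of_dvd h0 h4
    omega
  have hq2 : 3 ^ 2 ≤ q ^ 2 := Nat.pow_le_pow_left hq 2
  have hκq : (κ ^ q) ^ q = κ := pow_q_pow_q hF κ
  have hκq0 : κ ^ q ≠ 0 := pow_ne_zero _ hκ0
  set a : F := (κ ^ q)⁻¹ with ha
  set b : F := κ ^ (q - 1) with hb
  have ha0 : a ≠ 0 := inv_ne_zero hκq0
  have hb0 : b ≠ 0 := pow_ne_zero _ hκ0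
  have hbκ : b * κ = κ ^ q := by
    rw [hb, ← pow_succ]
    congr 1
    omega
  have h1 : κ ^ q * a = 1 := by rw [ha]; field_simp
  have h2 : b ^ q * b = 1 := by
    have h5 : (b * κ) ^ q = κ := by rw [hbκ, hκq]
    rw [mul_pow] at h5
    have h6 : b ^ q * κ ^ q = κ := h5
    rw [← hbκ] at h6
    have h7 : κ * (b ^ q * b) = κ * 1 := by
      linear_combination h6
    exact mul_left_cancel₀ hκ0 h7
  have h3 : a ^ q * κ = 1 := by
    rw [ha, inv_pow, hκq]
    field_simp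
  have h4 : a * b * κ = 1 := by
    rw [mul_assoc, hbκ, ha]
    field_simp
  have hl := dgG_mem hF a b κ ha0 hb0 hκ0 h1 h2 h3 h4
  set l := dgG a b κ ha0 hb0 hκ0 with hldef
  have hne1 : b * κ⁻¹ ≠ 1 := by
    intro e
    have e2 : b = κ := by
      field_simp at e
      exact e
    have e3 : κ ^ (q - 2) * κ = κ := by
      rw [← pow_succ, show q - 2 + 1 = q - 1 by omega]
      exact e2
    have e4 : κ ^ (q - 2) = 1 := by
      have : κ ^ (q - 2) * κ = 1 * κ := by rw [e3, one_mul]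
      exact mul_right_cancel₀ hκ0 this
    exact hord (q - 2) (by omega) (by
      have : q ^ 2 = q * q := by ring
      have h5 : 3 * q ≤ q * q := Nat.mul_le_mul_right q hq
      omega) e4
  have hne2 : a * κ⁻¹ ≠ 1 := by
    intro e
    have e2 : a = κ := by
      field_simp at e
      exact e
    have e3 : κ ^ (q + 1) = 1 := by
      calc κ ^ (q + 1) = κ ^ q * κ := pow_succ _ _
        _ = κ ^ q * a := by rw [e2]
        _ = 1 := h1
    exact hord (q + 1) (by omega) (by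
      have : q ^ 2 = q * q := by ring
      have h5 : 3 * q ≤ q * q := Nat.mul_le_mul_right q hq
      omega) e3
  have hne3 : b * a⁻¹ ≠ 1 := by
    intro e
    have e2 : b = a := by
      field_simp at e
      exact e
    have e3 : κ ^ (2 * q - 1) = 1 := by
      have h5 : κ ^ (2 * q - 1) = κ ^ q * b := by
        rw [hb, ← pow_add]
        congr 1
        omega
      rw [h5, e2]
      exact h1
    exact hord (2 * q - 1) (by omega) (by
      have : q ^ 2 = q * q := by ring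
      have h5 : 3 * q ≤ q * q := Nat.mul_le_mul_right q hq
      omega) e3
  have hne4 : κ * a⁻¹ ≠ 1 := by
    intro e
    apply hne2
    have e2 : κ = a := by
      field_simp at e
      exact e
    rw [← e2]
    field_simp
  have hQu : QuS hF 1 1 ≤ SUM hF 1 1 := fun x hx => hx.1
  have hQl : QlS hF 1 1 ≤ SUM hF 1 1 := fun x hx => hx.1
  have hnb : ∀ r ∈ QuS hF 1 1, l * r * l⁻¹ ∈ QuS hF 1 1 := by
    rintro r ⟨hr, Z, S, hr2⟩
    refine ⟨mul_mem (mul_mem hl hr) (inv_mem hl), (b * κ⁻¹) • Z, (a * κ⁻¹) • S, ?_⟩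
    rw [Units.val_mul, Units.val_mul, hr2]
    exact dgG_conj_QuS hF a b κ ha0 hb0 hκ0 h1 h2 Z S
  have hfb : ∀ r ∈ QuS hF 1 1, l * r * l⁻¹ = r → r = 1 := by
    rintro r ⟨hr, Z, S, hr2⟩ hfix
    have h5 := congrArg (fun x : GL (Ix 1 1) F => (x : Matrix (Ix 1 1) (Ix 1 1) F)) hfix
    simp only [Units.val_mul] at h5
    rw [hr2] at h5
    have h6 : (l : Matrix (Ix 1 1) (Ix 1 1) F) * mkU q Z S * ((l⁻¹ : GL (Ix 1 1) F) : Matrix (Ix 1 1) (Ix 1 1) F) =
      mkU q ((b * κ⁻¹) • Z) ((a * κ⁻¹) • S) := dgG_conj_QuS hF a b κ ha0 hb0 hκ0 h1 h2 Z S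
    rw [h6] at h5
    obtain ⟨h7, h8⟩ := mkU_inj h5
    have hZ : Z = 0 := by
      ext i j
      have h9 := congrFun (congrFun h7 i) j
      simp only [Matrix.smul_apply, smul_eq_mul] at h9
      have h10 : (b * κ⁻¹ - 1) * Z i j = 0 := by linear_combination h9
      rcases mul_eq_zero.mp h10 with h11 | h11
      · exact absurd (sub_eq_zero.mp h11) hne1
      · exact h11
    have hS : S = 0 := by
      ext i j
      have h9 := congrFun (congrFun h8 i) j
      simp only [Matrix.smul_apply, smul_eq_mul] at h9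
      have h10 : (a * κ⁻¹ - 1) * S i j = 0 := by linear_combination h9
      rcases mul_eq_zero.mp h10 with h11 | h11
      · exact absurd (sub_eq_zero.mp h11) hne2
      · exact h11
    apply Units.ext
    rw [hr2, hZ, hS, mkU_zero_zero (by omega), Units.val_one]
  have hnd : ∀ r ∈ QlS hF 1 1, l * r * l⁻¹ ∈ QlS hF 1 1 := by
    rintro r ⟨hr, Z, S, hr2⟩
    refine ⟨mul_mem (mul_mem hl hr) (inv_mem hl), (b * a⁻¹) • Z, (κ * a⁻¹) • S, ?_⟩
    rw [Units.val_mul, Units.val_mul, hr2]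
    exact dgG_conj_QlS hF a b κ ha0 hb0 hκ0 h2 h3 Z S
  have hfd : ∀ r ∈ QlS hF 1 1, l * r * l⁻¹ = r → r = 1 := by
    rintro r ⟨hr, Z, S, hr2⟩ hfix
    have h5 := congrArg (fun x : GL (Ix 1 1) F => (x : Matrix (Ix 1 1) (Ix 1 1) F)) hfix
    simp only [Units.val_mul] at h5
    rw [hr2] at h5
    have h6 : (l : Matrix (Ix 1 1) (Ix 1 1) F) * mkL q Z S * ((l⁻¹ : GL (Ix 1 1) F) : Matrix (Ix 1 1) (Ix 1 1) F) =
      mkL q ((b * a⁻¹) • Z) ((κ * a⁻¹) • S) := dgG_conj_QlS hF a b κ ha0 hb0 hκ0 h2 h3 Z S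
    rw [h6] at h5
    obtain ⟨h7, h8⟩ := mkL_inj h5
    have hZ : Z = 0 := by
      ext i j
      have h9 := congrFun (congrFun h7 i) j
      simp only [Matrix.smul_apply, smul_eq_mul] at h9
      have h10 : (b * a⁻¹ - 1) * Z i j = 0 := by linear_combination h9
      rcases mul_eq_zero.mp h10 with h11 | h11
      · exact absurd (sub_eq_zero.mp h11) hne3
      · exact h11
    have hS : S = 0 := by
      ext i j
      have h9 := congrFun (congrFun h8 i) j
      simp only [Matrix.smul_apply, smul_eq_mul] at h9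
      have h10 : (κ * a⁻¹ - 1) * S i j = 0 := by linear_combination h9
      rcases mul_eq_zero.mp h10 with h11 | h11
      · exact absurd (sub_eq_zero.mp h11) hne4
      · exact h11
    apply Units.ext
    rw [hr2, hZ, hS, mkL_zero_zero (by omega), Units.val_one]
  obtain ⟨x, hx, w, hw, hc⟩ := Cfsg.Agent.Lib.OreOmega.exists_comm_of_cell (SUM hF 1 1) (QuS hF 1 1) (QlS hF 1 1) hQu hQl
    l l 1 u v hnb hfb hnd hfd (by group) hl (one_mem _) hu hv
  refine ⟨x, hx, w, hw, ?_⟩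
  rw [← hc]
  group

end Cfsg.Agent.Lib.OreU
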