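import Mathlib
import Cfsg.Agent.Lib.Classical.Herm.HermOnb

/-!
Every scalar matrix in `SU_n(q)` is a commutator.  With `n = k + 1`, `a^n = 1`, `a^(q+1) = 1`: the
`n`-cycle and the diagonal matrix `diag (s a^j)`, in a basis with Gram matrix a translation of `Fin n`
(orthonormal, or pairing `j` with `j + n/2`).
-/

set_option autoImplicit false
set_option linter.unusedSectionVars false
set_option linter.unusedSimpArgs false
set_option linter.unusedVariables false

namespace Cfsg.Agent.Lib.OreU

open scoped Matrix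
open Cfsg Cfsg.Agent.Lib.Classical.Herm.Basic Cfsg.Agent.Lib.Classical.Herm.GU
open Cfsg.Agent.Lib.Classical.Herm.SU Cfsg.Agent.Lib.Classical.Herm.HermOnb

variable {F : Type*} [Field F] [Fintype F] {q k : ℕ}

namespace Central

/-- The form pairing `j` with `j + t`. -/
def tForm (q : ℕ) (t : Fin (k + 1)) (x y : Fin (k + 1) → F) : F := ∑ j, x j * y (j + t) ^ q

theorem tForm_isHerm (hF : Fintype.card F = q ^ 2) (t : Fin (k + 1)) (ht : t + t = 0) :
    IsHerm (F := F) q (tForm q t) := by
  refine ⟨fun x y z => ?_, fun c x y => ?_, fun x y => ?_, fun x hx => ?_⟩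
  · simp only [tForm, Pi.add_apply, add_mul, Finset.sum_add_distrib]
  · simp only [tForm, Pi.smul_apply, smul_eq_mul, mul_assoc, Finset.mul_sum]
  · simp only [tForm]
    rw [pow_q_sum hF]
    rw [← Equiv.sum_comp (Equiv.addRight t)]
    refine Finset.sum_congr rfl fun i _ => ?_
    simp only [Equiv.coe_addRight, add_assoc, ht, add_zero, mul_pow, pow_q_pow_q hF]
    ring
  · funext i
    classical
    have h := hx (Pi.single (i + t) 1)
    simp only [tForm] at h
    rw [Finset.sum_eq_single i] at h
    · simpa using h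
    · intro b _ hb
      have : b + t ≠ i + t := fun e => hb (add_right_cancel e)
      simp [this, zero_pow_q hF]
    · simp

/-- The monomial matrix with entries `D` and permutation `σ`. -/
def mono (σ : Equiv.Perm (Fin (k + 1))) (D : Fin (k + 1) → F) : Matrix (Fin (k + 1)) (Fin (k + 1)) F :=
  σ.permMatrix F * Matrix.diagonal D

theorem mono_mulVec (σ : Equiv.Perm (Fin (k + 1))) (D c : Fin (k + 1) → F) (j : Fin (k + 1)) :
    (mono σ D *ᵥ c) j = D (σ j) * c (σ j) := by
  rw [mono, ← Matrix.mulVec_mulVec, Matrix.permMatrix_mulVec, Function.comp_apply,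
    Matrix.mulVec_diagonal]

theorem det_mono (σ : Equiv.Perm (Fin (k + 1))) (D : Fin (k + 1) → F) :
    (mono σ D).det = ((Equiv.Perm.sign σ : ℤˣ) : ℤ) * ∏ j, D j := by
  rw [mono, Matrix.det_mul, Matrix.det_permutation, Matrix.det_diagonal]

theorem tForm_mono (hF : Fintype.card F = q ^ 2) (t : Fin (k + 1)) (σ : Equiv.Perm (Fin (k + 1)))
    (D : Fin (k + 1) → F) (hσ : ∀ j, σ (j + t) = σ j + t) (hD : ∀ j, D j * D (j + t) ^ q = 1)
    (c d : Fin (k + 1) → F) :
    tForm q t (mono σ D *ᵥ c) (mono σ D *ᵥ d) = tForm q t c d := by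
  simp only [tForm, mono_mulVec]
  rw [← Equiv.sum_comp σ (fun j => c j * d (j + t) ^ q)]
  refine Finset.sum_congr rfl fun j _ => ?_
  rw [hσ, mul_pow]
  linear_combination (c (σ j) * d (σ j + t) ^ q) * hD (σ j)

/-- The core construction. -/
theorem central_core (hF : Fintype.card F = q ^ 2) (t : Fin (k + 1)) (ht : t + t = 0) (a : F)
    (D μ : Fin (k + 1) → F)
    (hD : ∀ j, D j * D (j + t) ^ q = 1) (hμ : ∀ j, μ j * μ (j + t) ^ q = 1)
    (hshift : ∀ j, μ (j + 1) = a * μ j)
    (hdetD : (-1 : F) ^ k * ∏ j, D j = 1) (hdetμ : ∏ j, μ j = 1)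
    (g : SU (k + 1) F q)
    (hg : ((g : Matrix.SpecialLinearGroup (Fin (k + 1)) F) : Matrix (Fin (k + 1)) (Fin (k + 1)) F) = a • 1) :
    ∃ x y : SU (k + 1) F q, g = x * y * x⁻¹ * y⁻¹ := by
  classical
  obtain ⟨Φ, hΦ⟩ := exists_isometry hF (k + 1) (Fin (k + 1) → F) (tForm q t) (tForm_isHerm hF t ht) (by simp)
  let Mp : Matrix (Fin (k + 1)) (Fin (k + 1)) F := LinearMap.toMatrix' (Φ : (Fin (k + 1) → F) →ₗ[F] (Fin (k + 1) → F))
  let Mi : Matrix (Fin (k + 1)) (Fin (k + 1)) F :=
    LinearMap.toMatrix' (Φ.symm : (Fin (k + 1) → F) →ₗ[F] (Fin (k + 1) → F))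
  have hMp : ∀ c, Mp *ᵥ c = Φ c := fun c => by simp [Mp]
  have hMi : ∀ c, Mi *ᵥ c = Φ.symm c := fun c => by simp [Mi]
  have h1 : Mp * Mi = 1 := by
    apply Matrix.mulVec_injective
    funext c
    rw [← Matrix.mulVec_mulVec, hMi, hMp, Matrix.one_mulVec]
    simp
  have h2 : Mi * Mp = 1 := by
    apply Matrix.mulVec_injective
    funext c
    rw [← Matrix.mulVec_mulVec, hMi, hMp, Matrix.one_mulVec]
    simp
  have hpres : ∀ A : Matrix (Fin (k + 1)) (Fin (k + 1)) F,
      (∀ c d, tForm q t (A *ᵥ c) (A *ᵥ d) = tForm q t c d) → Preserves q (Mi * A * Mp) := by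
    intro A hA u v
    rw [← hΦ, ← hΦ]
    have e : ∀ w, Φ ((Mi * A * Mp) *ᵥ w) = A *ᵥ (Φ w) := by
      intro w
      rw [← hMp ((Mi * A * Mp) *ᵥ w), Matrix.mulVec_mulVec, ← mul_assoc, ← mul_assoc, h1, one_mul,
        ← Matrix.mulVec_mulVec, hMp]
    rw [e, e, hA]
  have hdet : ∀ A : Matrix (Fin (k + 1)) (Fin (k + 1)) F, (Mi * A * Mp).det = A.det := by
    intro A
    rw [Matrix.det_mul, Matrix.det_mul, mul_comm Mi.det, mul_assoc, ← Matrix.det_mul, h2,
      Matrix.det_one, mul_one]
  have hrot : ∀ j : Fin (k + 1), finRotate (k + 1) j = j + 1 := fun j => finRotate_apply j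
  have hX1 : (Mi * mono (finRotate (k + 1)) D * Mp).det = 1 := by
    rw [hdet, det_mono, sign_finRotate]
    simpa using hdetD
  have hY1 : (Mi * mono 1 μ * Mp).det = 1 := by
    rw [hdet, det_mono]
    simpa using hdetμ
  have hX2 : Preserves q (Mi * mono (finRotate (k + 1)) D * Mp) :=
    hpres _ (tForm_mono hF t _ D (fun j => by rw [hrot, hrot]; abel) hD)
  have hY2 : Preserves q (Mi * mono 1 μ * Mp) :=
    hpres _ (tForm_mono hF t _ μ (fun j => rfl) hμ)
  let x : SU (k + 1) F q := mkSU _ hX1 hX2
  let y : SU (k + 1) F q := mkSU _ hY1 hY2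
  refine ⟨x, y, ?_⟩
  have key : x * y = g * y * x := by
    apply Subtype.ext
    apply Subtype.ext
    simp only [Subgroup.coe_mul, Matrix.SpecialLinearGroup.coe_mul, hg]
    show (Mi * mono (finRotate (k + 1)) D * Mp) * (Mi * mono 1 μ * Mp) =
      (a • 1) * (Mi * mono 1 μ * Mp) * (Mi * mono (finRotate (k + 1)) D * Mp)
    have e : mono (finRotate (k + 1)) D * mono 1 μ = a • (mono 1 μ * mono (finRotate (k + 1)) D) := by
      apply Matrix.mulVec_injective
      funext c
      funext j
      rw [Matrix.smul_mulVec, ← Matrix.mulVec_mulVec, ← Matrix.mulVec_mulVec, Pi.smul_apply, mono_mulVec,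
        mono_mulVec, mono_mulVec, mono_mulVec, smul_eq_mul]
      simp only [Equiv.Perm.coe_one, id_eq, hrot, hshift]
      ring
    calc (Mi * mono (finRotate (k + 1)) D * Mp) * (Mi * mono 1 μ * Mp)
        = Mi * (mono (finRotate (k + 1)) D * (Mp * Mi) * mono 1 μ) * Mp := by
          simp only [mul_assoc]
      _ = Mi * (mono (finRotate (k + 1)) D * mono 1 μ) * Mp := by rw [h1, mul_one]
      _ = Mi * (a • (mono 1 μ * mono (finRotate (k + 1)) D)) * Mp := by rw [e]
      _ = a • (Mi * (mono 1 μ * (Mp * Mi) * mono (finRotate (k + 1)) D) * Mp) := by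
          rw [h1, mul_one, mul_smul_comm, smul_mul_assoc]
      _ = (a • 1) * (Mi * mono 1 μ * Mp) * (Mi * mono (finRotate (k + 1)) D * Mp) := by
          simp only [smul_mul_assoc, one_mul, mul_assoc]
  have : g = x * y * x⁻¹ * y⁻¹ := by
    rw [key]
    group
  exact this

/-- The diagonal entries `s a^j`. -/
theorem shift_pow (a s : F) (ha : a ^ (k + 1) = 1) (j : Fin (k + 1)) :
    s * a ^ (j + 1 : Fin (k + 1)).val = a * (s * a ^ j.val) := by
  rcases Fin.eq_castSucc_or_eq_last j with ⟨i, rfl⟩ | rfl
  · have : ((i.castSucc + 1 : Fin (k + 1)) : ℕ) = i.val + 1 := by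
      rw [Fin.val_add_one_of_lt (Fin.castSucc_lt_last i)]
      simp
    rw [this]
    simp only [Fin.val_castSucc]
    ring
  · have : ((Fin.last k + 1 : Fin (k + 1)) : ℕ) = 0 := by simp
    rw [this]
    simp only [Fin.val_last]
    rw [pow_zero, mul_one, mul_left_comm, ← pow_succ', ha, mul_one]

theorem prod_pow_val (a s : F) :
    ∏ j : Fin (k + 1), (s * a ^ j.val) = s ^ (k + 1) * a ^ ((k + 1) * k / 2) := by
  rw [Finset.prod_mul_distrib, Finset.prod_const, Finset.prod_pow_eq_pow_sum, Finset.card_univ,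
    Fintype.card_fin]
  congr 2
  rw [Fin.sum_univ_eq_sum_range (fun i => i) (k + 1), Finset.sum_range_id]
  simp

/-- The orthonormal case. -/
theorem central_onb (hF : Fintype.card F = q ^ 2) (a s : F) (ha : a ^ (k + 1) = 1) (haq : a ^ (q + 1) = 1)
    (hs : s ^ (q + 1) = 1) (hdet : s ^ (k + 1) * a ^ ((k + 1) * k / 2) = 1)
    (g : SU (k + 1) F q)
    (hg : ((g : Matrix.SpecialLinearGroup (Fin (k + 1)) F) : Matrix (Fin (k + 1)) (Fin (k + 1)) F) = a • 1) :
    ∃ x y : SU (k + 1) F q, g = x * y * x⁻¹ * y⁻¹ := by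
  classical
  refine central_core hF 0 (by simp) a (fun j => if j = 0 then (-1) ^ k else 1)
    (fun j => s * a ^ j.val) ?_ ?_ (shift_pow a s ha) ?_ ?_ g hg
  · intro j
    simp only [add_zero]
    have e : ((-1 : F) ^ k) ^ q * (-1) ^ k = 1 := by
      rw [← pow_mul, ← pow_add, show k * q + k = (q + 1) * k by ring, pow_mul, neg_one_pow_succ hF, one_pow]
    split_ifs
    · rw [mul_comm]; exact e
    · simp
  · intro j
    simp only [add_zero]
    have e : (s * a ^ j.val) ^ (q + 1) = 1 := by
      rw [mul_pow, hs, one_mul, ← pow_mul, mul_comm, pow_mul, haq, one_pow]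
    rw [← e, pow_succ]
    ring
  · rw [Finset.prod_eq_single (0 : Fin (k + 1))]
    · simp only [if_true, ← pow_add, ← two_mul, pow_mul]
      simp
    · intro b _ hb
      simp [hb]
    · simp
  · rw [prod_pow_val, hdet]

/-- The case of the form pairing `j` and `j + m`. -/
theorem central_witt (hF : Fintype.card F = q ^ 2) (m : ℕ) (hm : 0 < m) (hk : k + 1 = 2 * m) (a c w : F)
    (haq : a ^ (q + 1) = 1) (ham : a ^ m = -1) (hc : c ^ (q + 1) = -1) (hcn : c ^ (2 * m) = -1)
    (hw0 : w ≠ 0) (hw : w * (w⁻¹) ^ q = -1)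
    (g : SU (k + 1) F q)
    (hg : ((g : Matrix.SpecialLinearGroup (Fin (k + 1)) F) : Matrix (Fin (k + 1)) (Fin (k + 1)) F) = a • 1) :
    ∃ x y : SU (k + 1) F q, g = x * y * x⁻¹ * y⁻¹ := by
  classical
  have hmk : m < k + 1 := by omega
  let t : Fin (k + 1) := ⟨m, hmk⟩
  have ht0 : t ≠ 0 := by
    intro h
    have := congrArg Fin.val h
    simp [t] at this
    omega
  have htt : t + t = 0 := by
    apply Fin.ext
    simp only [Fin.val_add, t, Fin.val_zero]
    rw [hk, ← two_mul, Nat.mod_self]
  have ha' : a ^ (k + 1) = 1 := by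
    rw [hk, mul_comm, pow_mul, ham]; ring
  have hodd : (-1 : F) ^ q = -1 := by
    have := pow_q_neg hF (1 : F)
    simpa using this
  have hval : ∀ j : Fin (k + 1), ((j + t : Fin (k + 1)) : ℕ) = if j.val < m then j.val + m else j.val - m := by
    intro j
    simp only [Fin.val_add, t]
    split_ifs with h
    · exact Nat.mod_eq_of_lt (by omega)
    · have hj := j.2
      rw [show j.val + m = (j.val - m) + (k + 1) by omega, Nat.add_mod_right, Nat.mod_eq_of_lt (by omega)]
  refine central_core hF t htt a (fun j => if j = 0 then w else if j = t then (w⁻¹) ^ q else 1)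
    (fun j => c * a ^ j.val) ?_ ?_ (shift_pow a c ha') ?_ ?_ g hg
  · intro j
    have hww : ((w⁻¹) ^ q) ^ q = w⁻¹ := pow_q_pow_q hF _
    by_cases hj0 : j = 0
    · subst hj0
      simp only [zero_add, if_true, if_neg ht0, hww]
      rw [mul_inv_cancel₀ hw0]
    · by_cases hjt : j = t
      · subst hjt
        rw [htt]
        simp only [if_neg hj0, if_true]
        rw [← mul_pow, inv_mul_cancel₀ hw0, one_pow]
      · have h1 : j + t ≠ 0 := by
          intro h
          apply hjt
          have : j + t = t + t := by rw [h, htt]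
          exact add_right_cancel this
        have h2 : j + t ≠ t := by
          intro h
          apply hj0
          have : j + t = 0 + t := by rw [h, zero_add]
          exact add_right_cancel this
        simp [hj0, hjt, h1, h2]
  · intro j
    show (c * a ^ j.val) * (c * a ^ ((j + t : Fin (k + 1)) : ℕ)) ^ q = 1
    rw [hval]
    have hcc : c * c ^ q = -1 := by rw [← pow_succ', hc]
    split_ifs with h
    · have e : a ^ j.val * (a ^ j.val) ^ q = 1 := by
        rw [← pow_mul, ← pow_add, show j.val + j.val * q = j.val * (q + 1) by ring, mul_comm, pow_mul, haq,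
          one_pow]
      rw [mul_pow, pow_add, mul_pow (a ^ j.val), ham, hodd]
      linear_combination (-(a ^ j.val * (a ^ j.val) ^ q)) * hcc + e
    · have hj : j.val = (j.val - m) + m := by omega
      set i := j.val - m with hi
      have e : a ^ i * (a ^ i) ^ q = 1 := by
        rw [← pow_mul, ← pow_add, show i + i * q = i * (q + 1) by ring, mul_comm, pow_mul, haq, one_pow]
      rw [hj, mul_pow, pow_add, ham]
      linear_combination (-(a ^ i * (a ^ i) ^ q)) * hcc + e
  · rw [Finset.prod_eq_mul (0 : Fin (k + 1)) t ht0.symm]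
    · simp only [if_true, if_neg ht0]
      rw [hw]
      have : (-1 : F) ^ k = -1 := by
        have : k = 2 * (m - 1) + 1 := by omega
        rw [this, pow_succ, pow_mul]
        simp
      rw [this]
      ring
    · intro b _ hb
      simp [hb.1, hb.2]
    · simp
    · simp
  · rw [prod_pow_val]
    have e1 : (k + 1) * k / 2 = m * k := by
      rw [hk, mul_assoc, Nat.mul_div_cancel_left _ (by omega)]
    have : k = 2 * (m - 1) + 1 := by omega
    have e2 : a ^ (m * k) = -1 := by
      rw [pow_mul, ham]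
      rw [this, pow_succ, pow_mul]
      simp
    rw [e1, e2, hk, hcn]
    ring

/-- Fields with `q²` elements: an element with a prescribed power equal to `-1`. -/
theorem exists_root_neg_one (hF : Fintype.card F = q ^ 2) (e : ℕ) (he : 2 * e ∣ q ^ 2 - 1) (he0 : 0 < e) :
    ∃ c : F, c ≠ 0 ∧ c ^ e = -1 := by
  classical
  obtain ⟨g, hg⟩ := IsCyclic.exists_generator (α := Fˣ)
  have hord : orderOf g = q ^ 2 - 1 := by
    rw [orderOf_eq_card_of_forall_mem_zpowers hg, Nat.card_eq_fintype_card, Fintype.card_units, hF]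
  obtain ⟨d, hd⟩ := he
  have hq1 : 1 < q ^ 2 := hF ▸ Fintype.one_lt_card
  have hpos : 0 < q ^ 2 - 1 := by omega
  have hdpos : 0 < d := by
    rcases Nat.eq_zero_or_pos d with rfl | h
    · omega
    · exact h
  refine ⟨((g ^ d : Fˣ) : F), Units.ne_zero _, ?_⟩
  have h1 : ((g ^ d) ^ e) ^ 2 = 1 := by
    have : d * (e * 2) = orderOf g := by rw [hord, hd]; ring
    rw [← pow_mul, ← pow_mul, this, pow_orderOf_eq_one]
  have h2 : (g ^ d) ^ e ≠ 1 := by
    rw [← pow_mul]
    apply pow_ne_one_of_lt_orderOf
    · exact Nat.mul_ne_zero hdpos.ne' he0.ne'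
    · rw [hord, hd]
      nlinarith [Nat.mul_pos hdpos he0]
  have h3 : (((g ^ d) ^ e : Fˣ) : F) * (((g ^ d) ^ e : Fˣ) : F) = 1 := by
    rw [← Units.val_mul, ← pow_two, h1, Units.val_one]
  have h4 : (((g ^ d) ^ e : Fˣ) : F) ≠ 1 := fun h => h2 (Units.ext h)
  rcases mul_self_eq_one_iff.1 h3 with h | h
  · exact absurd h h4
  · rw [← h]
    simp

end Central

open Central in
/-- **Every scalar matrix of `SU_n(q)` is a commutator.** -/
theorem central_comm (hF : Fintype.card F = q ^ 2) (n : ℕ) (hn : 3 ≤ n) (g : Cfsg.SU n F q) (a : F)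
    (hg : ((g : Matrix.SpecialLinearGroup (Fin n) F) : Matrix (Fin n) (Fin n) F) = a • 1) :
    ∃ x y : Cfsg.SU n F q, g = x * y * x⁻¹ * y⁻¹ := by
  classical
  obtain ⟨k, rfl⟩ : ∃ k, n = k + 1 := ⟨n - 1, by omega⟩
  have haq : a ^ (q + 1) = 1 := by
    have h := preserves_su g (Pi.single 0 1) (Pi.single 0 1)
    rw [hg, Matrix.smul_mulVec, Matrix.one_mulVec, hermForm_smul_left, hermForm_smul_right,
      hermForm_single_single hF, if_pos rfl, mul_one] at h
    rw [pow_succ', h]
  have ha : a ^ (k + 1) = 1 := by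
    have h := g.1.2
    have h2 : ((g : Matrix.SpecialLinearGroup (Fin (k + 1)) F) : Matrix (Fin (k + 1)) (Fin (k + 1)) F).det = 1 := h
    rw [hg, Matrix.det_smul, Matrix.det_one, mul_one, Fintype.card_fin] at h2
    exact h2
  rcases Nat.even_or_odd (k + 1) with hev | hodd
  · obtain ⟨m, hm⟩ := hev
    have hm' : k + 1 = 2 * m := by omega
    have hmpos : 0 < m := by omega
    have e1 : (k + 1) * k / 2 = m * k := by
      rw [hm', mul_assoc, Nat.mul_div_cancel_left _ (by omega)]
    have hkodd : Odd k := ⟨m - 1, by omega⟩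
    have hsq : a ^ m * a ^ m = 1 := by
      rw [← pow_add, ← two_mul, ← hm', ha]
    have hcase1 : a ^ m = 1 → ∃ x y : Cfsg.SU (k + 1) F q, g = x * y * x⁻¹ * y⁻¹ := by
      intro h1
      refine central_onb hF a 1 ha haq (one_pow _) ?_ g hg
      rw [e1, pow_mul, h1]
      simp
    rcases mul_self_eq_one_iff.1 hsq with h1 | h1
    · exact hcase1 h1
    · by_cases hne : (-1 : F) = 1
      · exact hcase1 (h1.trans hne)
      have hq : Odd q := by
        by_contra hq
        rw [Nat.not_odd_iff_even] at hq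
        have h2 := pow_q_neg hF (1 : F)
        rw [hq.neg_one_pow] at h2
        simp only [neg_one_pow_eq_pow_mod_two, one_pow] at h2
        exact hne (by linear_combination -h2)
      have hq0 : 0 < q := hq.pos
      obtain ⟨v, r, hr, hvr⟩ := Nat.exists_eq_two_pow_mul_odd (n := k + 1) (by omega)
      obtain ⟨w, r', hr', hwr⟩ := Nat.exists_eq_two_pow_mul_odd (n := q + 1) (by omega)
      have hv : 1 ≤ v := by
        by_contra h
        have : v = 0 := by omega
        subst this
        obtain ⟨u, hu⟩ := hr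
        simp at hvr
        omega
      have hmr : m = 2 ^ (v - 1) * r := by
        have : 2 ^ v = 2 * 2 ^ (v - 1) := by
          rw [← pow_succ']
          congr 1
          omega
        rw [this] at hvr
        rw [hm'] at hvr
        have : 2 * m = 2 * (2 ^ (v - 1) * r) := by rw [hvr]; ring
        omega
      have hvw : v ≤ w := by
        by_contra h
        have h3 : a ^ (m * r') = -1 := by
          rw [pow_mul, h1, hr'.neg_one_pow]
        have h4 : a ^ (m * r') = 1 := by
          have : m * r' = (q + 1) * (2 ^ (v - 1 - w) * r) := by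
            rw [hmr, hwr]
            have : 2 ^ (v - 1) = 2 ^ w * 2 ^ (v - 1 - w) := by
              rw [← pow_add]
              congr 1
              omega
            rw [this]
            ring
          rw [this, pow_mul, haq, one_pow]
        exact hne (h3.symm.trans h4)
      have hqm : 2 ∣ q - 1 := by
        obtain ⟨u, hu⟩ := hq
        exact ⟨u, by omega⟩
      have hfac : q ^ 2 - 1 = (q + 1) * (q - 1) := by
        obtain ⟨u, hu⟩ : ∃ u, q = u + 1 := ⟨q - 1, by omega⟩
        subst hu
        simp only [Nat.add_sub_cancel]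
        have : (u + 1) ^ 2 = (u + 1 + 1) * u + 1 := by ring
        omega
      have hdv : 2 * 2 ^ v ∣ q ^ 2 - 1 := by
        rw [hfac, mul_comm 2]
        refine Nat.mul_dvd_mul ?_ hqm
        rw [hwr]
        exact Dvd.dvd.mul_right (pow_dvd_pow 2 hvw) _
      obtain ⟨c, -, hc⟩ := exists_root_neg_one hF (2 ^ v) hdv (by positivity)
      have hcn : c ^ (k + 1) = -1 := by
        rw [hvr, pow_mul, hc, hr.neg_one_pow]
      have hcq : c ^ (q + 1) = 1 ∨ c ^ (q + 1) = -1 := by
        rw [hwr]
        rcases hvw.lt_or_eq with hlt | rfl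
        · left
          have : 2 ^ w = 2 ^ v * 2 ^ (w - v) := by
            rw [← pow_add]
            congr 1
            omega
          rw [this, pow_mul, pow_mul, hc]
          have hev2 : Even (2 ^ (w - v)) := by
            apply Even.pow_of_ne_zero even_two
            omega
          rw [hev2.neg_one_pow, one_pow]
        · right
          rw [pow_mul, hc, hr'.neg_one_pow]
      rcases hcq with hcq | hcq
      · refine central_onb hF a c ha haq hcq ?_ g hg
        rw [e1, pow_mul, h1, hcn, hkodd.neg_one_pow]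
        ring
      · have hdq : 2 * (q - 1) ∣ q ^ 2 - 1 := by
          rw [hfac]
          refine Nat.mul_dvd_mul ?_ dvd_rfl
          rw [hwr]
          obtain ⟨u, hu⟩ := hq
          have hev3 : Even (q + 1) := ⟨u + 1, by omega⟩
          rw [hwr] at hev3
          exact hev3.two_dvd
        have hq2 : 0 < q - 1 := by
          rcases Nat.lt_or_ge 1 q with h | h
          · omega
          · -- `q = 1`: the field would have one element
            have : q = 1 := by omega
            subst this
            have : 1 < Fintype.card F := Fintype.one_lt_card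
            omega
        obtain ⟨y, hy0, hy⟩ := exists_root_neg_one hF (q - 1) hdq hq2
        have hyq : y * (y⁻¹) ^ q = -1 := by
          have : y ^ q = y ^ (q - 1) * y := by
            rw [← pow_succ]
            congr 1
            omega
          rw [inv_pow, this, hy]
          field_simp
        refine central_witt hF m hmpos hm' a c y haq h1 hcq ?_ hy0 hyq g hg
        rw [← hm']
        exact hcn
  · obtain ⟨r, hr⟩ := hodd
    refine central_onb hF a 1 ha haq (one_pow _) ?_ g hg
    have : (k + 1) * k / 2 = (k + 1) * r := by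
      have : k = 2 * r := by omega
      rw [this, mul_left_comm, Nat.mul_div_cancel_left _ (by omega)]
    rw [this, pow_mul, ha]
    simp

end Cfsg.Agent.Lib.OreU
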