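import Mathlib
import Cfsg.Agent.Lib.OreU.Good
import Cfsg.Agent.Lib.OrePlus.Factor
import Cfsg.Agent.Lib.OreOmega.Main

/-!
# The factorization for `q ≥ 3`
-/

set_option autoImplicit false
set_option linter.unusedSectionVars false
set_option linter.unusedSimpArgs false
set_option linter.unusedVariables false

namespace Cfsg.Agent.Lib.OreU

open Matrix Polynomial
open Cfsg.Agent.Lib.Classical.Herm.Basic

variable {F : Type*} [Field F] [Fintype F] {q m : ℕ}

/-- Roots of `dag`. -/
theorem dag_eval_eq_zero_iff (hF : Fintype.card F = q ^ 2) (g : F[X]) {a : F} (ha : a ≠ 0) :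
    (dag hF g).eval a = 0 ↔ g.eval ((a ^ q)⁻¹) = 0 := by
  have haq : a ^ q ≠ 0 := pow_ne_zero _ ha
  have h1 : (dag hF g).eval a = sigma hF ((g.reverse).eval (a ^ q)) := by
    unfold dag
    have h2 : a = sigma hF (a ^ q) := (pow_q_pow_q hF a).symm
    conv_lhs => rw [h2]
    rw [eval_map, eval₂_at_apply]
  have hinv : ∀ x : F, sigma hF x = 0 ↔ x = 0 := fun x => map_eq_zero _
  rw [h1, hinv]
  haveI : Invertible (a ^ q)⁻¹ := invertibleOfNonzero (inv_ne_zero haq)
  have h3 := eval₂_reverse_mul_pow (RingHom.id F) ((a ^ q)⁻¹) g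
  have h4 : ⅟((a ^ q)⁻¹) = a ^ q := by
    rw [invOf_eq_inv, inv_inv]
  rw [h4] at h3
  simp only [eval₂_id] at h3
  constructor
  · intro h
    rw [← h3, h, zero_mul]
  · intro h
    rw [h] at h3
    have h5 : ((a ^ q)⁻¹) ^ g.natDegree ≠ 0 := pow_ne_zero _ (inv_ne_zero haq)
    exact (mul_eq_zero.1 h3).resolve_right h5

theorem dag_mul (hF : Fintype.card F = q ^ 2) (f g : F[X]) : dag hF (f * g) = dag hF f * dag hF g := by
  unfold dag
  rw [reverse_mul_of_domain, Polynomial.map_mul]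

/-- The polynomial. -/
theorem exists_polyU (hF : Fintype.card F = q ^ 2) (hq : 3 ≤ q) (d : ℕ) (hd : 2 ≤ d) :
    ∃ (p : F[X]) (κ : F), p.Monic ∧ Irreducible p ∧ p.natDegree = d ∧ κ ≠ 0 ∧
      (-1) ^ d * p.coeff 0 * κ = 1 ∧ κ ^ (q + 1) ≠ 1 ∧ ¬ p ∣ dag hF p := by
  classical
  obtain ⟨ℓ, k, hℓp, hℓc, hqk⟩ := exists_char_pow hF
  haveI : Fact ℓ.Prime := ⟨hℓp⟩
  haveI : CharP F ℓ := hℓc
  haveI : NeZero d := ⟨by omega⟩
  let K := FiniteField.Extension F ℓ d
  haveI : Fintype K := Fintype.ofFinite K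
  haveI : CharP K ℓ := charP_of_injective_algebraMap (algebraMap F K).injective ℓ
  set Q := Fintype.card F with hQdef
  have hfr : Module.finrank F K = d := FiniteField.finrank_extension F ℓ d
  have hcard : Fintype.card K = Q ^ d := by
    rw [Module.card_eq_pow_finrank (K := F) (V := K), hfr]
  obtain ⟨σ, hσ⟩ := IsCyclic.exists_generator (α := Kˣ)
  have hord : orderOf σ = Q ^ d - 1 := by
    rw [orderOf_eq_card_of_forall_mem_zpowers hσ, Nat.card_eq_fintype_card, Fintype.card_units, hcard]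
  set s : K := (σ : K) with hs
  have hpow : ∀ n : ℕ, s ^ n = 1 → Q ^ d - 1 ∣ n := by
    intro n hn
    rw [← hord]
    apply orderOf_dvd_of_pow_eq_one
    apply Units.ext
    simpa using hn
  have hint : IsIntegral F s := Algebra.IsIntegral.isIntegral s
  set p := minpoly F s with hp
  have htop : Algebra.adjoin F {s} = ⊤ := by
    rw [eq_top_iff]
    intro x _
    by_cases hx : x = 0
    · rw [hx]
      exact Subalgebra.zero_mem _
    · obtain ⟨n, hn⟩ := hσ (Units.mk0 x hx)
      have hσ0 : 0 < orderOf σ := orderOf_pos σ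
      have h1 : Units.mk0 x hx = σ ^ (n % (orderOf σ : ℤ)).toNat := by
        have h2 : (σ ^ n) = σ ^ (n % (orderOf σ : ℤ)) := (zpow_mod_orderOf σ n).symm
        have h3 : 0 ≤ n % (orderOf σ : ℤ) := Int.emod_nonneg _ (by exact_mod_cast hσ0.ne')
        rw [← hn]
        show σ ^ n = _
        rw [h2]
        conv_lhs => rw [← Int.toNat_of_nonneg h3]
        exact zpow_natCast _ _
      have h2 : x = s ^ (n % (orderOf σ : ℤ)).toNat := by
        have := congrArg Units.val h1
        simpa using this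
      rw [h2]
      exact Subalgebra.pow_mem _ (Algebra.subset_adjoin (Set.mem_singleton s)) _
  let pb : PowerBasis F K := PowerBasis.ofAdjoinEqTop hint htop
  have hgen : pb.gen = s := PowerBasis.ofAdjoinEqTop_gen hint htop
  have hdim : pb.dim = d := by
    have h2 := pb.finrank
    rw [hfr] at h2
    exact h2.symm
  have hdeg : p.natDegree = d := by
    have h1 : pb.dim = p.natDegree := PowerBasis.ofAdjoinEqTop_dim hint htop
    omega
  have hnorm : Algebra.norm F s = (-1) ^ d * p.coeff 0 := by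
    have := Algebra.PowerBasis.norm_gen_eq_coeff_zero_minpoly pb
    rw [hgen, ← hp, hdim] at this
    exact this
  have hQq : Q = q * q := by rw [hF, pow_two]
  have hq1 : 1 < Q := by nlinarith
  have hN0 : Algebra.norm F s ≠ 0 := by
    rw [Ne, Algebra.norm_eq_zero_iff]
    exact σ.ne_zero
  -- the norm condition
  have hN : (Algebra.norm F s) ^ (q + 1) ≠ 1 := by
    intro h1
    have h2 := FiniteField.algebraMap_norm_eq_pow (K := F) (K' := K) (x := s)
    rw [Nat.card_eq_fintype_card, Nat.card_eq_fintype_card, hcard] at h2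
    have h3 : s ^ ((Q ^ d - 1) / (Q - 1) * (q + 1)) = 1 := by
      rw [pow_mul, ← h2, ← map_pow, h1, map_one]
    have h4 := hpow _ h3
    have h5 : Q - 1 ∣ Q ^ d - 1 := by
      simpa using Nat.sub_dvd_pow_sub_pow Q 1 d
    set e := (Q ^ d - 1) / (Q - 1) with he
    have h6 : e * (Q - 1) = Q ^ d - 1 := Nat.div_mul_cancel h5
    have hQd : Q ^ d ≥ Q ^ 2 := Nat.pow_le_pow_right (by omega) hd
    have hQ2 : Q ^ 2 > 1 := by nlinarith
    have he0 : 0 < e := by
      rcases Nat.eq_zero_or_pos e with h | h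
      · rw [h, zero_mul] at h6
        omega
      · exact h
    have h7 : Q - 1 = (q - 1) * (q + 1) := by
      obtain ⟨t, rfl⟩ : ∃ t, q = t + 1 := ⟨q - 1, by omega⟩
      rw [hQq]
      simp only [Nat.add_sub_cancel]
      have : (t + 1) * (t + 1) = t * (t + 1 + 1) + 1 := by ring
      rw [this]
      simp
    rw [← h6, h7] at h4
    have h8 := Nat.le_of_dvd (by positivity) h4
    have h9 : e * ((q - 1) * (q + 1)) = (e * (q + 1)) * (q - 1) := by ring
    rw [h9] at h8
    have h10 : (e * (q + 1)) * (q - 1) ≥ (e * (q + 1)) * 2 := Nat.mul_le_mul_left _ (by omega)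
    have h11 : 0 < e * (q + 1) := by positivity
    omega
  refine ⟨p, (Algebra.norm F s)⁻¹, minpoly.monic hint, minpoly.irreducible hint, hdeg, inv_ne_zero hN0, ?_, ?_, ?_⟩
  · rw [← hnorm, mul_inv_cancel₀ hN0]
  · intro h
    apply hN
    rw [inv_pow] at h
    exact inv_eq_one.1 h
  · intro hdvd
    have hqe : q = ℓ ^ k := hqk
    have h1 : aeval s (dag hF p) = 0 := by
      obtain ⟨c, hc⟩ := hdvd
      rw [hc, map_mul, minpoly.aeval, zero_mul]
    set A := q ^ (2 * d - 1) with hA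
    set y : K := s ^ A with hy
    have hQd : Q ^ d = q * A := by
      rw [hQq, ← pow_two, ← pow_mul, hA, ← pow_succ']
      congr 1
      omega
    have hyq : y ^ q = s := by
      rw [hy, ← pow_mul, mul_comm, ← hQd, ← hcard]
      exact FiniteField.pow_card s
    set φ : K →+* K := iterateFrobenius K ℓ k with hφ
    have hφa : ∀ x : K, φ x = x ^ q := fun x => by
      rw [hφ, iterateFrobenius_def, hqe]
    have hy0 : y ≠ 0 := pow_ne_zero _ σ.ne_zero
    -- the root
    have h2 : aeval y p.reverse = 0 := by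
      have hcomp : (algebraMap F K).comp (sigma hF) = φ.comp (algebraMap F K) := by
        ext a
        simp only [RingHom.comp_apply, sigma_apply, map_pow, hφa]
      have h3 : aeval s (dag hF p) = φ (aeval y p.reverse) := by
        unfold dag
        rw [aeval_def, eval₂_map, hcomp, aeval_def, hom_eval₂, hφa y, hyq]
      rw [h3] at h1
      exact (map_eq_zero φ).1 h1
    haveI : Invertible (y⁻¹ : K) := invertibleOfNonzero (inv_ne_zero hy0)
    have h4 : aeval (y⁻¹) p = 0 := by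
      have h3 := eval₂_reverse_mul_pow (algebraMap F K) (y⁻¹) p
      have h5 : ⅟(y⁻¹) = y := by
        rw [invOf_eq_inv, inv_inv]
      rw [h5] at h3
      rw [aeval_def, ← h3, ← aeval_def, h2, zero_mul]
    obtain ⟨τ, hτ⟩ := minpoly.exists_algEquiv_of_root' hint.isAlgebraic h4
    obtain ⟨i, hi, hτi⟩ := FiniteField.Extension.exists_frob_pow_eq F ℓ d τ
    have h6 : s ^ (Q ^ i) = y⁻¹ := by
      rw [← hτ, ← hτi]
      have := FiniteField.Extension.frob_iterate_apply F ℓ d i (x := s)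
      rw [Nat.card_eq_fintype_card] at this
      exact this.symm
    have h7 : s ^ (Q ^ i + A) = 1 := by
      rw [pow_add, h6, ← hy, inv_mul_cancel₀ hy0]
    have hApos : A ≥ q := by
      rw [hA]
      calc q = q ^ 1 := (pow_one q).symm
        _ ≤ q ^ (2 * d - 1) := Nat.pow_le_pow_right (by omega) (by omega)
    have hQi : Q ^ i ≤ A := by
      rw [hQq, ← pow_two, ← pow_mul, hA]
      exact Nat.pow_le_pow_right (by omega) (by omega)
    have h8 := Nat.le_of_dvd (by omega) (hpow _ h7)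
    have h9 : q * A ≥ 3 * A := Nat.mul_le_mul_right _ hq
    omega

theorem coprime_linear_dag (hF : Fintype.card F = q ^ 2) {a b : F} (ha : a ≠ 0) (hab : a ^ q * b ≠ 1) :
    IsCoprime (X - C a) (dag hF (X - C b)) := by
  rw [(irreducible_X_sub_C a).coprime_iff_not_dvd, dvd_iff_isRoot, IsRoot.def, dag_eval_eq_zero_iff hF _ ha]
  simp only [eval_sub, eval_X, eval_C]
  intro h
  apply hab
  have h1 : (a ^ q)⁻¹ = b := sub_eq_zero.1 h
  rw [← h1]
  exact mul_inv_cancel₀ (pow_ne_zero _ ha)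

theorem coprime_linear (a b : F) (hab : a ≠ b) : IsCoprime (X - C a) (X - C b) := by
  rw [(irreducible_X_sub_C a).coprime_iff_not_dvd, dvd_iff_isRoot, IsRoot.def]
  simp only [eval_sub, eval_X, eval_C]
  exact sub_ne_zero.2 hab

/-- The data for `m ≥ 3`. -/
theorem exists_data_big (hF : Fintype.card F = q ^ 2) (hq : 3 ≤ q) (hm : 3 ≤ m) :
    ∃ (p : F[X]) (κ : F), p.Monic ∧ p.natDegree + 1 = m ∧ p.eval κ ≠ 0 ∧ (-1) ^ p.natDegree * p.coeff 0 * κ = 1 ∧
      IsCoprime ((X - C κ) * p) (dag hF ((X - C κ) * p)) ∧ IsCoprime ((X - C κ) * p) (X - 1) ∧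
      ((X - C κ) * p).coeff 0 ≠ 0 := by
  classical
  obtain ⟨p, κ, hp, hirr, hdeg, hκ0, hrel, hκq, hdag⟩ := exists_polyU hF hq (m - 1) (by omega)
  have hd : p.natDegree + 1 = m := by omega
  have hnoroot : ∀ a : F, p.eval a ≠ 0 := by
    intro a ha
    have := degree_eq_one_of_irreducible_of_root hirr ha
    have h2 : p.natDegree = 1 := natDegree_eq_of_degree_eq_some this
    omega
  have hκκ : κ ^ q * κ ≠ 1 := by
    rw [← pow_succ]
    exact hκq
  have hκ1 : κ ≠ 1 := by
    intro h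
    apply hκq
    rw [h, one_pow]
  have c1 := coprime_linear_dag hF hκ0 hκκ
  have c2 : IsCoprime (X - C κ) (dag hF p) := by
    rw [(irreducible_X_sub_C κ).coprime_iff_not_dvd, dvd_iff_isRoot, IsRoot.def, dag_eval_eq_zero_iff hF _ hκ0]
    exact hnoroot _
  have hD1deg : (dag hF (X - C κ)).natDegree ≤ 1 := by
    unfold dag
    refine (natDegree_map_le).trans ?_
    refine (reverse_natDegree_le _).trans ?_
    rw [natDegree_X_sub_C]
  have hD1ne : dag hF (X - C κ) ≠ 0 := by
    intro h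
    rw [h] at c1
    have := (isCoprime_zero_right).1 c1
    exact not_isUnit_X_sub_C κ this
  have c3 : IsCoprime p (dag hF (X - C κ)) := by
    rw [hirr.coprime_iff_not_dvd]
    intro h
    have h5 := natDegree_le_of_dvd h hD1ne
    omega
  have c4 : IsCoprime p (dag hF p) := by
    rw [hirr.coprime_iff_not_dvd]
    exact hdag
  have c5 : IsCoprime (X - C κ) (X - 1 : F[X]) := by
    have := coprime_linear κ 1 hκ1
    simpa using this
  have c6 : IsCoprime p (X - 1 : F[X]) := by
    rw [hirr.coprime_iff_not_dvd]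
    intro h
    have h5 := natDegree_le_of_dvd h (X_sub_C_ne_zero (1 : F) |> fun h' => by simpa using h')
    have h6 : (X - 1 : F[X]).natDegree = 1 := by
      have := natDegree_X_sub_C (1 : F)
      simpa using this
    omega
  refine ⟨p, κ, hp, hd, hnoroot κ, by rw [hdeg]; exact hrel, ?_, ?_, ?_⟩
  · rw [dag_mul]
    exact IsCoprime.mul_left (IsCoprime.mul_right c1 c2) (IsCoprime.mul_right c3 c4)
  · exact IsCoprime.mul_left c5 c6
  · rw [mul_coeff_zero]
    simp only [coeff_sub, coeff_X_zero, coeff_C_zero, zero_sub]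
    refine mul_ne_zero (neg_ne_zero.2 hκ0) ?_
    intro h
    rw [h] at hrel
    simp at hrel

/-- The data for `m = 2`. -/
theorem exists_data_two (hF : Fintype.card F = q ^ 2) (hq : 3 ≤ q) :
    ∃ (p : F[X]) (κ : F), p.Monic ∧ p.natDegree + 1 = 2 ∧ p.eval κ ≠ 0 ∧ (-1) ^ p.natDegree * p.coeff 0 * κ = 1 ∧
      IsCoprime ((X - C κ) * p) (dag hF ((X - C κ) * p)) ∧ IsCoprime ((X - C κ) * p) (X - 1) ∧
      ((X - C κ) * p).coeff 0 ≠ 0 := by
  classical
  obtain ⟨σ, hσ⟩ := IsCyclic.exists_generator (α := Fˣ)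
  have hord : orderOf σ = q ^ 2 - 1 := by
    rw [orderOf_eq_card_of_forall_mem_zpowers hσ, Nat.card_eq_fintype_card, Fintype.card_units, hF]
  set κ : F := (σ : F) with hκ
  have hκ0 : κ ≠ 0 := σ.ne_zero
  have hpow : ∀ n : ℕ, 0 < n → κ ^ n = 1 → q ^ 2 - 1 ≤ n := by
    intro n hn h
    apply Nat.le_of_dvd hn
    rw [← hord]
    apply orderOf_dvd_of_pow_eq_one
    apply Units.ext
    simpa using h
  have hqq : q ^ 2 = q * q := pow_two q
  have hqq3 : q * q ≥ 3 * q := Nat.mul_le_mul_right q hq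
  have e1 : κ ^ (q + 1) ≠ 1 := by
    intro h
    have := hpow _ (by omega) h
    omega
  have e2 : κ ^ (q - 1) ≠ 1 := by
    intro h
    have := hpow _ (by omega) h
    omega
  have e3 : κ ^ 2 ≠ 1 := by
    intro h
    have := hpow _ (by omega) h
    omega
  have hκ1 : κ ≠ 1 := by
    intro h
    apply e3
    rw [h, one_pow]
  have hqe : κ ^ q = κ ^ (q - 1) * κ := by
    rw [← pow_succ]
    congr 1
    omega
  set β := κ⁻¹ with hβ
  have hβ0 : β ≠ 0 := inv_ne_zero hκ0
  have hκβ : κ * β = 1 := mul_inv_cancel₀ hκ0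
  have hκneβ : κ ≠ β := by
    intro h
    apply e3
    rw [pow_two]
    nth_rewrite 2 [h]
    exact hκβ
  have hβ1 : β ≠ 1 := by
    intro h
    apply hκ1
    have := hκβ
    rw [h, mul_one] at this
    exact this
  have hβq : β ^ q * κ ^ q = 1 := by
    rw [← mul_pow, mul_comm, hκβ, one_pow]
  have c1 := coprime_linear_dag hF (a := κ) (b := κ) hκ0 (by
    rw [← pow_succ]
    exact e1)
  have c2 := coprime_linear_dag hF (a := κ) (b := β) hκ0 (by
    rw [hqe, mul_assoc, hκβ, mul_one]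
    exact e2)
  have c3 := coprime_linear_dag hF (a := β) (b := κ) hβ0 (by
    intro h
    apply e2
    have h5 : β ^ q * κ ^ (q - 1) * κ = 1 := by rw [mul_assoc, ← hqe]; exact hβq
    have h6 : (β ^ q * κ) * κ ^ (q - 1) = 1 := by rw [← h5]; ring
    rw [h, one_mul] at h6
    exact h6)
  have c4 := coprime_linear_dag hF (a := β) (b := β) hβ0 (by
    intro h
    apply e1
    have h5 : (β ^ q * β) * (κ ^ q * κ) = 1 := by
      calc (β ^ q * β) * (κ ^ q * κ) = (β ^ q * κ ^ q) * (κ * β) := by ring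
        _ = 1 := by rw [hβq, hκβ, mul_one]
    rw [h, one_mul] at h5
    rw [pow_succ]
    exact h5)
  refine ⟨X - C β, κ, monic_X_sub_C β, by rw [natDegree_X_sub_C], ?_, ?_, ?_, ?_, ?_⟩
  · simp only [eval_sub, eval_X, eval_C]
    exact sub_ne_zero.2 hκneβ
  · rw [natDegree_X_sub_C]
    simp only [coeff_sub, coeff_X_zero, coeff_C_zero, zero_sub, pow_one]
    rw [mul_comm κ β] at hκβ
    linear_combination hκβ
  · rw [dag_mul]
    exact IsCoprime.mul_left (IsCoprime.mul_right c1 c2) (IsCoprime.mul_right c3 c4)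
  · have c5 := coprime_linear κ 1 hκ1
    have c6 := coprime_linear β 1 hβ1
    simp only [map_one] at c5 c6
    exact IsCoprime.mul_left c5 c6
  · rw [mul_coeff_zero]
    simp only [coeff_sub, coeff_X_zero, coeff_C_zero, zero_sub]
    exact mul_ne_zero (neg_ne_zero.2 hκ0) (neg_ne_zero.2 hβ0)

/-- **The factorization for `q ≥ 3`.** -/
theorem fac_q3 (hF : Fintype.card F = q ^ 2) (hq : 3 ≤ q) (hm : 2 ≤ m) (T : GL (Fin m) F)
    (hdet : (T : Matrix (Fin m) (Fin m) F).det = 1)
    (hT : T = 1 ∨ ¬ ∃ a : F, (T : Matrix (Fin m) (Fin m) F) = a • 1) : Fac q T := by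
  classical
  have hdata : ∃ (p : F[X]) (κ : F), p.Monic ∧ p.natDegree + 1 = m ∧ p.eval κ ≠ 0 ∧ (-1) ^ p.natDegree * p.coeff 0 * κ = 1 ∧
      IsCoprime ((X - C κ) * p) (dag hF ((X - C κ) * p)) ∧ IsCoprime ((X - C κ) * p) (X - 1) ∧
      ((X - C κ) * p).coeff 0 ≠ 0 := by
    rcases Nat.lt_or_ge m 3 with h | h
    · obtain rfl : m = 2 := by omega
      exact exists_data_two hF hq
    · exact exists_data_big hF hq h
  obtain ⟨p, κ, hp, hpd, hκp, hκ1, Hc, Hc1, H0⟩ := hdata
  have good : ∀ B : GL (Fin m) F, (B : Matrix (Fin m) (Fin m) F).charpoly = (X - C κ) * p →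
      GoodM q (B : Matrix (Fin m) (Fin m) F) := fun B hB =>
    goodM_of_coprime hF B _ H0 (by rw [← hB]; exact Matrix.aeval_self_charpoly _) Hc Hc1
  by_cases hTns : ∃ a : F, (T : Matrix (Fin m) (Fin m) F) = a • 1
  · have hT1 : T = 1 := hT.resolve_right (not_not.2 hTns)
    obtain ⟨A, hA1, hA2⟩ := Cfsg.Agent.Lib.OreOmega.exists_nonscalar (F := F) (m := m) hm
    obtain ⟨B, D, G, -, hB, hD, -, -, hBdet⟩ :=
      Cfsg.Agent.Lib.OrePlus.exists_matrix_factor2 hp hpd hκp hκ1 A hA1 hA2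
    refine ⟨B, B, 1, ?_, ?_, by simp, hBdet, good B hB, good B hB⟩
    · rw [hT1, mul_inv_cancel]
    · simp
  · obtain ⟨B, D, G, hTBD, hB, hD, hG, hGdet, hBdet⟩ :=
      Cfsg.Agent.Lib.OrePlus.exists_matrix_factor2 hp hpd hκp hκ1 T hdet hTns
    exact ⟨B, D, G, hTBD, hG, hGdet, hBdet, good B hB, good D hD⟩

end Cfsg.Agent.Lib.OreU
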