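import Mathlib
import Cfsg.Agent.Lib.OreU.Defs
import Cfsg.Agent.Lib.OreU.Good
import Cfsg.Agent.Lib.Compute.GF4
import Cfsg.Agent.Lib.Linalg.Lev.Decomp
import Cfsg.Agent.Lib.Linalg.Lev.Factor

/-!
# The factorization over `F_4` in dimensions `2` and `3` (piece F2S of `SU_n` Ore)
-/

set_option autoImplicit false
set_option linter.unusedSectionVars false

namespace Cfsg.Agent.Lib.OreU

open Matrix Polynomial Module
open Cfsg.Agent.Lib.Compute.GF4

namespace FacTwo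

/-- Companion form in dimension three. -/
def rA {K : Type*} [Zero K] [One K] (c1 c2 : K) : Matrix (Fin 3) (Fin 3) K :=
  !![0, 0, 1; 1, 0, c1; 0, 1, c2]

/-- Block form in dimension three. -/
def rB {K : Type*} [Zero K] [One K] (a c0 c1 : K) : Matrix (Fin 3) (Fin 3) K :=
  !![a, 0, 0; 0, 0, c0; 0, 1, c1]

/-- Companion form in dimension two. -/
def r2 {K : Type*} [Zero K] [One K] (c1 : K) : Matrix (Fin 2) (Fin 2) K :=
  !![0, 1; 1, c1]

def dA : F4 → F4 → Matrix (Fin 3) (Fin 3) F4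
  | F4.o, F4.o => !![F4.o, F4.o, F4.i; F4.i, F4.w, F4.i; F4.i, F4.v, F4.w]
  | F4.o, F4.i => !![F4.o, F4.o, F4.i; F4.i, F4.w, F4.w; F4.o, F4.i, F4.w]
  | F4.o, F4.w => !![F4.o, F4.o, F4.i; F4.o, F4.i, F4.v; F4.i, F4.w, F4.i]
  | F4.o, F4.v => !![F4.o, F4.o, F4.i; F4.o, F4.i, F4.w; F4.i, F4.v, F4.i]
  | F4.i, F4.o => !![F4.o, F4.o, F4.i; F4.i, F4.o, F4.i; F4.o, F4.i, F4.o]
  | F4.i, F4.i => !![F4.o, F4.o, F4.i; F4.o, F4.i, F4.i; F4.i, F4.i, F4.i]
  | F4.i, F4.w => !![F4.o, F4.o, F4.i; F4.o, F4.w, F4.i; F4.v, F4.i, F4.w]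
  | F4.i, F4.v => !![F4.o, F4.o, F4.i; F4.o, F4.v, F4.i; F4.w, F4.i, F4.v]
  | F4.w, F4.o => !![F4.o, F4.o, F4.i; F4.w, F4.v, F4.o; F4.v, F4.w, F4.v]
  | F4.w, F4.i => !![F4.o, F4.o, F4.i; F4.v, F4.v, F4.v; F4.i, F4.v, F4.v]
  | F4.w, F4.w => !![F4.o, F4.o, F4.i; F4.i, F4.i, F4.w; F4.v, F4.w, F4.i]
  | F4.w, F4.v => !![F4.o, F4.o, F4.i; F4.i, F4.v, F4.o; F4.v, F4.v, F4.v]
  | F4.v, F4.o => !![F4.o, F4.o, F4.i; F4.v, F4.w, F4.o; F4.w, F4.v, F4.w]
  | F4.v, F4.i => !![F4.o, F4.o, F4.i; F4.w, F4.w, F4.w; F4.i, F4.w, F4.w]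
  | F4.v, F4.w => !![F4.o, F4.o, F4.i; F4.i, F4.w, F4.o; F4.w, F4.w, F4.w]
  | F4.v, F4.v => !![F4.o, F4.o, F4.i; F4.i, F4.i, F4.v; F4.w, F4.v, F4.i]

def gA : F4 → F4 → Matrix (Fin 3) (Fin 3) F4
  | F4.o, F4.o => !![F4.o, F4.i, F4.o; F4.i, F4.w, F4.v; F4.i, F4.i, F4.w]
  | F4.o, F4.i => !![F4.o, F4.w, F4.w; F4.o, F4.i, F4.w; F4.i, F4.o, F4.i]
  | F4.o, F4.w => !![F4.o, F4.i, F4.i; F4.o, F4.o, F4.i; F4.i, F4.w, F4.i]
  | F4.o, F4.v => !![F4.o, F4.i, F4.i; F4.o, F4.o, F4.i; F4.i, F4.v, F4.i]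
  | F4.i, F4.o => !![F4.o, F4.o, F4.i; F4.o, F4.i, F4.o; F4.i, F4.i, F4.i]
  | F4.i, F4.i => !![F4.o, F4.o, F4.i; F4.o, F4.i, F4.o; F4.i, F4.o, F4.o]
  | F4.i, F4.w => !![F4.o, F4.v, F4.v; F4.o, F4.v, F4.i; F4.i, F4.w, F4.v]
  | F4.i, F4.v => !![F4.o, F4.w, F4.w; F4.o, F4.w, F4.i; F4.i, F4.v, F4.w]
  | F4.w, F4.o => !![F4.o, F4.o, F4.i; F4.i, F4.w, F4.o; F4.w, F4.w, F4.o]
  | F4.w, F4.i => !![F4.o, F4.w, F4.v; F4.i, F4.i, F4.w; F4.w, F4.v, F4.w]
  | F4.w, F4.w => !![F4.o, F4.v, F4.w; F4.i, F4.w, F4.w; F4.o, F4.i, F4.i]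
  | F4.w, F4.v => !![F4.o, F4.o, F4.v; F4.i, F4.w, F4.i; F4.w, F4.i, F4.i]
  | F4.v, F4.o => !![F4.o, F4.o, F4.i; F4.i, F4.v, F4.o; F4.v, F4.v, F4.o]
  | F4.v, F4.i => !![F4.o, F4.v, F4.w; F4.i, F4.i, F4.v; F4.v, F4.w, F4.v]
  | F4.v, F4.w => !![F4.o, F4.o, F4.w; F4.i, F4.v, F4.i; F4.v, F4.i, F4.i]
  | F4.v, F4.v => !![F4.o, F4.w, F4.v; F4.i, F4.v, F4.v; F4.o, F4.i, F4.i]

def dB : F4 → F4 → Matrix (Fin 3) (Fin 3) F4
  | F4.o, F4.o => !![F4.i, F4.o, F4.o; F4.o, F4.i, F4.o; F4.o, F4.o, F4.i]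
  | F4.o, F4.i => !![F4.i, F4.o, F4.o; F4.o, F4.i, F4.o; F4.o, F4.o, F4.i]
  | F4.o, F4.w => !![F4.i, F4.o, F4.o; F4.o, F4.i, F4.o; F4.o, F4.o, F4.i]
  | F4.o, F4.v => !![F4.i, F4.o, F4.o; F4.o, F4.i, F4.o; F4.o, F4.o, F4.i]
  | F4.i, F4.o => !![F4.i, F4.o, F4.o; F4.o, F4.i, F4.o; F4.o, F4.o, F4.i]
  | F4.i, F4.i => !![F4.o, F4.o, F4.i; F4.o, F4.i, F4.w; F4.i, F4.v, F4.i]
  | F4.i, F4.w => !![F4.o, F4.o, F4.i; F4.w, F4.o, F4.v; F4.v, F4.v, F4.o]
  | F4.i, F4.v => !![F4.o, F4.o, F4.i; F4.v, F4.o, F4.w; F4.w, F4.w, F4.o]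
  | F4.w, F4.o => !![F4.o, F4.o, F4.i; F4.o, F4.w, F4.w; F4.v, F4.v, F4.w]
  | F4.w, F4.i => !![F4.o, F4.o, F4.i; F4.v, F4.o, F4.i; F4.v, F4.w, F4.o]
  | F4.w, F4.w => !![F4.o, F4.o, F4.i; F4.i, F4.o, F4.v; F4.w, F4.i, F4.o]
  | F4.w, F4.v => !![F4.o, F4.o, F4.i; F4.i, F4.i, F4.o; F4.o, F4.i, F4.i]
  | F4.v, F4.o => !![F4.o, F4.o, F4.i; F4.o, F4.v, F4.v; F4.w, F4.w, F4.v]
  | F4.v, F4.i => !![F4.o, F4.o, F4.i; F4.w, F4.o, F4.i; F4.w, F4.v, F4.o]
  | F4.v, F4.w => !![F4.o, F4.o, F4.i; F4.i, F4.i, F4.o; F4.o, F4.i, F4.i]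
  | F4.v, F4.v => !![F4.o, F4.o, F4.i; F4.i, F4.o, F4.w; F4.v, F4.i, F4.o]

def gB : F4 → F4 → Matrix (Fin 3) (Fin 3) F4
  | F4.o, F4.o => !![F4.i, F4.o, F4.o; F4.o, F4.i, F4.o; F4.o, F4.o, F4.i]
  | F4.o, F4.i => !![F4.i, F4.o, F4.o; F4.o, F4.i, F4.o; F4.o, F4.o, F4.i]
  | F4.o, F4.w => !![F4.i, F4.o, F4.o; F4.o, F4.i, F4.o; F4.o, F4.o, F4.i]
  | F4.o, F4.v => !![F4.i, F4.o, F4.o; F4.o, F4.i, F4.o; F4.o, F4.o, F4.i]
  | F4.i, F4.o => !![F4.i, F4.o, F4.o; F4.o, F4.i, F4.o; F4.o, F4.o, F4.i]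
  | F4.i, F4.i => !![F4.o, F4.i, F4.i; F4.o, F4.o, F4.i; F4.i, F4.w, F4.v]
  | F4.i, F4.w => !![F4.o, F4.i, F4.i; F4.o, F4.v, F4.w; F4.i, F4.v, F4.v]
  | F4.i, F4.v => !![F4.o, F4.i, F4.i; F4.o, F4.w, F4.v; F4.i, F4.w, F4.w]
  | F4.w, F4.o => !![F4.o, F4.v, F4.i; F4.i, F4.v, F4.o; F4.w, F4.i, F4.w]
  | F4.w, F4.i => !![F4.o, F4.v, F4.o; F4.o, F4.w, F4.w; F4.i, F4.o, F4.w]
  | F4.w, F4.w => !![F4.o, F4.o, F4.i; F4.o, F4.i, F4.v; F4.i, F4.v, F4.o]
  | F4.w, F4.v => !![F4.o, F4.o, F4.v; F4.i, F4.v, F4.o; F4.o, F4.w, F4.w]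
  | F4.v, F4.o => !![F4.o, F4.w, F4.i; F4.i, F4.w, F4.o; F4.v, F4.i, F4.v]
  | F4.v, F4.i => !![F4.o, F4.w, F4.o; F4.o, F4.v, F4.v; F4.i, F4.o, F4.v]
  | F4.v, F4.w => !![F4.o, F4.o, F4.w; F4.i, F4.w, F4.o; F4.o, F4.v, F4.v]
  | F4.v, F4.v => !![F4.o, F4.o, F4.i; F4.o, F4.i, F4.w; F4.i, F4.w, F4.o]

def d2 : F4 → Matrix (Fin 2) (Fin 2) F4
  | F4.o => !![F4.i, F4.o; F4.o, F4.i]
  | F4.i => !![F4.o, F4.i; F4.i, F4.w]
  | F4.w => !![F4.o, F4.w; F4.v, F4.w]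
  | F4.v => !![F4.i, F4.v; F4.v, F4.v]

def g2 : F4 → Matrix (Fin 2) (Fin 2) F4
  | F4.o => !![F4.i, F4.o; F4.o, F4.i]
  | F4.i => !![F4.o, F4.v; F4.w, F4.i]
  | F4.w => !![F4.o, F4.w; F4.v, F4.i]
  | F4.v => !![F4.o, F4.i; F4.i, F4.o]

def d13 : Matrix (Fin 3) (Fin 3) F4 := !![F4.o, F4.o, F4.i; F4.o, F4.i, F4.i; F4.i, F4.i, F4.i]

def g13 : Matrix (Fin 3) (Fin 3) F4 := !![F4.o, F4.o, F4.i; F4.o, F4.i, F4.i; F4.i, F4.i, F4.i]

def d12 : Matrix (Fin 2) (Fin 2) F4 := !![F4.o, F4.i; F4.i, F4.w]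

def g12 : Matrix (Fin 2) (Fin 2) F4 := !![F4.o, F4.i; F4.i, F4.w]

/-- `det` in dimension three. -/
abbrev det3 (M : Matrix (Fin 3) (Fin 3) F4) : F4 :=
  M 0 0 * M 1 1 * M 2 2 - M 0 0 * M 1 2 * M 2 1 - M 0 1 * M 1 0 * M 2 2 +
    M 0 1 * M 1 2 * M 2 0 + M 0 2 * M 1 0 * M 2 1 - M 0 2 * M 1 1 * M 2 0

/-- `det` in dimension two. -/
abbrev det2 (M : Matrix (Fin 2) (Fin 2) F4) : F4 := M 0 0 * M 1 1 - M 0 1 * M 1 0

/-- The checks in dimension three. -/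
abbrev Ck3 (R D G : Matrix (Fin 3) (Fin 3) F4) : Prop :=
  det3 R = 1 ∧ det3 D = 1 ∧ det3 G = 1 ∧ G * D = R * D * G ∧ D * D * D + D + 1 = 0 ∧
    (R * D) * (R * D) * (R * D) + (R * D) + 1 = 0

/-- The checks in dimension two. -/
abbrev Ck2 (R D G : Matrix (Fin 2) (Fin 2) F4) : Prop :=
  det2 R = 1 ∧ det2 D = 1 ∧ det2 G = 1 ∧ G * D = R * D * G ∧
    D * D + (F4.w • (1 : Matrix (Fin 2) (Fin 2) F4)) * D + 1 = 0 ∧
    (R * D) * (R * D) + (F4.w • (1 : Matrix (Fin 2) (Fin 2) F4)) * (R * D) + 1 = 0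

theorem ck_A : ∀ c1 c2 : F4, Ck3 (rA c1 c2) (dA c1 c2) (gA c1 c2) := by decide +kernel

theorem ck_B : ∀ a c1 : F4, a ≠ 0 → ¬ (a = 1 ∧ c1 = 0) → Ck3 (rB a a⁻¹ c1) (dB a c1) (gB a c1) := by
  decide +kernel

theorem ck_2 : ∀ c1 : F4, c1 ≠ 0 → Ck2 (r2 c1) (d2 c1) (g2 c1) := by decide +kernel

theorem ck_13 : Ck3 1 d13 g13 := by decide +kernel

theorem ck_12 : Ck2 1 d12 g12 := by decide +kernel

theorem det3_eq (M : Matrix (Fin 3) (Fin 3) F4) : M.det = det3 M := by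
  rw [Matrix.det_fin_three]

theorem det2_eq (M : Matrix (Fin 2) (Fin 2) F4) : M.det = det2 M := by
  rw [Matrix.det_fin_two]


section Transport

variable {F : Type*} [Field F] [Fintype F] {n : ℕ}

/-- Conjugate of the image of a matrix over `F4`. -/
noncomputable def psi (φ : F4 →+* F) (g : GL (Fin n) F) :
    Matrix (Fin n) (Fin n) F4 →+* Matrix (Fin n) (Fin n) F where
  toFun M := (g : Matrix (Fin n) (Fin n) F) * M.map φ * ((g⁻¹ : GL (Fin n) F) : Matrix (Fin n) (Fin n) F)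
  map_one' := by
    have h1 : (1 : Matrix (Fin n) (Fin n) F4).map φ = 1 := Matrix.map_one φ (map_zero φ) (map_one φ)
    rw [h1, mul_one, ← Units.val_mul, mul_inv_cancel, Units.val_one]
  map_mul' A B := by
    have hgg : ((g⁻¹ : GL (Fin n) F) : Matrix (Fin n) (Fin n) F) * (g : Matrix (Fin n) (Fin n) F) = 1 := by
      rw [← Units.val_mul, inv_mul_cancel, Units.val_one]
    rw [Matrix.map_mul]
    calc (g : Matrix (Fin n) (Fin n) F) * (A.map φ * B.map φ) * ((g⁻¹ : GL (Fin n) F) : Matrix (Fin n) (Fin n) F)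
        = (g : Matrix (Fin n) (Fin n) F) * A.map φ * (((g⁻¹ : GL (Fin n) F) : Matrix (Fin n) (Fin n) F) *
            (g : Matrix (Fin n) (Fin n) F)) * B.map φ *
            ((g⁻¹ : GL (Fin n) F) : Matrix (Fin n) (Fin n) F) := by
          rw [hgg]; simp only [mul_one, mul_assoc]
      _ = _ := by simp only [mul_assoc]
  map_zero' := by
    have h0 : (0 : Matrix (Fin n) (Fin n) F4).map φ = 0 := Matrix.map_zero φ (map_zero φ)
    rw [h0, mul_zero, zero_mul]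
  map_add' A B := by
    have hadd : (A + B).map φ = A.map φ + B.map φ := by
      ext i j; simp [Matrix.map_apply, map_add]
    rw [hadd, mul_add, add_mul]

theorem psi_apply (φ : F4 →+* F) (g : GL (Fin n) F) (M : Matrix (Fin n) (Fin n) F4) :
    psi φ g M = (g : Matrix (Fin n) (Fin n) F) * M.map φ *
      ((g⁻¹ : GL (Fin n) F) : Matrix (Fin n) (Fin n) F) := rfl

theorem det_psi (φ : F4 →+* F) (g : GL (Fin n) F) (M : Matrix (Fin n) (Fin n) F4) :
    (psi φ g M).det = φ M.det := by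
  have hgg : (g : Matrix (Fin n) (Fin n) F).det *
      ((g⁻¹ : GL (Fin n) F) : Matrix (Fin n) (Fin n) F).det = 1 := by
    rw [← Matrix.det_mul, ← Units.val_mul, mul_inv_cancel, Units.val_one, Matrix.det_one]
  rw [psi_apply, Matrix.det_mul, Matrix.det_mul, RingHom.map_det]
  rw [mul_comm ((g : Matrix (Fin n) (Fin n) F).det), mul_assoc, hgg, mul_one]
  rfl

/-- The factorization from a witness over `F4`. -/
theorem fac_of_witness (hF : Fintype.card F = 2 ^ 2) (φ : F4 →+* F) (g : GL (Fin n) F)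
    (R D G : Matrix (Fin n) (Fin n) F4) (hR : R.det = 1) (hD : D.det = 1) (hG : G.det = 1)
    (hGD : G * D = R * D * G) (f : F[X]) (h0 : f.coeff 0 ≠ 0)
    (c1 : IsCoprime f (dag hF f)) (c2 : IsCoprime f (X - 1))
    (hfD : aeval (psi φ g D) f = 0) (hfB : aeval (psi φ g (R * D)) f = 0)
    (T : GL (Fin n) F) (hT : (T : Matrix (Fin n) (Fin n) F) = psi φ g R) : Fac 2 T := by
  have h1 : (psi φ g D).det ≠ 0 := by rw [det_psi, hD, map_one]; exact one_ne_zero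
  have h2 : (psi φ g G).det ≠ 0 := by rw [det_psi, hG, map_one]; exact one_ne_zero
  let D₀ : GL (Fin n) F := Matrix.GeneralLinearGroup.mkOfDetNeZero (psi φ g D) h1
  let G₀ : GL (Fin n) F := Matrix.GeneralLinearGroup.mkOfDetNeZero (psi φ g G) h2
  have hD₀ : (D₀ : Matrix (Fin n) (Fin n) F) = psi φ g D := rfl
  have hG₀ : (G₀ : Matrix (Fin n) (Fin n) F) = psi φ g G := rfl
  have hB₀ : ((T * D₀ : GL (Fin n) F) : Matrix (Fin n) (Fin n) F) = psi φ g (R * D) := by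
    rw [Units.val_mul, hT, hD₀, map_mul]
  refine ⟨T * D₀, D₀, G₀, by simp, ?_, ?_, ?_, ?_, ?_⟩
  · rw [mul_inv_eq_iff_eq_mul]
    apply Units.ext
    rw [Units.val_mul, Units.val_mul, hB₀, hD₀, hG₀, ← map_mul, hGD, map_mul]
  · rw [hG₀, det_psi, hG, map_one]
  · rw [hB₀, det_psi, Matrix.det_mul, hR, hD, mul_one, map_one]
  · refine goodM_of_coprime hF (T * D₀) f h0 ?_ c1 c2
    rw [hB₀]; exact hfB
  · refine goodM_of_coprime hF D₀ f h0 ?_ c1 c2
    rw [hD₀]; exact hfD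

end Transport

section Poly

variable {F : Type*} [Field F] [Fintype F]

theorem two_eq_zero_of_card (hF : Fintype.card F = 2 ^ 2) : (2 : F) = 0 := by
  have e := equivOfCard F (by rw [hF]; norm_num)
  have h := F4.two_eq_zero
  have h2 : e.symm (2 : F4) = 2 := map_ofNat e.symm 2
  rw [← h2, h, map_zero]

/-- The polynomial of dimension three. -/
noncomputable def f3 (F : Type*) [Field F] : F[X] := X ^ 3 + X + 1

theorem reverse_f3 : (f3 F).reverse = X ^ 3 + X ^ 2 + 1 := by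
  have hd : (f3 F).natDegree = 3 := by
    unfold f3; compute_degree!
  rw [Polynomial.reverse, hd]
  unfold f3
  have h1 : reflect 3 (X ^ 3 : F[X]) = 1 := by
    rw [show (X ^ 3 : F[X]) = C 1 * X ^ 3 by simp, reflect_C_mul_X_pow]; simp [revAt_le]
  have h2 : reflect 3 (X : F[X]) = X ^ 2 := by
    rw [show (X : F[X]) = C 1 * X ^ 1 by simp, reflect_C_mul_X_pow]; simp [revAt_le]
  have h3 : reflect 3 (1 : F[X]) = X ^ 3 := by
    rw [show (1 : F[X]) = C 1 * X ^ 0 by simp, reflect_C_mul_X_pow]; simp [revAt_le]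
  rw [reflect_add, reflect_add, h1, h2, h3]
  ring

theorem dag_f3 (hF : Fintype.card F = 2 ^ 2) : dag hF (f3 F) = X ^ 3 + X ^ 2 + 1 := by
  unfold dag
  rw [reverse_f3]
  simp

theorem coprime_f3_dag (hF : Fintype.card F = 2 ^ 2) : IsCoprime (f3 F) (dag hF (f3 F)) := by
  rw [dag_f3 hF]
  have h2 : (2 : F[X]) = 0 := by
    rw [show (2 : F[X]) = C (2 : F) from (map_ofNat C 2).symm, two_eq_zero_of_card hF, C_0]
  refine ⟨X, X + 1, ?_⟩
  unfold f3
  linear_combination (X ^ 4 + X ^ 3 + X ^ 2 + X) * h2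

theorem coprime_f3_one (hF : Fintype.card F = 2 ^ 2) : IsCoprime (f3 F) (X - 1) := by
  have h2 : (2 : F[X]) = 0 := by
    rw [show (2 : F[X]) = C (2 : F) from (map_ofNat C 2).symm, two_eq_zero_of_card hF, C_0]
  refine ⟨1, -(X ^ 2 + X + 2), ?_⟩
  unfold f3
  linear_combination h2

theorem coeff_f3 : (f3 F).coeff 0 ≠ 0 := by
  unfold f3
  simp [coeff_X, coeff_X_pow, coeff_one]

/-- The polynomial of dimension two. -/
noncomputable def f2 (ω : F) : F[X] := X ^ 2 + C ω * X + 1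

theorem reverse_f2 (ω : F) : (f2 ω).reverse = X ^ 2 + C ω * X + 1 := by
  have hd : (f2 ω).natDegree = 2 := by
    unfold f2; compute_degree!
  rw [Polynomial.reverse, hd]
  unfold f2
  have h1 : reflect 2 (X ^ 2 : F[X]) = 1 := by
    rw [show (X ^ 2 : F[X]) = C 1 * X ^ 2 by simp, reflect_C_mul_X_pow]; simp [revAt_le]
  have h2 : reflect 2 (C ω * X : F[X]) = C ω * X := by
    rw [show (C ω * X : F[X]) = C ω * X ^ 1 by simp, reflect_C_mul_X_pow]; simp [revAt_le]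
  have h3 : reflect 2 (1 : F[X]) = X ^ 2 := by
    rw [show (1 : F[X]) = C 1 * X ^ 0 by simp, reflect_C_mul_X_pow]; simp [revAt_le]
  rw [reflect_add, reflect_add, h1, h2, h3]
  ring

theorem dag_f2 (hF : Fintype.card F = 2 ^ 2) (ω : F) :
    dag hF (f2 ω) = X ^ 2 + C (ω ^ 2) * X + 1 := by
  unfold dag
  rw [reverse_f2]
  simp [Polynomial.map_add, Polynomial.map_mul]

theorem coprime_f2_dag (hF : Fintype.card F = 2 ^ 2) (ω : F) (hω : ω ^ 2 = ω + 1) :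
    IsCoprime (f2 ω) (dag hF (f2 ω)) := by
  rw [dag_f2 hF, hω]
  refine ⟨1 + (X + C ω), -(X + C ω), ?_⟩
  unfold f2
  simp only [C_add, C_1]
  ring

theorem coprime_f2_one (hF : Fintype.card F = 2 ^ 2) (ω : F) (hω0 : ω ≠ 0) :
    IsCoprime (f2 ω) (X - 1) := by
  have h2 : (2 : F[X]) = 0 := by
    rw [show (2 : F[X]) = C (2 : F) from (map_ofNat C 2).symm, two_eq_zero_of_card hF, C_0]
  have hC : (C ω⁻¹ : F[X]) * C ω = 1 := by
    rw [← C_mul, inv_mul_cancel₀ hω0, C_1]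
  refine ⟨C ω⁻¹, -(C ω⁻¹ * (X + C ω + 1)), ?_⟩
  unfold f2
  linear_combination (C ω⁻¹) * h2 + hC

theorem coeff_f2 (ω : F) : (f2 ω).coeff 0 ≠ 0 := by
  unfold f2
  simp [coeff_X, coeff_X_pow, coeff_one]

end Poly

section Form

variable {F : Type*} [Field F]

theorem conj_of_cols {n : ℕ} (T g R : Matrix (Fin n) (Fin n) F)
    (h : ∀ j, T *ᵥ (fun i => g i j) = ∑ i, R i j • (fun r => g r i)) : T * g = g * R := by
  ext r j
  have h1 := congrFun (h j) r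
  simp only [Matrix.mulVec, dotProduct, Finset.sum_apply, Pi.smul_apply, smul_eq_mul] at h1
  rw [Matrix.mul_apply, Matrix.mul_apply, h1]
  exact Finset.sum_congr rfl fun i _ => mul_comm _ _

/-- The Krylov data of a cyclic subspace. -/
theorem cyc_data {V : Type*} [AddCommGroup V] [Module F V] [FiniteDimensional F V]
    (X' : V →ₗ[F] V) (Y : Submodule F V) (hY : ∀ x ∈ Y, X' x ∈ Y) (z : V) (hz : z ∈ Y)
    (hgen : ∀ x ∈ Y, ∃ f : F[X], aeval X' f z = x) (k : ℕ) (hk : finrank F Y = k) :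
    (∃ c : Fin k → F, (X' ^ k) z = ∑ i, c i • (X' ^ (i : ℕ)) z) ∧
      Submodule.span F (Set.range fun i : Fin k => (X' ^ (i : ℕ)) z) = Y := by
  classical
  subst hk
  let Z : Y →ₗ[F] Y := X'.restrict hY
  have hcoe : ∀ (g : F[X]) (x : Y), ((aeval Z g x : Y) : V) = aeval X' g (x : V) :=
    fun g x => Cfsg.Agent.Lib.Linalg.Lev.coe_aeval_restrict Y X' hY g x
  have hpow : ∀ (m : ℕ) (x : Y), (((Z ^ m) x : Y) : V) = (X' ^ m) (x : V) := by
    intro m x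
    have := hcoe (X ^ m) x
    simpa using this
  have hcyc : Cfsg.Agent.Lib.Linalg.Lev.IsCyc Z Z.charpoly (⟨z, hz⟩ : Y) := by
    refine ⟨LinearMap.charpoly_monic Z, LinearMap.charpoly_natDegree Z, ?_, ?_⟩
    · rw [LinearMap.aeval_self_charpoly]; rfl
    · intro x
      obtain ⟨f, hf⟩ := hgen x x.2
      refine ⟨f, Subtype.ext ?_⟩
      rw [hcoe]
      exact hf
  have hspan := hcyc.span_krylov
  have hnat : Z.charpoly.natDegree = finrank F Y := LinearMap.charpoly_natDegree Z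
  have hmap : Submodule.span F (Set.range fun i : Fin (finrank F Y) => (X' ^ (i : ℕ)) z) = Y := by
    have h1 := congrArg (Submodule.map Y.subtype) hspan
    rw [Submodule.map_span, Submodule.map_top, Submodule.range_subtype, ← Set.range_comp] at h1
    have hfun : (fun i : Fin (finrank F Y) => (X' ^ (i : ℕ)) z) =
        Y.subtype ∘ (fun i : Fin (finrank F Y) => (Z ^ (i : ℕ)) (⟨z, hz⟩ : Y)) := by
      funext i
      exact (hpow i (⟨z, hz⟩ : Y)).symm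
    rw [hfun]
    exact h1
  refine ⟨?_, hmap⟩
  have hmem : ∀ m : ℕ, (X' ^ m) z ∈ Y := by
    intro m
    induction m with
    | zero => simpa using hz
    | succ m ih =>
      rw [pow_succ', Module.End.mul_apply]
      exact hY _ ih
  have h2' : (X' ^ finrank F Y) z ∈ Submodule.span F
      (Set.range fun i : Fin (finrank F Y) => (X' ^ (i : ℕ)) z) := by
    rw [hmap]; exact hmem _
  obtain ⟨c, hc⟩ := (Submodule.mem_span_range_iff_exists_fun F).1 h2'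
  exact ⟨c, hc.symm⟩

end Form

end FacTwo

namespace FacTwo

section Main

variable {F : Type*} [Field F] [Fintype F]

theorem map_rA (φ : F4 →+* F) (c1 c2 : F4) : (rA c1 c2).map φ = rA (φ c1) (φ c2) := by
  ext i j; fin_cases i <;> fin_cases j <;> simp [rA]

theorem map_rB (φ : F4 →+* F) (a c0 c1 : F4) : (rB a c0 c1).map φ = rB (φ a) (φ c0) (φ c1) := by
  ext i j; fin_cases i <;> fin_cases j <;> simp [rB]

theorem map_r2 (φ : F4 →+* F) (c1 : F4) : (r2 c1).map φ = r2 (φ c1) := by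
  ext i j; fin_cases i <;> fin_cases j <;> simp [r2]

theorem aeval_f3 {n : ℕ} (ψ : Matrix (Fin n) (Fin n) F4 →+* Matrix (Fin n) (Fin n) F)
    (D : Matrix (Fin n) (Fin n) F4) (h : D * D * D + D + 1 = 0) : aeval (ψ D) (f3 F) = 0 := by
  have h1 := congrArg ψ h
  simp only [map_add, map_mul, map_one, map_zero] at h1
  unfold f3
  simp only [map_add, map_pow, aeval_X, map_one]
  rw [pow_three, ← mul_assoc]
  exact h1

theorem aeval_f2 {n : ℕ} (ψ : Matrix (Fin n) (Fin n) F4 →+* Matrix (Fin n) (Fin n) F) (ω : F)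
    (hω : ψ (F4.w • (1 : Matrix (Fin n) (Fin n) F4)) = algebraMap F _ ω)
    (D : Matrix (Fin n) (Fin n) F4)
    (h : D * D + (F4.w • (1 : Matrix (Fin n) (Fin n) F4)) * D + 1 = 0) :
    aeval (ψ D) (f2 ω) = 0 := by
  have h1 := congrArg ψ h
  simp only [map_add, map_mul, map_one, map_zero] at h1
  rw [hω] at h1
  unfold f2
  simp only [map_add, map_mul, map_pow, aeval_X, map_one, aeval_C]
  rw [pow_two]
  exact h1

theorem psi_w {n : ℕ} (φ : F4 →+* F) (g : GL (Fin n) F) :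
    psi φ g (F4.w • (1 : Matrix (Fin n) (Fin n) F4)) = algebraMap F _ (φ F4.w) := by
  have h1 : (F4.w • (1 : Matrix (Fin n) (Fin n) F4)).map φ = φ F4.w • 1 := by
    ext i j
    by_cases hij : i = j
    · subst hij; simp [Matrix.map_apply]
    · simp [Matrix.map_apply, hij]
  rw [psi_apply, h1, Matrix.mul_smul, Matrix.smul_mul, mul_one, ← Units.val_mul, mul_inv_cancel,
    Units.val_one, Algebra.algebraMap_eq_smul_one]

/-- The factorization from a witness in dimension three. -/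
theorem fac3_of (hF : Fintype.card F = 2 ^ 2) (φ : F4 →+* F) (g : GL (Fin 3) F)
    (R D G : Matrix (Fin 3) (Fin 3) F4) (h : Ck3 R D G) (T : GL (Fin 3) F)
    (hT : (T : Matrix (Fin 3) (Fin 3) F) = psi φ g R) : Fac 2 T := by
  obtain ⟨h1, h2, h3, h4, h5, h6⟩ := h
  exact fac_of_witness hF φ g R D G ((det3_eq _).trans h1) ((det3_eq _).trans h2)
    ((det3_eq _).trans h3) h4 (f3 F) coeff_f3 (coprime_f3_dag hF) (coprime_f3_one hF)
    (aeval_f3 _ _ h5) (aeval_f3 _ _ h6) T hT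

/-- The factorization from a witness in dimension two. -/
theorem fac2_of (hF : Fintype.card F = 2 ^ 2) (φ : F4 →+* F) (g : GL (Fin 2) F)
    (R D G : Matrix (Fin 2) (Fin 2) F4) (h : Ck2 R D G) (T : GL (Fin 2) F)
    (hT : (T : Matrix (Fin 2) (Fin 2) F) = psi φ g R) : Fac 2 T := by
  obtain ⟨h1, h2, h3, h4, h5, h6⟩ := h
  have hw2 : F4.w ^ 2 = F4.w + 1 := by decide +kernel
  have hω : (φ F4.w) ^ 2 = φ F4.w + 1 := by
    rw [← map_pow, hw2, map_add, map_one]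
  have hω0 : φ F4.w ≠ 0 := by
    intro h0
    rw [h0] at hω
    have : (0 : F) = 1 := by simp at hω
    exact zero_ne_one this
  exact fac_of_witness hF φ g R D G ((det2_eq _).trans h1) ((det2_eq _).trans h2)
    ((det2_eq _).trans h3) h4 (f2 (φ F4.w)) (coeff_f2 _) (coprime_f2_dag hF _ hω)
    (coprime_f2_one hF _ hω0) (aeval_f2 _ _ (psi_w φ g) _ h5) (aeval_f2 _ _ (psi_w φ g) _ h6) T hT

theorem gl_of_span {n : ℕ} (v : Fin n → (Fin n → F))
    (hv : Submodule.span F (Set.range v) = ⊤) :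
    ∃ g : GL (Fin n) F, ∀ i j, (g : Matrix (Fin n) (Fin n) F) i j = v j i := by
  classical
  have hli : LinearIndependent F v :=
    linearIndependent_of_top_le_span_of_card_eq_finrank hv.ge (by simp)
  have hu : IsUnit (Matrix.of fun i j => v j i : Matrix (Fin n) (Fin n) F) := by
    apply Matrix.linearIndependent_cols_iff_isUnit.1
    convert hli using 1
    funext j i
    rfl
  exact ⟨hu.unit, fun i j => rfl⟩

theorem form_of_cols {n : ℕ} (T : Matrix (Fin n) (Fin n) F) (g : GL (Fin n) F)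
    (R : Matrix (Fin n) (Fin n) F)
    (h : ∀ j, T *ᵥ (fun i => (g : Matrix (Fin n) (Fin n) F) i j) =
      ∑ i, R i j • (fun r => (g : Matrix (Fin n) (Fin n) F) r i)) :
    T = g * R * ((g⁻¹ : GL (Fin n) F) : Matrix (Fin n) (Fin n) F) := by
  have h1 := conj_of_cols T g R h
  rw [← h1, mul_assoc, ← Units.val_mul, mul_inv_cancel, Units.val_one, mul_one]

theorem det_conj' {n : ℕ} (g : GL (Fin n) F) (R : Matrix (Fin n) (Fin n) F) :
    ((g : Matrix (Fin n) (Fin n) F) * R * ((g⁻¹ : GL (Fin n) F) : Matrix (Fin n) (Fin n) F)).det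
      = R.det := by
  have hgg : (g : Matrix (Fin n) (Fin n) F).det *
      ((g⁻¹ : GL (Fin n) F) : Matrix (Fin n) (Fin n) F).det = 1 := by
    rw [← Matrix.det_mul, ← Units.val_mul, mul_inv_cancel, Units.val_one, Matrix.det_one]
  rw [Matrix.det_mul, Matrix.det_mul, mul_comm ((g : Matrix (Fin n) (Fin n) F).det), mul_assoc,
    hgg, mul_one]

theorem nonscalar_lin {n : ℕ} (M : Matrix (Fin n) (Fin n) F) (hM : ¬ ∃ a : F, M = a • 1) :
    ¬ ∃ a : F, ∀ x, Matrix.toLin' M x = a • x := by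
  rintro ⟨a, ha⟩
  refine hM ⟨a, ?_⟩
  apply Matrix.toLin'.injective
  refine LinearMap.ext fun x => ?_
  rw [ha, Matrix.toLin'_apply, Matrix.smul_mulVec, Matrix.one_mulVec]

theorem toLin_iter {n : ℕ} (M : Matrix (Fin n) (Fin n) F) (m : ℕ) (z : Fin n → F) :
    M *ᵥ ((Matrix.toLin' M ^ m) z) = (Matrix.toLin' M ^ (m + 1)) z := by
  rw [pow_succ', Module.End.mul_apply, Matrix.toLin'_apply]

/-- The normal form in dimension two. -/
theorem form2 (M : Matrix (Fin 2) (Fin 2) F) (hM : ¬ ∃ a : F, M = a • 1) :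
    ∃ (g : GL (Fin 2) F) (c0 c1 : F),
      M = g * !![0, c0; 1, c1] * ((g⁻¹ : GL (Fin 2) F) : Matrix (Fin 2) (Fin 2) F) := by
  classical
  have hns := nonscalar_lin M hM
  obtain ⟨W, U, hWU, hW, hU, h2, z, hz, hgen⟩ :=
    Cfsg.Agent.Lib.Linalg.Lev.exists_decomp (Matrix.toLin' M) hns
  have hU' : finrank F U = 2 := le_antisymm (by simpa using U.finrank_le) h2
  obtain ⟨⟨c, hc⟩, hspan⟩ := cyc_data (Matrix.toLin' M) U hU z hz hgen 2 hU'
  have htop : U = ⊤ := Submodule.eq_top_of_finrank_eq (by simp [hU'])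
  obtain ⟨g, hg⟩ := gl_of_span _ (hspan.trans htop)
  have hcol : ∀ j : Fin 2, (fun i => (g : Matrix (Fin 2) (Fin 2) F) i j) =
      (Matrix.toLin' M ^ (j : ℕ)) z := fun j => funext fun i => hg i j
  refine ⟨g, c 0, c 1, form_of_cols M g _ ?_⟩
  intro j
  rw [hcol j, toLin_iter]
  simp only [hcol, Fin.sum_univ_two]
  fin_cases j
  · simp
  · simpa [Fin.sum_univ_two] using hc

/-- The normal form in dimension three. -/
theorem form3 (M : Matrix (Fin 3) (Fin 3) F) (hM : ¬ ∃ a : F, M = a • 1) :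
    (∃ (g : GL (Fin 3) F) (c0 c1 c2 : F),
      M = g * !![0, 0, c0; 1, 0, c1; 0, 1, c2] * ((g⁻¹ : GL (Fin 3) F) : Matrix (Fin 3) (Fin 3) F)) ∨
    (∃ (g : GL (Fin 3) F) (a c0 c1 : F),
      M = g * !![a, 0, 0; 0, 0, c0; 0, 1, c1] * ((g⁻¹ : GL (Fin 3) F) : Matrix (Fin 3) (Fin 3) F)) := by
  classical
  have hns := nonscalar_lin M hM
  obtain ⟨W, U, hWU, hW, hU, h2, z, hz, hgen⟩ :=
    Cfsg.Agent.Lib.Linalg.Lev.exists_decomp (Matrix.toLin' M) hns
  have hU3 : finrank F U ≤ 3 := by simpa using U.finrank_le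
  have hUcases : finrank F U = 3 ∨ finrank F U = 2 := by omega
  rcases hUcases with hU' | hU'
  · left
    obtain ⟨⟨c, hc⟩, hspan⟩ := cyc_data (Matrix.toLin' M) U hU z hz hgen 3 hU'
    have htop : U = ⊤ := Submodule.eq_top_of_finrank_eq (by simp [hU'])
    obtain ⟨g, hg⟩ := gl_of_span _ (hspan.trans htop)
    have hcol : ∀ j : Fin 3, (fun i => (g : Matrix (Fin 3) (Fin 3) F) i j) =
        (Matrix.toLin' M ^ (j : ℕ)) z := fun j => funext fun i => hg i j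
    refine ⟨g, c 0, c 1, c 2, form_of_cols M g _ ?_⟩
    intro j
    rw [hcol j, toLin_iter]
    simp only [hcol, Fin.sum_univ_three]
    fin_cases j
    · simp
    · simp
    · simpa [Fin.sum_univ_three] using hc
  · right
    obtain ⟨⟨c, hc⟩, hspan⟩ := cyc_data (Matrix.toLin' M) U hU z hz hgen 2 hU'
    have hW1 : finrank F W = 1 := by
      have := Submodule.finrank_add_eq_of_isCompl hWU
      simp only [Module.finrank_fintype_fun_eq_card, Fintype.card_fin] at this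
      omega
    obtain ⟨w₀, hw₀, hw₀gen⟩ := finrank_eq_one_iff'.1 hW1
    obtain ⟨a, ha⟩ := hw₀gen ⟨Matrix.toLin' M w₀, hW _ w₀.2⟩
    have ha' : M *ᵥ (w₀ : Fin 3 → F) = a • (w₀ : Fin 3 → F) := by
      have := congrArg (Subtype.val) ha
      simpa using this.symm
    let v : Fin 3 → (Fin 3 → F) := ![w₀, z, Matrix.toLin' M z]
    have hv : Submodule.span F (Set.range v) = ⊤ := by
      rw [eq_top_iff, ← hWU.sup_eq_top, sup_le_iff]
      constructor
      · intro x hx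
        obtain ⟨t, ht⟩ := hw₀gen ⟨x, hx⟩
        have : x = t • (w₀ : Fin 3 → F) := by
          have := congrArg (Subtype.val) ht
          simpa using this.symm
        rw [this]
        exact Submodule.smul_mem _ _ (Submodule.subset_span ⟨0, rfl⟩)
      · rw [← hspan, Submodule.span_le]
        rintro _ ⟨i, rfl⟩
        fin_cases i
        · exact Submodule.subset_span ⟨1, by simp [v]⟩
        · exact Submodule.subset_span ⟨2, by simp [v]⟩
    obtain ⟨g, hg⟩ := gl_of_span v hv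
    have hcol : ∀ j : Fin 3, (fun i => (g : Matrix (Fin 3) (Fin 3) F) i j) = v j :=
      fun j => funext fun i => hg i j
    refine ⟨g, a, c 0, c 1, form_of_cols M g _ ?_⟩
    intro j
    rw [hcol j]
    simp only [hcol, Fin.sum_univ_three]
    fin_cases j
    · simpa [v] using ha'
    · simp [v]
    · have h3 : (Matrix.toLin' M ^ 2) z = c 0 • z + c 1 • Matrix.toLin' M z := by
        simpa [Fin.sum_univ_two] using hc
      have h4 := toLin_iter M 1 z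
      rw [pow_one, show (1 + 1 : ℕ) = 2 from rfl, h3] at h4
      simpa [v] using h4

theorem conj_transv {n : ℕ} (g : GL (Fin n) F) (y w : Fin n → F) :
    (g : Matrix (Fin n) (Fin n) F) * (1 + vecMulVec y w) *
      ((g⁻¹ : GL (Fin n) F) : Matrix (Fin n) (Fin n) F) =
    1 + vecMulVec ((g : Matrix (Fin n) (Fin n) F) *ᵥ y)
      (w ᵥ* ((g⁻¹ : GL (Fin n) F) : Matrix (Fin n) (Fin n) F)) := by
  rw [mul_add, add_mul, mul_one, ← Units.val_mul, mul_inv_cancel, Units.val_one,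
    mul_vecMulVec, vecMulVec_mul]

theorem fac_two_three (hF : Fintype.card F = 2 ^ 2) (T : GL (Fin 3) F)
    (hdet : (T : Matrix (Fin 3) (Fin 3) F).det = 1)
    (hT : T = 1 ∨ ((¬ ∃ a : F, (T : Matrix (Fin 3) (Fin 3) F) = a • 1) ∧
      ¬ ∃ y w : Fin 3 → F, (T : Matrix (Fin 3) (Fin 3) F) = 1 + vecMulVec y w)) : Fac 2 T := by
  classical
  let e : F ≃+* F4 := equivOfCard F (by rw [hF]; norm_num)
  let φ : F4 →+* F := (e.symm : F4 ≃+* F).toRingHom
  have hφe : ∀ c, φ (e c) = c := fun c => e.symm_apply_apply c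
  have h2 := two_eq_zero_of_card hF
  rcases hT with rfl | ⟨hns, hnt⟩
  · refine fac3_of hF φ 1 1 d13 g13 ck_13 1 ?_
    rw [map_one, Units.val_one]
  · rcases form3 _ hns with ⟨g, c0, c1, c2, hg⟩ | ⟨g, a, c0, c1, hg⟩
    · have hd := hdet
      rw [hg, det_conj', Matrix.det_fin_three] at hd
      simp at hd
      refine fac3_of hF φ g (rA (e c1) (e c2)) _ _ (ck_A _ _) T ?_
      rw [psi_apply, map_rA, hφe, hφe, hg, hd]
      rfl
    · have hd := hdet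
      rw [hg, det_conj', Matrix.det_fin_three] at hd
      simp at hd
      have hac : a * c0 = 1 := by linear_combination (-1 : F) * hd - h2
      have ha : a ≠ 0 := left_ne_zero_of_mul_eq_one hac
      have hc0 : c0 = a⁻¹ := eq_inv_of_mul_eq_one_right hac
      by_cases hdeg : a = 1 ∧ c1 = 0
      · exfalso
        obtain ⟨ha1, hc1⟩ := hdeg
        apply hnt
        have hR : !![a, 0, 0; 0, 0, c0; 0, 1, c1] =
            1 + vecMulVec (![0, 1, 1] : Fin 3 → F) ![0, 1, 1] := by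
          have h11 : (1 : F) + 1 = 0 := by rw [one_add_one_eq_two, h2]
          rw [hc0, ha1, hc1, inv_one]
          ext i j
          fin_cases i <;> fin_cases j <;> simp [h11]
        have h5 := conj_transv g (![0, 1, 1] : Fin 3 → F) ![0, 1, 1]
        rw [← hR, ← hg] at h5
        exact ⟨_, _, h5⟩
      · have hea : e a ≠ 0 := (map_ne_zero e).2 ha
        refine fac3_of hF φ g (rB (e a) (e a)⁻¹ (e c1)) _ _ (ck_B _ _ hea ?_) T ?_
        · rintro ⟨h1, h3⟩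
          exact hdeg ⟨e.injective (h1.trans (map_one e).symm),
            e.injective (h3.trans (map_zero e).symm)⟩
        · rw [psi_apply, map_rB, map_inv₀, hφe, hφe, hg, hc0]
          rfl

theorem fac_two_two (hF : Fintype.card F = 2 ^ 2) (T : GL (Fin 2) F)
    (hdet : (T : Matrix (Fin 2) (Fin 2) F).det = 1)
    (hT : T = 1 ∨ ((¬ ∃ a : F, (T : Matrix (Fin 2) (Fin 2) F) = a • 1) ∧
      ¬ ∃ y w : Fin 2 → F, (T : Matrix (Fin 2) (Fin 2) F) = 1 + vecMulVec y w)) : Fac 2 T := by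
  classical
  let e : F ≃+* F4 := equivOfCard F (by rw [hF]; norm_num)
  let φ : F4 →+* F := (e.symm : F4 ≃+* F).toRingHom
  have hφe : ∀ c, φ (e c) = c := fun c => e.symm_apply_apply c
  have h2 := two_eq_zero_of_card hF
  rcases hT with rfl | ⟨hns, hnt⟩
  · refine fac2_of hF φ 1 1 d12 g12 ck_12 1 ?_
    rw [map_one, Units.val_one]
  · obtain ⟨g, c0, c1, hg⟩ := form2 _ hns
    have hd := hdet
    rw [hg, det_conj', Matrix.det_fin_two] at hd
    simp at hd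
    have hc0 : c0 = 1 := by linear_combination (-1 : F) * hd - h2
    by_cases hc1 : c1 = 0
    · exfalso
      apply hnt
      have hR : !![0, c0; 1, c1] = 1 + vecMulVec (![1, 1] : Fin 2 → F) ![1, 1] := by
        have h11 : (1 : F) + 1 = 0 := by rw [one_add_one_eq_two, h2]
        rw [hc0, hc1]
        ext i j
        fin_cases i <;> fin_cases j <;> simp [h11]
      have h5 := conj_transv g (![1, 1] : Fin 2 → F) ![1, 1]
      rw [← hR, ← hg] at h5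
      exact ⟨_, _, h5⟩
    · have hec : e c1 ≠ 0 := (map_ne_zero e).2 hc1
      refine fac2_of hF φ g (r2 (e c1)) _ _ (ck_2 _ hec) T ?_
      rw [psi_apply, map_r2, hφe, hg, hc0]
      rfl

end Main

end FacTwo

/-- Piece F2S: the factorization over `F_4` in dimensions two and three. -/
theorem fac_two_small {F : Type*} [Field F] [Fintype F] {m : ℕ} (hF : Fintype.card F = 2 ^ 2)
    (hm : m = 2 ∨ m = 3) (T : GL (Fin m) F) (hdet : (T : Matrix (Fin m) (Fin m) F).det = 1)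
    (hT : T = 1 ∨ ((¬ ∃ a : F, (T : Matrix (Fin m) (Fin m) F) = a • 1) ∧
      ¬ ∃ y φ : Fin m → F, (T : Matrix (Fin m) (Fin m) F) = 1 + vecMulVec y φ)) : Fac 2 T := by
  rcases hm with rfl | rfl
  · exact FacTwo.fac_two_two hF T hdet hT
  · exact FacTwo.fac_two_three hF T hdet hT

end Cfsg.Agent.Lib.OreU
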