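import Mathlib
import Cfsg.Agent.Lib.OreU.PosDefs

/-!
# Position lemma, determinant step: the update of the `d` block can be given determinant one
-/

set_option autoImplicit false
set_option linter.unusedSectionVars false
set_option linter.unusedVariables false
set_option linter.style.longLine false

namespace Cfsg.Agent.Lib.OreU

open Matrix
open Cfsg.Agent.Lib.Classical.Herm.Basic

namespace PosDet

variable {F : Type*} [Field F] [Fintype F] {q m : ℕ}

/-- The sesquilinear form of a matrix. -/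
def H (q : ℕ) (M : Matrix (Fin m) (Fin m) F) (u v : Fin m → F) : F := cj q u ⬝ᵥ (M *ᵥ v)

theorem H_add_left (hF : Fintype.card F = q ^ 2) (M : Matrix (Fin m) (Fin m) F) (u u' v : Fin m → F) :
    H q M (u + u') v = H q M u v + H q M u' v := by
  have : cj q (u + u') = cj q u + cj q u' := by
    funext i
    simp [cj_apply, pow_q_add hF]
  simp [H, this, add_dotProduct]

theorem H_add_right (M : Matrix (Fin m) (Fin m) F) (u v v' : Fin m → F) :
    H q M u (v + v') = H q M u v + H q M u v' := by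
  simp [H, mulVec_add, dotProduct_add]

theorem H_smul_left (M : Matrix (Fin m) (Fin m) F) (t : F) (u v : Fin m → F) :
    H q M (t • u) v = t ^ q * H q M u v := by
  have : cj q (t • u) = t ^ q • cj q u := by
    funext i
    simp [cj_apply, mul_pow]
  simp [H, this, smul_dotProduct]

theorem H_smul_right (M : Matrix (Fin m) (Fin m) F) (t : F) (u v : Fin m → F) :
    H q M u (t • v) = t * H q M u v := by
  simp [H, mulVec_smul, dotProduct_smul]

theorem H_single (hq : q ≠ 0) (M : Matrix (Fin m) (Fin m) F) (i j : Fin m) :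
    H q M (Pi.single i 1) (Pi.single j 1) = M i j := by
  have : cj q (Pi.single i 1 : Fin m → F) = Pi.single i 1 := by
    funext k
    by_cases hk : k = i
    · subst hk
      simp [cj_apply]
    · simp [cj_apply, hk, hq]
  simp [H, this]

theorem exists_H_ne (hF : Fintype.card F = q ^ 2) {M : Matrix (Fin m) (Fin m) F} (hM : M ≠ 0) :
    ∃ p, H q M p p ≠ 0 := by
  by_contra hc
  push_neg at hc
  apply hM
  obtain ⟨θ, hθ⟩ : ∃ θ : F, θ ^ q ≠ θ := by
    by_contra hc2
    push_neg at hc2
    apply sigma_ne_id hF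
    ext x
    simpa using hc2 x
  have hq : q ≠ 0 := by
    have := two_le_q hF
    omega
  ext i j
  have h1 := hc ((Pi.single i 1 : Fin m → F) + Pi.single j 1)
  have h2 := hc (θ • (Pi.single i 1 : Fin m → F) + Pi.single j 1)
  simp only [H_add_left hF, H_add_right, H_smul_left, H_smul_right,
    hc (Pi.single i 1), hc (Pi.single j 1)] at h1 h2
  have h3 : (θ ^ q - θ) * H q M (Pi.single i 1) (Pi.single j 1) = 0 := by
    linear_combination h2 - θ * h1
  have h4 := (mul_eq_zero.1 h3).resolve_left (sub_ne_zero.2 hθ)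
  rw [H_single hq] at h4
  simpa using h4

theorem H_pow (hF : Fintype.card F = q ^ 2) (M : Matrix (Fin m) (Fin m) F) (p : Fin m → F) :
    (H q M p p) ^ q = H q (ct q M) p p := by
  simp only [H, dotProduct, mulVec, cj_apply, ct_apply]
  rw [pow_q_sum hF]
  have e1 : ∀ i, ((p i ^ q) * ∑ j, M i j * p j) ^ q = ∑ j, p i * (M i j ^ q * p j ^ q) := by
    intro i
    rw [mul_pow, pow_q_pow_q hF, pow_q_sum hF, Finset.mul_sum]
    refine Finset.sum_congr rfl fun j _ => ?_
    rw [mul_pow]
  simp only [e1]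
  rw [Finset.sum_comm]
  refine Finset.sum_congr rfl fun j _ => ?_
  rw [Finset.mul_sum]
  refine Finset.sum_congr rfl fun i _ => ?_
  ring

theorem H_neg (M : Matrix (Fin m) (Fin m) F) (p : Fin m → F) : H q (-M) p p = - H q M p p := by
  simp [H, neg_mulVec, dotProduct_neg]

theorem det_add_vecMulVec (d : Matrix (Fin m) (Fin m) F) (hd : IsUnit d.det) (u v : Fin m → F) :
    (d + vecMulVec u v).det = d.det * (1 + v ⬝ᵥ (d⁻¹ *ᵥ u)) := by
  have h := det_add_replicateCol_mul_replicateRow (ι := Unit) hd u v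
  have e1 : replicateCol Unit u * replicateRow Unit v = vecMulVec u v := by
    ext i j
    simp [Matrix.mul_apply, vecMulVec_apply]
  rw [e1] at h
  rw [h]
  congr 1
  rw [det_unique, Matrix.add_apply, Matrix.one_apply_eq]
  congr 1
  simp only [Matrix.mul_apply, replicateRow_apply, replicateCol_apply, dotProduct, mulVec,
    Finset.sum_mul, Finset.mul_sum]
  rw [Finset.sum_comm]
  exact Finset.sum_congr rfl fun _ _ => Finset.sum_congr rfl fun _ _ => mul_assoc _ _ _

/-- The matrix `μ^q p p^*`. -/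
def S0 (q : ℕ) (μ : F) (p : Fin m → F) : Matrix (Fin m) (Fin m) F :=
  of fun i j => μ ^ q * (p i * p j ^ q)

theorem ct_S0 (hF : Fintype.card F = q ^ 2) (μ : F) (p : Fin m → F) :
    ct q (S0 q μ p) = μ • vecMulVec p (cj q p) := by
  ext i j
  simp only [ct_apply, S0, of_apply, mul_pow, pow_q_pow_q hF, Matrix.smul_apply, vecMulVec_apply,
    cj_apply, smul_eq_mul]
  ring

theorem det_updD {ε : ℕ} (c : Matrix (Fin m) (Fin m) F) (e : Matrix (Fin m) (Fin ε) F)
    (d : Matrix (Fin m) (Fin m) F) (hF : Fintype.card F = q ^ 2) (hd : IsUnit d.det)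
    (Z : Matrix (Fin ε) (Fin m) F) (p E : Fin m → F) (μ t : F)
    (hZ : e * Z = vecMulVec ((-t) • E) (cj q p)) :
    (updD q c e d Z (S0 q μ p)).det
      = d.det * (1 + μ * H q (d⁻¹ * c) p p + t * (cj q p ⬝ᵥ (d⁻¹ *ᵥ E))) := by
  have e1 : updD q c e d Z (S0 q μ p) = d + vecMulVec (μ • (c *ᵥ p) + t • E) (cj q p) := by
    unfold updD
    rw [ct_S0 hF, hZ, Matrix.mul_smul, mul_vecMulVec, sub_eq_add_neg, add_assoc]
    congr 1
    ext i j
    simp only [Matrix.add_apply, Matrix.neg_apply, Matrix.smul_apply, vecMulVec_apply, Pi.add_apply, Pi.smul_apply,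
      smul_eq_mul]
    ring
  rw [e1, det_add_vecMulVec d hd]
  congr 1
  rw [mulVec_add, mulVec_smul, mulVec_smul, mulVec_mulVec, dotProduct_add, dotProduct_smul,
    dotProduct_smul, smul_eq_mul, smul_eq_mul, H]
  ring

theorem adm_S0 {ε : ℕ} (hF : Fintype.card F = q ^ 2) (Z : Matrix (Fin ε) (Fin m) F) (μ n : F)
    (p : Fin m → F) (hZ : ∀ i j, ∑ k, Z k i ^ q * Z k j = n * (p i * p j ^ q))
    (hμ : μ + μ ^ q + n = 0) : IsAdm q Z (S0 q μ p) := by
  intro i j
  rw [hZ]
  simp only [S0, of_apply, mul_pow, pow_q_pow_q hF]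
  linear_combination (p i * p j ^ q) * hμ

end PosDet

open PosDet

variable {F : Type*} [Field F] [Fintype F] {q m ε : ℕ}

theorem exists_upd_det_one (hF : Fintype.card F = q ^ 2) (hε : ε ≤ 1)
    (c : Matrix (Fin m) (Fin m) F) (e : Matrix (Fin m) (Fin ε) F) (d : Matrix (Fin m) (Fin m) F)
    (hR : RowRel q c e d) (hd : IsUnit d.det) (hc : c ≠ 0) (h0 : ε = 0 → d.det ^ q = d.det) :
    ∃ (Z : Matrix (Fin ε) (Fin m) F) (S : Matrix (Fin m) (Fin m) F),
      IsAdm q Z S ∧ (updD q c e d Z S).det = 1 := by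
  have hdet0 : d.det ≠ 0 := hd.ne_zero
  have hdd : d⁻¹ * d = 1 := nonsing_inv_mul _ hd
  have hs1 : d⁻¹ * c ≠ 0 := by
    intro h
    apply hc
    have : c = d * (d⁻¹ * c) := by rw [← Matrix.mul_assoc, mul_nonsing_inv _ hd, Matrix.one_mul]
    rw [this, h, Matrix.mul_zero]
  obtain ⟨p, hb⟩ := exists_H_ne hF hs1
  set b := H q (d⁻¹ * c) p p with hbdef
  rcases (by omega : ε = 0 ∨ ε = 1) with rfl | rfl
  · -- no middle coordinate
    have hez : e * cst q e = 0 := by
      ext i j
      simp [Matrix.mul_apply]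
    have hR' : c * ct q d + d * ct q c = 0 := by
      have := hR
      unfold RowRel at this
      rw [hez, add_zero] at this
      exact this
    have hskew : ct q (d⁻¹ * c) = -(d⁻¹ * c) := by
      have h1 : d⁻¹ * (c * ct q d + d * ct q c) * ct q d⁻¹ = 0 := by
        rw [hR', Matrix.mul_zero, Matrix.zero_mul]
      have h2 : ct q d * ct q d⁻¹ = 1 := by
        rw [← ct_mul' hF, hdd, ct_one hF]
      have h3 : d⁻¹ * (c * ct q d + d * ct q c) * ct q d⁻¹
          = d⁻¹ * c + ct q (d⁻¹ * c) := by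
        rw [ct_mul' hF, Matrix.mul_add, Matrix.add_mul]
        congr 1
        · rw [← Matrix.mul_assoc, Matrix.mul_assoc, h2, Matrix.mul_one]
        · rw [← Matrix.mul_assoc, hdd, Matrix.one_mul]
      rw [h3] at h1
      exact (eq_neg_of_add_eq_zero_right h1)
    have hbq : b ^ q = -b := by
      rw [hbdef, H_pow hF, hskew, H_neg]
    have hτ : (d.det⁻¹) ^ q = d.det⁻¹ := by
      rw [inv_pow, h0 rfl]
    set μ := b⁻¹ * (d.det⁻¹ - 1) with hμ
    have hμq : μ ^ q = -μ := by
      rw [hμ, mul_pow, pow_q_sub hF, hτ, inv_pow, hbq, inv_neg, one_pow]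
      ring
    refine ⟨0, S0 q μ p, adm_S0 hF 0 μ 0 p ?_ ?_, ?_⟩
    · intro i j
      simp
    · rw [hμq]
      ring
    · rw [det_updD c e d hF hd 0 p 0 μ 0 (by ext i j; simp [Matrix.mul_apply])]
      rw [← hbdef, hμ]
      field_simp
      ring
  · -- one middle coordinate
    set E : Fin m → F := fun i => e i 0 with hE
    set a := cj q p ⬝ᵥ (d⁻¹ *ᵥ E) with ha
    set τ₀ := d.det⁻¹ with hτ₀
    set A := b⁻¹ * a with hA
    set κ := b⁻¹ * (τ₀ - 1) with hκ
    -- a norm equation
    obtain ⟨τ, hτ⟩ : ∃ τ : F, τ ^ q * τ = A ^ q * A - (κ + κ ^ q) := by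
      set w := A ^ q * A - (κ + κ ^ q) with hw
      have hwq : w ^ q = w := by
        rw [hw, pow_q_sub hF, pow_q_add hF, pow_q_pow_q hF, mul_pow, pow_q_pow_q hF]
        ring
      by_cases hw0 : w = 0
      · refine ⟨0, ?_⟩
        rw [hw0]
        simp
      · obtain ⟨τ, hτ⟩ := exists_norm_eq hF w hw0 hwq
        refine ⟨τ, ?_⟩
        rw [← hτ, pow_succ]
    set t := τ + A ^ q with ht
    set μ := κ - A * t with hμ
    have htq : t ^ q = τ ^ q + A := by
      rw [ht, pow_q_add hF, pow_q_pow_q hF]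
    have hμq : μ ^ q = κ ^ q - A ^ q * (τ ^ q + A) := by
      rw [hμ, pow_q_sub hF, mul_pow (a := A), htq]
    let Z : Matrix (Fin 1) (Fin m) F := of fun _ j => -t * p j ^ q
    refine ⟨Z, S0 q μ p, adm_S0 hF Z μ (t ^ q * t) p ?_ ?_, ?_⟩
    · intro i j
      simp only [Z, Fin.sum_univ_one, of_apply, mul_pow, pow_q_neg hF, pow_q_pow_q hF]
      ring
    · rw [hμq, htq, hμ, ht]
      linear_combination hτ
    · rw [det_updD c e d hF hd Z p E μ t ?_]
      · rw [← hbdef, ← ha]
        have e1 : 1 + μ * b + t * a = τ₀ := by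
          rw [hμ, hκ, hA]
          field_simp
          ring
        rw [e1, hτ₀]
        field_simp
      · ext i j
        simp only [Matrix.mul_apply, Fin.sum_univ_one, Z, of_apply, vecMulVec_apply, Pi.smul_apply,
          smul_eq_mul, cj_apply, hE]
        ring

end Cfsg.Agent.Lib.OreU
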