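import Mathlib
import Cfsg.Agent.Lib.OreU.PosDefs

/-!
# Making the `W'`-block invertible by a unipotent update (greedy on the kernel)
-/

set_option autoImplicit false
set_option linter.unusedSectionVars false
set_option linter.unusedSimpArgs false

namespace Cfsg.Agent.Lib.OreU

open Matrix
open Cfsg.Agent.Lib.Classical.Herm.Basic

namespace PosInv

variable {F : Type*} [Field F] [Fintype F] {q m ε : ℕ}

theorem exists_theta (hF : Fintype.card F = q ^ 2) : ∃ θ : F, θ ≠ 0 ∧ θ ^ q = -θ := by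
  have h := sigma_ne_id hF
  have h1 : ∃ a : F, a ^ q ≠ a := by
    by_contra hcon
    push_neg at hcon
    apply h
    ext x
    exact hcon x
  obtain ⟨a, ha⟩ := h1
  refine ⟨a - a ^ q, sub_ne_zero.2 (Ne.symm ha), ?_⟩
  rw [pow_q_sub hF, pow_q_pow_q hF]
  ring

theorem exists_vec (f g : Fin m → F) (hf : f ≠ 0) (hg : g ≠ 0) :
    ∃ v : Fin m → F, f ⬝ᵥ v ≠ 0 ∧ g ⬝ᵥ v ≠ 0 := by
  classical
  obtain ⟨i, hi⟩ := Function.ne_iff.1 hf
  obtain ⟨j, hj⟩ := Function.ne_iff.1 hg
  have h1 : f ⬝ᵥ (Pi.single i 1 : Fin m → F) ≠ 0 := by simpa using hi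
  have h2 : g ⬝ᵥ (Pi.single j 1 : Fin m → F) ≠ 0 := by simpa using hj
  by_cases h3 : g ⬝ᵥ (Pi.single i 1 : Fin m → F) = 0
  · by_cases h4 : f ⬝ᵥ (Pi.single j 1 : Fin m → F) = 0
    · refine ⟨Pi.single i 1 + Pi.single j 1, ?_, ?_⟩
      · rw [dotProduct_add, h4, add_zero]
        exact h1
      · rw [dotProduct_add, h3, zero_add]
        exact h2
    · exact ⟨Pi.single j 1, h4, h2⟩
  · exact ⟨Pi.single i 1, h1, h3⟩

theorem ct_mulVec_pow (hF : Fintype.card F = q ^ 2) (A : Matrix (Fin m) (Fin m) F) (ξ : Fin m → F) :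
    ct q A *ᵥ (fun j => ξ j ^ q) = fun i => (ξ ᵥ* A) i ^ q := by
  funext i
  simp only [Matrix.mulVec, Matrix.vecMul, dotProduct, ct_apply]
  rw [pow_q_sum hF]
  refine Finset.sum_congr rfl fun j _ => ?_
  rw [mul_pow, mul_comm]

theorem cst_mulVec_pow (hF : Fintype.card F = q ^ 2) (A : Matrix (Fin m) (Fin ε) F) (ξ : Fin m → F) :
    cst q A *ᵥ (fun j => ξ j ^ q) = fun i => (ξ ᵥ* A) i ^ q := by
  funext i
  simp only [Matrix.mulVec, Matrix.vecMul, dotProduct, cst_apply]
  rw [pow_q_sum hF]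
  refine Finset.sum_congr rfl fun j _ => ?_
  rw [mul_pow, mul_comm]

theorem xi_e_zero (hF : Fintype.card F = q ^ 2) (hε : ε ≤ 1) {c d : Matrix (Fin m) (Fin m) F}
    {e : Matrix (Fin m) (Fin ε) F} (hR : RowRel q c e d) (ξ : Fin m → F) (hξ : ξ ᵥ* d = 0) :
    ξ ᵥ* e = 0 := by
  have hq : q ≠ 0 := by
    have := two_le_q hF
    omega
  have h1 : ct q d *ᵥ (fun j => ξ j ^ q) = 0 := by
    rw [ct_mulVec_pow hF, hξ]
    funext i
    simp [zero_pow_q hF]
  have key : (ξ ᵥ* (c * ct q d + e * cst q e + d * ct q c)) ⬝ᵥ (fun j => ξ j ^ q) = 0 := by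
    have hR' : c * ct q d + e * cst q e + d * ct q c = 0 := hR
    rw [hR']
    simp
  have t1 : (ξ ᵥ* (c * ct q d)) ⬝ᵥ (fun j => ξ j ^ q) = 0 := by
    rw [← Matrix.vecMul_vecMul, ← Matrix.dotProduct_mulVec, h1, dotProduct_zero]
  have t2 : (ξ ᵥ* (d * ct q c)) ⬝ᵥ (fun j => ξ j ^ q) = 0 := by
    rw [← Matrix.vecMul_vecMul, hξ, Matrix.zero_vecMul, zero_dotProduct]
  have t3 : (ξ ᵥ* (e * cst q e)) ⬝ᵥ (fun j => ξ j ^ q) = (ξ ᵥ* e) ⬝ᵥ (fun i => (ξ ᵥ* e) i ^ q) := by
    rw [← Matrix.vecMul_vecMul, ← Matrix.dotProduct_mulVec, cst_mulVec_pow hF]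
  rw [Matrix.vecMul_add, Matrix.vecMul_add, add_dotProduct, add_dotProduct, t1, t2, t3, zero_add,
    add_zero] at key
  funext k
  have h2 : ∀ k' : Fin ε, k' = k := fun k' => Fin.ext (by have := k.2; have := k'.2; omega)
  have h3 : (ξ ᵥ* e) ⬝ᵥ (fun i => (ξ ᵥ* e) i ^ q) = (ξ ᵥ* e) k * (ξ ᵥ* e) k ^ q := by
    simp only [dotProduct]
    rw [Finset.sum_eq_single k]
    · intro b _ hb
      exact absurd (h2 b) hb
    · simp
  rw [h3] at key
  rcases mul_eq_zero.1 key with h4 | h4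
  · simpa using h4
  · simpa using pow_eq_zero_iff hq |>.1 h4

theorem updD_zero (c d : Matrix (Fin m) (Fin m) F) (e : Matrix (Fin m) (Fin ε) F)
    (S : Matrix (Fin m) (Fin m) F) : updD q c e d 0 S = d + c * ct q S := by
  simp only [updD, Matrix.mul_zero, sub_zero]

/-- `ct` is additive. -/
theorem ct_add' (hF : Fintype.card F = q ^ 2) (A B : Matrix (Fin m) (Fin m) F) :
    ct q (A + B) = ct q A + ct q B := by
  ext i j
  simp only [ct_apply, Matrix.add_apply, pow_q_add hF]

theorem adm_zero_iff (S : Matrix (Fin m) (Fin m) F) :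
    IsAdm q (0 : Matrix (Fin ε) (Fin m) F) S ↔ S + ct q S = 0 := by
  constructor
  · intro h
    ext i j
    have := h i j
    simpa [ct_apply] using this
  · intro h i j
    have := congrFun (congrFun h i) j
    simpa [ct_apply] using this

theorem adm_add (hF : Fintype.card F = q ^ 2) {S S' : Matrix (Fin m) (Fin m) F}
    (h : IsAdm q (0 : Matrix (Fin ε) (Fin m) F) S) (h' : IsAdm q (0 : Matrix (Fin ε) (Fin m) F) S') :
    IsAdm q (0 : Matrix (Fin ε) (Fin m) F) (S + S') := by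
  rw [adm_zero_iff] at *
  rw [ct_add' hF, add_add_add_comm, h, h', add_zero]

theorem upd_upd (hF : Fintype.card F = q ^ 2) (c d : Matrix (Fin m) (Fin m) F)
    (e : Matrix (Fin m) (Fin ε) F) (S S' : Matrix (Fin m) (Fin m) F) :
    updD q c e (updD q c e d 0 S) 0 S' = updD q c e d 0 (S + S') := by
  simp only [updD_zero, ct_add' hF, Matrix.mul_add, add_assoc]

theorem rowRel_upd (hF : Fintype.card F = q ^ 2) {c d : Matrix (Fin m) (Fin m) F}
    {e : Matrix (Fin m) (Fin ε) F} (hR : RowRel q c e d) {S : Matrix (Fin m) (Fin m) F}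
    (hS : S + ct q S = 0) : RowRel q c e (updD q c e d 0 S) := by
  have hR' : c * ct q d + e * cst q e + d * ct q c = 0 := hR
  show c * ct q (updD q c e d 0 S) + e * cst q e + (updD q c e d 0 S) * ct q c = 0
  have h1 : ct q (updD q c e d 0 S) = ct q d + S * ct q c := by
    rw [updD_zero, ct_add' hF, ct_mul' hF, ct_ct hF]
  rw [h1, updD_zero]
  have h2 : c * (ct q d + S * ct q c) + e * cst q e + (d + c * ct q S) * ct q c =
      (c * ct q d + e * cst q e + d * ct q c) + c * (S + ct q S) * ct q c := by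
    simp only [Matrix.mul_add, Matrix.add_mul, Matrix.mul_assoc]
    abel
  rw [h2, hR', hS]
  simp

theorem rowFull_upd {c d : Matrix (Fin m) (Fin m) F} {e : Matrix (Fin m) (Fin ε) F}
    (hfull : RowFull c e d) (S : Matrix (Fin m) (Fin m) F) : RowFull c e (updD q c e d 0 S) := by
  intro ξ h1 h2 h3
  apply hfull ξ h1 h2
  rw [updD_zero] at h3
  rw [Matrix.vecMul_add, ← Matrix.vecMul_vecMul, h1] at h3
  simpa using h3

/-- One step of the greedy argument. -/
theorem step (hF : Fintype.card F = q ^ 2) (hε : ε ≤ 1) {c d : Matrix (Fin m) (Fin m) F}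
    {e : Matrix (Fin m) (Fin ε) F} (hR : RowRel q c e d) (hfull : RowFull c e d) (hdet : d.det = 0) :
    ∃ S : Matrix (Fin m) (Fin m) F, S + ct q S = 0 ∧
      (∀ u : Fin m → F, (updD q c e d 0 S) *ᵥ u = 0 → d *ᵥ u = 0) ∧
      ∃ y : Fin m → F, d *ᵥ y = 0 ∧ (updD q c e d 0 S) *ᵥ y ≠ 0 := by
  classical
  obtain ⟨ξ, hξ0, hξ⟩ := Matrix.exists_vecMul_eq_zero_iff.2 hdet
  obtain ⟨y, hy0, hy⟩ := Matrix.exists_mulVec_eq_zero_iff.2 hdet
  have hξe := xi_e_zero hF hε hR ξ hξ
  have hξc : ξ ᵥ* c ≠ 0 := fun h => hξ0 (hfull ξ h hξe hξ)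
  have hyq : (fun i => y i ^ q) ≠ 0 := by
    intro h
    apply hy0
    funext i
    have := congrFun h i
    have hq : q ≠ 0 := by
      have := two_le_q hF
      omega
    simpa [hq] using this
  obtain ⟨v, hv1, hv2⟩ := exists_vec _ _ hξc hyq
  obtain ⟨θ, hθ0, hθ⟩ := exists_theta hF
  -- the functional `u ↦ v^* u`
  let t : (Fin m → F) → F := fun u => ∑ j, v j ^ q * u j
  have ht : t y ≠ 0 := by
    intro h
    apply hv2
    have h1 : (∑ j, y j ^ q * v j) = (t y) ^ q := by
      simp only [t]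
      rw [pow_q_sum hF]
      refine Finset.sum_congr rfl fun j _ => ?_
      rw [mul_pow, pow_q_pow_q hF, mul_comm]
    simp only [dotProduct]
    rw [h1, h, zero_pow_q hF]
  let S : Matrix (Fin m) (Fin m) F := of fun i j => -θ * v i * v j ^ q
  have hct : ct q S = of fun i j => θ * v i * v j ^ q := by
    ext i j
    simp only [ct_apply, S, of_apply]
    rw [mul_pow, mul_pow, pow_q_neg hF, hθ, pow_q_pow_q hF]
    ring
  have hS : S + ct q S = 0 := by
    rw [hct]
    ext i j
    simp only [S, Matrix.add_apply, of_apply, Matrix.zero_apply]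
    ring
  have hmv : ∀ u : Fin m → F, (updD q c e d 0 S) *ᵥ u = d *ᵥ u + (θ * t u) • (c *ᵥ v) := by
    intro u
    rw [updD_zero, Matrix.add_mulVec, ← Matrix.mulVec_mulVec]
    congr 1
    have h1 : ct q S *ᵥ u = (θ * t u) • v := by
      rw [hct]
      funext i
      simp only [Matrix.mulVec, dotProduct, of_apply, Pi.smul_apply, smul_eq_mul, t, Finset.mul_sum,
        Finset.sum_mul]
      refine Finset.sum_congr rfl fun j _ => ?_
      ring
    rw [h1, Matrix.mulVec_smul]
  have hξv : ξ ⬝ᵥ (c *ᵥ v) ≠ 0 := by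
    rw [Matrix.dotProduct_mulVec]
    exact hv1
  refine ⟨S, hS, ?_, y, hy, ?_⟩
  · intro u hu
    rw [hmv] at hu
    have h1 := congrArg (fun w => ξ ⬝ᵥ w) hu
    simp only [dotProduct_add, dotProduct_smul, dotProduct_zero, smul_eq_mul] at h1
    rw [Matrix.dotProduct_mulVec, hξ, zero_dotProduct, zero_add] at h1
    have h2 : t u = 0 := by
      rcases mul_eq_zero.1 h1 with h3 | h3
      · exact (mul_eq_zero.1 h3).resolve_left hθ0
      · exact absurd h3 hξv
    rw [h2] at hu
    simpa using hu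
  · rw [hmv, hy, zero_add]
    intro h
    rcases smul_eq_zero.1 h with h1 | h1
    · exact (mul_ne_zero hθ0 ht) h1
    · apply hξv
      rw [h1, dotProduct_zero]

end PosInv

open PosInv in
/-- The `d`-block can be made invertible by a skew-hermitian update. -/
theorem exists_upd_unit {F : Type*} [Field F] [Fintype F] {q m ε : ℕ} (hF : Fintype.card F = q ^ 2)
    (hε : ε ≤ 1) (c : Matrix (Fin m) (Fin m) F) (e : Matrix (Fin m) (Fin ε) F)
    (d : Matrix (Fin m) (Fin m) F) (hR : RowRel q c e d) (hfull : RowFull c e d) :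
    ∃ S : Matrix (Fin m) (Fin m) F, IsAdm q (0 : Matrix (Fin ε) (Fin m) F) S ∧
      IsUnit (updD q c e d 0 S).det := by
  classical
  induction' hk : (Finset.univ.filter fun u : Fin m → F => d *ᵥ u = 0).card using
    Nat.strong_induction_on with k ih generalizing d
  by_cases hdet : d.det = 0
  · obtain ⟨S, hS, himp, y, hy, hy'⟩ := step hF hε hR hfull hdet
    have hlt : (Finset.univ.filter fun u : Fin m → F => (updD q c e d 0 S) *ᵥ u = 0).card < k := by
      rw [← hk]
      apply Finset.card_lt_card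
      rw [Finset.ssubset_iff_of_subset]
      · exact ⟨y, by simp [hy], by simpa using hy'⟩
      · intro u hu
        simp only [Finset.mem_filter, Finset.mem_univ, true_and] at hu ⊢
        exact himp u hu
    obtain ⟨S', hS', hu⟩ := ih _ hlt (updD q c e d 0 S) (rowRel_upd hF hR hS) (rowFull_upd hfull S) rfl
    refine ⟨S + S', adm_add hF ((adm_zero_iff S).2 hS) hS', ?_⟩
    rwa [upd_upd hF] at hu
  · refine ⟨0, ?_, ?_⟩
    · rw [adm_zero_iff]
      ext i j
      have hq : q ≠ 0 := by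
        have := two_le_q hF
        omega
      simp [ct_apply, hq]
    · have h1 : updD q c e d 0 0 = d := by
        have hq : q ≠ 0 := by
          have := two_le_q hF
          omega
        have h2 : ct q (0 : Matrix (Fin m) (Fin m) F) = 0 := by
          ext i j
          simp [ct_apply, hq]
        rw [updD_zero, h2]
        simp
      rw [h1]
      exact isUnit_iff_ne_zero.2 hdet

end Cfsg.Agent.Lib.OreU
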