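import Mathlib
import Cfsg.Agent.Lib.OreU.PosDefs

/-!
# A unipotent update making the `W'`-block `d (1 + w p)` with `p w = 0`, `w, p ≠ 0`
-/

set_option autoImplicit false
set_option linter.unusedSectionVars false
set_option linter.unusedSimpArgs false
set_option linter.unusedVariables false

namespace Cfsg.Agent.Lib.OreU

open Matrix
open Cfsg.Agent.Lib.Classical.Herm.Basic

namespace PosNonsc

variable {F : Type*} [Field F] [Fintype F] {q m ε : ℕ}

/-- Entrywise `q`-th power. -/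
def sg (q : ℕ) (v : Fin m → F) : Fin m → F := fun i => v i ^ q

theorem sg_apply (v : Fin m → F) (i : Fin m) : sg q v i = v i ^ q := rfl

theorem sg_add (hF : Fintype.card F = q ^ 2) (u v : Fin m → F) :
    sg q (u + v) = sg q u + sg q v := by
  funext i
  simp only [sg_apply, Pi.add_apply, pow_q_add hF]

theorem sg_smul (a : F) (v : Fin m → F) : sg q (a • v) = a ^ q • sg q v := by
  funext i
  simp only [sg_apply, Pi.smul_apply, smul_eq_mul, mul_pow]

theorem q_ne_zero (hF : Fintype.card F = q ^ 2) : q ≠ 0 := by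
  have := two_le_q hF
  omega

theorem sg_ne_zero (hF : Fintype.card F = q ^ 2) {v : Fin m → F} (hv : v ≠ 0) : sg q v ≠ 0 := by
  intro h
  apply hv
  funext i
  have := congrFun h i
  simpa [sg_apply, q_ne_zero hF] using this

/-- The sesquilinear form. -/
def fm (q : ℕ) (s : Matrix (Fin m) (Fin m) F) (r u : Fin m → F) : F := r ⬝ᵥ (s *ᵥ sg q u)

theorem fm_add_left (s : Matrix (Fin m) (Fin m) F) (r r' u : Fin m → F) :
    fm q s (r + r') u = fm q s r u + fm q s r' u := by
  simp only [fm, add_dotProduct]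

theorem fm_smul_left (s : Matrix (Fin m) (Fin m) F) (a : F) (r u : Fin m → F) :
    fm q s (a • r) u = a * fm q s r u := by
  simp only [fm, smul_dotProduct, smul_eq_mul]

theorem fm_add_right (hF : Fintype.card F = q ^ 2) (s : Matrix (Fin m) (Fin m) F)
    (r u u' : Fin m → F) : fm q s r (u + u') = fm q s r u + fm q s r u' := by
  simp only [fm, sg_add hF, Matrix.mulVec_add, dotProduct_add]

theorem fm_smul_right (s : Matrix (Fin m) (Fin m) F) (a : F) (r u : Fin m → F) :
    fm q s r (a • u) = a ^ q * fm q s r u := by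
  simp only [fm, sg_smul, Matrix.mulVec_smul, dotProduct_smul, smul_eq_mul]

theorem sg_dot (hF : Fintype.card F = q ^ 2) (u v : Fin m → F) :
    sg q u ⬝ᵥ sg q v = (u ⬝ᵥ v) ^ q := by
  simp only [dotProduct, sg_apply]
  rw [pow_q_sum hF]
  exact Finset.sum_congr rfl fun j _ => (mul_pow _ _ _).symm

theorem fm_pow (hF : Fintype.card F = q ^ 2) (s : Matrix (Fin m) (Fin m) F) (u r : Fin m → F) :
    (fm q s u r) ^ q = r ⬝ᵥ (ct q s *ᵥ sg q u) := by
  simp only [fm, dotProduct, Matrix.mulVec, sg_apply, ct_apply]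
  rw [pow_q_sum hF]
  simp only [mul_pow]
  simp only [pow_q_sum hF, mul_pow, pow_q_pow_q hF, Finset.mul_sum]
  rw [Finset.sum_comm]
  refine Finset.sum_congr rfl fun i _ => Finset.sum_congr rfl fun j _ => ?_
  ring

theorem fm_herm (hF : Fintype.card F = q ^ 2) {s : Matrix (Fin m) (Fin m) F} {y : Fin m → F}
    (hs : s + ct q s = -vecMulVec y (sg q y)) (r u : Fin m → F) :
    fm q s r u + (fm q s u r) ^ q = -((r ⬝ᵥ y) * (u ⬝ᵥ y) ^ q) := by
  rw [fm_pow hF, fm, ← dotProduct_add, ← Matrix.add_mulVec, hs, Matrix.neg_mulVec,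
    Matrix.vecMulVec_mulVec, dotProduct_neg, dotProduct_smul, sg_dot hF]
  simp only [smul_eq_mul, MulOpposite.smul_eq_mul_unop, MulOpposite.unop_op]
  rw [dotProduct_comm u y]

theorem exists_tr (hF : Fintype.card F = q ^ 2) (x : F) (hx : x ^ q = x) :
    ∃ κ : F, κ + κ ^ q = x := by
  have h1 : ∃ a : F, a + a ^ q ≠ 0 := by
    have h := sigma_ne_id hF
    have h2 : ∃ a : F, a ^ q ≠ a := by
      by_contra hcon
      push Not at hcon
      apply h
      ext z
      exact hcon z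
    obtain ⟨a, ha⟩ := h2
    by_cases h3 : a + a ^ q = 0
    · refine ⟨1, ?_⟩
      rw [one_pow]
      intro h4
      apply ha
      have h5 : a ^ q = -a := by
        linear_combination h3
      have h6 : -a = a := by
        linear_combination (-a) * h4
      rw [h5, h6]
    · exact ⟨a, h3⟩
  obtain ⟨a, ha⟩ := h1
  set c := a + a ^ q with hc
  have hcq : c ^ q = c := by
    rw [hc, pow_q_add hF, pow_q_pow_q hF, add_comm]
  refine ⟨a * x / c, ?_⟩
  rw [div_pow, mul_pow, hx, hcq]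
  field_simp
  rw [hc]

theorem exists_skew (hF : Fintype.card F = q ^ 2) : ∃ θ : F, θ ≠ 0 ∧ θ + θ ^ q = 0 := by
  have h := sigma_ne_id hF
  have h1 : ∃ a : F, a ^ q ≠ a := by
    by_contra hcon
    push Not at hcon
    apply h
    ext x
    exact hcon x
  obtain ⟨a, ha⟩ := h1
  refine ⟨a - a ^ q, sub_ne_zero.2 (Ne.symm ha), ?_⟩
  rw [pow_q_sub hF, pow_q_pow_q hF]
  ring

theorem ct_rank_one (hF : Fintype.card F = q ^ 2) (μ : F) (r : Fin m → F) :
    ct q (μ • vecMulVec (sg q r) r) = μ ^ q • vecMulVec (sg q r) r := by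
  ext i j
  simp only [ct_apply, Matrix.smul_apply, vecMulVec_apply, sg_apply, smul_eq_mul, mul_pow,
    pow_q_pow_q hF]
  ring

/-- A skew form in dimension at least two has a nonzero isotropic vector. -/
theorem exists_iso (hF : Fintype.card F = q ^ 2) (hm : 2 ≤ m) {s : Matrix (Fin m) (Fin m) F}
    (hs : ∀ r u : Fin m → F, fm q s r u + (fm q s u r) ^ q = 0) :
    ∃ r : Fin m → F, r ≠ 0 ∧ fm q s r r = 0 := by
  classical
  let i : Fin m := ⟨0, by omega⟩
  let j : Fin m := ⟨1, by omega⟩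
  have hij : i ≠ j := by
    intro h
    have := congrArg Fin.val h
    simp [i, j] at this
  let r₀ : Fin m → F := Pi.single i 1
  let r₁ : Fin m → F := Pi.single j 1
  have hr₀ : r₀ ≠ 0 := by
    intro h
    have := congrFun h i
    simp [r₀] at this
  by_cases h0 : fm q s r₀ r₀ = 0
  · exact ⟨r₀, hr₀, h0⟩
  set B := fm q s r₀ r₀ with hB
  set c := fm q s r₁ r₀ / B with hc
  let x : Fin m → F := r₁ + (-c) • r₀
  have hxj : x j = 1 := by
    simp [x, r₀, r₁, hij, hij.symm]
  have hx0 : fm q s x r₀ = 0 := by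
    simp only [x, fm_add_left, fm_smul_left, ← hB]
    rw [hc]
    field_simp
    ring
  have hx0' : fm q s r₀ x = 0 := by
    have := hs r₀ x
    rw [hx0, zero_pow_q hF, add_zero] at this
    exact this
  by_cases hC : fm q s x x = 0
  · refine ⟨x, ?_, hC⟩
    intro h
    rw [h] at hxj
    simp at hxj
  set C := fm q s x x with hCd
  have hBq : B ^ q = -B := by
    have := hs r₀ r₀
    rw [← hB] at this
    linear_combination this
  have hCq : C ^ q = -C := by
    have := hs x x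
    rw [← hCd] at this
    linear_combination this
  have ht : -C / B ≠ 0 := div_ne_zero (neg_ne_zero.2 hC) h0
  have htq : (-C / B) ^ q = -C / B := by
    rw [div_pow, pow_q_neg hF, hCq, hBq]
    field_simp
  obtain ⟨α, hα⟩ := exists_norm_eq hF _ ht htq
  refine ⟨α • r₀ + x, ?_, ?_⟩
  · intro h
    have := congrFun h j
    simp only [Pi.add_apply, Pi.smul_apply, smul_eq_mul, Pi.zero_apply, hxj] at this
    have h2 : r₀ j = 0 := by simp [r₀, hij.symm]
    rw [h2] at this
    simp at this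
  · simp only [fm_add_left, fm_smul_left, fm_add_right hF, fm_smul_right, ← hB, hx0, hx0', ← hCd]
    have h3 : α ^ q * (α * B) = α ^ (q + 1) * B := by
      rw [pow_succ]
      ring
    simp only [mul_zero, add_zero, zero_add]
    rw [h3, hα]
    field_simp
    ring

/-- The case `y = 0`. -/
theorem core_y0 (hF : Fintype.card F = q ^ 2) (hm : 2 ≤ m) {s : Matrix (Fin m) (Fin m) F}
    (hs : s + ct q s = 0) (hs0 : s ≠ 0) :
    ∃ (K : Matrix (Fin m) (Fin m) F) (w r : Fin m → F), K + ct q K = 0 ∧ s * K = vecMulVec w r ∧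
      w ≠ 0 ∧ r ≠ 0 ∧ r ⬝ᵥ w = 0 := by
  classical
  have hs' : s + ct q s = -vecMulVec (0 : Fin m → F) (sg q 0) := by
    rw [hs]
    ext i j
    simp [vecMulVec_apply]
  have hsk : ∀ r u : Fin m → F, fm q s r u + (fm q s u r) ^ q = 0 := by
    intro r u
    rw [fm_herm hF hs' r u]
    simp
  by_cases h : ∃ r : Fin m → F, r ≠ 0 ∧ s *ᵥ sg q r = 0
  · obtain ⟨r, hr0, hr⟩ := h
    have hu : ∃ u : Fin m → F, s *ᵥ sg q u ≠ 0 := by
      by_contra hcon
      push Not at hcon
      apply hs0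
      ext i j
      have h1 := congrFun (hcon (Pi.single j 1)) i
      have h2 : sg q (Pi.single j 1 : Fin m → F) = Pi.single j 1 := by
        funext k
        by_cases hk : k = j
        · subst hk
          simp [sg_apply]
        · simp [sg_apply, hk, q_ne_zero hF]
      rw [h2] at h1
      simpa using h1
    obtain ⟨u, hu⟩ := hu
    refine ⟨vecMulVec (sg q u) r - vecMulVec (sg q r) u, s *ᵥ sg q u, r, ?_, ?_, hu, hr0, ?_⟩
    · ext i j
      simp only [Matrix.add_apply, Matrix.sub_apply, ct_apply, vecMulVec_apply, sg_apply,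
        Matrix.zero_apply, pow_q_sub hF, mul_pow, pow_q_pow_q hF]
      ring
    · rw [Matrix.mul_sub, mul_vecMulVec, mul_vecMulVec, hr]
      ext i j
      simp [vecMulVec_apply]
    · have h1 := hsk r u
      have h2 : fm q s u r = 0 := by
        simp only [fm, hr, dotProduct_zero]
      rw [h2, zero_pow_q hF, add_zero] at h1
      exact h1
  · push Not at h
    have hsk' := hsk
    obtain ⟨r, hr0, hr⟩ := exists_iso hF hm hsk
    obtain ⟨θ, hθ0, hθ⟩ := exists_skew hF
    refine ⟨θ • vecMulVec (sg q r) r, θ • (s *ᵥ sg q r), r, ?_, ?_, ?_, hr0, ?_⟩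
    · rw [ct_rank_one hF, ← add_smul, hθ, zero_smul]
    · rw [Matrix.mul_smul, mul_vecMulVec]
      ext i j
      simp [vecMulVec_apply, mul_assoc]
    · exact smul_ne_zero hθ0 (h r hr0)
    · rw [dotProduct_smul]
      have : r ⬝ᵥ (s *ᵥ sg q r) = 0 := hr
      rw [this, smul_zero]

/-- The case `y ≠ 0`. -/
theorem core_y (hF : Fintype.card F = q ^ 2) (hm : 2 ≤ m) {s : Matrix (Fin m) (Fin m) F}
    {y : Fin m → F} (hs : s + ct q s = -vecMulVec y (sg q y)) (hy : y ≠ 0) :
    ∃ (t μ : F) (w r : Fin m → F), μ + μ ^ q = -t ^ (q + 1) ∧ w = μ • (s *ᵥ sg q r) + t • y ∧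
      w ≠ 0 ∧ r ≠ 0 ∧ r ⬝ᵥ w = 0 := by
  classical
  by_contra hcon
  -- step A
  have stepA : ∀ r : Fin m → F, r ⬝ᵥ y ≠ 0 → s *ᵥ sg q r = (fm q s r r / (r ⬝ᵥ y)) • y := by
    intro r hr
    set a := r ⬝ᵥ y with ha
    set b := fm q s r r with hb
    have hb0 : b ≠ 0 := by
      intro h0
      have h1 := fm_herm hF hs r r
      rw [← hb, h0, zero_pow_q hF, add_zero, ← ha] at h1
      have h2 : a * a ^ q = 0 := by
        have := h1.symm
        exact neg_eq_zero.1 this
      rcases mul_eq_zero.1 h2 with h3 | h3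
      · exact hr h3
      · exact hr ((pow_eq_zero_iff (q_ne_zero hF)).1 h3)
    set A := a / b with hA
    have hA0 : A ≠ 0 := div_ne_zero hr hb0
    have hn0 : (A ^ (q + 1))⁻¹ ≠ 0 := inv_ne_zero (pow_ne_zero _ hA0)
    have hnq : ((A ^ (q + 1))⁻¹) ^ q = (A ^ (q + 1))⁻¹ := by
      rw [inv_pow, norm_pow_q hF]
    obtain ⟨κ, hκ⟩ := exists_tr hF _ hnq
    have hκ0 : κ ≠ 0 := by
      intro h0
      rw [h0, zero_pow_q hF, add_zero] at hκ
      exact hn0 hκ.symm
    have hκq : κ ^ q ≠ 0 := pow_ne_zero _ hκ0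
    by_contra hne
    apply hcon
    refine ⟨κ⁻¹ * A⁻¹, -κ⁻¹, -κ⁻¹ • (s *ᵥ sg q r) + (κ⁻¹ * A⁻¹) • y, r, ?_, rfl, ?_, ?_, ?_⟩
    · have h1 : (κ⁻¹ * A⁻¹) ^ (q + 1) = (κ * κ ^ q)⁻¹ * (A ^ (q + 1))⁻¹ := by
        rw [mul_pow, inv_pow, inv_pow, pow_succ κ q, mul_comm (κ ^ q) κ]
      rw [h1, ← hκ, pow_q_neg hF, inv_pow]
      have hAq : A ^ q ≠ 0 := pow_ne_zero _ hA0
      have hsum : κ + κ ^ q = (A ^ (q + 1))⁻¹ := hκ
      field_simp
      ring
    · intro h0
      apply hne
      have h1 : -κ⁻¹ • (s *ᵥ sg q r) + (κ⁻¹ * A⁻¹) • y =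
          (κ⁻¹ * A⁻¹) • (y - A • (s *ᵥ sg q r)) := by
        rw [smul_sub, smul_smul, mul_assoc, inv_mul_cancel₀ hA0, mul_one, sub_eq_add_neg,
          add_comm, neg_smul]
      rw [h1] at h0
      have h2 := (smul_eq_zero.1 h0).resolve_left (mul_ne_zero (inv_ne_zero hκ0) (inv_ne_zero hA0))
      have h3 : y = A • (s *ᵥ sg q r) := sub_eq_zero.1 h2
      rw [h3, smul_smul]
      have h4 : b / a * A = 1 := by
        rw [hA]
        field_simp
      rw [h4, one_smul]
    · intro h0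
      apply hr
      rw [ha, h0, zero_dotProduct]
    · rw [dotProduct_add, dotProduct_smul, dotProduct_smul, ← ha]
      have h1 : r ⬝ᵥ (s *ᵥ sg q r) = b := rfl
      rw [h1]
      simp only [smul_eq_mul]
      rw [hA]
      field_simp
      ring
  -- step B
  obtain ⟨i, hi⟩ := Function.ne_iff.1 hy
  have hi' : y i ≠ 0 := by simpa using hi
  obtain ⟨j, hij⟩ : ∃ j : Fin m, j ≠ i := by
    by_cases h0 : (i : ℕ) = 0
    · exact ⟨⟨1, by omega⟩, fun h => by
        have := congrArg Fin.val h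
        simp at this
        omega⟩
    · exact ⟨⟨0, by omega⟩, fun h => by
        have := congrArg Fin.val h
        simp at this
        omega⟩
  let r₁ : Fin m → F := Pi.single i 1
  let r₀ : Fin m → F := Pi.single i (y j) + Pi.single j (-y i)
  have ha₁ : r₁ ⬝ᵥ y = y i := by simp [r₁]
  have ha₀ : r₀ ⬝ᵥ y = 0 := by
    simp only [r₀, add_dotProduct, single_dotProduct]
    ring
  have hr₀ : r₀ ≠ 0 := by
    intro h
    have := congrFun h j
    simp [r₀, hij, hi'] at this
  have h1 := stepA r₁ (by rw [ha₁]; exact hi')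
  have hsum : (r₁ + r₀) ⬝ᵥ y ≠ 0 := by
    rw [add_dotProduct, ha₀, add_zero, ha₁]
    exact hi'
  have h2 := stepA (r₁ + r₀) hsum
  rw [sg_add hF, Matrix.mulVec_add, h1] at h2
  set c₂ := fm q s (r₁ + r₀) (r₁ + r₀) / ((r₁ + r₀) ⬝ᵥ y) with hc₂
  set c₁ := fm q s r₁ r₁ / (r₁ ⬝ᵥ y) with hc₁
  have h3 : s *ᵥ sg q r₀ = (c₂ - c₁) • y := by
    rw [sub_smul, ← h2]
    abel
  have h4 : fm q s r₀ r₁ = 0 := by
    simp only [fm, h1, dotProduct_smul, ha₀, smul_zero]
  have h5 : fm q s r₁ r₀ = (c₂ - c₁) * y i := by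
    simp only [fm, h3, dotProduct_smul, ha₁, smul_eq_mul]
  have h6 := fm_herm hF hs r₁ r₀
  rw [h4, h5, zero_pow_q hF, add_zero, ha₀, zero_pow_q hF, mul_zero, neg_zero] at h6
  have h7 : c₂ - c₁ = 0 := (mul_eq_zero.1 h6).resolve_right hi'
  rw [h7, zero_smul] at h3
  have hm1 : (-1 : F) ^ q = -1 := by
    rw [pow_q_neg hF, one_pow]
  obtain ⟨μ, hμ⟩ := exists_tr hF (-1 : F) hm1
  apply hcon
  refine ⟨1, μ, y, r₀, ?_, ?_, hy, hr₀, ha₀⟩
  · rw [one_pow]
    exact hμ
  · rw [h3, smul_zero, zero_add, one_smul]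

/-- The relation in normalized form. -/
theorem rel_of_row (hF : Fintype.card F = q ^ 2) {c d : Matrix (Fin m) (Fin m) F} {ev : Fin m → F}
    (hd : IsUnit d.det) (h : c * ct q d + vecMulVec ev (sg q ev) + d * ct q c = 0) :
    d⁻¹ * c + ct q (d⁻¹ * c) = -vecMulVec (d⁻¹ *ᵥ ev) (sg q (d⁻¹ *ᵥ ev)) := by
  have hD : d⁻¹ * d = 1 := Matrix.nonsing_inv_mul d hd
  have h1 : ct q d * ct q d⁻¹ = 1 := by
    rw [← ct_mul' hF, hD, ct_one hF]
  have h2 : ct q (d⁻¹ * c) = ct q c * ct q d⁻¹ := ct_mul' hF _ _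
  have h3 : d⁻¹ * vecMulVec ev (sg q ev) * ct q d⁻¹ = vecMulVec (d⁻¹ *ᵥ ev) (sg q (d⁻¹ *ᵥ ev)) := by
    rw [mul_vecMulVec, vecMulVec_mul]
    congr 1
    funext k
    simp only [Matrix.vecMul, dotProduct, sg_apply, ct_apply, Matrix.mulVec]
    rw [pow_q_sum hF]
    exact Finset.sum_congr rfl fun j _ => by rw [mul_pow, mul_comm]
  have h4 : d⁻¹ * (c * ct q d + vecMulVec ev (sg q ev) + d * ct q c) * ct q d⁻¹ = 0 := by
    rw [h, Matrix.mul_zero, Matrix.zero_mul]
  have h5 : d⁻¹ * (c * ct q d + vecMulVec ev (sg q ev) + d * ct q c) * ct q d⁻¹ =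
      d⁻¹ * c * (ct q d * ct q d⁻¹) + d⁻¹ * vecMulVec ev (sg q ev) * ct q d⁻¹ +
        (d⁻¹ * d) * ct q c * ct q d⁻¹ := by
    simp only [Matrix.mul_add, Matrix.add_mul, Matrix.mul_assoc]
  rw [h5, h1, hD, h3, Matrix.mul_one, Matrix.one_mul, ← h2] at h4
  rw [eq_neg_iff_add_eq_zero, ← h4]
  abel

end PosNonsc

open PosNonsc in
theorem exists_upd_nonscalar {F : Type*} [Field F] [Fintype F] {q m ε : ℕ}
    (hF : Fintype.card F = q ^ 2) (hε : ε ≤ 1) (hm : 2 ≤ m)
    (c : Matrix (Fin m) (Fin m) F) (e : Matrix (Fin m) (Fin ε) F) (d : Matrix (Fin m) (Fin m) F)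
    (hR : RowRel q c e d) (hd : IsUnit d.det) (hc : c ≠ 0) :
    ∃ (Z : Matrix (Fin ε) (Fin m) F) (S : Matrix (Fin m) (Fin m) F) (w p : Fin m → F),
      IsAdm q Z S ∧ updD q c e d Z S = d * (1 + vecMulVec w p) ∧ w ≠ 0 ∧ p ≠ 0 ∧ p ⬝ᵥ w = 0 := by
  classical
  have hR' : c * ct q d + e * cst q e + d * ct q c = 0 := hR
  have hDd : d * d⁻¹ = 1 := Matrix.mul_nonsing_inv d hd
  have hs0 : d⁻¹ * c ≠ 0 := by
    intro h
    apply hc
    have : d * (d⁻¹ * c) = c := by rw [← Matrix.mul_assoc, hDd, Matrix.one_mul]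
    rw [← this, h, Matrix.mul_zero]
  -- the update coming from a skew `K` with no `y`-part
  have fin0 : ∀ (K : Matrix (Fin m) (Fin m) F) (w r : Fin m → F), K + ct q K = 0 →
      d⁻¹ * c * K = vecMulVec w r → w ≠ 0 → r ≠ 0 → r ⬝ᵥ w = 0 →
      ∃ (Z : Matrix (Fin ε) (Fin m) F) (S : Matrix (Fin m) (Fin m) F) (w p : Fin m → F),
      IsAdm q Z S ∧ updD q c e d Z S = d * (1 + vecMulVec w p) ∧ w ≠ 0 ∧ p ≠ 0 ∧ p ⬝ᵥ w = 0 := by
    intro K w r h1 h2 h3 h4 h5
    refine ⟨0, ct q K, w, r, ?_, ?_, h3, h4, h5⟩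
    · intro i j
      have := congrFun (congrFun h1 j) i
      simp only [Matrix.add_apply, ct_apply, Matrix.zero_apply] at this
      have h6 : (K j i + K i j ^ q) ^ q = 0 := by rw [this, zero_pow_q hF]
      rw [pow_q_add hF, pow_q_pow_q hF] at h6
      simp only [ct_apply, Matrix.zero_apply, ne_eq, q_ne_zero hF, not_false_eq_true, zero_pow,
        zero_mul, mul_zero, Finset.sum_const_zero, add_zero, pow_q_pow_q hF]
      have h7 := congrFun (congrFun h1 i) j
      simp only [Matrix.add_apply, ct_apply, Matrix.zero_apply] at h7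
      linear_combination h7
    · rw [updD, ct_ct hF, Matrix.mul_zero, sub_zero, Matrix.mul_add, Matrix.mul_one, ← h2,
        ← Matrix.mul_assoc, ← Matrix.mul_assoc, hDd, Matrix.one_mul]
  obtain rfl | rfl : ε = 0 ∨ ε = 1 := by omega
  · -- `ε = 0`
    have h1 : c * ct q d + vecMulVec (0 : Fin m → F) (sg q 0) + d * ct q c = 0 := by
      rw [← hR']
      congr 2
      ext i j
      simp [vecMulVec_apply, Matrix.mul_apply]
    have h2 := rel_of_row hF hd h1
    have h3 : d⁻¹ * c + ct q (d⁻¹ * c) = 0 := by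
      rw [h2]
      ext i j
      simp [vecMulVec_apply]
    obtain ⟨K, w, r, hK, h4, h5, h6, h7⟩ := core_y0 hF hm h3 hs0
    exact fin0 K w r hK h4 h5 h6 h7
  · -- `ε = 1`
    let ev : Fin m → F := fun i => e i 0
    have h1 : c * ct q d + vecMulVec ev (sg q ev) + d * ct q c = 0 := by
      rw [← hR']
      congr 2
      ext i j
      simp [vecMulVec_apply, Matrix.mul_apply, ev, sg_apply, cst_apply]
    have h2 := rel_of_row hF hd h1
    set y := d⁻¹ *ᵥ ev with hy
    have hdy : d *ᵥ y = ev := by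
      rw [hy, Matrix.mulVec_mulVec, hDd, Matrix.one_mulVec]
    by_cases hy0 : y = 0
    · have h3 : d⁻¹ * c + ct q (d⁻¹ * c) = 0 := by
        rw [h2, hy0]
        ext i j
        simp [vecMulVec_apply]
      obtain ⟨K, w, r, hK, h4, h5, h6, h7⟩ := core_y0 hF hm h3 hs0
      have hev : ev = 0 := by
        rw [← hdy, hy0, Matrix.mulVec_zero]
      have he0 : e = 0 := by
        ext i j
        have hj : j = 0 := Subsingleton.elim _ _
        rw [hj]
        exact congrFun hev i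
      exact fin0 K w r hK h4 h5 h6 h7
    · obtain ⟨t, μ, w, r, hμ, hw, hw0, hr0, hrw⟩ := core_y hF hm h2 hy0
      refine ⟨of fun _ j => -t * r j, ct q (μ • vecMulVec (sg q r) r), w, r, ?_, ?_, hw0, hr0, hrw⟩
      · intro i j
        rw [ct_rank_one hF]
        simp only [Matrix.smul_apply, vecMulVec_apply, sg_apply, smul_eq_mul, of_apply,
          Fin.sum_univ_one]
        simp only [mul_pow, pow_q_pow_q hF, pow_q_neg hF]
        have h9 : μ + μ ^ q + t ^ q * t = 0 := by
          rw [hμ, pow_succ]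
          ring
        linear_combination (r i ^ q * r j) * h9
      · rw [updD, ct_ct hF, hw]
        ext i j
        have h10 : ∀ k, ev k = (d *ᵥ y) k := fun k => by rw [hdy]
        have h11 : (d * (1 + vecMulVec (μ • ((d⁻¹ * c) *ᵥ sg q r) + t • y) r)) i j =
            d i j + (c * (μ • vecMulVec (sg q r) r)) i j + t * ev i * r j := by
          have h12 : d * vecMulVec (μ • ((d⁻¹ * c) *ᵥ sg q r) + t • y) r =
              μ • vecMulVec (c *ᵥ sg q r) r + t • vecMulVec ev r := by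
            rw [mul_vecMulVec, Matrix.mulVec_add, Matrix.mulVec_smul, Matrix.mulVec_smul, hdy,
              Matrix.mulVec_mulVec, ← Matrix.mul_assoc, hDd, Matrix.one_mul]
            ext a b
            simp [vecMulVec_apply, add_mul, mul_assoc]
          rw [Matrix.mul_add, Matrix.mul_one, h12, Matrix.mul_smul, mul_vecMulVec]
          simp only [Matrix.add_apply, Matrix.smul_apply, vecMulVec_apply, smul_eq_mul]
          ring
        rw [h11]
        simp only [Matrix.sub_apply, Matrix.add_apply, Matrix.mul_apply, Fin.sum_univ_one, of_apply]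
        show _ - e i 0 * (-t * r j) = _
        have h13 : ev i = e i 0 := rfl
        rw [h13]
        ring

end Cfsg.Agent.Lib.OreU
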