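import Mathlib
import Cfsg.Agent.Lib.OreU.Unip

/-!
# Position lemma, part 1: a nonscalar element has a conjugate with nonzero `C` block
-/

set_option autoImplicit false
set_option linter.unusedSectionVars false
set_option linter.unusedSimpArgs false
set_option linter.unusedVariables false

namespace Cfsg.Agent.Lib.OreU

open Matrix
open Cfsg.Agent.Lib.Classical.Herm.Basic

namespace PosScalar

variable {F : Type*} [Field F] {m ε : ℕ}

section entries
variable (q : ℕ) (Z : Matrix (Fin ε) (Fin m) F) (S : Matrix (Fin m) (Fin m) F)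
@[simp] theorem mkL_yw (i j : Fin m) : mkL q Z S (.inr (.inr i)) (.inl j) = S i j := rfl
@[simp] theorem mkL_yv (i : Fin m) (j : Fin ε) :
    mkL q Z S (.inr (.inr i)) (.inr (.inl j)) = -(Z j i) ^ q := rfl
@[simp] theorem mkL_yy (i j : Fin m) :
    mkL q Z S (.inr (.inr i)) (.inr (.inr j)) = if i = j then 1 else 0 := rfl
@[simp] theorem mkL_ww (i j : Fin m) : mkL q Z S (.inl i) (.inl j) = if i = j then 1 else 0 := rfl
@[simp] theorem mkL_vw (i : Fin ε) (j : Fin m) : mkL q Z S (.inr (.inl i)) (.inl j) = Z i j := rfl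
end entries

/-- The `C` block of an `mkL`-conjugate. -/
theorem conj_entry (q : ℕ) (M : Matrix (Ix m ε) (Ix m ε) F) (Z Z' : Matrix (Fin ε) (Fin m) F)
    (S T : Matrix (Fin m) (Fin m) F) (i j : Fin m) :
    (mkL q Z S * M * mkL q Z' T) (.inr (.inr i)) (.inl j) =
      ∑ y, S i y * (M (.inl y) (.inl j) + (∑ b, M (.inl y) (.inr (.inl b)) * Z' b j +
          ∑ b, M (.inl y) (.inr (.inr b)) * T b j))
      + (∑ y, (-(Z y i) ^ q) * (M (.inr (.inl y)) (.inl j) +
          (∑ b, M (.inr (.inl y)) (.inr (.inl b)) * Z' b j +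
            ∑ b, M (.inr (.inl y)) (.inr (.inr b)) * T b j))
      + (M (.inr (.inr i)) (.inl j) + (∑ b, M (.inr (.inr i)) (.inr (.inl b)) * Z' b j +
          ∑ b, M (.inr (.inr i)) (.inr (.inr b)) * T b j))) := by
  rw [Matrix.mul_assoc, Matrix.mul_apply, Fintype.sum_sum_type, Fintype.sum_sum_type]
  simp only [Matrix.mul_apply, Fintype.sum_sum_type, mkL_yw, mkL_yv, mkL_yy, mkL_ww, mkL_vw,
    mul_ite, ite_mul, one_mul, mul_one, zero_mul, mul_zero, Finset.sum_ite_eq, Finset.sum_ite_eq',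
    Finset.mem_univ, if_true]

/-- The relevant entries of an `mkU`-conjugate, `Z = 0`, when `C = 0`. -/
theorem conjU_ww {q : ℕ} (hq : q ≠ 0) (M : Matrix (Ix m ε) (Ix m ε) F)
    (hC : ∀ i j, M (.inr (.inr i)) (.inl j) = 0) (S T : Matrix (Fin m) (Fin m) F) (i j : Fin m) :
    (mkU q (0 : Matrix (Fin ε) (Fin m) F) S * M * mkU q (0 : Matrix (Fin ε) (Fin m) F) T)
      (.inl i) (.inl j) = M (.inl i) (.inl j) := by
  rw [Matrix.mul_assoc, Matrix.mul_apply, Fintype.sum_sum_type, Fintype.sum_sum_type]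
  simp [Matrix.mul_apply, Fintype.sum_sum_type, hq, hC]

theorem conjU_yy {q : ℕ} (hq : q ≠ 0) (M : Matrix (Ix m ε) (Ix m ε) F)
    (hC : ∀ i j, M (.inr (.inr i)) (.inl j) = 0) (S T : Matrix (Fin m) (Fin m) F) (i j : Fin m) :
    (mkU q (0 : Matrix (Fin ε) (Fin m) F) S * M * mkU q (0 : Matrix (Fin ε) (Fin m) F) T)
      (.inr (.inr i)) (.inr (.inr j)) = M (.inr (.inr i)) (.inr (.inr j)) := by
  rw [Matrix.mul_assoc, Matrix.mul_apply, Fintype.sum_sum_type, Fintype.sum_sum_type]
  simp [Matrix.mul_apply, Fintype.sum_sum_type, hq, hC]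

theorem conjU_yw {q : ℕ} (hq : q ≠ 0) (M : Matrix (Ix m ε) (Ix m ε) F)
    (hC : ∀ i j, M (.inr (.inr i)) (.inl j) = 0) (S T : Matrix (Fin m) (Fin m) F) (i j : Fin m) :
    (mkU q (0 : Matrix (Fin ε) (Fin m) F) S * M * mkU q (0 : Matrix (Fin ε) (Fin m) F) T)
      (.inr (.inr i)) (.inl j) = 0 := by
  rw [Matrix.mul_assoc, Matrix.mul_apply, Fintype.sum_sum_type, Fintype.sum_sum_type]
  simp [Matrix.mul_apply, Fintype.sum_sum_type, hq, hC]

theorem conjU_wy {q : ℕ} (hq : q ≠ 0) (M : Matrix (Ix m ε) (Ix m ε) F)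
    (hC : ∀ i j, M (.inr (.inr i)) (.inl j) = 0) (S T : Matrix (Fin m) (Fin m) F) (i j : Fin m) :
    (mkU q (0 : Matrix (Fin ε) (Fin m) F) S * M * mkU q (0 : Matrix (Fin ε) (Fin m) F) T)
      (.inl i) (.inr (.inr j)) = M (.inl i) (.inr (.inr j)) + ∑ z, M (.inl i) (.inl z) * T z j +
        ∑ y, S i y * M (.inr (.inr y)) (.inr (.inr j)) := by
  rw [Matrix.mul_assoc, Matrix.mul_apply, Fintype.sum_sum_type, Fintype.sum_sum_type]
  simp [Matrix.mul_apply, Fintype.sum_sum_type, hq, hC]
  ring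

section main
variable [Fintype F] {q : ℕ}

theorem exists_pow_ne (hF : Fintype.card F = q ^ 2) : ∃ a : F, a ^ q ≠ a := by
  by_contra h
  push Not at h
  apply sigma_ne_id hF
  ext x
  simpa using h x

theorem key (hF : Fintype.card F = q ^ 2) {θ : F} (hθ0 : θ ≠ 0) (hθq : θ ^ q = -θ)
    {g : GL (Ix m ε) F}
    (hcon : ∀ k ∈ SUM hF m ε,
      blkC ((k * g * k⁻¹ : GL (Ix m ε) F) : Matrix (Ix m ε) (Ix m ε) F) = 0)
    (hC : ∀ i j, (g : Matrix (Ix m ε) (Ix m ε) F) (.inr (.inr i)) (.inl j) = 0)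
    (S : Matrix (Fin m) (Fin m) F) (hS : IsAdm q (0 : Matrix (Fin ε) (Fin m) F) S) (i j : Fin m) :
    (g : Matrix (Ix m ε) (Ix m ε) F) (.inl i) (.inl j) -
      θ * ((g : Matrix (Ix m ε) (Ix m ε) F) (.inl i) (.inr (.inr j)) +
        ∑ z, (g : Matrix (Ix m ε) (Ix m ε) F) (.inl i) (.inl z) * ct q S z j +
        ∑ y, S i y * (g : Matrix (Ix m ε) (Ix m ε) F) (.inr (.inr y)) (.inr (.inr j))) -
      (g : Matrix (Ix m ε) (Ix m ε) F) (.inr (.inr i)) (.inr (.inr j)) = 0 := by
  have hq : q ≠ 0 := by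
    have := two_le_q hF
    omega
  have h1 : IsAdm q (0 : Matrix (Fin ε) (Fin m) F) (θ • (1 : Matrix (Fin m) (Fin m) F)) := by
    intro r c
    by_cases h : r = c
    · subst h
      simp [hθq]
    · have h' : ¬ c = r := fun e => h e.symm
      simp [Matrix.one_apply, h, h', hq]
  have hk := hcon (mkLG hF h1 * mkUG hF hS)
    (Subgroup.mul_mem _ (mkLG_mem hF h1) (mkUG_mem hF hS))
  have hv : (((mkLG hF h1 * mkUG hF hS) * g * (mkLG hF h1 * mkUG hF hS)⁻¹ : GL (Ix m ε) F) :
      Matrix (Ix m ε) (Ix m ε) F) =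
      mkL q (0 : Matrix (Fin ε) (Fin m) F) (θ • 1) *
        (mkU q (0 : Matrix (Fin ε) (Fin m) F) S * (g : Matrix (Ix m ε) (Ix m ε) F) *
          mkU q (0 : Matrix (Fin ε) (Fin m) F) (ct q S)) *
        mkL q (0 : Matrix (Fin ε) (Fin m) F) (ct q (θ • 1)) := by
    rw [_root_.mul_inv_rev]
    simp only [Units.val_mul, mkLG_val, mkUG_val, mkLG_inv_val, mkUG_inv_val, neg_zero,
      Matrix.mul_assoc]
  have e := congrFun (congrFun hk i) j
  rw [hv] at e
  change (mkL q (0 : Matrix (Fin ε) (Fin m) F) (θ • 1) *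
        (mkU q (0 : Matrix (Fin ε) (Fin m) F) S * (g : Matrix (Ix m ε) (Ix m ε) F) *
          mkU q (0 : Matrix (Fin ε) (Fin m) F) (ct q S)) *
        mkL q (0 : Matrix (Fin ε) (Fin m) F) (ct q (θ • 1))) (.inr (.inr i)) (.inl j) = 0 at e
  rw [conj_entry] at e
  have hT : ∀ b c : Fin m, ct q (θ • (1 : Matrix (Fin m) (Fin m) F)) b c = if b = c then -θ else 0 := by
    intro b c
    rw [ct_apply]
    by_cases h : b = c
    · subst h; simp [hθq]
    · have h' : ¬ c = b := fun e => h e.symm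
      simp [Matrix.one_apply, h, h', hq]
  have hS1 : ∀ b c : Fin m, (θ • (1 : Matrix (Fin m) (Fin m) F)) b c = if b = c then θ else 0 := by
    intro b c
    by_cases h : b = c
    · subst h; simp
    · simp [Matrix.one_apply, h]
  simp only [hT, hS1, Matrix.zero_apply, mul_zero, Finset.sum_const_zero, zero_add, add_zero,
    zero_pow hq, neg_zero, zero_mul, mul_ite, ite_mul, Finset.sum_ite_eq, Finset.sum_ite_eq',
    Finset.mem_univ, if_true, conjU_ww hq _ hC, conjU_yy hq _ hC, conjU_yw hq _ hC,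
    conjU_wy hq _ hC] at e
  apply mul_left_cancel₀ hθ0
  rw [mul_zero, ← e]
  ring

/-- The test element for the Levi blocks. -/
def tst (θ : F) (i j : Fin m) : Matrix (Fin m) (Fin m) F :=
  of fun r c => if (r = i ∧ c = j) ∨ (r = j ∧ c = i) then θ else 0

theorem tst_adm (hF : Fintype.card F = q ^ 2) {θ : F} (hθq : θ ^ q = -θ) (i j : Fin m) :
    IsAdm q (0 : Matrix (Fin ε) (Fin m) F) (tst θ i j) := by
  have hq : q ≠ 0 := by
    have := two_le_q hF
    omega
  intro r c
  have hcomm : ((r = i ∧ c = j) ∨ (r = j ∧ c = i)) ↔ ((c = i ∧ r = j) ∨ (c = j ∧ r = i)) := by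
    tauto
  by_cases h : (r = i ∧ c = j) ∨ (r = j ∧ c = i)
  · have h2 := hcomm.1 h
    simp [tst, h, h2, hθq, hq]
  · have h2 : ¬ ((c = i ∧ r = j) ∨ (c = j ∧ r = i)) := fun e => h (hcomm.2 e)
    simp [tst, h, h2, hq]

end main

end PosScalar

open PosScalar in
theorem exists_blkC_ne_zero {F : Type*} [Field F] [Fintype F] {q m ε : ℕ}
    (hF : Fintype.card F = q ^ 2) (hε : ε ≤ 1) (hm : 1 ≤ m) {g : GL (Ix m ε) F}
    (hg : g ∈ SUM hF m ε) (hns : ¬ ∃ a : F, (g : Matrix (Ix m ε) (Ix m ε) F) = a • 1) :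
    ∃ k ∈ SUM hF m ε, blkC ((k * g * k⁻¹ : GL (Ix m ε) F) : Matrix (Ix m ε) (Ix m ε) F) ≠ 0 := by
  by_contra hcon
  push Not at hcon
  have hq : q ≠ 0 := by
    have := two_le_q hF
    omega
  obtain ⟨a, ha⟩ := exists_pow_ne hF
  have hθ0 : a - a ^ q ≠ 0 := fun h => ha (sub_eq_zero.1 h).symm
  have hθq : (a - a ^ q) ^ q = -(a - a ^ q) := by
    rw [pow_q_sub hF, pow_q_pow_q hF]; ring
  generalize hθ : a - a ^ q = θ at hθ0 hθq
  have hsub : Subsingleton (Fin ε) := Fin.subsingleton_iff_le_one.2 hε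
  -- the `C` block vanishes
  have hC : ∀ i j, (g : Matrix (Ix m ε) (Ix m ε) F) (.inr (.inr i)) (.inl j) = 0 := by
    intro i j
    have := hcon 1 (Subgroup.one_mem _)
    have e := congrFun (congrFun this i) j
    simpa [blkC] using e
  have hkey := key hF hθ0 hθq hcon hC
  set M : Matrix (Ix m ε) (Ix m ε) F := (g : Matrix (Ix m ε) (Ix m ε) F) with hM
  -- `S = 0`
  have h0 : ∀ i j, M (.inl i) (.inl j) - θ * M (.inl i) (.inr (.inr j)) -
      M (.inr (.inr i)) (.inr (.inr j)) = 0 := by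
    intro i j
    have := hkey 0 (by intro r c; simp [hq]) i j
    simpa [ct_apply, hq] using this
  -- skew `S`
  have hsk : ∀ S, IsAdm q (0 : Matrix (Fin ε) (Fin m) F) S → ∀ i j,
      ∑ z, M (.inl i) (.inl z) * ct q S z j + ∑ y, S i y * M (.inr (.inr y)) (.inr (.inr j)) = 0 := by
    intro S hS i j
    have e1 := hkey S hS i j
    have e2 := h0 i j
    apply mul_left_cancel₀ hθ0
    rw [mul_zero]
    linear_combination e2 - e1
  have hct : ∀ (i j z c : Fin m), ct q (tst θ i j) z c =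
      if (c = i ∧ z = j) ∨ (c = j ∧ z = i) then -θ else 0 := by
    intro i j z c
    rw [ct_apply]
    by_cases h : (c = i ∧ z = j) ∨ (c = j ∧ z = i)
    · simp [tst, h, hθq]
    · simp [tst, h, hq]
  -- diagonal entries
  have hAd : ∀ i j, M (.inl i) (.inl i) = M (.inr (.inr j)) (.inr (.inr j)) := by
    intro i j
    have e := hsk (tst θ i j) (tst_adm hF hθq i j) i j
    have e1 : ∑ z, M (.inl i) (.inl z) * ct q (tst θ i j) z j = M (.inl i) (.inl i) * (-θ) := by
      rw [Finset.sum_eq_single i]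
      · rw [hct]; simp
      · intro z _ hz
        rw [hct]
        have : ¬ ((j = i ∧ z = j) ∨ (j = j ∧ z = i)) := by
          rintro (⟨h1, h2⟩ | ⟨-, h2⟩)
          · exact hz (h2.trans h1)
          · exact hz h2
        rw [if_neg this, mul_zero]
      · simp
    have e2 : ∑ y, tst θ i j i y * M (.inr (.inr y)) (.inr (.inr j)) =
        θ * M (.inr (.inr j)) (.inr (.inr j)) := by
      rw [Finset.sum_eq_single j]
      · simp [tst]
      · intro y _ hy
        have : ¬ ((i = i ∧ y = j) ∨ (i = j ∧ y = i)) := by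
          rintro (⟨-, h2⟩ | ⟨h1, h2⟩)
          · exact hy h2
          · exact hy (h2.trans h1)
        show (if (i = i ∧ y = j) ∨ (i = j ∧ y = i) then θ else 0) * _ = 0
        rw [if_neg this, zero_mul]
      · simp
    rw [e1, e2] at e
    apply mul_left_cancel₀ hθ0
    linear_combination -e
  -- off-diagonal entries of the `A` block
  have hAo : ∀ r i, r ≠ i → M (.inl r) (.inl i) = 0 := by
    intro r i hr
    have e := hsk (tst θ i i) (tst_adm hF hθq i i) r i
    have e1 : ∑ z, M (.inl r) (.inl z) * ct q (tst θ i i) z i = M (.inl r) (.inl i) * (-θ) := by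
      rw [Finset.sum_eq_single i]
      · rw [hct]; simp
      · intro z _ hz
        rw [hct]
        simp [hz]
      · simp
    have e2 : ∑ y, tst θ i i r y * M (.inr (.inr y)) (.inr (.inr i)) = 0 := by
      apply Finset.sum_eq_zero
      intro y _
      simp [tst, hr]
    rw [e1, e2, add_zero] at e
    have := mul_eq_zero.1 e
    rcases this with h | h
    · exact h
    · exact absurd (neg_eq_zero.1 h) hθ0
  have hdo : ∀ i c, c ≠ i → M (.inr (.inr i)) (.inr (.inr c)) = 0 := by
    intro i c hc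
    have e := hsk (tst θ i i) (tst_adm hF hθq i i) i c
    have e1 : ∑ z, M (.inl i) (.inl z) * ct q (tst θ i i) z c = 0 := by
      apply Finset.sum_eq_zero
      intro z _
      rw [hct]
      simp [hc]
    have e2 : ∑ y, tst θ i i i y * M (.inr (.inr y)) (.inr (.inr c)) =
        θ * M (.inr (.inr i)) (.inr (.inr c)) := by
      rw [Finset.sum_eq_single i]
      · simp [tst]
      · intro y _ hy
        simp [tst, hy]
      · simp
    rw [e1, e2, zero_add] at e
    exact (mul_eq_zero.1 e).resolve_left hθ0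
  -- the common scalar
  obtain ⟨i₀⟩ : Nonempty (Fin m) := ⟨⟨0, hm⟩⟩
  set lam := M (.inr (.inr i₀)) (.inr (.inr i₀)) with hlam
  have hAdiag : ∀ i, M (.inl i) (.inl i) = lam := fun i => hAd i i₀
  have hddiag : ∀ i, M (.inr (.inr i)) (.inr (.inr i)) = lam := fun i => (hAd i₀ i).symm.trans (hAd i₀ i₀)
  -- the `B` block vanishes
  have hB : ∀ i j, M (.inl i) (.inr (.inr j)) = 0 := by
    intro i j
    have e := h0 i j
    by_cases h : i = j
    · subst h
      rw [hAdiag, hddiag] at e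
      have : θ * M (.inl i) (.inr (.inr i)) = 0 := by linear_combination -e
      exact (mul_eq_zero.1 this).resolve_left hθ0
    · rw [hAo i j h, hdo i j (Ne.symm h)] at e
      have : θ * M (.inl i) (.inr (.inr j)) = 0 := by linear_combination -e
      exact (mul_eq_zero.1 this).resolve_left hθ0
  -- unitarity
  have hU1 : adj q M * M = 1 := hg.1
  have hU2 : M * adj q M = 1 := mul_eq_one_comm.mp hU1
  have hnorm : ∀ x : F, x * x ^ q = 0 → x = 0 := by
    intro x hx
    rcases mul_eq_zero.1 hx with h | h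
    · exact h
    · exact pow_eq_zero_iff hq |>.1 h
  have he : ∀ i b, M (.inr (.inr i)) (.inr (.inl b)) = 0 := by
    intro i b
    have e := congrFun (congrFun hU2 (.inr (.inr i))) (.inl i)
    rw [Matrix.mul_apply, Fintype.sum_sum_type, Fintype.sum_sum_type] at e
    simp only [adj_apply, rv, hC, zero_mul, Finset.sum_const_zero, zero_add, zero_pow hq, mul_zero,
      add_zero, Matrix.one_apply, reduceCtorEq, if_false] at e
    apply hnorm
    rw [Fintype.sum_subsingleton _ b] at e
    exact e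
  have hf : ∀ i b, M (.inl i) (.inr (.inl b)) = 0 := by
    intro i b
    have e := congrFun (congrFun hU2 (.inl i)) (.inr (.inr i))
    rw [Matrix.mul_apply, Fintype.sum_sum_type, Fintype.sum_sum_type] at e
    simp only [adj_apply, rv, hB, zero_mul, Finset.sum_const_zero, zero_add, zero_pow hq, mul_zero,
      add_zero, Matrix.one_apply, reduceCtorEq, if_false] at e
    apply hnorm
    rw [Fintype.sum_subsingleton _ b] at e
    exact e
  have hh : ∀ b i, M (.inr (.inl b)) (.inl i) = 0 := by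
    intro b i
    have e := congrFun (congrFun hU1 (.inr (.inr i))) (.inl i)
    rw [Matrix.mul_apply, Fintype.sum_sum_type, Fintype.sum_sum_type] at e
    simp only [adj_apply, rv, hC, zero_mul, Finset.sum_const_zero, zero_add, zero_pow hq, mul_zero,
      add_zero, Matrix.one_apply, reduceCtorEq, if_false] at e
    apply hnorm
    rw [Fintype.sum_subsingleton _ b] at e
    rw [mul_comm]
    exact e
  have hl : ∀ b i, M (.inr (.inl b)) (.inr (.inr i)) = 0 := by
    intro b i
    have e := congrFun (congrFun hU1 (.inl i)) (.inr (.inr i))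
    rw [Matrix.mul_apply, Fintype.sum_sum_type, Fintype.sum_sum_type] at e
    simp only [adj_apply, rv, hB, zero_mul, Finset.sum_const_zero, zero_add, zero_pow hq, mul_zero,
      add_zero, Matrix.one_apply, reduceCtorEq, if_false] at e
    apply hnorm
    rw [Fintype.sum_subsingleton _ b] at e
    rw [mul_comm]
    exact e
  -- the `V₀` entry
  have hmu : ∀ b, M (.inr (.inl b)) (.inr (.inl b)) = lam := by
    intro b
    -- `γ + γ^q = -1`
    have hγ : ∃ γ : F, γ + γ ^ q + 1 = 0 := by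
      refine ⟨-a / θ, ?_⟩
      rw [div_pow, hθq, pow_q_neg hF]
      field_simp
      rw [← hθ]; ring
    obtain ⟨γ, hγ⟩ := hγ
    let Z : Matrix (Fin ε) (Fin m) F := of fun _ j => if j = i₀ then 1 else 0
    let S : Matrix (Fin m) (Fin m) F := of fun r c => if r = i₀ ∧ c = i₀ then γ else 0
    have hZ : ∀ b j, Z b j = if j = i₀ then 1 else 0 := fun _ _ => rfl
    have hS : ∀ r c, S r c = if r = i₀ ∧ c = i₀ then γ else 0 := fun _ _ => rfl
    have hadm : IsAdm q Z S := by
      intro r c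
      rw [Fintype.sum_subsingleton _ b, hZ, hZ, hS, hS]
      by_cases hr : r = i₀ <;> by_cases hc : c = i₀ <;> simp [hr, hc, hq, hγ]
    have hk := hcon (mkLG hF hadm) (mkLG_mem hF hadm)
    have e := congrFun (congrFun hk i₀) i₀
    have hv : ((mkLG hF hadm * g * (mkLG hF hadm)⁻¹ : GL (Ix m ε) F) :
        Matrix (Ix m ε) (Ix m ε) F) = mkL q Z S * M * mkL q (-Z) (ct q S) := by
      simp only [Units.val_mul, mkLG_val, mkLG_inv_val, hM]
    rw [hv] at e
    change (mkL q Z S * M * mkL q (-Z) (ct q S)) (.inr (.inr i₀)) (.inl i₀) = 0 at e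
    rw [conj_entry] at e
    simp only [hf, hB, hh, hl, hC, he, zero_mul, Finset.sum_const_zero, add_zero, zero_add] at e
    have e1 : ∑ y, S i₀ y * M (.inl y) (.inl i₀) = γ * lam := by
      rw [Finset.sum_eq_single i₀]
      · rw [hS, hAdiag]; simp
      · intro y _ hy
        rw [hS]; simp [hy]
      · simp
    have e2 : ∑ y, M (.inr (.inr i₀)) (.inr (.inr y)) * ct q S y i₀ = lam * γ ^ q := by
      rw [Finset.sum_eq_single i₀]
      · rw [hddiag, ct_apply, hS]; simp
      · intro y _ hy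
        rw [hdo i₀ y hy, zero_mul]
      · simp
    rw [e1, e2, Fintype.sum_subsingleton _ b, Fintype.sum_subsingleton _ b, Matrix.neg_apply, hZ,
      if_pos rfl, one_pow] at e
    have : lam * (γ + γ ^ q + 1) = 0 := by rw [hγ, mul_zero]
    linear_combination e - this
  -- conclusion
  apply hns
  refine ⟨lam, ?_⟩
  ext r c
  rcases r with i | i | i <;> rcases c with j | j | j
  · by_cases h : i = j
    · subst h; simp [hAdiag]
    · simp [Matrix.one_apply, h, hAo i j h]
  · simp [Matrix.one_apply, hf]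
  · simp [Matrix.one_apply, hB]
  · simp [Matrix.one_apply, hh]
  · have h : i = j := Subsingleton.elim _ _
    subst h
    simp [hmu]
  · simp [Matrix.one_apply, hl]
  · simp [Matrix.one_apply, hC]
  · simp [Matrix.one_apply, he]
  · by_cases h : i = j
    · subst h; simp [hddiag]
    · simp [Matrix.one_apply, h, hdo i j (Ne.symm h)]

end Cfsg.Agent.Lib.OreU
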