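import Mathlib
import Cfsg.Agent.Lib.OreU.Cell
import Cfsg.Agent.Lib.OreU.PosInv
import Cfsg.Agent.Lib.OreU.PosDet
import Cfsg.Agent.Lib.OreU.PosNonsc
import Cfsg.Agent.Lib.OreU.PosScalar

/-!
# The position lemma for `SUM`
-/

set_option autoImplicit false
set_option linter.unusedSectionVars false
set_option linter.unusedSimpArgs false
set_option linter.unusedVariables false

namespace Cfsg.Agent.Lib.OreU

open Matrix
open Cfsg.Agent.Lib.Classical.Herm.Basic

variable {F : Type*} [Field F] {m ε : ℕ}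

section Entries
variable (q : ℕ) (Z : Matrix (Fin ε) (Fin m) F) (S : Matrix (Fin m) (Fin m) F) (M : Matrix (Ix m ε) (Ix m ε) F)

theorem mkU_mul_apply_y (i : Fin m) (c : Ix m ε) :
    (mkU q Z S * M : Matrix (Ix m ε) (Ix m ε) F) (.inr (.inr i)) c = M (.inr (.inr i)) c := by
  rw [Matrix.mul_apply, Fintype.sum_sum_type, Fintype.sum_sum_type]
  simp

theorem mul_mkU_w (r : Ix m ε) (j : Fin m) :
    (M * mkU q Z S : Matrix (Ix m ε) (Ix m ε) F) r (.inl j) = M r (.inl j) := by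
  rw [Matrix.mul_apply, Fintype.sum_sum_type, Fintype.sum_sum_type]
  simp

theorem mul_mkU_v (r : Ix m ε) (j : Fin ε) :
    (M * mkU q Z S : Matrix (Ix m ε) (Ix m ε) F) r (.inr (.inl j)) =
      ∑ l, M r (.inl l) * (-(Z j l) ^ q) + M r (.inr (.inl j)) := by
  rw [Matrix.mul_apply, Fintype.sum_sum_type, Fintype.sum_sum_type]
  simp

theorem mul_mkU_y (r : Ix m ε) (j : Fin m) :
    (M * mkU q Z S : Matrix (Ix m ε) (Ix m ε) F) r (.inr (.inr j)) =
      ∑ l, M r (.inl l) * S l j + ∑ l, M r (.inr (.inl l)) * Z l j + M r (.inr (.inr j)) := by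
  rw [Matrix.mul_apply, Fintype.sum_sum_type, Fintype.sum_sum_type]
  simp [add_assoc]

end Entries

variable [Fintype F] {q : ℕ}

/-- The blocks after conjugating by `mkU`. -/
theorem blk_conj (hF : Fintype.card F = q ^ 2) {Z : Matrix (Fin ε) (Fin m) F} {S : Matrix (Fin m) (Fin m) F}
    (h : IsAdm q Z S) (g : GL (Ix m ε) F) :
    blkC ((mkUG hF h * g * (mkUG hF h)⁻¹ : GL (Ix m ε) F) : Matrix (Ix m ε) (Ix m ε) F) =
        blkC (g : Matrix (Ix m ε) (Ix m ε) F) ∧
    blkZ ((mkUG hF h * g * (mkUG hF h)⁻¹ : GL (Ix m ε) F) : Matrix (Ix m ε) (Ix m ε) F) =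
        updE q (blkC (g : Matrix (Ix m ε) (Ix m ε) F)) (blkZ (g : Matrix (Ix m ε) (Ix m ε) F)) Z ∧
    blkD ((mkUG hF h * g * (mkUG hF h)⁻¹ : GL (Ix m ε) F) : Matrix (Ix m ε) (Ix m ε) F) =
        updD q (blkC (g : Matrix (Ix m ε) (Ix m ε) F)) (blkZ (g : Matrix (Ix m ε) (Ix m ε) F))
          (blkD (g : Matrix (Ix m ε) (Ix m ε) F)) Z S := by
  have e0 : ((mkUG hF h * g * (mkUG hF h)⁻¹ : GL (Ix m ε) F) : Matrix (Ix m ε) (Ix m ε) F) =
      mkU q Z S * (g : Matrix (Ix m ε) (Ix m ε) F) * mkU q (-Z) (ct q S) := rfl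
  rw [e0]
  refine ⟨?_, ?_, ?_⟩
  · ext i j
    simp only [blkC, of_apply]
    rw [mul_mkU_w, mkU_mul_apply_y]
  · ext i j
    simp only [blkZ, blkC, updE, of_apply]
    rw [mul_mkU_v]
    simp only [mkU_mul_apply_y]
    simp only [Matrix.add_apply, Matrix.mul_apply, cst_apply, Matrix.neg_apply, pow_q_neg hF, neg_neg, mul_neg]
    simp only [blkC, of_apply]
    ring
  · ext i j
    simp only [blkD, blkZ, blkC, updD, of_apply]
    rw [mul_mkU_y]
    simp only [mkU_mul_apply_y]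
    simp only [Matrix.add_apply, Matrix.sub_apply, Matrix.mul_apply, Matrix.neg_apply, mul_neg,
      Finset.sum_neg_distrib]
    simp only [blkZ, blkC, blkD, of_apply]
    ring

/-- The Levi-times-lower factor with the `W'`-row of `g`. -/
theorem exists_row_factor (hF : Fintype.card F = q ^ 2) {g : GL (Ix m ε) F} (hg : g ∈ SUM hF m ε)
    (D : GL (Fin m) F) (hD : blkD (g : Matrix (Ix m ε) (Ix m ε) F) = (D : Matrix (Fin m) (Fin m) F)) :
    ∃ (Z : Matrix (Fin ε) (Fin m) F) (S : Matrix (Fin m) (Fin m) F) (hadm : IsAdm q Z S),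
      ∀ (i : Fin m) (r : Ix m ε), ((levG hF ε D * mkLG hF hadm : GL (Ix m ε) F) : Matrix (Ix m ε) (Ix m ε) F) (.inr (.inr i)) r =
      (g : Matrix (Ix m ε) (Ix m ε) F) (.inr (.inr i)) r := by
  have hq : q ≠ 0 := by
    have := two_le_q hF
    omega
  set D' : Matrix (Fin m) (Fin m) F := ((D⁻¹ : GL (Fin m) F) : Matrix (Fin m) (Fin m) F) with hD'
  set D0 : Matrix (Fin m) (Fin m) F := (D : Matrix (Fin m) (Fin m) F) with hD0
  have h11 : D0 * D' = 1 := by
    rw [hD0, hD', ← Units.val_mul, mul_inv_cancel, Units.val_one]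
  have h12 : D' * D0 = 1 := by
    rw [hD0, hD', ← Units.val_mul, inv_mul_cancel, Units.val_one]
  have hct : ct q D0 * ct q D' = 1 := by
    rw [← ct_mul' hF, h12, ct_one hF]
  have hct2 : ct q D' * ct q D0 = 1 := by
    rw [← ct_mul' hF, h11, ct_one hF]
  set c := blkC (g : Matrix (Ix m ε) (Ix m ε) F) with hc
  set e := blkZ (g : Matrix (Ix m ε) (Ix m ε) F) with he
  have hR : RowRel q c e D0 := by
    have := rowRel_of_mem hF hg
    rwa [hD] at this
  set S := D' * c with hS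
  set Z := -cst q (D' * e) with hZ
  have hcstZ : cst q Z = -(D' * e) := by
    ext i j
    simp only [cst_apply, hZ, Matrix.neg_apply, pow_q_neg hF, pow_q_pow_q hF]
  have hadm : IsAdm q Z S := by
    intro i j
    have h1 : S + ct q S + cst q Z * Z = D' * (c * ct q D0 + e * cst q e + D0 * ct q c) * ct q D' := by
      have h2 : ct q S = ct q c * ct q D' := by rw [hS, ct_mul' hF]
      have h3 : Z = - (cst q e * ct q D') := by
        ext i j
        simp only [hZ, Matrix.neg_apply, cst_apply, Matrix.mul_apply, ct_apply, pow_q_sum hF, mul_pow]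
        congr 1
        exact Finset.sum_congr rfl fun k _ => mul_comm _ _
      rw [h2, hcstZ, h3, hS]
      simp only [Matrix.mul_add, Matrix.add_mul, Matrix.mul_assoc, Matrix.neg_mul, Matrix.mul_neg, neg_neg]
      have e1 : D' * (D0 * (ct q c * ct q D')) = ct q c * ct q D' := by
        rw [← Matrix.mul_assoc, h12, Matrix.one_mul]
      have e2 : c * (ct q D0 * ct q D') = c := by
        rw [hct, Matrix.mul_one]
      rw [e1, e2]
      abel
    have h4 : D' * (c * ct q D0 + e * cst q e + D0 * ct q c) * ct q D' = 0 := by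
      have := hR
      rw [RowRel] at this
      rw [this]
      simp
    have h5 := congrFun (congrFun (h1.trans h4) i) j
    simpa [Matrix.add_apply, Matrix.mul_apply, ct_apply, cst_apply] using h5
  refine ⟨Z, S, hadm, ?_⟩
  intro i r
  have e0 : ((levG hF ε D * mkLG hF hadm : GL (Ix m ε) F) : Matrix (Ix m ε) (Ix m ε) F) = leviM q D0 D' * mkL q Z S := rfl
  rw [e0, leviM_mul_y]
  have hDent : ∀ i j, (g : Matrix (Ix m ε) (Ix m ε) F) (.inr (.inr i)) (.inr (.inr j)) = D0 i j :=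
    fun i j => congrFun (congrFun hD i) j
  rcases r with j | j | j
  · have e1 : ∀ k, mkL q Z S (.inr (.inr k)) (.inl j) = S k j := fun k => rfl
    simp only [e1]
    have : (D0 * S) i j = c i j := by
      rw [hS, ← Matrix.mul_assoc, h11, Matrix.one_mul]
    rw [Matrix.mul_apply] at this
    exact this
  · have e1 : ∀ k, mkL q Z S (.inr (.inr k)) (.inr (.inl j)) = - (Z j k) ^ q := fun k => rfl
    simp only [e1]
    have : (D0 * (D' * e)) i j = e i j := by
      rw [← Matrix.mul_assoc, h11, Matrix.one_mul]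
    have h6 : ∀ k, -(Z j k) ^ q = (D' * e) k j := by
      intro k
      have := congrFun (congrFun hcstZ k) j
      simpa [cst_apply, Matrix.neg_apply] using congrArg Neg.neg this
    simp only [h6]
    rw [Matrix.mul_apply] at this
    exact this
  · have e1 : ∀ k, mkL q Z S (.inr (.inr k)) (.inr (.inr j)) = if k = j then 1 else 0 := fun k => rfl
    simp only [e1, hDent]
    simp

/-- A unitary matrix with `W'`-row `(0,1)` in the even model has determinant one. -/
theorem det_of_row_zero (hF : Fintype.card F = q ^ 2) {u : GL (Ix m 0) F}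
    (hadj : adj q (u : Matrix (Ix m 0) (Ix m 0) F) * (u : Matrix (Ix m 0) (Ix m 0) F) = 1)
    (hrow : ∀ (i : Fin m) (r : Ix m 0), (u : Matrix (Ix m 0) (Ix m 0) F) (.inr (.inr i)) r =
      (1 : Matrix (Ix m 0) (Ix m 0) F) (.inr (.inr i)) r) : (u : Matrix (Ix m 0) (Ix m 0) F).det = 1 := by
  have hadj' : (u : Matrix (Ix m 0) (Ix m 0) F) * adj q (u : Matrix (Ix m 0) (Ix m 0) F) = 1 :=
    mul_eq_one_comm.mp hadj
  have hrow3 : ∀ (i j : Fin m), (u : Matrix (Ix m 0) (Ix m 0) F) (.inr (.inr i)) (.inr (.inr j)) = if i = j then 1 else 0 := by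
    intro i j
    rw [hrow]; simp [Matrix.one_apply]
  have hcol : ∀ (j : Fin m) (r : Ix m 0), (u : Matrix (Ix m 0) (Ix m 0) F) r (.inl j) =
      (1 : Matrix (Ix m 0) (Ix m 0) F) r (.inl j) := by
    intro j r
    have h2 := congrFun (congrFun hadj' r) (.inl j)
    rw [Matrix.mul_apply] at h2
    rw [← h2, Finset.sum_eq_single (Sum.inl j)]
    · have : adj q (u : Matrix (Ix m 0) (Ix m 0) F) (.inl j) (.inl j) = 1 := by
        rw [adj_apply]
        show (u : Matrix (Ix m 0) (Ix m 0) F) (.inr (.inr j)) (.inr (.inr j)) ^ q = 1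
        rw [hrow3]; simp
      rw [this, mul_one]
    · intro b _ hb
      have : adj q (u : Matrix (Ix m 0) (Ix m 0) F) b (.inl j) = 0 := by
        rw [adj_apply]
        show (u : Matrix (Ix m 0) (Ix m 0) F) (.inr (.inr j)) (rv b) ^ q = 0
        rw [hrow]
        have : (1 : Matrix (Ix m 0) (Ix m 0) F) (.inr (.inr j)) (rv b) = 0 := by
          rw [Matrix.one_apply, if_neg]
          intro e
          apply hb
          have := congrArg rv e
          rw [rv_rv] at this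
          exact this.symm
        rw [this, zero_pow_q hF]
      rw [this, mul_zero]
    · simp
  have h3 : (u : Matrix (Ix m 0) (Ix m 0) F) = fromBlocks 1
      (of fun i j => Sum.elim (fun j => (u : Matrix (Ix m 0) (Ix m 0) F) (.inl i) (.inr (.inl j)))
        (fun j => (u : Matrix (Ix m 0) (Ix m 0) F) (.inl i) (.inr (.inr j))) j) 0
      (fromBlocks 1 0 0 1) := by
    ext r c
    rcases c with j | j | j
    · rw [hcol]
      rcases r with i | i | i
      · simp [Matrix.one_apply]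
      · exact i.elim0
      · simp [Matrix.one_apply]
    · exact j.elim0
    · rcases r with i | i | i
      · simp
      · exact i.elim0
      · simp [hrow3, Matrix.one_apply]
  rw [h3, Matrix.det_fromBlocks_zero₂₁, Matrix.det_fromBlocks_zero₂₁]
  simp

/-- In the even model the determinant of an invertible `W'`-block is in `F_q`. -/
theorem det_blkD_pow (hF : Fintype.card F = q ^ 2) {g : GL (Ix m 0) F} (hg : g ∈ SUM hF m 0)
    (D : GL (Fin m) F) (hD : blkD (g : Matrix (Ix m 0) (Ix m 0) F) = (D : Matrix (Fin m) (Fin m) F)) :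
    (D : Matrix (Fin m) (Fin m) F).det ^ q = (D : Matrix (Fin m) (Fin m) F).det := by
  obtain ⟨Z, S, hadm, hrow⟩ := exists_row_factor hF hg D hD
  set h := levG hF 0 D * mkLG hF hadm with hh
  set u := g * h⁻¹ with hu
  have hinvadj : ((h⁻¹ : GL (Ix m 0) F) : Matrix (Ix m 0) (Ix m 0) F) = adj q (h : Matrix (Ix m 0) (Ix m 0) F) := by
    have h1 : adj q (h : Matrix (Ix m 0) (Ix m 0) F) * (h : Matrix (Ix m 0) (Ix m 0) F) = 1 := by
      rw [hh, Units.val_mul, adj_mul hF, levG_val, mkLG_val, adj_mkL hF, adj_leviM hF, Matrix.mul_assoc,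
        ← Matrix.mul_assoc (leviM _ _ _), leviM_mul hF, ← Units.val_mul, inv_mul_cancel, Units.val_one, leviM_one hF,
        Matrix.one_mul]
      exact adj_mkL_mul hF hadm
    calc ((h⁻¹ : GL (Ix m 0) F) : Matrix (Ix m 0) (Ix m 0) F)
        = (adj q (h : Matrix (Ix m 0) (Ix m 0) F) * (h : Matrix (Ix m 0) (Ix m 0) F)) * ((h⁻¹ : GL (Ix m 0) F) : Matrix (Ix m 0) (Ix m 0) F) := by
          rw [h1, Matrix.one_mul]
      _ = _ := by rw [Matrix.mul_assoc, ← Units.val_mul, mul_inv_cancel, Units.val_one, Matrix.mul_one]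
  have hadj : adj q (u : Matrix (Ix m 0) (Ix m 0) F) * (u : Matrix (Ix m 0) (Ix m 0) F) = 1 := by
    rw [hu, Units.val_mul, adj_mul hF, hinvadj, adj_adj hF, Matrix.mul_assoc, ← Matrix.mul_assoc (adj q _) (g : Matrix (Ix m 0) (Ix m 0) F),
      hg.1, Matrix.one_mul, ← hinvadj, ← Units.val_mul, mul_inv_cancel, Units.val_one]
  have hurow : ∀ (i : Fin m) (r : Ix m 0), (u : Matrix (Ix m 0) (Ix m 0) F) (.inr (.inr i)) r =
      (1 : Matrix (Ix m 0) (Ix m 0) F) (.inr (.inr i)) r := by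
    intro i r
    have e0 : (u : Matrix (Ix m 0) (Ix m 0) F) = (g : Matrix (Ix m 0) (Ix m 0) F) * ((h⁻¹ : GL (Ix m 0) F) : Matrix (Ix m 0) (Ix m 0) F) := rfl
    have e1 : (1 : Matrix (Ix m 0) (Ix m 0) F) = (h : Matrix (Ix m 0) (Ix m 0) F) * ((h⁻¹ : GL (Ix m 0) F) : Matrix (Ix m 0) (Ix m 0) F) := by
      rw [← Units.val_mul, mul_inv_cancel, Units.val_one]
    rw [e0, e1, Matrix.mul_apply, Matrix.mul_apply]
    exact Finset.sum_congr rfl fun s _ => by rw [hrow]
  have hdetu := det_of_row_zero hF hadj hurow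
  -- so `det h = 1`
  have hdeth : (h : Matrix (Ix m 0) (Ix m 0) F).det = 1 := by
    have e1 : (u : Matrix (Ix m 0) (Ix m 0) F) * (h : Matrix (Ix m 0) (Ix m 0) F) = (g : Matrix (Ix m 0) (Ix m 0) F) := by
      rw [hu, ← Units.val_mul]
      congr 1
      group
    have e2 := congrArg Matrix.det e1
    rw [Matrix.det_mul, hdetu, one_mul, hg.2] at e2
    exact e2
  rw [hh, Units.val_mul, Matrix.det_mul, levG_val, mkLG_val, det_mkL, mul_one, det_leviM hF] at hdeth
  have hDinv : ((D⁻¹ : GL (Fin m) F) : Matrix (Fin m) (Fin m) F).det * (D : Matrix (Fin m) (Fin m) F).det = 1 := by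
    rw [← Matrix.det_mul, ← Units.val_mul, inv_mul_cancel, Units.val_one, Matrix.det_one]
  have h0 : (D : Matrix (Fin m) (Fin m) F).det ≠ 0 := by
    intro e
    rw [e, mul_zero] at hDinv
    exact zero_ne_one hDinv
  have h2 := congrArg (· ^ q) hDinv
  simp only [mul_pow, one_pow] at h2
  -- `x^q * d^q = 1` and `x^q * d = 1`
  have h3 : ((D⁻¹ : GL (Fin m) F) : Matrix (Fin m) (Fin m) F).det ^ q ≠ 0 := by
    intro e
    rw [e, zero_mul] at hdeth
    exact zero_ne_one hdeth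
  exact mul_left_cancel₀ h3 (h2.trans hdeth.symm)

/-- One conjugation by `mkU`. -/
theorem exists_step (hF : Fintype.card F = q ^ 2) (g : GL (Ix m ε) F) {P : Matrix (Fin m) (Fin m) F → Prop}
    (h : ∃ (Z : Matrix (Fin ε) (Fin m) F) (S : Matrix (Fin m) (Fin m) F), IsAdm q Z S ∧
      P (updD q (blkC (g : Matrix (Ix m ε) (Ix m ε) F)) (blkZ (g : Matrix (Ix m ε) (Ix m ε) F))
          (blkD (g : Matrix (Ix m ε) (Ix m ε) F)) Z S)) :
    ∃ k ∈ SUM hF m ε, P (blkD ((k * g * k⁻¹ : GL (Ix m ε) F) : Matrix (Ix m ε) (Ix m ε) F)) ∧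
      blkC ((k * g * k⁻¹ : GL (Ix m ε) F) : Matrix (Ix m ε) (Ix m ε) F) = blkC (g : Matrix (Ix m ε) (Ix m ε) F) := by
  obtain ⟨Z, S, hadm, hP⟩ := h
  obtain ⟨h1, h2, h3⟩ := blk_conj hF hadm g
  exact ⟨mkUG hF hadm, mkUG_mem hF hadm, by rw [h3]; exact hP, h1⟩

theorem isAdm_zero_zero (hF : Fintype.card F = q ^ 2) : IsAdm q (0 : Matrix (Fin ε) (Fin m) F) (0 : Matrix (Fin m) (Fin m) F) := by
  intro i j
  simp [zero_pow_q hF]

theorem updD_zero_zero (hF : Fintype.card F = q ^ 2) (c : Matrix (Fin m) (Fin m) F) (e : Matrix (Fin m) (Fin ε) F)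
    (d : Matrix (Fin m) (Fin m) F) : updD q c e d 0 0 = d := by
  have : ct q (0 : Matrix (Fin m) (Fin m) F) = 0 := by
    ext i j
    simp [ct_apply, zero_pow_q hF]
  simp [updD, this]

theorem rel_s1 (hF : Fintype.card F = q ^ 2) {c : Matrix (Fin m) (Fin m) F} {e : Matrix (Fin m) (Fin ε) F}
    {d : Matrix (Fin m) (Fin m) F} (hR : RowRel q c e d) (hd : IsUnit d.det) :
    d⁻¹ * c + ct q (d⁻¹ * c) + (d⁻¹ * e) * cst q (d⁻¹ * e) = 0 := by
  have h12 : d⁻¹ * d = 1 := nonsing_inv_mul _ hd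
  have hct : ct q d * ct q d⁻¹ = 1 := by
    rw [← ct_mul' hF, h12, ct_one hF]
  have hcst : cst q (d⁻¹ * e) = cst q e * ct q d⁻¹ := by
    ext i j
    simp only [cst_apply, Matrix.mul_apply, ct_apply, pow_q_sum hF, mul_pow]
    exact Finset.sum_congr rfl fun k _ => mul_comm _ _
  have h1 : d⁻¹ * (c * ct q d + e * cst q e + d * ct q c) * ct q d⁻¹ =
      d⁻¹ * c + ct q (d⁻¹ * c) + (d⁻¹ * e) * cst q (d⁻¹ * e) := by
    rw [hcst, ct_mul' hF]
    simp only [Matrix.mul_add, Matrix.add_mul, Matrix.mul_assoc]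
    have e1 : d⁻¹ * (d * (ct q c * ct q d⁻¹)) = ct q c * ct q d⁻¹ := by
      rw [← Matrix.mul_assoc, h12, Matrix.one_mul]
    have e2 : c * (ct q d * ct q d⁻¹) = c := by
      rw [hct, Matrix.mul_one]
    rw [e1]
    rw [e2]
    abel
  rw [← h1]
  have : c * ct q d + e * cst q e + d * ct q c = 0 := hR
  rw [this]
  simp

theorem two_eq_zero_of_card (hF : Fintype.card F = 2 ^ 2) : (2 : F) = 0 := by
  have h1 := pow_q_add hF (1 : F) 1
  have h2 : ((2 : F) - 1) * 2 = 0 := by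
    have : ((1 : F) + 1) = 2 := by norm_num
    rw [this] at h1
    linear_combination h1
  rcases mul_eq_zero.mp h2 with h3 | h3
  · exfalso
    have : (1 : F) = 0 := by linear_combination h3
    exact one_ne_zero this
  · exact h3

theorem det_one_add_vmv (w p : Fin m → F) : (1 + vecMulVec w p : Matrix (Fin m) (Fin m) F).det = 1 + p ⬝ᵥ w := by
  have h := PosDet.det_add_vecMulVec (1 : Matrix (Fin m) (Fin m) F) (by simp) w p
  simpa using h

/-- The scalar case of the final update. -/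
theorem scalar_update_good (hm : 2 ≤ m) {a : F} (ha0 : a ≠ 0) (w p : Fin m → F) (hw : w ≠ 0) (hp : p ≠ 0) :
    ¬ ∃ b : F, (a • 1 : Matrix (Fin m) (Fin m) F) * (1 + vecMulVec w p) = b • 1 := by
  rintro ⟨b, hb⟩
  obtain ⟨i, hi⟩ := Function.ne_iff.mp hw
  obtain ⟨j, hj⟩ := Function.ne_iff.mp hp
  simp only [Pi.zero_apply] at hi hj
  have hent : ∀ r s : Fin m, r ≠ s → a * (w r * p s) = 0 := by
    intro r s hrs
    have := congrFun (congrFun hb r) s
    simpa [Matrix.smul_apply, Matrix.add_apply, Matrix.one_apply, hrs, vecMulVec_apply, Matrix.mul_apply] using this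
  have hent2 : ∀ r s : Fin m, r ≠ s → w r * p s = 0 := by
    intro r s hrs
    have := hent r s hrs
    exact (mul_eq_zero.mp this).resolve_left ha0
  have hij : i = j := by
    by_contra h
    have := hent2 i j h
    rcases mul_eq_zero.mp this with h1 | h1
    · exact hi h1
    · exact hj h1
  subst hij
  -- another index
  have : ∃ r : Fin m, r ≠ i := by
    by_contra hcon
    push Not at hcon
    have hm' : Fintype.card (Fin m) ≤ 1 := Fintype.card_le_one_iff.mpr (fun x y => by rw [hcon x, hcon y])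
    simp at hm'
    omega
  obtain ⟨r, hr⟩ := this
  have h1 := congrFun (congrFun hb i) i
  have h2 := congrFun (congrFun hb r) r
  simp only [Matrix.smul_mul, Matrix.one_mul, Matrix.smul_apply, Matrix.add_apply, Matrix.one_apply_eq, vecMulVec_apply,
    smul_eq_mul, mul_one] at h1 h2
  have h3 : w i * p i = w r * p r := by
    have : a * (w i * p i) = a * (w r * p r) := by
      linear_combination h1 - h2
    exact mul_left_cancel₀ ha0 this
  have h4 : w r * p i = 0 := hent2 r i hr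
  have h5 : w i * p r = 0 := hent2 i r (Ne.symm hr)
  have h6 : w r = 0 ∨ p i = 0 := mul_eq_zero.mp h4
  rcases h6 with h6 | h6
  · rw [h6, zero_mul] at h3
    rcases mul_eq_zero.mp h3 with h7 | h7
    · exact hi h7
    · exact hj h7
  · exact hj h6

/-- Not a transvection in characteristic two. -/
theorem scalar_update_not_transvection (hF : Fintype.card F = 2 ^ 2) (hm : 1 ≤ m) {a : F} (ha1 : a ≠ 1) (w p : Fin m → F)
    (hpw : p ⬝ᵥ w = 0) (y φ : Fin m → F) (hdet : (1 + vecMulVec y φ : Matrix (Fin m) (Fin m) F).det = 1)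
    (h : (a • 1 : Matrix (Fin m) (Fin m) F) * (1 + vecMulVec w p) = 1 + vecMulVec y φ) : False := by
  have h2 : (2 : F) = 0 := two_eq_zero_of_card hF
  have hφy : φ ⬝ᵥ y = 0 := by
    rw [det_one_add_vmv] at hdet
    linear_combination hdet
  have hN2 : vecMulVec w p * vecMulVec w p = (0 : Matrix (Fin m) (Fin m) F) := by
    rw [vecMulVec_mul_vecMulVec, hpw]
    simp
  have hT2 : vecMulVec y φ * vecMulVec y φ = (0 : Matrix (Fin m) (Fin m) F) := by
    rw [vecMulVec_mul_vecMulVec, hφy]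
    simp
  have h3 : vecMulVec y φ = (a - 1) • (1 : Matrix (Fin m) (Fin m) F) + a • vecMulVec w p := by
    have e1 : (a • 1 : Matrix (Fin m) (Fin m) F) * (1 + vecMulVec w p) = a • 1 + a • vecMulVec w p := by
      simp [Matrix.smul_mul, smul_add]
    rw [e1] at h
    have e2 : vecMulVec y φ = a • 1 + a • vecMulVec w p - 1 := by
      rw [h]; abel
    rw [e2, sub_smul, one_smul]
    abel
  have h4 : ((a - 1) • (1 : Matrix (Fin m) (Fin m) F) + a • vecMulVec w p) * ((a - 1) • (1 : Matrix (Fin m) (Fin m) F) + a • vecMulVec w p) = (0 : Matrix (Fin m) (Fin m) F) := by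
    rw [← h3, hT2]
  have h5 : ((a - 1) • (1 : Matrix (Fin m) (Fin m) F) + a • vecMulVec w p) * ((a - 1) • (1 : Matrix (Fin m) (Fin m) F) + a • vecMulVec w p) =
      ((a - 1) ^ 2) • (1 : Matrix (Fin m) (Fin m) F) + (2 * a * (a - 1)) • vecMulVec w p := by
    simp only [Matrix.add_mul, Matrix.mul_add, Matrix.smul_mul, Matrix.mul_smul, Matrix.one_mul, Matrix.mul_one, hN2, smul_zero,
      add_zero, smul_smul, smul_add]
    rw [pow_two, add_assoc, ← add_smul]
    congr 2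
    ring
  rw [h5, h2] at h4
  simp only [zero_mul, zero_smul, add_zero] at h4
  have h6 := congrFun (congrFun h4 ⟨0, hm⟩) ⟨0, hm⟩
  simp only [Matrix.smul_apply, Matrix.one_apply_eq, smul_eq_mul, mul_one, Matrix.zero_apply] at h6
  have h7 : a - 1 = 0 := by
    exact pow_eq_zero_iff (two_ne_zero) |>.mp h6
  exact ha1 (sub_eq_zero.mp h7)

/-- The conclusion of the position lemma on the `W'`-block. -/
def PosOK (q : ℕ) (M : Matrix (Fin m) (Fin m) F) : Prop :=
  M.det = 1 ∧ (M = 1 ∨ ((¬ ∃ a : F, M = a • 1) ∧ (q = 2 → m ≤ 3 → ¬ ∃ y φ : Fin m → F, M = 1 + vecMulVec y φ)))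

/-- The statement of the transvection step, as a hypothesis. -/
def TwoStep (F : Type*) [Field F] [Fintype F] (m ε : ℕ) : Prop :=
  Fintype.card F = 2 ^ 2 → (m = 2 ∨ m = 3) → ∀ (c : Matrix (Fin m) (Fin m) F) (e : Matrix (Fin m) (Fin ε) F)
    (d : Matrix (Fin m) (Fin m) F), RowRel 2 c e d → c ≠ 0 → d.det = 1 → (¬ ∃ a : F, d = a • 1) →
    ∀ y φ : Fin m → F, d = 1 + vecMulVec y φ →
    ∃ (Z : Matrix (Fin ε) (Fin m) F) (S : Matrix (Fin m) (Fin m) F), IsAdm 2 Z S ∧ PosOK 2 (updD 2 c e d Z S)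

theorem exists_upd_final (hF : Fintype.card F = q ^ 2) (hε : ε ≤ 1) (hm : 1 ≤ m) (hTwo : TwoStep F m ε)
    (c : Matrix (Fin m) (Fin m) F) (e : Matrix (Fin m) (Fin ε) F) (d : Matrix (Fin m) (Fin m) F)
    (hR : RowRel q c e d) (hc : c ≠ 0) (hdet : d.det = 1) :
    ∃ (Z : Matrix (Fin ε) (Fin m) F) (S : Matrix (Fin m) (Fin m) F), IsAdm q Z S ∧ PosOK q (updD q c e d Z S) := by
  by_cases hd1 : d = 1
  · refine ⟨0, 0, isAdm_zero_zero hF, ?_⟩
    rw [updD_zero_zero hF]
    exact ⟨hdet, Or.inl hd1⟩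
  by_cases hds : ∃ a : F, d = a • 1
  · obtain ⟨a, ha⟩ := hds
    have ha1 : a ≠ 1 := by
      rintro rfl
      exact hd1 (by rw [ha, one_smul])
    have ha0 : a ≠ 0 := by
      rintro rfl
      rw [ha, zero_smul] at hd1
      rw [ha] at hdet
      simp only [zero_smul] at hdet
      haveI : Nonempty (Fin m) := ⟨⟨0, hm⟩⟩
      rw [Matrix.det_zero] at hdet
      exact zero_ne_one hdet
    have hm2 : 2 ≤ m := by
      by_contra hlt
      have hm1 : m = 1 := by omega
      subst hm1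
      rw [ha, Matrix.det_smul] at hdet
      simp at hdet
      exact ha1 hdet
    have hu : IsUnit d.det := by rw [hdet]; exact isUnit_one
    obtain ⟨Z, S, w, p, hA, hup, hw, hp, hpw⟩ := exists_upd_nonscalar hF hε hm2 c e d hR hu hc
    refine ⟨Z, S, hA, ?_, Or.inr ⟨?_, ?_⟩⟩
    · rw [hup, Matrix.det_mul, hdet, one_mul, det_one_add_vmv, hpw, add_zero]
    · rw [hup, ha]
      exact scalar_update_good hm2 ha0 w p hw hp
    · intro hq2 hm3
      rintro ⟨y, φ, hyφ⟩
      subst hq2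
      have hdet' : (1 + vecMulVec y φ : Matrix (Fin m) (Fin m) F).det = 1 := by
        rw [← hyφ, hup, Matrix.det_mul, hdet, one_mul, det_one_add_vmv, hpw, add_zero]
      rw [hup, ha] at hyφ
      exact scalar_update_not_transvection hF hm ha1 w p hpw y φ hdet' hyφ
  by_cases htr : q = 2 ∧ m ≤ 3 ∧ ∃ y φ : Fin m → F, d = 1 + vecMulVec y φ
  · obtain ⟨rfl, hm3, y, φ, hd⟩ := htr
    have hm23 : m = 2 ∨ m = 3 := by
      by_contra hcon
      have hm1 : m = 1 := by omega
      subst hm1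
      apply hds
      refine ⟨d 0 0, ?_⟩
      ext i j
      have hi : i = 0 := Subsingleton.elim _ _
      have hj : j = 0 := Subsingleton.elim _ _
      subst hi; subst hj
      simp
    exact hTwo hF hm23 c e d hR hc hdet hds y φ hd
  · refine ⟨0, 0, isAdm_zero_zero hF, ?_⟩
    rw [updD_zero_zero hF]
    refine ⟨hdet, Or.inr ⟨hds, ?_⟩⟩
    intro hq2 hm3 hex
    exact htr ⟨hq2, hm3, hex⟩

theorem conj_conj' {G : Type*} [Group G] (k k' g : G) : (k' * k) * g * (k' * k)⁻¹ = k' * (k * g * k⁻¹) * k'⁻¹ := by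
  group

theorem pos_L3 (hF : Fintype.card F = q ^ 2) (hε : ε ≤ 1) (hm : 1 ≤ m) (hTwo : TwoStep F m ε) {g : GL (Ix m ε) F}
    (hg : g ∈ SUM hF m ε) (hc : blkC (g : Matrix (Ix m ε) (Ix m ε) F) ≠ 0)
    (hd : (blkD (g : Matrix (Ix m ε) (Ix m ε) F)).det = 1) :
    ∃ k ∈ SUM hF m ε, PosOK q (blkD ((k * g * k⁻¹ : GL (Ix m ε) F) : Matrix (Ix m ε) (Ix m ε) F)) := by
  obtain ⟨k, hk, hP, -⟩ := exists_step hF g (P := PosOK q)
    (exists_upd_final hF hε hm hTwo _ _ _ (rowRel_of_mem hF hg) hc hd)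
  exact ⟨k, hk, hP⟩

theorem pos_L2 (hF : Fintype.card F = q ^ 2) (hε : ε ≤ 1) (hm : 1 ≤ m) (hTwo : TwoStep F m ε) {g : GL (Ix m ε) F}
    (hg : g ∈ SUM hF m ε) (hc : blkC (g : Matrix (Ix m ε) (Ix m ε) F) ≠ 0)
    (hd : IsUnit (blkD (g : Matrix (Ix m ε) (Ix m ε) F)).det) :
    ∃ k ∈ SUM hF m ε, PosOK q (blkD ((k * g * k⁻¹ : GL (Ix m ε) F) : Matrix (Ix m ε) (Ix m ε) F)) := by
  have h0 : ε = 0 → (blkD (g : Matrix (Ix m ε) (Ix m ε) F)).det ^ q = (blkD (g : Matrix (Ix m ε) (Ix m ε) F)).det := by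
    intro h
    subst h
    exact det_blkD_pow hF hg (Matrix.nonsingInvUnit _ hd) rfl
  obtain ⟨Z, S, hA, hd'⟩ := exists_upd_det_one hF hε _ _ _ (rowRel_of_mem hF hg) hd hc h0
  obtain ⟨k, hk, hP, hC⟩ := exists_step hF g (P := fun M => M.det = 1) ⟨Z, S, hA, hd'⟩
  obtain ⟨k', hk', hP'⟩ := pos_L3 hF hε hm hTwo (mul_mem (mul_mem hk hg) (inv_mem hk)) (by rw [hC]; exact hc) hP
  refine ⟨k' * k, mul_mem hk' hk, ?_⟩
  rw [conj_conj']
  exact hP'

theorem pos_L1 (hF : Fintype.card F = q ^ 2) (hε : ε ≤ 1) (hm : 1 ≤ m) (hTwo : TwoStep F m ε) {g : GL (Ix m ε) F}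
    (hg : g ∈ SUM hF m ε) (hc : blkC (g : Matrix (Ix m ε) (Ix m ε) F) ≠ 0) :
    ∃ k ∈ SUM hF m ε, PosOK q (blkD ((k * g * k⁻¹ : GL (Ix m ε) F) : Matrix (Ix m ε) (Ix m ε) F)) := by
  obtain ⟨S, hA, hd'⟩ := exists_upd_unit hF hε _ _ _ (rowRel_of_mem hF hg) (rowFull_of_gl g)
  obtain ⟨k, hk, hP, hC⟩ := exists_step hF g (P := fun M => IsUnit M.det) ⟨0, S, hA, hd'⟩
  obtain ⟨k', hk', hP'⟩ := pos_L2 hF hε hm hTwo (mul_mem (mul_mem hk hg) (inv_mem hk)) (by rw [hC]; exact hc) hP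
  refine ⟨k' * k, mul_mem hk' hk, ?_⟩
  rw [conj_conj']
  exact hP'

/-- The position lemma, from the transvection step. -/
theorem exists_position_of_two (hF : Fintype.card F = q ^ 2) (hε : ε ≤ 1) (hm : 1 ≤ m) (hTwo : TwoStep F m ε)
    {g : GL (Ix m ε) F} (hg : g ∈ SUM hF m ε)
    (hns : ¬ ∃ a : F, (g : Matrix (Ix m ε) (Ix m ε) F) = a • 1) :
    ∃ k ∈ SUM hF m ε, ∃ D : GL (Fin m) F,
      blkD ((k * g * k⁻¹ : GL (Ix m ε) F) : Matrix (Ix m ε) (Ix m ε) F) = (D : Matrix (Fin m) (Fin m) F) ∧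
      (D : Matrix (Fin m) (Fin m) F).det = 1 ∧
      (D = 1 ∨ ((¬ ∃ a : F, (D : Matrix (Fin m) (Fin m) F) = a • 1) ∧
        (q = 2 → m ≤ 3 → ¬ ∃ y φ : Fin m → F, (D : Matrix (Fin m) (Fin m) F) = 1 + vecMulVec y φ))) := by
  obtain ⟨k, hk, hc⟩ := exists_blkC_ne_zero hF hε hm hg hns
  obtain ⟨k', hk', hdet, hP⟩ := pos_L1 hF hε hm hTwo (mul_mem (mul_mem hk hg) (inv_mem hk)) hc
  rw [← conj_conj'] at hdet hP
  have hu : IsUnit (blkD (((k' * k) * g * (k' * k)⁻¹ : GL (Ix m ε) F) : Matrix (Ix m ε) (Ix m ε) F)).det := by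
    rw [hdet]; exact isUnit_one
  refine ⟨k' * k, mul_mem hk' hk, Matrix.nonsingInvUnit _ hu, rfl, hdet, ?_⟩
  rcases hP with h1 | h1
  · left
    apply Units.ext
    exact h1
  · right
    exact h1

end Cfsg.Agent.Lib.OreU
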