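import Mathlib
import Cfsg.Agent.Lib.OreU.Defs
import Cfsg.Agent.Lib.SuBN.Frame

/-!
# Transfer of Ore's statement from the model `SUM` to `Cfsg.SU`
-/

set_option autoImplicit false
set_option linter.unusedSectionVars false

namespace Cfsg.Agent.Lib.OreU

open Matrix
open Cfsg Cfsg.Agent.Lib.Fusion.PSU.Basis Cfsg.Agent.Lib.SuBN.Frame
open Cfsg.Agent.Lib.Classical.Herm.SU Cfsg.Agent.Lib.Classical.Herm.GU Cfsg.Agent.Lib.Classical.Herm.Tv

namespace Transfer

variable {F : Type*} [Field F] [Fintype F] {q m ε : ℕ}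

/-- The indexing map. -/
def ixFin (m ε : ℕ) : Ix m ε → Fin (2 * m + ε)
  | .inl i => ⟨i.1, by have := i.2; omega⟩
  | .inr (.inl j) => ⟨m + j.1, by have := j.2; omega⟩
  | .inr (.inr i) => ⟨2 * m + ε - 1 - i.1, by have := i.2; omega⟩

theorem ixFin_injective (m ε : ℕ) : Function.Injective (ixFin m ε) := by
  rintro (a | a | a) (b | b | b) h <;>
    simp only [ixFin, Fin.mk.injEq] at h <;>
    have := a.2 <;> have := b.2
  · exact congrArg _ (Fin.ext h)
  · omega
  · omega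
  · omega
  · exact congrArg _ (congrArg _ (Fin.ext (by omega)))
  · omega
  · omega
  · omega
  · exact congrArg _ (congrArg _ (Fin.ext (by omega)))

theorem ixFin_bijective (m ε : ℕ) : Function.Bijective (ixFin m ε) := by
  rw [Fintype.bijective_iff_injective_and_card]
  refine ⟨ixFin_injective m ε, ?_⟩
  simp only [Fintype.card_sum, Fintype.card_fin]
  omega

/-- The indexing equivalence. -/
noncomputable def ixE (m ε : ℕ) : Ix m ε ≃ Fin (2 * m + ε) := Equiv.ofBijective _ (ixFin_bijective m ε)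

theorem ixE_rv (hε : ε ≤ 1) (x : Ix m ε) : ixE m ε (rv x) = Fin.rev (ixE m ε x) := by
  show ixFin m ε (rv x) = Fin.rev (ixFin m ε x)
  apply Fin.ext
  rcases x with i | j | i
  · have := i.2
    simp only [rv, ixFin, Fin.val_rev]
    omega
  · have := j.2
    simp only [rv, ixFin, Fin.val_rev]
    omega
  · have := i.2
    simp only [rv, ixFin, Fin.val_rev]
    omega

theorem ixE_symm_rev (hε : ε ≤ 1) (c : Fin (2 * m + ε)) :
    (ixE m ε).symm (Fin.rev c) = rv ((ixE m ε).symm c) := by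
  apply (ixE m ε).injective
  rw [ixE_rv hε]
  simp

/-- The matrix of an element of `SU` in the model. -/
noncomputable def rhoM (W : WB F q (2 * m + ε)) : SU (2 * m + ε) F q →* Matrix (Ix m ε) (Ix m ε) F where
  toFun g := (W.M g).submatrix (ixE m ε) (ixE m ε)
  map_one' := by
    rw [W.M_one, Matrix.submatrix_one_equiv]
  map_mul' g h := by
    rw [W.M_mul, Matrix.submatrix_mul_equiv]

theorem rhoM_apply (W : WB F q (2 * m + ε)) (g : SU (2 * m + ε) F q) :
    rhoM W g = (W.M g).submatrix (ixE m ε) (ixE m ε) := rfl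

theorem adj_submatrix (hε : ε ≤ 1) (N : Matrix (Fin (2 * m + ε)) (Fin (2 * m + ε)) F) :
    adj q (N.submatrix (ixE m ε) (ixE m ε)) = (stA q N).submatrix (ixE m ε) (ixE m ε) := by
  ext r c
  simp only [adj_apply, Matrix.submatrix_apply, stA_apply, ixE_rv hε]

theorem stA_submatrix (hε : ε ≤ 1) (N : Matrix (Ix m ε) (Ix m ε) F) :
    stA q (N.submatrix (ixE m ε).symm (ixE m ε).symm) = (adj q N).submatrix (ixE m ε).symm (ixE m ε).symm := by
  ext r c
  simp only [adj_apply, Matrix.submatrix_apply, stA_apply, ixE_symm_rev hε]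

theorem rhoM_mem (hF : Fintype.card F = q ^ 2) (hε : ε ≤ 1) (W : WB F q (2 * m + ε)) (g : SU (2 * m + ε) F q) :
    (rhoM W).toHomUnits g ∈ SUM hF m ε := by
  rw [mem_SUM]
  have h1 : stA q (W.M g) = W.M g⁻¹ := by
    ext r c
    rw [stA_apply, M_inv hF]
  simp only [MonoidHom.coe_toHomUnits, rhoM_apply]
  constructor
  · rw [adj_submatrix hε, h1, Matrix.submatrix_mul_equiv, ← W.M_mul, inv_mul_cancel, W.M_one,
      Matrix.submatrix_one_equiv]
  · rw [Matrix.det_submatrix_equiv_self, W.det_M]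

theorem rhoM_surj (hF : Fintype.card F = q ^ 2) (hε : ε ≤ 1) (W : WB F q (2 * m + ε)) (a : GL (Ix m ε) F)
    (ha : a ∈ SUM hF m ε) : ∃ x : SU (2 * m + ε) F q, (rhoM W).toHomUnits x = a := by
  rw [mem_SUM] at ha
  obtain ⟨h1, h2⟩ := ha
  have hA1 : stA q ((a : Matrix (Ix m ε) (Ix m ε) F).submatrix (ixE m ε).symm (ixE m ε).symm) *
      (a : Matrix (Ix m ε) (Ix m ε) F).submatrix (ixE m ε).symm (ixE m ε).symm = 1 := by
    rw [stA_submatrix hε, Matrix.submatrix_mul_equiv, h1, Matrix.submatrix_one_equiv]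
  have hA2 : ((a : Matrix (Ix m ε) (Ix m ε) F).submatrix (ixE m ε).symm (ixE m ε).symm).det = 1 := by
    rw [Matrix.det_submatrix_equiv_self, h2]
  refine ⟨mkG hF W _ hA1 hA2, ?_⟩
  apply Units.ext
  rw [MonoidHom.coe_toHomUnits, rhoM_apply, M_mkG]
  ext r c
  simp

theorem rhoM_inj (W : WB F q (2 * m + ε)) {g h : SU (2 * m + ε) F q}
    (H : (rhoM W).toHomUnits g = (rhoM W).toHomUnits h) : g = h := by
  apply W.ext_M
  have H1 := congrArg (fun u : GL (Ix m ε) F => (u : Matrix (Ix m ε) (Ix m ε) F)) H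
  simp only [MonoidHom.coe_toHomUnits, rhoM_apply] at H1
  ext i j
  have := congrFun (congrFun H1 ((ixE m ε).symm i)) ((ixE m ε).symm j)
  simpa using this

theorem scalar_of_rhoM (W : WB F q (2 * m + ε)) (g : SU (2 * m + ε) F q) (a : F)
    (H : (((rhoM W).toHomUnits g : GL (Ix m ε) F) : Matrix (Ix m ε) (Ix m ε) F) = a • 1) :
    ((g : Matrix.SpecialLinearGroup (Fin (2 * m + ε)) F) : Matrix (Fin (2 * m + ε)) (Fin (2 * m + ε)) F) = a • 1 := by
  simp only [MonoidHom.coe_toHomUnits, rhoM_apply] at H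
  have h1 : W.M g = a • 1 := by
    ext i j
    have := congrFun (congrFun H ((ixE m ε).symm i)) ((ixE m ε).symm j)
    simp only [Matrix.submatrix_apply, Equiv.apply_symm_apply, Matrix.smul_apply, Matrix.one_apply,
      EmbeddingLike.apply_eq_iff_eq] at this
    simpa [Matrix.one_apply] using this
  have h2 := W.mat_mul_P g
  rw [h1] at h2
  have hP := (Matrix.isUnit_iff_isUnit_det _).1 W.isUnit_P
  have h3 : mat g = (a • (1 : Matrix _ _ F)) := by
    have h4 : mat g * W.P = (a • (1 : Matrix _ _ F)) * W.P := by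
      rw [h2]
      simp
    have h5 := congrArg (fun X => X * W.P⁻¹) h4
    simp only [Matrix.mul_assoc, Matrix.mul_nonsing_inv _ hP, Matrix.mul_one] at h5
    exact h5
  exact h3

end Transfer

open Transfer in
/-- Ore's statement for non-scalar elements passes from the model to `Cfsg.SU`. -/
theorem ore_of_model {F : Type*} [Field F] [Fintype F] {q m ε : ℕ} (hF : Fintype.card F = q ^ 2) (hε : ε ≤ 1)
    (h : ∀ g ∈ SUM hF m ε, (¬ ∃ a : F, (g : Matrix (Ix m ε) (Ix m ε) F) = a • 1) →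
      ∃ a ∈ SUM hF m ε, ∃ b ∈ SUM hF m ε, g = a * b * a⁻¹ * b⁻¹)
    (g : Cfsg.SU (2 * m + ε) F q)
    (hg : ¬ ∃ a : F, ((g : Matrix.SpecialLinearGroup (Fin (2 * m + ε)) F) : Matrix (Fin (2 * m + ε)) (Fin (2 * m + ε)) F) = a • 1) :
    ∃ x y : Cfsg.SU (2 * m + ε) F q, g = x * y * x⁻¹ * y⁻¹ := by
  obtain ⟨W⟩ := exists_wb hF (2 * m + ε)
  obtain ⟨a, ha, b, hb, hab⟩ := h ((rhoM W).toHomUnits g) (rhoM_mem hF hε W g) (by
    rintro ⟨c, hc⟩
    exact hg ⟨c, scalar_of_rhoM W g c hc⟩)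
  obtain ⟨x, rfl⟩ := rhoM_surj hF hε W a ha
  obtain ⟨y, rfl⟩ := rhoM_surj hF hε W b hb
  refine ⟨x, y, rhoM_inj W ?_⟩
  rw [hab]
  simp only [map_mul, map_inv]

end Cfsg.Agent.Lib.OreU
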