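import Mathlib
import Cfsg.Agent.Lib.OreU.PosFinal
import Cfsg.Agent.Lib.OreU.Transfer
import Cfsg.Agent.Lib.OreU.Central
import Cfsg.Agent.Lib.OreU.FacQ3
import Cfsg.Agent.Lib.OreU.FacTwoSmall
import Cfsg.Agent.Lib.OreU.CellOne

set_option autoImplicit false
set_option linter.unusedSectionVars false
set_option linter.unusedSimpArgs false
set_option linter.unusedVariables false

namespace Cfsg.Agent.Lib.OreU

open Matrix
open Cfsg.Agent.Lib.Classical.Herm.Basic

variable {F : Type*} [Field F] [Fintype F] {q m ε : ℕ}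

/-- The big case of the characteristic two factorization, as a hypothesis. -/
def FacBig (F : Type*) [Field F] [Fintype F] : Prop :=
  Fintype.card F = 2 ^ 2 → ∀ m : ℕ, 4 ≤ m → ∀ T : GL (Fin m) F, (T : Matrix (Fin m) (Fin m) F).det = 1 →
    (T = 1 ∨ ¬ ∃ a : F, (T : Matrix (Fin m) (Fin m) F) = a • 1) → Fac 2 T

theorem comm_of_conj {G : Type*} [Group G] (Ω : Subgroup G) {k g a b : G} (hk : k ∈ Ω) (ha : a ∈ Ω) (hb : b ∈ Ω)
    (h : k * g * k⁻¹ = a * b * a⁻¹ * b⁻¹) :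
    ∃ a' ∈ Ω, ∃ b' ∈ Ω, g = a' * b' * a'⁻¹ * b'⁻¹ := by
  refine ⟨k⁻¹ * a * k, mul_mem (mul_mem (inv_mem hk) ha) hk, k⁻¹ * b * k, mul_mem (mul_mem (inv_mem hk) hb) hk, ?_⟩
  have h2 : g = k⁻¹ * (k * g * k⁻¹) * k := by group
  rw [h2, h]
  group

theorem model_comm (hF : Fintype.card F = q ^ 2) (hε : ε ≤ 1) (hm : 1 ≤ m) (hn : 3 ≤ 2 * m + ε)
    (hex : ¬ (2 * m + ε = 3 ∧ q = 2)) (hTwo : TwoStep F m ε) (hbig : FacBig F) {g : GL (Ix m ε) F}
    (hg : g ∈ SUM hF m ε) (hns : ¬ ∃ a : F, (g : Matrix (Ix m ε) (Ix m ε) F) = a • 1) :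
    ∃ a ∈ SUM hF m ε, ∃ b ∈ SUM hF m ε, g = a * b * a⁻¹ * b⁻¹ := by
  obtain ⟨k, hk, D, hD, hdet, hcase⟩ := exists_position_of_two hF hε hm hTwo hg hns
  have hg' : k * g * k⁻¹ ∈ SUM hF m ε := mul_mem (mul_mem hk hg) (inv_mem hk)
  have hq2 := two_le_q hF
  suffices hmain : ∃ a ∈ SUM hF m ε, ∃ b ∈ SUM hF m ε, k * g * k⁻¹ = a * b * a⁻¹ * b⁻¹ by
    obtain ⟨a, ha, b, hb, h⟩ := hmain
    exact comm_of_conj _ hk ha hb h
  by_cases hq3 : 3 ≤ q
  · by_cases hm2 : 2 ≤ m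
    · have hT : D = 1 ∨ ¬ ∃ a : F, (D : Matrix (Fin m) (Fin m) F) = a • 1 := by
        rcases hcase with h | h
        · exact Or.inl h
        · exact Or.inr h.1
      exact comm_of_fac hF hε hg' D hD hdet (fac_q3 hF hq3 hm2 D hdet hT)
    · have hm1 : m = 1 := by omega
      subst hm1
      have he1 : ε = 1 := by omega
      subst he1
      have hD1 : (D : Matrix (Fin 1) (Fin 1) F) = 1 := by
        rw [Matrix.det_fin_one] at hdet
        ext i j
        have hi : i = 0 := Subsingleton.elim _ _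
        have hj : j = 0 := Subsingleton.elim _ _
        subst hi; subst hj
        simpa using hdet
      exact comm_one_m1 hF hq3 hg' (by rw [hD, hD1])
  · have hq : q = 2 := by omega
    subst hq
    have hm2 : 2 ≤ m := by
      by_contra hcon
      have hm1 : m = 1 := by omega
      subst hm1
      apply hex
      omega
    by_cases hm3 : m ≤ 3
    · have hT : D = 1 ∨ ((¬ ∃ a : F, (D : Matrix (Fin m) (Fin m) F) = a • 1) ∧
          ¬ ∃ y φ : Fin m → F, (D : Matrix (Fin m) (Fin m) F) = 1 + vecMulVec y φ) := by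
        rcases hcase with h | h
        · exact Or.inl h
        · exact Or.inr ⟨h.1, h.2 rfl hm3⟩
      exact comm_of_fac hF hε hg' D hD hdet (fac_two_small hF (by omega) D hdet hT)
    · have hT : D = 1 ∨ ¬ ∃ a : F, (D : Matrix (Fin m) (Fin m) F) = a • 1 := by
        rcases hcase with h | h
        · exact Or.inl h
        · exact Or.inr h.1
      exact comm_of_fac hF hε hg' D hD hdet (hbig hF m (by omega) D hdet hT)

/-- Ore's conjecture for the special unitary groups, from the two remaining inputs. -/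
theorem ore_su_of_inputs {F : Type*} [Field F] [Fintype F] (n q : ℕ) (hn : 3 ≤ n) (hF : Fintype.card F = q ^ 2)
    (hex : ¬ (n = 3 ∧ q = 2)) (hTwo : ∀ m ε : ℕ, ε ≤ 1 → TwoStep F m ε) (hbig : FacBig F)
    (g : Cfsg.SU n F q) : ∃ a b : Cfsg.SU n F q, g = a * b * a⁻¹ * b⁻¹ := by
  obtain ⟨m, ε, rfl, hε⟩ : ∃ m ε : ℕ, n = 2 * m + ε ∧ ε ≤ 1 := ⟨n / 2, n % 2, by omega, by omega⟩
  by_cases hs : ∃ a : F, ((g : Matrix.SpecialLinearGroup (Fin (2 * m + ε)) F) : Matrix (Fin (2 * m + ε)) (Fin (2 * m + ε)) F) = a • 1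
  · obtain ⟨a, ha⟩ := hs
    exact central_comm hF _ hn g a ha
  · exact ore_of_model hF hε (fun g hg hns => model_comm hF hε (by omega) hn hex (hTwo m ε hε) hbig hg hns) g hs

end Cfsg.Agent.Lib.OreU
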