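import Mathlib
import Cfsg.Agent.Lib.Linalg.Lev.Main

/-!
# A factorization `T = B D⁻¹` where `D` has an invariant subspace of codimension two

Over small fields a factor `X - κ` cannot be afforded; here `D` acts on a subspace of codimension two with
relation `p`, and on the quotient with an irreducible quadratic `k`.
-/

set_option autoImplicit false
set_option linter.unusedSectionVars false
set_option linter.unusedVariables false

open Polynomial Module

namespace Cfsg.Agent.Lib.OreU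

open Cfsg.Agent.Lib.Linalg.Lev

section

variable {F : Type*} [Field F]
variable {V H K : Type*} [AddCommGroup V] [Module F V] [FiniteDimensional F V]
variable [AddCommGroup H] [Module F H] [FiniteDimensional F H]
variable [AddCommGroup K] [Module F K] [FiniteDimensional F K]

/-- Determinant of a map with an invariant subspace. -/
theorem det_block (Y : V →ₗ[F] V) (Y' : H →ₗ[F] H) (Y'' : K →ₗ[F] K) (j : H →ₗ[F] V) (q : V →ₗ[F] K)
    (hj : Function.Injective j) (hq : Function.Surjective q) (hex : ∀ x, q x = 0 → ∃ y, j y = x)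
    (hqj : ∀ y, q (j y) = 0) (h1 : ∀ y, Y (j y) = j (Y' y)) (h2 : ∀ x, q (Y x) = Y'' (q x)) :
    LinearMap.det Y = LinearMap.det Y' * LinearMap.det Y'' := by
  classical
  set N : Submodule F V := LinearMap.ker q with hN
  have hle : N ≤ N.comap Y := by
    intro x hx
    have hx' : q x = 0 := hx
    change q (Y x) = 0
    rw [h2, hx', map_zero]
  have hdet := Y.det_eq_det_mul_det N hle
  let j' : H →ₗ[F] N := j.codRestrict N (fun y => hqj y)
  have hj' : Function.Bijective j' := by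
    constructor
    · intro a b hab
      exact hj (congrArg Subtype.val hab)
    · rintro ⟨x, hx⟩
      obtain ⟨y, hy⟩ := hex x hx
      exact ⟨y, Subtype.ext hy⟩
  let e₁ : H ≃ₗ[F] N := LinearEquiv.ofBijective j' hj'
  have he₁ : ∀ y, ((e₁ y : N) : V) = j y := fun _ => rfl
  have h3 : Y.restrict hle = (e₁ : H →ₗ[F] N) ∘ₗ Y' ∘ₗ (e₁.symm : N →ₗ[F] H) := by
    refine LinearMap.ext fun x => Subtype.ext ?_
    obtain ⟨y, rfl⟩ := e₁.surjective x
    rw [LinearMap.coe_restrict_apply, he₁, h1]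
    simp [he₁]
  let e₂ : (V ⧸ N) ≃ₗ[F] K := q.quotKerEquivOfSurjective hq
  have he₂ : ∀ x, e₂ (Submodule.Quotient.mk x) = q x := fun _ => rfl
  have h4 : N.mapQ N Y hle = (e₂.symm : K →ₗ[F] (V ⧸ N)) ∘ₗ Y'' ∘ₗ (e₂ : (V ⧸ N) →ₗ[F] K) := by
    refine LinearMap.ext fun x => ?_
    obtain ⟨w, rfl⟩ := Submodule.Quotient.mk_surjective _ x
    apply e₂.injective
    rw [Submodule.mapQ_apply, he₂, h2]
    simp [he₂]
  rw [hdet, h3, h4, LinearMap.det_conj]
  congr 1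
  exact LinearMap.det_conj Y'' e₂.symm

theorem det_aeval_sub_C (M : Matrix (Fin 2) (Fin 2) F) (a : F) :
    LinearMap.det (aeval (Matrix.toLin' M) (X - C a : F[X])) = M.charpoly.eval a := by
  have h1 : aeval (Matrix.toLin' M) (X - C a : F[X]) = Matrix.toLin' (M - a • 1) := by
    refine LinearMap.ext fun v => ?_
    simp
  rw [h1, LinearMap.det_toLin', Matrix.eval_charpoly, Matrix.det_fin_two, Matrix.det_fin_two]
  simp [Matrix.sub_apply, Matrix.smul_apply]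
  ring

/-- Cyclicity and conjugacy. -/
theorem exists_conj_two {k p : F[X]} (B D : V →ₗ[F] V) (R : H →ₗ[F] H) (M : Matrix (Fin 2) (Fin 2) F)
    (j : H →ₗ[F] V) (q : V →ₗ[F] (Fin 2 → F)) (hj : Function.Injective j) (hq : Function.Surjective q)
    (hex : ∀ x, q x = 0 → ∃ y, j y = x) (hqj : ∀ y, q (j y) = 0)
    (hDj : ∀ y, D (j y) = j (R y)) (hqD : ∀ x, q (D x) = M.mulVec (q x)) (hM : M.charpoly = k)
    {z₂ : H} (hR : IsCyc R p z₂) {z : V} (hB : IsCyc B (k * p) z)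
    (hkr : ∀ a, k.eval a ≠ 0) (hkp : IsCoprime k p)
    (hgen : ∃ a : F, ∀ s : F, s ≠ 0 → ∃ n : ℕ, s = (k.eval a) ^ n) :
    aeval D (k * p) = 0 ∧ ∃ G : V ≃ₗ[F] V, LinearMap.det (G : V →ₗ[F] V) = 1 ∧ ∀ x, G (D x) = B (G x) := by
  classical
  set Kl : (Fin 2 → F) →ₗ[F] (Fin 2 → F) := Matrix.toLin' M with hKl
  have hqK : ∀ x, q (D x) = Kl (q x) := fun x => by rw [hqD]; rfl
  have hKk : aeval Kl k = 0 := by
    have h1 : Kl.charpoly = k := by rw [hKl, Matrix.charpoly_toLin', hM]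
    rw [← h1]
    exact LinearMap.aeval_self_charpoly Kl
  have hqa : ∀ (g : F[X]) (x : V), q (aeval D g x) = aeval Kl g (q x) :=
    fun g x => aeval_intertwine q D Kl hqK g x
  have hja : ∀ (g : F[X]) (y : H), j (aeval R g y) = aeval D g (j y) :=
    fun g y => aeval_intertwine j R D (fun y => (hDj y).symm) g y
  obtain ⟨a', b', hab⟩ := hkp
  have hRp : aeval R p = 0 := hR.aeval_eq_zero
  -- `f (D) = 0`
  have hDf : aeval D (k * p) = 0 := by
    refine LinearMap.ext fun x => ?_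
    rw [mul_comm, map_mul, Module.End.mul_apply, LinearMap.zero_apply]
    have h1 : q (aeval D k x) = 0 := by
      rw [hqa, hKk, LinearMap.zero_apply]
    obtain ⟨y, hy⟩ := hex _ h1
    rw [← hy, ← hja, hRp, LinearMap.zero_apply, map_zero]
  refine ⟨hDf, ?_⟩
  have hDk : ∀ x, aeval D k (aeval D p x) = 0 := by
    intro x
    rw [← Module.End.mul_apply, ← map_mul, hDf, LinearMap.zero_apply]
  -- the vector of the quotient
  obtain ⟨ê, hê⟩ := hq ![1, 0]
  set w₀ : V := aeval D p ê with hw₀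
  set u : Fin 2 → F := q w₀ with hu
  have hu0 : u ≠ 0 := by
    intro h0
    have h1 : aeval Kl p (q ê) = 0 := by rw [← hqa]; exact h0
    have h2 : aeval Kl (a' * k + b' * p) (q ê) = q ê := by rw [hab]; simp
    rw [map_add, LinearMap.add_apply, map_mul, map_mul, hKk, mul_zero, Module.End.mul_apply, h1, map_zero,
      LinearMap.zero_apply, zero_add, hê] at h2
    have h3 := congrFun h2.symm 0
    simp at h3
  have hKu : ∀ c : F, Kl u ≠ c • u := by
    intro c hc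
    have h1 : aeval Kl k u = k.eval c • u := Module.End.aeval_apply_of_mem_apply_eq_smul hc
    rw [hKk, LinearMap.zero_apply] at h1
    exact hu0 ((smul_eq_zero.1 h1.symm).resolve_left (hkr c))
  have hli : LinearIndependent F ![u, Kl u] := by
    rw [LinearIndependent.pair_iff]
    intro s t hst
    by_cases ht : t = 0
    · subst ht
      rw [zero_smul, add_zero] at hst
      exact ⟨(smul_eq_zero.1 hst).resolve_right hu0, rfl⟩
    · exfalso
      apply hKu (-(t⁻¹ * s))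
      have h2 : t • Kl u = -(s • u) := eq_neg_of_add_eq_zero_right hst
      have h3 : Kl u = t⁻¹ • (t • Kl u) := by rw [smul_smul, inv_mul_cancel₀ ht, one_smul]
      rw [h3, h2, smul_neg, smul_smul, neg_smul]
  have hspan : Submodule.span F (Set.range ![u, Kl u]) = ⊤ :=
    hli.span_eq_top_of_card_eq_finrank (by simp)
  have hpair : ∀ v : Fin 2 → F, ∃ s t : F, s • u + t • Kl u = v := by
    intro v
    have hv : v ∈ Submodule.span F (Set.range ![u, Kl u]) := by rw [hspan]; trivial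
    rw [Matrix.range_cons, Matrix.range_cons, Matrix.range_empty, Set.union_empty,
      Set.singleton_union, Submodule.mem_span_pair] at hv
    exact hv
  -- the generator of `D`
  obtain ⟨z₀, hz₀⟩ : ∃ z₀ : V, z₀ = j z₂ + w₀ := ⟨_, rfl⟩
  have hjz : aeval D (a' * k) z₀ = j z₂ := by
    rw [hz₀, map_add, map_mul, Module.End.mul_apply, Module.End.mul_apply, hDk, map_zero, add_zero,
      ← Module.End.mul_apply, ← map_mul, ← hja]
    congr 1
    have : a' * k = 1 - b' * p := by rw [← hab]; ring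
    rw [this, map_sub, map_one, map_mul, LinearMap.sub_apply, Module.End.mul_apply, hRp]
    simp
  have hw : aeval D (1 - a' * k) z₀ = w₀ := by
    rw [map_sub, map_one, LinearMap.sub_apply, hjz, Module.End.one_apply, hz₀]
    abel
  have hgen₀ : ∀ x, ∃ g : F[X], aeval D g z₀ = x := by
    intro x
    obtain ⟨s, t, hst⟩ := hpair (q x)
    have h1 : q (x - s • w₀ - t • D w₀) = 0 := by
      rw [map_sub, map_sub, map_smul, map_smul, hqK, ← hst]
      simp [hu]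
    obtain ⟨y, hy⟩ := hex _ h1
    obtain ⟨g, hg⟩ := hR.gen y
    refine ⟨g * (a' * k) + (C s + C t * X) * (1 - a' * k), ?_⟩
    have h5 : ∀ (r : F) (w : V), (algebraMap F (V →ₗ[F] V) r) w = r • w := fun _ _ => rfl
    have h6 : aeval D (C s + C t * X : F[X]) w₀ = s • w₀ + t • D w₀ := by
      rw [map_add, LinearMap.add_apply, map_mul, Module.End.mul_apply, aeval_C, aeval_C, aeval_X, h5, h5]
    rw [map_add, LinearMap.add_apply, map_mul, Module.End.mul_apply, hjz, ← hja, hg, hy, map_mul,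
      Module.End.mul_apply, hw, h6]
    abel
  have hD' : IsCyc D (k * p) z₀ := ⟨hB.monic, hB.natDegree, by rw [hDf, LinearMap.zero_apply], hgen₀⟩
  obtain ⟨e, he⟩ := hD'.exists_conj hB
  set δ := LinearMap.det (e : V →ₗ[F] V) with hδ
  have hδ0 : δ ≠ 0 := (LinearEquiv.isUnit_det' e).ne_zero
  obtain ⟨a, ha⟩ := hgen
  obtain ⟨n, hn⟩ := ha δ⁻¹ (inv_ne_zero hδ0)
  -- the correcting element
  set g : F[X] := a' * k + b' * p * (X - C a) ^ n with hg
  set c : V →ₗ[F] V := aeval D g with hc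
  have hcj : ∀ y, c (j y) = j y := by
    intro y
    rw [hc, ← hja]
    congr 1
    have h1 : g = 1 + (b' * ((X - C a) ^ n - 1)) * p := by
      rw [hg]
      linear_combination hab
    rw [h1, map_add, map_one, map_mul, LinearMap.add_apply, Module.End.mul_apply, hRp]
    simp
  have hcq : ∀ x, q (c x) = aeval Kl ((X - C a) ^ n) (q x) := by
    intro x
    rw [hc, hqa]
    have h1 : g = (X - C a) ^ n + (a' * (1 - (X - C a) ^ n)) * k := by
      rw [hg]
      linear_combination ((X - C a) ^ n) * hab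
    rw [h1, map_add, map_mul, hKk, mul_zero, add_zero]
  have hdetc : LinearMap.det c = δ⁻¹ := by
    rw [det_block c LinearMap.id (aeval Kl ((X - C a) ^ n)) j q hj hq hex hqj hcj hcq, LinearMap.det_id,
      one_mul, map_pow, map_pow, hKl, det_aeval_sub_C, hM, hn]
  have hc0 : LinearMap.det c ≠ 0 := by rw [hdetc]; exact inv_ne_zero hδ0
  let ce : V ≃ₗ[F] V := LinearMap.equivOfDetNeZero c hc0
  have hce : ∀ x, ce x = c x := fun _ => rfl
  have hcD : ∀ x, c (D x) = D (c x) := by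
    intro x
    have h1 : Commute (aeval D (X : F[X])) (aeval D g) := (commute_X g).map (aeval D)
    rw [aeval_X] at h1
    exact (LinearMap.congr_fun h1.eq x).symm
  refine ⟨ce.trans e, ?_, fun x => ?_⟩
  · have h1 : ((ce.trans e : V ≃ₗ[F] V) : V →ₗ[F] V) = (e : V →ₗ[F] V) ∘ₗ c := rfl
    rw [h1, LinearMap.det_comp, hdetc, ← hδ, mul_inv_cancel₀ hδ0]
  · change e (ce (D x)) = B (e (ce x))
    rw [hce, hce, hcD, he]

/-- `k` in coordinates. -/
theorem eq_quadratic {k : F[X]} (hk : k.Monic) (hkd : k.natDegree = 2) :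
    k = X ^ 2 + C (k.coeff 1) * X + C (k.coeff 0) := by
  ext n
  rcases n with _ | _ | _ | n
  · simp
  · simp [coeff_C]
  · have := hk.coeff_natDegree
    rw [hkd] at this
    simp [this]
  · have h1 : k.coeff (n + 1 + 1 + 1) = 0 := coeff_eq_zero_of_natDegree_lt (by omega)
    rw [h1]
    simp [coeff_X_pow]

/-- The first stage: `R`, and the cyclic `B₀`. -/
theorem exists_stage_one (T : V ≃ₗ[F] V)
    (j : H →ₗ[F] V) (hj : Function.Injective j) (φ₁ φ₂ : V →ₗ[F] F) (ê₀ ê₁ : V)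
    (h10 : φ₁ ê₀ = 0) (h20 : φ₂ ê₀ = 1) (h11 : φ₁ ê₁ = 1) (h21 : φ₂ ê₁ = 0)
    (hj1 : ∀ y, φ₁ (j y) = 0) (hj2 : ∀ y, φ₂ (j y) = 0)
    (hex : ∀ x, φ₁ x = 0 → φ₂ x = 0 → ∃ y, j y = x)
    (hT1 : ∀ y, φ₁ (T (j y)) = 0)
    (R₀ : H →ₗ[F] H) (ψ : H →ₗ[F] F)
    (h1 : ∀ Q : Submodule F H, (∀ x ∈ Q, R₀ x ∈ Q) → (∀ x ∈ Q, ψ x = 0) → Q = ⊥)
    (h2 : ∀ x y, j y = T (j x) → ψ y = 0)
    (h3 : ∀ Q : Submodule F H, (∀ x ∈ Q, ψ x = 0) → (∀ x ∈ Q, ∃ y ∈ Q, j y = T (j (R₀ x))) → Q = ⊥)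
    [Nontrivial H] (p f : F[X]) (hp : p.Monic) (hpd : p.natDegree = finrank F H) (hp0 : p.coeff 0 ≠ 0)
    (hf : f.Monic) (hfd : f.natDegree = finrank F V) :
    ∃ (R : H →ₗ[F] H) (z₂ : H) (B₀ : V →ₗ[F] V) (z b : V) (y₀ : H), IsCyc R p z₂ ∧ IsCyc B₀ f z ∧
      (∀ y, B₀ (j y) = T (j (R y))) ∧ φ₁ b = 0 ∧ T.symm b = j y₀ ∧ φ₁ (T.symm (B₀ b)) ≠ 0 := by
  classical
  obtain ⟨z₂, hz₂⟩ := exists_pole_placement R₀ ψ h1
  obtain ⟨r₂, hr₂⟩ := hz₂ p hp hpd
  set R := feedback R₀ ψ r₂ with hR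
  have hRx : ∀ x : H, ψ x = 0 → R x = R₀ x := by
    intro x hx
    change R₀ x + ψ x • r₂ = _
    rw [hx, zero_smul, add_zero]
  have hRinj : Function.Injective R := by
    rw [← LinearMap.ker_eq_bot, LinearMap.ker_eq_bot']
    intro x hx
    have h0 := LinearMap.congr_fun hr₂.aeval_eq_zero x
    conv at h0 => lhs; rw [← divX_mul_X_add p]
    rw [map_add, LinearMap.add_apply, map_mul, Module.End.mul_apply, aeval_X, hx, map_zero, zero_add,
      aeval_C, LinearMap.zero_apply] at h0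
    have h2' : (algebraMap F (H →ₗ[F] H) (p.coeff 0)) x = p.coeff 0 • x := rfl
    rw [h2'] at h0
    exact (smul_eq_zero.1 h0).resolve_left hp0
  have hRsurj : Function.Surjective R := LinearMap.injective_iff_surjective.1 hRinj
  -- the projection
  let pr : V →ₗ[F] V := LinearMap.id - φ₂.smulRight ê₀ - φ₁.smulRight ê₁
  have hpr : ∀ x, pr x = x - φ₂ x • ê₀ - φ₁ x • ê₁ := fun _ => rfl
  have hprm : ∀ x, pr x ∈ LinearMap.range j := by
    intro x
    obtain ⟨y, hy⟩ := hex (pr x) (by simp [hpr, h10, h11]) (by simp [hpr, h20, h21])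
    exact ⟨y, hy⟩
  let π : V →ₗ[F] H := ((LinearEquiv.ofInjective j hj).symm : LinearMap.range j →ₗ[F] H) ∘ₗ
    pr.codRestrict (LinearMap.range j) hprm
  have hπ : ∀ x, j (π x) = x - φ₂ x • ê₀ - φ₁ x • ê₁ := by
    intro x
    change j ((LinearEquiv.ofInjective j hj).symm ⟨pr x, hprm x⟩) = _
    rw [LinearEquiv.ofInjective_symm_apply]
    exact hpr x
  have hπj : ∀ y, π (j y) = y := by
    intro y
    apply hj
    rw [hπ, hj1, hj2]
    simp
  -- the vector `e₁`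
  obtain ⟨e₁, he₁, he₁'⟩ : ∃ e₁ : V, φ₁ e₁ = 1 ∧ φ₁ (T.symm e₁) ≠ 0 := by
    obtain ⟨x₂, hx₂⟩ : ∃ x₂ : V, φ₁ (T.symm x₂) ≠ 0 := ⟨T ê₁, by
      rw [T.symm_apply_apply, h11]
      exact one_ne_zero⟩
    obtain ⟨x, hx1, hx2⟩ : ∃ x : V, φ₁ x ≠ 0 ∧ φ₁ (T.symm x) ≠ 0 := by
      by_cases h4 : φ₁ (T.symm ê₁) = 0
      · by_cases h5 : φ₁ x₂ = 0
        · refine ⟨ê₁ + x₂, ?_, ?_⟩
          · rw [map_add, h11, h5, add_zero]
            exact one_ne_zero
          · rw [map_add, map_add, h4, zero_add]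
            exact hx₂
        · exact ⟨x₂, h5, hx₂⟩
      · exact ⟨ê₁, by rw [h11]; exact one_ne_zero, h4⟩
    refine ⟨(φ₁ x)⁻¹ • x, ?_, ?_⟩
    · rw [map_smul, smul_eq_mul, inv_mul_cancel₀ hx1]
    · rw [map_smul, map_smul, smul_eq_mul]
      exact mul_ne_zero (inv_ne_zero hx1) hx2
  let B₃ : V →ₗ[F] V := (T : V →ₗ[F] V) ∘ₗ j ∘ₗ R ∘ₗ π + φ₂.smulRight e₁
  have hB₃ : ∀ x, B₃ x = T (j (R (π x))) + φ₂ x • e₁ := fun _ => rfl
  have hB₃j : ∀ y, B₃ (j y) = T (j (R y)) := by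
    intro y
    rw [hB₃, hπj, hj2, zero_smul, add_zero]
  have hTjR : Function.Injective (fun y => T (j (R y))) :=
    fun a b hab => hRinj (hj (T.injective hab))
  have hobs : ∀ P : Submodule F V, (∀ x ∈ P, B₃ x ∈ P) → (∀ x ∈ P, φ₁ x = 0) → P = ⊥ := by
    intro P hP1 hP2
    have hP3 : ∀ x ∈ P, φ₂ x = 0 := by
      intro x hx
      have h4 := hP2 _ (hP1 x hx)
      rw [hB₃, map_add, hT1, zero_add, map_smul, he₁, smul_eq_mul, mul_one] at h4
      exact h4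
    have hPj : ∀ x ∈ P, ∃ y, j y = x := fun x hx => hex x (hP2 x hx) (hP3 x hx)
    let Q : Submodule F H := P.comap j
    have hQm : ∀ y, y ∈ Q ↔ j y ∈ P := fun _ => Iff.rfl
    have hQ1 : ∀ y ∈ Q, ∃ y' ∈ Q, j y' = T (j (R y)) := by
      intro y hy
      have h4 := hP1 _ ((hQm y).1 hy)
      rw [hB₃j] at h4
      obtain ⟨y', hy'⟩ := hPj _ h4
      exact ⟨y', (hQm _).2 (by rw [hy']; exact h4), hy'⟩
    choose! Lf hLf1 hLf2 using hQ1
    -- surjectivity of the map on `Q`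
    have hLinj : ∀ a ∈ Q, ∀ b ∈ Q, Lf a = Lf b → a = b := by
      intro a ha b hb hab
      have h4 : T (j (R a)) = T (j (R b)) := by rw [← hLf2 a ha, ← hLf2 b hb, hab]
      exact hRinj (hj (T.injective h4))
    have hLsurj : ∀ y ∈ Q, ∃ x ∈ Q, Lf x = y := by
      let L' : Q →ₗ[F] V := (T : V →ₗ[F] V) ∘ₗ j ∘ₗ R ∘ₗ Q.subtype
      have hL'inj : Function.Injective L' := by
        intro a b hab
        exact Subtype.ext (hRinj (hj (T.injective hab)))
      have h5 : LinearMap.range L' = Q.map j := by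
        apply Submodule.eq_of_le_of_finrank_eq
        · rintro _ ⟨x, rfl⟩
          exact ⟨Lf x, hLf1 x x.2, hLf2 x x.2⟩
        · rw [LinearMap.finrank_range_of_inj hL'inj]
          exact (LinearEquiv.finrank_eq (Submodule.equivMapOfInjective j hj Q))
      intro y hy
      have h6 : j y ∈ LinearMap.range L' := by
        rw [h5]
        exact ⟨y, hy, rfl⟩
      obtain ⟨x, hx⟩ := h6
      refine ⟨x, x.2, hj ?_⟩
      rw [hLf2 _ x.2]
      exact hx
    have hψQ : ∀ x ∈ Q, ψ x = 0 := by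
      intro y hy
      obtain ⟨x, hx, rfl⟩ := hLsurj y hy
      exact h2 (R x) _ (hLf2 x hx)
    have hQ0 : Q = ⊥ := by
      refine h3 Q hψQ fun x hx => ⟨Lf x, hLf1 x hx, ?_⟩
      rw [hLf2 x hx, hRx x (hψQ x hx)]
    rw [eq_bot_iff]
    intro x hx
    obtain ⟨y, rfl⟩ := hPj x hx
    have : y ∈ Q := hx
    rw [hQ0, Submodule.mem_bot] at this
    rw [this, map_zero]
    exact Submodule.zero_mem _
  obtain ⟨z, hz⟩ := exists_pole_placement B₃ φ₁ hobs
  obtain ⟨r, hr⟩ := hz f hf hfd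
  set B₀ := feedback B₃ φ₁ r with hB₀
  have hB₀x : ∀ x, B₀ x = B₃ x + φ₁ x • r := fun _ => rfl
  have hB₀j : ∀ y, B₀ (j y) = T (j (R y)) := by
    intro y
    rw [hB₀x, hj1, zero_smul, add_zero, hB₃j]
  -- the vector `b`
  obtain ⟨x₀, hx₀⟩ : ∃ x₀ : H, φ₂ (T (j (R x₀))) ≠ 0 := by
    by_contra hcon
    push Not at hcon
    have h4 : ∀ x : H, ∃ y, j y = T (j x) := by
      intro x
      obtain ⟨x', rfl⟩ := hRsurj x
      exact hex _ (hT1 _) (hcon x')
    -- `T` maps `range j` onto itself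
    let L' : H →ₗ[F] V := (T : V →ₗ[F] V) ∘ₗ j
    have hL'inj : Function.Injective L' := fun a b hab => hj (T.injective hab)
    have h5 : LinearMap.range L' = LinearMap.range j := by
      apply Submodule.eq_of_le_of_finrank_eq
      · rintro _ ⟨x, rfl⟩
        obtain ⟨y, hy⟩ := h4 x
        exact ⟨y, hy⟩
      · rw [LinearMap.finrank_range_of_inj hL'inj, LinearMap.finrank_range_of_inj hj]
    have h6 : ∀ y, ψ y = 0 := by
      intro y
      have h7 : j y ∈ LinearMap.range L' := by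
        rw [h5]
        exact ⟨y, rfl⟩
      obtain ⟨x, hx⟩ := h7
      exact h2 x y hx.symm
    have h8 := h1 ⊤ (fun _ _ => trivial) (fun x _ => h6 x)
    exact top_ne_bot h8
  refine ⟨R, z₂, B₀, z, T (j (R x₀)), R x₀, hr₂, hr, hB₀j, hT1 _, T.symm_apply_apply _, ?_⟩
  rw [hB₀x, hT1, zero_smul, add_zero, hB₃, map_add, map_add, T.symm_apply_apply, hj1, zero_add, map_smul,
    map_smul, smul_eq_mul]
  exact mul_ne_zero hx₀ he₁'

/-- Conjugating by `x ↦ x + l φ(x) b`. -/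
theorem exists_twist_two {f : F[X]} {B₀ : V →ₗ[F] V} {z : V} (hB₀ : IsCyc B₀ f z) (φ₁ : V →ₗ[F] F) (b : V)
    (hb : φ₁ b = 0) (l : F) :
    ∃ (B : V →ₗ[F] V) (z' : V), IsCyc B f z' ∧
      ∀ x, B x = B₀ x - (l * φ₁ x) • B₀ b + (l * φ₁ (B₀ x)) • b - (l * l * φ₁ x * φ₁ (B₀ b)) • b := by
  let C₁ : V →ₗ[F] V := LinearMap.id + (l • φ₁).smulRight b
  let C₂ : V →ₗ[F] V := LinearMap.id - (l • φ₁).smulRight b
  have hC₁ : ∀ x, C₁ x = x + (l * φ₁ x) • b := fun _ => rfl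
  have hC₂ : ∀ x, C₂ x = x - (l * φ₁ x) • b := fun _ => rfl
  have h12 : ∀ x, C₁ (C₂ x) = x := by
    intro x
    rw [hC₁, hC₂, map_sub, map_smul, hb, smul_zero, sub_zero, sub_add_cancel]
  have h21 : ∀ x, C₂ (C₁ x) = x := by
    intro x
    rw [hC₂, hC₁, map_add, map_smul, hb, smul_zero, add_zero, add_sub_cancel_right]
  let B : V →ₗ[F] V := C₁ ∘ₗ B₀ ∘ₗ C₂
  have hBC : ∀ x, C₁ (B₀ x) = B (C₁ x) := by
    intro x
    change C₁ (B₀ x) = C₁ (B₀ (C₂ (C₁ x)))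
    rw [h21]
  have hint : ∀ (g : F[X]) (x : V), C₁ (aeval B₀ g x) = aeval B g (C₁ x) :=
    fun g x => aeval_intertwine C₁ B₀ B hBC g x
  refine ⟨B, C₁ z, ⟨hB₀.monic, hB₀.natDegree, ?_, fun x => ?_⟩, fun x => ?_⟩
  · rw [← hint, hB₀.rel, map_zero]
  · obtain ⟨g, hg⟩ := hB₀.gen (C₂ x)
    exact ⟨g, by rw [← hint, hg, h12]⟩
  · change C₁ (B₀ (C₂ x)) = _
    rw [hC₂, hC₁, map_sub, map_smul, map_sub, map_smul, smul_eq_mul]
    rw [show l * (φ₁ (B₀ x) - (l * φ₁ x) * φ₁ (B₀ b)) = l * φ₁ (B₀ x) - (l * l * φ₁ x * φ₁ (B₀ b)) by ring,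
      sub_smul]
    abel

/-- The factorization. -/
theorem exists_factor_two (T : V ≃ₗ[F] V) (hdetT : LinearMap.det (T : V →ₗ[F] V) = 1)
    (j : H →ₗ[F] V) (hj : Function.Injective j) (φ₁ φ₂ : V →ₗ[F] F) (ê₀ ê₁ : V)
    (h10 : φ₁ ê₀ = 0) (h20 : φ₂ ê₀ = 1) (h11 : φ₁ ê₁ = 1) (h21 : φ₂ ê₁ = 0)
    (hj1 : ∀ y, φ₁ (j y) = 0) (hj2 : ∀ y, φ₂ (j y) = 0)
    (hex : ∀ x, φ₁ x = 0 → φ₂ x = 0 → ∃ y, j y = x)
    (hT1 : ∀ y, φ₁ (T (j y)) = 0)
    (R₀ : H →ₗ[F] H) (ψ : H →ₗ[F] F)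
    (h1 : ∀ Q : Submodule F H, (∀ x ∈ Q, R₀ x ∈ Q) → (∀ x ∈ Q, ψ x = 0) → Q = ⊥)
    (h2 : ∀ x y, j y = T (j x) → ψ y = 0)
    (h3 : ∀ Q : Submodule F H, (∀ x ∈ Q, ψ x = 0) → (∀ x ∈ Q, ∃ y ∈ Q, j y = T (j (R₀ x))) → Q = ⊥)
    [Nontrivial H] (p k : F[X]) (hp : p.Monic) (hpd : p.natDegree = finrank F H) (hp0 : p.coeff 0 ≠ 0)
    (hk : k.Monic) (hkd : k.natDegree = 2) (hkr : ∀ a, k.eval a ≠ 0) (hkp : IsCoprime k p)
    (hgen : ∃ a : F, ∀ s : F, s ≠ 0 → ∃ n : ℕ, s = (k.eval a) ^ n)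
    (hfd : (k * p).natDegree = finrank F V) :
    ∃ (B D : V →ₗ[F] V) (G : V ≃ₗ[F] V) (z : V), (∀ x, B x = T (D x)) ∧ IsCyc B (k * p) z ∧
      aeval D (k * p) = 0 ∧ LinearMap.det (G : V →ₗ[F] V) = 1 ∧ ∀ x, G (D x) = B (G x) := by
  classical
  have hf : (k * p).Monic := hk.mul hp
  obtain ⟨R, z₂, B₀, z, b, y₀, hR, hB₀, hB₀j, hb, hby, hc₀⟩ := exists_stage_one T j hj φ₁ φ₂ ê₀ ê₁ h10 h20
    h11 h21 hj1 hj2 hex hT1 R₀ ψ h1 h2 h3 p (k * p) hp hpd hp0 hf hfd
  set Θ : V →ₗ[F] V := (T.symm : V →ₗ[F] V) with hΘ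
  have hΘx : ∀ x, Θ x = T.symm x := fun _ => rfl
  set c₀ := φ₁ (T.symm (B₀ b)) with hc₀def
  -- the choice of `l`
  set l : F := (φ₂ (Θ (B₀ ê₀)) + φ₁ (Θ (B₀ ê₁)) + k.coeff 1) * c₀⁻¹ with hl
  obtain ⟨B, z', hB, hBx⟩ := exists_twist_two hB₀ φ₁ b hb l
  let D : V →ₗ[F] V := Θ ∘ₗ B
  have hDx : ∀ x, D x = T.symm (B x) := fun _ => rfl
  have hBD : ∀ x, B x = T (D x) := fun x => by rw [hDx, T.apply_symm_apply]
  have hDj : ∀ y, D (j y) = j (R y) := by
    intro y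
    rw [hDx, hBx, hB₀j, hj1, hT1]
    simp
  have hφD : ∀ (φ : V →ₗ[F] F), (∀ y, φ (j y) = 0) → ∀ x,
      φ (D x) = φ (Θ (B₀ x)) - l * φ₁ x * φ (Θ (B₀ b)) := by
    intro φ hφ x
    rw [hDx, hBx]
    simp only [map_add, map_sub, map_smul, hby, hφ, smul_eq_mul, mul_zero, add_zero, sub_zero, hΘx]
  let M : Matrix (Fin 2) (Fin 2) F := !![φ₂ (D ê₀), φ₂ (D ê₁); φ₁ (D ê₀), φ₁ (D ê₁)]
  let q : V →ₗ[F] (Fin 2 → F) := LinearMap.pi ![φ₂, φ₁]
  have hq0 : ∀ x, q x 0 = φ₂ x := fun _ => rfl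
  have hq1 : ∀ x, q x 1 = φ₁ x := fun _ => rfl
  have hqj : ∀ y, q (j y) = 0 := by
    intro y
    funext i
    fin_cases i
    · exact hj2 y
    · exact hj1 y
  have hqs : Function.Surjective q := by
    intro v
    refine ⟨v 0 • ê₀ + v 1 • ê₁, ?_⟩
    funext i
    fin_cases i
    · change φ₂ _ = _
      simp [h20, h21]
    · change φ₁ _ = _
      simp [h10, h11]
  have hqex : ∀ x, q x = 0 → ∃ y, j y = x := by
    intro x hx
    exact hex x (congrFun hx 1) (congrFun hx 0)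
  have hdec : ∀ x, ∃ y, x = j y + φ₂ x • ê₀ + φ₁ x • ê₁ := by
    intro x
    obtain ⟨y, hy⟩ := hex (x - φ₂ x • ê₀ - φ₁ x • ê₁) (by simp [h10, h11]) (by simp [h20, h21])
    refine ⟨y, ?_⟩
    rw [hy]
    abel
  have hqD : ∀ x, q (D x) = M.mulVec (q x) := by
    intro x
    obtain ⟨y, hy⟩ := hdec x
    have h4 : q (D x) = φ₂ x • q (D ê₀) + φ₁ x • q (D ê₁) := by
      conv_lhs => rw [hy]
      rw [map_add, map_add, map_add, map_add, map_smul, map_smul, map_smul, map_smul, hDj, hqj, zero_add]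
    rw [h4]
    funext i
    fin_cases i
    · simp [M, Matrix.mulVec, dotProduct, Fin.sum_univ_two, hq0, hq1]
      ring
    · simp [M, Matrix.mulVec, dotProduct, Fin.sum_univ_two, hq0, hq1]
      ring
  have hc₀0 : c₀ ≠ 0 := hc₀
  have htr : M.trace = - k.coeff 1 := by
    have h5 : M.trace = φ₂ (D ê₀) + φ₁ (D ê₁) := by
      simp [M, Matrix.trace_fin_two]
    rw [h5, hφD φ₂ hj2, hφD φ₁ hj1, h10, h11, mul_zero, zero_mul, sub_zero, mul_one, hl]
    have h6 : φ₁ (Θ (B₀ b)) = c₀ := rfl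
    rw [h6]
    field_simp
    ring
  -- the determinant
  have hdetB : LinearMap.det B = LinearMap.det D := by
    have h5 : B = (T : V →ₗ[F] V) ∘ₗ D := LinearMap.ext hBD
    rw [h5, LinearMap.det_comp, hdetT, one_mul]
  have hdim : finrank F V = 2 + finrank F H := by
    rw [← hfd, hk.natDegree_mul hp, hkd, hpd]
  have hdetD : LinearMap.det D = LinearMap.det R * M.det := by
    rw [← LinearMap.det_toLin' M]
    exact det_block D R (Matrix.toLin' M) j q hj hqs hqex hqj hDj hqD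
  have hdetM : M.det = k.coeff 0 := by
    have h5 := hB.det_eq
    rw [hdetB, hdetD, hR.det_eq, hdim, mul_coeff_zero, pow_add, ← hpd] at h5
    have h6 : (-1 : F) ^ p.natDegree * p.coeff 0 ≠ 0 := mul_ne_zero (pow_ne_zero _ (by simp)) hp0
    apply mul_left_cancel₀ h6
    rw [h5]
    have h7 : ((-1 : F)) ^ 2 = 1 := by ring
    rw [h7]
    ring
  have hM : M.charpoly = k := by
    rw [Matrix.charpoly_fin_two, htr, hdetM]
    conv_rhs => rw [eq_quadratic hk hkd]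
    rw [C_neg]
    ring
  obtain ⟨hDf, G, hG, hGD⟩ := exists_conj_two B D R M j q hj hqs hqex hqj hDj hqD hM hR hB hkr hkp hgen
  exact ⟨B, D, G, z', hBD, hB, hDf, hG, hGD⟩

end

end Cfsg.Agent.Lib.OreU
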