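import Mathlib
import Cfsg.Agent.Lib.OreU.LevTwo

/-!
# The design for the codimension two factorization on `W × U`
-/

set_option autoImplicit false
set_option linter.unusedSectionVars false
set_option linter.unusedVariables false

open Polynomial Module

namespace Cfsg.Agent.Lib.OreU

open Cfsg.Agent.Lib.Linalg.Lev

universe u v

variable {F : Type u} [Field F]
variable {W : Type v} [AddCommGroup W] [Module F W] [FiniteDimensional F W]
variable {U : Type v} [AddCommGroup U] [Module F U] [FiniteDimensional F U]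

/-- The map of the design. -/
noncomputable def desX (A : W ≃ₗ[F] W) (s : W →ₗ[F] W) (τ : W →ₗ[F] F) (σ : U →ₗ[F] U) (ω ϖ : U →ₗ[F] F)
    (c e : U) : (W × U) →ₗ[F] (W × U) :=
  LinearMap.prod ((A.symm : W →ₗ[F] W) ∘ₗ s ∘ₗ LinearMap.fst F W U)
    ((τ ∘ₗ LinearMap.fst F W U).smulRight c + (LinearMap.id + σ) ∘ₗ
      (LinearMap.id - ω.smulRight c - ϖ.smulRight e) ∘ₗ LinearMap.snd F W U)

theorem desX_apply (A : W ≃ₗ[F] W) (s : W →ₗ[F] W) (τ : W →ₗ[F] F) (σ : U →ₗ[F] U) (ω ϖ : U →ₗ[F] F)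
    (c e : U) (w : W) (u : U) : desX A s τ σ ω ϖ c e (w, u) =
      (A.symm (s w), τ w • c + ((u - ω u • c - ϖ u • e) + σ (u - ω u • c - ϖ u • e))) := rfl

section Facts

variable (A : W ≃ₗ[F] W) (Z : U ≃ₗ[F] U) {s : W →ₗ[F] W} {τ : W →ₗ[F] F} {t : F}
    (hD : Data (A.symm : W →ₗ[F] W) s τ t) {σ : U →ₗ[F] U} {ω ϖ : U →ₗ[F] F} {c e : U}
    (hch : Chain (Z : U →ₗ[F] U) σ ω ϖ c e) (hϖc : ϖ c = 0)
    (hsep : (∀ u, ω u = 0 → ϖ u = 0 → u = 0) ∨ (∀ x, A.symm (s x) = x → x = 0))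

include hch in
theorem des_inj_of_one : (∀ y, y + σ y = 0 → y = 0) := by
  intro y hy
  obtain ⟨N, hN⟩ := hch.nil
  have h1 : σ y = -y := eq_neg_of_add_eq_zero_right hy
  have h2 : ∀ k : ℕ, (σ ^ k) y = ((-1 : F) ^ k) • y := by
    intro k
    induction k with
    | zero => simp
    | succ k ih =>
      rw [pow_succ, Module.End.mul_apply, h1, map_neg, ih, pow_succ, mul_neg_one, neg_smul]
  have h3 := h2 N
  rw [hN, LinearMap.zero_apply] at h3
  exact (smul_eq_zero.1 h3.symm).resolve_left (pow_ne_zero _ (by simp))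

include hϖc hch in
theorem des_range (x : W × U) : ϖ (desX A s τ σ ω ϖ c e x).2 = 0 := by
  obtain ⟨w, u⟩ := x
  rw [desX_apply]
  change ϖ (τ w • c + ((u - ω u • c - ϖ u • e) + σ (u - ω u • c - ϖ u • e))) = 0
  rw [map_add, map_add, map_smul, hϖc, hch.ϖσ, map_sub, map_sub, map_smul, map_smul, hϖc, hch.ϖe]
  simp

include hD hch hϖc hsep in
theorem des_first (P : Submodule F (W × U)) (hPφ : ∀ x ∈ P, ϖ x.2 = 0)
    (hinv : ∀ x ∈ P, desX A s τ σ ω ϖ c e x ∈ P) (hψ : ∀ x ∈ P, ω x.2 = 0) : P = ⊥ := by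
  have hZσ : ∀ x, Z (σ x) = x - ω x • c := hch.rel
  have hPr' : ∀ u, ω u = 0 → ϖ u = 0 → u - ω u • c - ϖ u • e = u := by
    intro u h1 h2
    rw [h1, h2]
    simp
  have hX₁a : ∀ w u, desX A s τ σ ω ϖ c e (w, u) = (A.symm (s w), τ w • c +
      ((u - ω u • c - ϖ u • e) + σ (u - ω u • c - ϖ u • e))) := desX_apply A s τ σ ω ϖ c e
  have hinjσ := des_inj_of_one Z hch
  let X₁ := desX A s τ σ ω ϖ c e
  have hP1 : ∀ w u, (w, u) ∈ P → ϖ u = 0 ∧ ω u = 0 := fun w u h => ⟨hPφ _ h, hψ _ h⟩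
  have hX : ∀ w u, (w, u) ∈ P → X₁ (w, u) = (A.symm (s w), τ w • c + (u + σ u)) := by
    intro w u h
    change desX A s τ σ ω ϖ c e (w, u) = _
    rw [hX₁a, hPr' u (hP1 w u h).2 (hP1 w u h).1]
  have hmem : ∀ w u, (w, u) ∈ P → (A.symm (s w), τ w • c + (u + σ u)) ∈ P := by
    intro w u h
    rw [← hX w u h]
    exact hinv _ h
  have ha : ∀ w u, (w, u) ∈ P → τ w + ω (σ u) = 0 := by
    intro w u h
    have h1 := (hP1 _ _ (hmem w u h)).2
    rw [map_add, map_add, map_smul, hch.ωc, (hP1 w u h).2, smul_eq_mul, mul_one, zero_add] at h1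
    exact h1
  -- the part in `W`
  let Q₀ : Submodule F W := P.comap (LinearMap.inl F W U)
  have hQmem : ∀ w, w ∈ Q₀ ↔ (w, (0 : U)) ∈ P := fun w => Iff.rfl
  have hQ₀ : Q₀ = ⊥ := by
    refine hD.adm A.symm.injective Q₀ (fun w hw => ?_) (fun w hw => ?_)
    · rw [hQmem] at hw ⊢
      have h1 := hmem w 0 hw
      have h2 := ha w 0 hw
      rw [map_zero, map_zero, add_zero] at h2
      rw [h2, map_zero, zero_smul, add_zero, zero_add] at h1
      exact h1
    · rw [hQmem] at hw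
      have h2 := ha w 0 hw
      rw [map_zero, map_zero, add_zero] at h2
      exact h2
  have hQ₀' : ∀ w, (w, (0 : U)) ∈ P → w = 0 := by
    intro w hw
    have : w ∈ Q₀ := hw
    rw [hQ₀] at this
    exact (Submodule.mem_bot F).1 this
  -- the difference `X₁ - 1`
  have hdiff : ∀ w u, (w, u) ∈ P → (A.symm (s w) - w, σ u - ω (σ u) • c) ∈ P := by
    intro w u h
    have h1 := P.sub_mem (hmem w u h) h
    have h2 : (A.symm (s w), τ w • c + (u + σ u)) - (w, u) = (A.symm (s w) - w, σ u - ω (σ u) • c) := by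
      refine Prod.ext rfl ?_
      change τ w • c + (u + σ u) - u = σ u - ω (σ u) • c
      have h3 : τ w = - ω (σ u) := eq_neg_of_add_eq_zero_left (ha w u h)
      rw [h3, neg_smul]
      abel
    rwa [h2] at h1
  obtain ⟨N, hN⟩ := hch.nil
  rw [eq_bot_iff]
  rintro ⟨w, u⟩ hx
  rw [Submodule.mem_bot]
  rcases hsep with hsep | hfix
  · -- `U` has dimension two
    have hu : u = 0 := hsep u (hP1 w u hx).2 (hP1 w u hx).1
    subst hu
    rw [hQ₀' w hx]
    rfl
  · -- the general case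
    have hC : ∀ (m : ℕ) (w : W) (u : U), (w, u) ∈ P → (σ ^ m) u = 0 → w = 0 := by
      intro m
      induction m with
      | zero =>
        intro w u h hu
        have hu' : u = 0 := by simpa using hu
        subst hu'
        exact hQ₀' w h
      | succ m ih =>
        intro w u h hu
        have h1 := hdiff w u h
        have h2 : (σ ^ m) (σ u - ω (σ u) • c) = 0 := by
          rw [map_sub, map_smul]
          have h3 : (σ ^ m) (σ u) = 0 := by
            rw [← Module.End.mul_apply, ← pow_succ]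
            exact hu
          rcases m with _ | m
          · have h4 : σ u = 0 := by simpa using h3
            rw [h4]
            simp
          · rw [h3, pow_succ, Module.End.mul_apply, hch.σc]
            simp
        have h3 := ih _ _ h1 h2
        exact hfix w (sub_eq_zero.1 h3)
    have hw0 : ∀ w u, (w, u) ∈ P → w = 0 := by
      intro w u h
      refine hC N w u h ?_
      rw [hN, LinearMap.zero_apply]
    have hE : ∀ (m : ℕ) (u : U), ((0 : W), u) ∈ P → (σ ^ m) u = 0 → u = 0 := by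
      intro m
      induction m with
      | zero =>
        intro u _ hu
        simpa using hu
      | succ m ih =>
        intro u h hu
        have h1 := hdiff 0 u h
        have h2 := ha 0 u h
        rw [map_zero, zero_add] at h2
        rw [map_zero, map_zero, sub_self, h2, zero_smul, sub_zero] at h1
        have h3 : (σ ^ m) (σ u) = 0 := by
          rw [← Module.End.mul_apply, ← pow_succ]
          exact hu
        have h4 := ih _ h1 h3
        have h5 := hZσ u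
        rw [h4, map_zero, (hP1 0 u h).2, zero_smul, sub_zero] at h5
        exact h5.symm
    have hw := hw0 w u hx
    subst hw
    have hu := hE N u hx (by rw [hN, LinearMap.zero_apply])
    subst hu
    rfl

include hch in
theorem des_second_h (x : W × U) (hx : ϖ x.2 = 0) : ω (Z x.2) = 0 := by
  obtain ⟨w, u⟩ := x
  obtain ⟨v, hv⟩ := hch.surj u hx
  change ω (Z u) = 0
  rw [← hv]
  have hZσ : ∀ x, Z (σ x) = x - ω x • c := hch.rel
  rw [hZσ, map_sub, map_smul, hch.ωc, smul_eq_mul, mul_one, sub_self]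

include hD hch in
theorem des_third (P : Submodule F (W × U)) (hPφ : ∀ x ∈ P, ϖ x.2 = 0) (hPψ : ∀ x ∈ P, ω x.2 = 0)
    (hinv : ∀ x ∈ P, (A.prodCongr Z) (desX A s τ σ ω ϖ c e x) ∈ P) : P = ⊥ := by
  have hZσ : ∀ x, Z (σ x) = x - ω x • c := hch.rel
  have hPr' : ∀ u, ω u = 0 → ϖ u = 0 → u - ω u • c - ϖ u • e = u := by
    intro u h1 h2
    rw [h1, h2]
    simp
  have hX₁a : ∀ w u, desX A s τ σ ω ϖ c e (w, u) = (A.symm (s w), τ w • c +
      ((u - ω u • c - ϖ u • e) + σ (u - ω u • c - ϖ u • e))) := desX_apply A s τ σ ω ϖ c e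
  have hT : ∀ w u, (A.prodCongr Z) (w, u) = (A w, Z u) := fun _ _ => rfl
  have hinjσ := des_inj_of_one Z hch
  let X₁ := desX A s τ σ ω ϖ c e
  have hP1 : ∀ w u, (w, u) ∈ P → ϖ u = 0 ∧ ω u = 0 := fun w u h => ⟨hPφ _ h, hPψ _ h⟩
  have hX : ∀ w u, (w, u) ∈ P → (A.prodCongr Z) (X₁ (w, u)) = (s w, Z (τ w • c + (u + σ u))) := by
    intro w u h
    change (A.prodCongr Z) (desX A s τ σ ω ϖ c e (w, u)) = _
    rw [hX₁a, hPr' u (hP1 w u h).2 (hP1 w u h).1, hT, A.apply_symm_apply]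
  have hmem : ∀ w u, (w, u) ∈ P → (s w, Z (τ w • c + (u + σ u))) ∈ P := by
    intro w u h
    rw [← hX w u h]
    exact hinv _ h
  -- the part in `U`
  have hZu : ∀ u, ((0 : W), u) ∈ P → ((0 : W), Z u) ∈ P := by
    intro u h
    have h1 := hmem 0 u h
    rw [map_zero, map_zero, zero_smul, zero_add, map_add, hZσ, (hP1 0 u h).2, zero_smul, sub_zero] at h1
    have h2 := P.sub_mem h1 h
    have h3 : ((0 : W), Z u + u) - ((0 : W), u) = ((0 : W), Z u) := by
      refine Prod.ext (sub_zero _) ?_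
      change Z u + u - u = Z u
      abel
    rwa [h3] at h2
  let P₀ : Submodule F U := P.comap (LinearMap.inr F W U)
  have hP₀mem : ∀ u, u ∈ P₀ ↔ ((0 : W), u) ∈ P := fun _ => Iff.rfl
  let Zr : P₀ →ₗ[F] P₀ := (Z : U →ₗ[F] U).restrict (fun u hu => (hP₀mem _).2 (hZu u ((hP₀mem _).1 hu)))
  have hZrinj : Function.Injective Zr := by
    rw [← LinearMap.ker_eq_bot, LinearMap.ker_eq_bot']
    rintro ⟨u, hu⟩ h0
    have h1 : Z u = 0 := congrArg Subtype.val h0
    have h2 : u = 0 := by simpa using h1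
    exact Subtype.ext h2
  have hZrs := LinearMap.injective_iff_surjective.1 hZrinj
  have hσZ : ∀ u, ϖ u = 0 → σ (Z u) = u := by
    intro u hu
    obtain ⟨v, rfl⟩ := hch.surj u hu
    rw [hZσ, map_sub, map_smul, hch.σc, smul_zero, sub_zero]
  have hP₀σ : ∀ u, u ∈ P₀ → σ u ∈ P₀ := by
    intro u hu
    obtain ⟨⟨u', hu'⟩, h1⟩ := hZrs ⟨u, hu⟩
    have h2 : Z u' = u := congrArg Subtype.val h1
    rw [← h2, hσZ u' (hP1 0 u' ((hP₀mem _).1 hu')).1]
    exact hu'
  have hE : ∀ (m : ℕ) (u : U), u ∈ P₀ → (σ ^ m) u = 0 → u = 0 := by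
    intro m
    induction m with
    | zero =>
      intro u _ hu
      simpa using hu
    | succ m ih =>
      intro u h hu
      have h3 : (σ ^ m) (σ u) = 0 := by
        rw [← Module.End.mul_apply, ← pow_succ]
        exact hu
      have h4 := ih _ (hP₀σ u h) h3
      have h5 := hZσ u
      rw [h4, map_zero, (hP1 0 u ((hP₀mem _).1 h)).2, zero_smul, sub_zero] at h5
      exact h5.symm
  obtain ⟨N, hN⟩ := hch.nil
  have hu0 : ∀ u, ((0 : W), u) ∈ P → u = 0 := fun u h =>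
    hE N u ((hP₀mem _).2 h) (by rw [hN, LinearMap.zero_apply])
  -- descending along `s`
  have hC : ∀ (m : ℕ) (w : W) (u : U), (w, u) ∈ P → (s ^ m) w = 0 → w = 0 ∧ u = 0 := by
    intro m
    induction m with
    | zero =>
      intro w u h hw
      have hw' : w = 0 := by simpa using hw
      subst hw'
      exact ⟨rfl, hu0 u h⟩
    | succ m ih =>
      intro w u h hw
      have h3 : (s ^ m) (s w) = 0 := by
        rw [← Module.End.mul_apply, ← pow_succ]
        exact hw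
      have h4 := ih _ _ (hmem w u h) h3
      have h5 : τ w • c + (u + σ u) = 0 := Z.injective (by rw [h4.2, map_zero])
      -- `(1 + σ) (u + τ w • c) = 0`
      have h6 : (u + τ w • c) + σ (u + τ w • c) = 0 := by
        rw [map_add, map_smul, hch.σc, smul_zero, add_zero, ← h5]
        abel
      have h7 := hinjσ _ h6
      have h8 : ω (u + τ w • c) = 0 := by rw [h7, map_zero]
      rw [map_add, map_smul, hch.ωc, (hP1 w u h).2, zero_add, smul_eq_mul, mul_one] at h8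
      rw [h8, zero_smul, add_zero] at h7
      exact ⟨hD.d1 w h4.1 h8, h7⟩
  obtain ⟨N', hN'⟩ := hD.nil
  rw [eq_bot_iff]
  rintro ⟨w, u⟩ hx
  have h1 := hC N' w u hx (by rw [hN', LinearMap.zero_apply])
  rw [Submodule.mem_bot, h1.1, h1.2]
  rfl

end Facts

section Main

variable {V : Type*} [AddCommGroup V] [Module F V] [FiniteDimensional F V]

/-- Dimension count. -/
theorem finrank_add_two {H : Type*} [AddCommGroup H] [Module F H] [FiniteDimensional F H]
    (j : H →ₗ[F] V) (hj : Function.Injective j) (φ₁ φ₂ : V →ₗ[F] F) (ê₀ ê₁ : V)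
    (h10 : φ₁ ê₀ = 0) (h20 : φ₂ ê₀ = 1) (h11 : φ₁ ê₁ = 1) (h21 : φ₂ ê₁ = 0)
    (hj1 : ∀ y, φ₁ (j y) = 0) (hj2 : ∀ y, φ₂ (j y) = 0)
    (hex : ∀ x, φ₁ x = 0 → φ₂ x = 0 → ∃ y, j y = x) : finrank F H + 2 = finrank F V := by
  classical
  let q : V →ₗ[F] (Fin 2 → F) := LinearMap.pi ![φ₂, φ₁]
  have hqs : Function.Surjective q := by
    intro v
    refine ⟨v 0 • ê₀ + v 1 • ê₁, ?_⟩
    funext i
    fin_cases i
    · change φ₂ _ = _
      simp [h20, h21]
    · change φ₁ _ = _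
      simp [h10, h11]
  have h1 := LinearMap.finrank_range_add_finrank_ker q
  rw [LinearMap.range_eq_top.2 hqs, finrank_top] at h1
  have h2 : finrank F (LinearMap.ker q) = finrank F H := by
    let j' : H →ₗ[F] LinearMap.ker q := j.codRestrict _ (fun y => by
      rw [LinearMap.mem_ker]
      funext i
      fin_cases i
      · exact hj2 y
      · exact hj1 y)
    have hb : Function.Bijective j' := by
      constructor
      · intro a b hab
        exact hj (congrArg Subtype.val hab)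
      · rintro ⟨x, hx⟩
        have hx' : q x = 0 := hx
        obtain ⟨y, hy⟩ := hex x (congrFun hx' 1) (congrFun hx' 0)
        exact ⟨y, Subtype.ext hy⟩
    exact (LinearEquiv.ofBijective j' hb).finrank_eq.symm
  simp only [finrank_fin_fun] at h1
  omega

/-- The factorization from the design. -/
theorem exists_factor_two_design (T : V ≃ₗ[F] V) (hdetT : LinearMap.det (T : V →ₗ[F] V) = 1)
    (A : W ≃ₗ[F] W) (Z : U ≃ₗ[F] U) {s : W →ₗ[F] W} {τ : W →ₗ[F] F} {t : F}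
    (hD : Data (A.symm : W →ₗ[F] W) s τ t) {σ : U →ₗ[F] U} {ω ϖ : U →ₗ[F] F} {c e : U}
    (hch : Chain (Z : U →ₗ[F] U) σ ω ϖ c e) (hϖc : ϖ c = 0)
    (hsep : (∀ u, ω u = 0 → ϖ u = 0 → u = 0) ∨ (∀ x, A.symm (s x) = x → x = 0))
    (L : (W × U) →ₗ[F] V) (hL : Function.Injective L) (hTL : ∀ x, T (L x) = L ((A.prodCongr Z) x))
    (H₀ : Submodule F (W × U)) (hH₀ϖ : ∀ x ∈ H₀, ϖ x.2 = 0)
    (hH₀X : ∀ x ∈ H₀, desX A s τ σ ω ϖ c e x ∈ H₀)
    (φ₁ φ₂ : V →ₗ[F] F) (ê₀ ê₁ : V)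
    (h10 : φ₁ ê₀ = 0) (h20 : φ₂ ê₀ = 1) (h11 : φ₁ ê₁ = 1) (h21 : φ₂ ê₁ = 0)
    (hj1 : ∀ y ∈ H₀, φ₁ (L y) = 0) (hj2 : ∀ y ∈ H₀, φ₂ (L y) = 0)
    (hex : ∀ x, φ₁ x = 0 → φ₂ x = 0 → ∃ y ∈ H₀, L y = x)
    (hT1 : ∀ y ∈ H₀, φ₁ (T (L y)) = 0)
    (p k : F[X]) (hV : 3 ≤ finrank F V) (hp : p.Monic) (hpd : p.natDegree + 2 = finrank F V) (hp0 : p.coeff 0 ≠ 0)
    (hk : k.Monic) (hkd : k.natDegree = 2) (hkr : ∀ a, k.eval a ≠ 0) (hkp : IsCoprime k p)
    (hgen : ∃ a : F, ∀ s : F, s ≠ 0 → ∃ n : ℕ, s = (k.eval a) ^ n) :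
    ∃ (B D : V →ₗ[F] V) (G : V ≃ₗ[F] V) (z : V), (∀ x, B x = T (D x)) ∧ IsCyc B (k * p) z ∧
      aeval D (k * p) = 0 ∧ LinearMap.det (G : V →ₗ[F] V) = 1 ∧ ∀ x, G (D x) = B (G x) := by
  classical
  set X₁ := desX A s τ σ ω ϖ c e with hX₁
  let j : H₀ →ₗ[F] V := L ∘ₗ H₀.subtype
  have hjx : ∀ y : H₀, j y = L y := fun _ => rfl
  have hj : Function.Injective j := fun a b hab => Subtype.ext (hL hab)
  have hfin : finrank F H₀ + 2 = finrank F V := finrank_add_two j hj φ₁ φ₂ ê₀ ê₁ h10 h20 h11 h21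
    (fun y => hj1 y y.2) (fun y => hj2 y y.2) (fun x h1 h2 => by
      obtain ⟨y, hy, hy'⟩ := hex x h1 h2
      exact ⟨⟨y, hy⟩, hy'⟩)
  haveI : Nontrivial H₀ := by
    apply Module.nontrivial_of_finrank_pos (R := F)
    omega
  let R₀ : H₀ →ₗ[F] H₀ := X₁.restrict hH₀X
  have hR₀ : ∀ y : H₀, ((R₀ y : H₀) : W × U) = X₁ y := fun _ => rfl
  let ψ : H₀ →ₗ[F] F := ω ∘ₗ LinearMap.snd F W U ∘ₗ H₀.subtype
  have hψ : ∀ y : H₀, ψ y = ω (y : W × U).2 := fun _ => rfl
  have hbot : ∀ Q : Submodule F H₀, Q.map H₀.subtype = ⊥ → Q = ⊥ := by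
    intro Q hQ
    rw [eq_bot_iff]
    intro x hx
    have : (x : W × U) ∈ Q.map H₀.subtype := ⟨x, hx, rfl⟩
    rw [hQ, Submodule.mem_bot] at this
    exact (Submodule.mem_bot F).2 (Subtype.ext this)
  refine exists_factor_two T hdetT j hj φ₁ φ₂ ê₀ ê₁ h10 h20 h11 h21 (fun y => hj1 y y.2) (fun y => hj2 y y.2)
    (fun x h1 h2 => ?_) (fun y => hT1 y y.2) R₀ ψ ?_ ?_ ?_ p k hp (by omega) hp0 hk hkd hkr hkp hgen ?_
  · obtain ⟨y, hy, hy'⟩ := hex x h1 h2
    exact ⟨⟨y, hy⟩, hy'⟩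
  · intro Q hQ1 hQ2
    refine hbot Q (des_first A Z hD hch hϖc hsep _ ?_ ?_ ?_)
    · rintro _ ⟨y, hy, rfl⟩
      exact hH₀ϖ _ y.2
    · rintro _ ⟨y, hy, rfl⟩
      exact ⟨R₀ y, hQ1 y hy, rfl⟩
    · rintro _ ⟨y, hy, rfl⟩
      exact hQ2 y hy
  · intro x y hxy
    rw [hjx, hjx, hTL] at hxy
    have h1 := hL hxy
    rw [hψ, h1]
    exact des_second_h Z hch _ (hH₀ϖ _ x.2)
  · intro Q hQ1 hQ2
    refine hbot Q (des_third A Z hD hch _ ?_ ?_ ?_)
    · rintro _ ⟨y, hy, rfl⟩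
      exact hH₀ϖ _ y.2
    · rintro _ ⟨y, hy, rfl⟩
      exact hQ1 y hy
    · rintro _ ⟨y, hy, rfl⟩
      obtain ⟨y', hy', hyy'⟩ := hQ2 y hy
      rw [hjx, hjx, hTL, hR₀] at hyy'
      have h1 := hL hyy'
      refine ⟨y', hy', ?_⟩
      exact h1
  · rw [hk.natDegree_mul hp, hkd]
    omega

end Main

end Cfsg.Agent.Lib.OreU
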