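import Mathlib
import Cfsg.Agent.Lib.OreU.LevTwoDesign

/-!
# The two situations of the codimension two factorization
-/

set_option autoImplicit false
set_option linter.unusedSectionVars false
set_option linter.unusedVariables false
set_option linter.style.haveILetI false

open Polynomial Module

namespace Cfsg.Agent.Lib.OreU

open Cfsg.Agent.Lib.Linalg.Lev

universe u v

variable {F : Type u} [Field F]

section ChainLemma

variable {U : Type v} [AddCommGroup U] [Module F U] [FiniteDimensional F U]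

/-- In a chain of dimension at least three, `ϖ (Z c) = 0`. -/
theorem chain_pi_Z_c (Z : U ≃ₗ[F] U) {σ : U →ₗ[F] U} {ω ϖ : U →ₗ[F] F} {c e : U}
    (hch : Chain (Z : U →ₗ[F] U) σ ω ϖ c e) (hϖc : ϖ c = 0) (hU : 3 ≤ finrank F U) : ϖ (Z c) = 0 := by
  by_contra h0
  have hZσ : ∀ x, Z (σ x) = x - ω x • c := hch.rel
  have hσZ : ∀ u, ϖ u = 0 → σ (Z u) = u := by
    intro u hu
    obtain ⟨v, rfl⟩ := hch.surj u hu
    rw [hZσ, map_sub, map_smul, hch.σc, smul_zero, sub_zero]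
  have hstep : ∀ y, ϖ y = 0 → ϖ (Z y) = 0 → ∃ y', ϖ y' = 0 ∧ ϖ (Z y') = 0 ∧ σ y' = y := by
    intro y h1 h2
    refine ⟨Z y - (ϖ (Z (Z y)) * (ϖ (Z c))⁻¹) • c, ?_, ?_, ?_⟩
    · rw [map_sub, map_smul, h2, hϖc]
      simp
    · rw [map_sub, map_sub, map_smul, map_smul, smul_eq_mul, mul_assoc, inv_mul_cancel₀ h0, mul_one, sub_self]
    · rw [map_sub, map_smul, hch.σc, smul_zero, sub_zero]
      exact hσZ y h1
  have hpow : ∀ (N : ℕ) (y : U), ϖ y = 0 → ϖ (Z y) = 0 → ∃ y', (σ ^ N) y' = y := by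
    intro N
    induction N with
    | zero =>
      intro y _ _
      exact ⟨y, rfl⟩
    | succ N ih =>
      intro y h1 h2
      obtain ⟨y', h3, h4, h5⟩ := hstep y h1 h2
      obtain ⟨y'', h6⟩ := ih y' h3 h4
      refine ⟨y'', ?_⟩
      rw [pow_succ', Module.End.mul_apply, h6, h5]
  obtain ⟨N, hN⟩ := hch.nil
  have hzero : ∀ y, ϖ y = 0 → ϖ (Z y) = 0 → y = 0 := by
    intro y h1 h2
    obtain ⟨y', hy'⟩ := hpow N y h1 h2
    rw [← hy', hN, LinearMap.zero_apply]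
  -- the dimension
  let q : U →ₗ[F] (Fin 2 → F) := LinearMap.pi ![ϖ, ϖ ∘ₗ (Z : U →ₗ[F] U)]
  have hq : Function.Injective q := by
    rw [← LinearMap.ker_eq_bot, LinearMap.ker_eq_bot']
    intro y hy
    exact hzero y (congrFun hy 0) (congrFun hy 1)
  have h1 := LinearMap.finrank_le_finrank_of_injective hq
  simp only [finrank_fin_fun] at h1
  omega

end ChainLemma

section Cases

variable {V : Type v} [AddCommGroup V] [Module F V] [FiniteDimensional F V]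

/-- First situation: a cyclic invariant summand of dimension at least three. -/
theorem fac_case_a {t : F} (ht0 : t ≠ 0) (ht1 : t ≠ 1) (T : V ≃ₗ[F] V)
    (hdetT : LinearMap.det (T : V →ₗ[F] V) = 1) (W U : Submodule F V) (hc : IsCompl W U)
    (hW : ∀ x ∈ W, (T : V →ₗ[F] V) x ∈ W) (hU : ∀ x ∈ U, (T : V →ₗ[F] V) x ∈ U) (hU3 : 3 ≤ finrank F U)
    (z : V) (hz : z ∈ U) (hgen : ∀ x ∈ U, ∃ f : F[X], aeval (T : V →ₗ[F] V) f z = x)
    (p k : F[X]) (hp : p.Monic) (hpd : p.natDegree + 2 = finrank F V) (hp0 : p.coeff 0 ≠ 0)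
    (hk : k.Monic) (hkd : k.natDegree = 2) (hkr : ∀ a, k.eval a ≠ 0) (hkp : IsCoprime k p)
    (hgen' : ∃ a : F, ∀ s : F, s ≠ 0 → ∃ n : ℕ, s = (k.eval a) ^ n) :
    ∃ (B D : V →ₗ[F] V) (G : V ≃ₗ[F] V) (z : V), (∀ x, B x = T (D x)) ∧ IsCyc B (k * p) z ∧
      aeval D (k * p) = 0 ∧ LinearMap.det (G : V →ₗ[F] V) = 1 ∧ ∀ x, G (D x) = B (G x) := by
  classical
  let A : W ≃ₗ[F] W := resEquiv (T : V →ₗ[F] V) T.injective W hW
  let Z : U ≃ₗ[F] U := resEquiv (T : V →ₗ[F] V) T.injective U hU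
  obtain ⟨s, τ, hd⟩ := exists_data ht0 _ W rfl (A.symm : W →ₗ[F] W) A.symm.injective
  have hgen₁ : ∀ x : U, ∃ g : F[X], aeval (Z : U →ₗ[F] U) g (⟨z, hz⟩ : U) = x := by
    intro x
    obtain ⟨f, hf⟩ := hgen x x.2
    refine ⟨f, Subtype.ext ?_⟩
    have := coe_aeval_restrict U (T : V →ₗ[F] V) hU f ⟨z, hz⟩
    exact this.trans hf
  obtain ⟨σ, ω, ϖ, c, e, hch, hϖ, -⟩ := exists_chain (Z : U →ₗ[F] U) ⟨z, hz⟩ hgen₁ (by omega)
  have hϖc : ϖ c = 0 := hϖ (by omega)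
  have hϖZc : ϖ (Z c) = 0 := chain_pi_Z_c Z hch hϖc hU3
  let e₀ : (W × U) ≃ₗ[F] V := Submodule.prodEquivOfIsCompl W U hc
  have he₀ : ∀ x : W × U, e₀ x = (x.1 : V) + (x.2 : V) := fun _ => rfl
  have hconj : ∀ x : W × U, T (e₀ x) = e₀ ((A.prodCongr Z) x) := by
    rintro ⟨x₁, x₂⟩
    rw [he₀, he₀, map_add]
    rfl
  have hZσ : ∀ x, Z (σ x) = x - ω x • c := hch.rel
  let φ₁ : V →ₗ[F] F := ϖ ∘ₗ LinearMap.snd F W U ∘ₗ (e₀.symm : V →ₗ[F] (W × U))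
  let φ₂ : V →ₗ[F] F := ϖ ∘ₗ (Z : U →ₗ[F] U) ∘ₗ LinearMap.snd F W U ∘ₗ (e₀.symm : V →ₗ[F] (W × U))
  have hφ₁ : ∀ y, φ₁ (e₀ y) = ϖ y.2 := fun y => by
    change ϖ (e₀.symm (e₀ y)).2 = _
    rw [e₀.symm_apply_apply]
  have hφ₂ : ∀ y, φ₂ (e₀ y) = ϖ (Z y.2) := fun y => by
    change ϖ (Z (e₀.symm (e₀ y)).2) = _
    rw [e₀.symm_apply_apply]
  let H₀ : Submodule F (W × U) := (LinearMap.ker (ϖ ∘ₗ LinearMap.snd F W U)) ⊓
    (LinearMap.ker (ϖ ∘ₗ (Z : U →ₗ[F] U) ∘ₗ LinearMap.snd F W U))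
  have hH₀ : ∀ y, y ∈ H₀ ↔ ϖ y.2 = 0 ∧ ϖ (Z y.2) = 0 := fun y => Iff.rfl
  have hϖZσ : ∀ x, ϖ (Z (σ x)) = ϖ x := by
    intro x
    rw [hZσ, map_sub, map_smul, hϖc]
    simp
  have hV3 : 3 ≤ finrank F V := le_trans hU3 (Submodule.finrank_le U)
  refine exists_factor_two_design T hdetT A Z hd hch hϖc (Or.inr (hd.fix ht1)) (e₀ : (W × U) →ₗ[F] V)
    e₀.injective hconj H₀ (fun x hx => ((hH₀ x).1 hx).1) ?_ φ₁ φ₂ (e₀ (0, σ e)) (e₀ (0, e - ϖ (Z e) • σ e))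
    ?_ ?_ ?_ ?_ ?_ ?_ ?_ ?_ p k hV3 hp hpd hp0 hk hkd hkr hkp hgen'
  · rintro ⟨w, u⟩ hx
    obtain ⟨h1, h2⟩ := (hH₀ _).1 hx
    have h1' : ϖ u = 0 := h1
    have h2' : ϖ (Z u) = 0 := h2
    rw [hH₀, desX_apply]
    refine ⟨?_, ?_⟩
    · change ϖ (τ w • c + ((u - ω u • c - ϖ u • e) + σ (u - ω u • c - ϖ u • e))) = 0
      rw [map_add, map_add, map_smul, hϖc, hch.ϖσ, h1']
      simp [h1', hϖc]
    · change ϖ (Z (τ w • c + ((u - ω u • c - ϖ u • e) + σ (u - ω u • c - ϖ u • e)))) = 0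
      have key : ∀ y, ϖ y = 0 → ϖ (Z y) = 0 → ϖ (Z (τ w • c + (y + σ y))) = 0 := by
        intro y a b
        simp only [map_add, map_smul, hϖZσ, a, b, hϖZc, smul_eq_mul, mul_zero, add_zero]
      apply key
      · simp [h1', hϖc]
      · simp [h1', h2', hϖZc]
  · rw [hφ₁]
    exact hch.ϖσ e
  · rw [hφ₂]
    exact (hϖZσ e).trans hch.ϖe
  · rw [hφ₁]
    change ϖ (e - ϖ (Z e) • σ e) = 1
    rw [map_sub, map_smul, hch.ϖσ, hch.ϖe]
    simp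
  · rw [hφ₂]
    change ϖ (Z (e - ϖ (Z e) • σ e)) = 0
    rw [map_sub, map_sub, map_smul, map_smul, hϖZσ, hch.ϖe]
    simp
  · intro y hy
    rw [LinearEquiv.coe_coe, hφ₁]
    exact ((hH₀ y).1 hy).1
  · intro y hy
    rw [LinearEquiv.coe_coe, hφ₂]
    exact ((hH₀ y).1 hy).2
  · intro x h1 h2
    refine ⟨e₀.symm x, (hH₀ _).2 ⟨h1, h2⟩, ?_⟩
    rw [LinearEquiv.coe_coe, e₀.apply_symm_apply]
  · intro y hy
    rw [LinearEquiv.coe_coe, hconj, hφ₁]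
    exact ((hH₀ y).1 hy).2

/-- Second situation: an invariant hyperplane with non-scalar restriction. -/
theorem fac_case_b {t : F} (ht0 : t ≠ 0) (ht1 : t ≠ 1) (T : V ≃ₗ[F] V)
    (hdetT : LinearMap.det (T : V →ₗ[F] V) = 1) (ξ : V →ₗ[F] F) (v₁ : V) (hξ : ξ v₁ = 1)
    (hinv : ∀ x, ξ x = 0 → ξ (T x) = 0) (hns : ¬ ∃ a : F, ∀ x, ξ x = 0 → T x = a • x)
    (hV3 : 3 ≤ finrank F V)
    (p k : F[X]) (hp : p.Monic) (hpd : p.natDegree + 2 = finrank F V) (hp0 : p.coeff 0 ≠ 0)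
    (hk : k.Monic) (hkd : k.natDegree = 2) (hkr : ∀ a, k.eval a ≠ 0) (hkp : IsCoprime k p)
    (hgen' : ∃ a : F, ∀ s : F, s ≠ 0 → ∃ n : ℕ, s = (k.eval a) ^ n) :
    ∃ (B D : V →ₗ[F] V) (G : V ≃ₗ[F] V) (z : V), (∀ x, B x = T (D x)) ∧ IsCyc B (k * p) z ∧
      aeval D (k * p) = 0 ∧ LinearMap.det (G : V →ₗ[F] V) = 1 ∧ ∀ x, G (D x) = B (G x) := by
  classical
  set V' : Submodule F V := LinearMap.ker ξ with hV'
  have hinv' : ∀ x ∈ V', (T : V →ₗ[F] V) x ∈ V' := fun x hx => hinv x hx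
  let T' : V' →ₗ[F] V' := (T : V →ₗ[F] V).restrict hinv'
  have hT'x : ∀ x : V', ((T' x : V') : V) = T x := fun _ => rfl
  have hT'inj : Function.Injective T' := fun a b hab =>
    Subtype.ext (T.injective (congrArg Subtype.val hab))
  have hns' : ¬ ∃ a : F, ∀ x, T' x = a • x := by
    rintro ⟨a, ha⟩
    apply hns
    refine ⟨a, fun x hx => ?_⟩
    have := congrArg Subtype.val (ha ⟨x, hx⟩)
    exact this
  obtain ⟨W, U, hc, hW, hU, hU2, z, hz, hgen⟩ := exists_decomp T' hns'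
  let A : W ≃ₗ[F] W := resEquiv T' hT'inj W hW
  let Z : U ≃ₗ[F] U := resEquiv T' hT'inj U hU
  obtain ⟨s, τ, hd⟩ := exists_data ht0 _ W rfl (A.symm : W →ₗ[F] W) A.symm.injective
  have hgen₁ : ∀ x : U, ∃ g : F[X], aeval (Z : U →ₗ[F] U) g (⟨z, hz⟩ : U) = x := by
    intro x
    obtain ⟨f, hf⟩ := hgen x x.2
    refine ⟨f, Subtype.ext ?_⟩
    have := coe_aeval_restrict U T' hU f ⟨z, hz⟩
    exact this.trans hf
  obtain ⟨σ, ω, ϖ, c, e, hch, hϖ, -⟩ := exists_chain (Z : U →ₗ[F] U) ⟨z, hz⟩ hgen₁ (by omega)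
  have hϖc : ϖ c = 0 := hϖ hU2
  let e₀ : (W × U) ≃ₗ[F] V' := Submodule.prodEquivOfIsCompl W U hc
  have he₀ : ∀ x : W × U, e₀ x = (x.1 : V') + (x.2 : V') := fun _ => rfl
  have hconj : ∀ x : W × U, T' (e₀ x) = e₀ ((A.prodCongr Z) x) := by
    rintro ⟨x₁, x₂⟩
    rw [he₀, he₀, map_add]
    rfl
  let L : (W × U) →ₗ[F] V := V'.subtype ∘ₗ (e₀ : (W × U) →ₗ[F] V')
  have hLx : ∀ y, L y = ((e₀ y : V') : V) := fun _ => rfl
  have hL : Function.Injective L := fun a b hab => e₀.injective (Subtype.ext hab)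
  have hξL : ∀ y, ξ (L y) = 0 := fun y => (e₀ y).2
  let pr₀ : V →ₗ[F] V := LinearMap.id - ξ.smulRight v₁
  have hpr₀ : ∀ x, pr₀ x = x - ξ x • v₁ := fun _ => rfl
  let pr : V →ₗ[F] V' := pr₀.codRestrict V' (fun x => by
    rw [hV', LinearMap.mem_ker, hpr₀, map_sub, map_smul, hξ, smul_eq_mul, mul_one, sub_self])
  have hprx : ∀ x, ((pr x : V') : V) = x - ξ x • v₁ := fun _ => rfl
  let φ₂ : V →ₗ[F] F := ϖ ∘ₗ LinearMap.snd F W U ∘ₗ (e₀.symm : V' →ₗ[F] (W × U)) ∘ₗ pr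
  have hprL : ∀ y, pr (L y) = e₀ y := by
    intro y
    apply Subtype.ext
    rw [hprx, hξL, zero_smul, sub_zero, hLx]
  have hφ₂ : ∀ y, φ₂ (L y) = ϖ y.2 := by
    intro y
    change ϖ (e₀.symm (pr (L y))).2 = _
    rw [hprL, e₀.symm_apply_apply]
  let H₀ : Submodule F (W × U) := LinearMap.ker (ϖ ∘ₗ LinearMap.snd F W U)
  have hH₀ : ∀ y, y ∈ H₀ ↔ ϖ y.2 = 0 := fun y => Iff.rfl
  have hTL : ∀ y, T (L y) = L ((A.prodCongr Z) y) := by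
    intro y
    have := congrArg Subtype.val (hconj y)
    exact this
  refine exists_factor_two_design T hdetT A Z hd hch hϖc (Or.inr (hd.fix ht1)) L hL hTL H₀
    (fun x hx => (hH₀ x).1 hx) ?_ ξ φ₂ (L (0, e)) v₁ (hξL _) ?_ hξ ?_ (fun y _ => hξL y) ?_ ?_ ?_
    p k hV3 hp hpd hp0 hk hkd hkr hkp hgen'
  · intro x _
    exact (hH₀ _).2 (des_range (s := s) (τ := τ) A Z hch hϖc x)
  · rw [hφ₂]
    exact hch.ϖe
  · change ϖ (e₀.symm (pr v₁)).2 = 0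
    have h0 : pr v₁ = 0 := by
      apply Subtype.ext
      rw [hprx, hξ, one_smul, sub_self]
      rfl
    rw [h0, map_zero]
    exact map_zero ϖ
  · intro y hy
    rw [hφ₂]
    exact (hH₀ y).1 hy
  · intro x h1 h2
    have hx : x ∈ V' := h1
    have h3 : pr x = ⟨x, hx⟩ := by
      apply Subtype.ext
      rw [hprx, h1, zero_smul, sub_zero]
    refine ⟨e₀.symm ⟨x, hx⟩, ?_, ?_⟩
    · rw [hH₀]
      have h4 : φ₂ x = ϖ (e₀.symm (pr x)).2 := rfl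
      rw [h3] at h4
      rw [← h4]
      exact h2
    · rw [hLx, e₀.apply_symm_apply]
  · intro y _
    exact hinv _ (hξL y)

end Cases

end Cfsg.Agent.Lib.OreU
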