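import Mathlib
import Cfsg.Agent.Lib.OreU.LevTwoCases

/-!
# The exceptional case of the codimension two factorization: `T` annihilated by one irreducible quadratic
-/

set_option autoImplicit false
set_option linter.unusedSectionVars false
set_option linter.unusedVariables false
set_option linter.style.haveILetI false

open Polynomial Module

namespace Cfsg.Agent.Lib.OreU

open Cfsg.Agent.Lib.Linalg.Lev

universe u v w

variable {F : Type u} [Field F]

section FacP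

variable {V : Type v} [AddCommGroup V] [Module F V] [FiniteDimensional F V]
variable {V' : Type w} [AddCommGroup V'] [Module F V'] [FiniteDimensional F V']

/-- The output of the factorization. -/
def FacP (f : F[X]) (T : V →ₗ[F] V) : Prop :=
  ∃ (B D : V →ₗ[F] V) (G : V ≃ₗ[F] V), (∀ x, B x = T (D x)) ∧ aeval B f = 0 ∧ aeval D f = 0 ∧
    LinearMap.det (G : V →ₗ[F] V) = 1 ∧ (∀ x, G (D x) = B (G x)) ∧ LinearMap.det B = 1

theorem aeval_prodMap (X : V →ₗ[F] V) (Y : V' →ₗ[F] V') (g : F[X]) (x : V × V') :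
    aeval (X.prodMap Y) g x = (aeval X g x.1, aeval Y g x.2) := by
  refine Prod.ext ?_ ?_
  · exact aeval_intertwine (LinearMap.fst F V V') (X.prodMap Y) X (fun _ => rfl) g x
  · exact aeval_intertwine (LinearMap.snd F V V') (X.prodMap Y) Y (fun _ => rfl) g x

theorem FacP.prod {f : F[X]} {T : V →ₗ[F] V} {T' : V' →ₗ[F] V'} (h : FacP f T) (h' : FacP f T') :
    FacP f (T.prodMap T') := by
  obtain ⟨B, D, G, h1, h2, h3, h4, h5, h6⟩ := h
  obtain ⟨B', D', G', h1', h2', h3', h4', h5', h6'⟩ := h'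
  refine ⟨B.prodMap B', D.prodMap D', G.prodCongr G', ?_, ?_, ?_, ?_, ?_, ?_⟩
  · rintro ⟨x, y⟩
    exact Prod.ext (h1 x) (h1' y)
  · refine LinearMap.ext fun x => ?_
    rw [aeval_prodMap, h2, h2']
    rfl
  · refine LinearMap.ext fun x => ?_
    rw [aeval_prodMap, h3, h3']
    rfl
  · have : ((G.prodCongr G' : (V × V') ≃ₗ[F] (V × V')) : (V × V') →ₗ[F] (V × V')) =
        (G : V →ₗ[F] V).prodMap (G' : V' →ₗ[F] V') := rfl
    rw [this, LinearMap.det_prodMap, h4, h4', mul_one]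
  · rintro ⟨x, y⟩
    exact Prod.ext (h5 x) (h5' y)
  · rw [LinearMap.det_prodMap, h6, h6', mul_one]

theorem FacP.of_conj {f : F[X]} {T : V →ₗ[F] V} {T' : V' →ₗ[F] V'} (h : FacP f T) (e : V ≃ₗ[F] V')
    (he : ∀ x, e (T x) = T' (e x)) : FacP f T' := by
  obtain ⟨B, D, G, h1, h2, h3, h4, h5, h6⟩ := h
  let B' : V' →ₗ[F] V' := (e : V →ₗ[F] V') ∘ₗ B ∘ₗ (e.symm : V' →ₗ[F] V)
  let D' : V' →ₗ[F] V' := (e : V →ₗ[F] V') ∘ₗ D ∘ₗ (e.symm : V' →ₗ[F] V)
  have hB' : ∀ x, B' (e x) = e (B x) := fun x => by simp [B']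
  have hD' : ∀ x, D' (e x) = e (D x) := fun x => by simp [D']
  refine ⟨B', D', e.symm.trans (G.trans e), ?_, ?_, ?_, ?_, ?_, ?_⟩
  · intro x
    obtain ⟨y, rfl⟩ := e.surjective x
    rw [hB', hD', ← he, h1]
  · refine LinearMap.ext fun x => ?_
    obtain ⟨y, rfl⟩ := e.surjective x
    have := aeval_intertwine (e : V →ₗ[F] V') B B' (fun x => (hB' x).symm) f y
    rw [LinearEquiv.coe_coe] at this
    rw [← this, h2]
    simp
  · refine LinearMap.ext fun x => ?_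
    obtain ⟨y, rfl⟩ := e.surjective x
    have := aeval_intertwine (e : V →ₗ[F] V') D D' (fun x => (hD' x).symm) f y
    rw [LinearEquiv.coe_coe] at this
    rw [← this, h3]
    simp
  · have : ((e.symm.trans (G.trans e) : V' ≃ₗ[F] V') : V' →ₗ[F] V') =
        (e : V →ₗ[F] V') ∘ₗ (G : V →ₗ[F] V) ∘ₗ (e.symm : V' →ₗ[F] V) := rfl
    rw [this, LinearMap.det_conj, h4]
  · intro x
    obtain ⟨y, rfl⟩ := e.surjective x
    rw [hD']
    simp [h5, hB']
  · rw [LinearMap.det_conj, h6]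

theorem FacP.of_isCompl {f : F[X]} (T : V →ₗ[F] V) (W₁ W₂ : Submodule F V) (hc : IsCompl W₁ W₂)
    (h₁ : ∀ x ∈ W₁, T x ∈ W₁) (h₂ : ∀ x ∈ W₂, T x ∈ W₂) (H₁ : FacP f (T.restrict h₁))
    (H₂ : FacP f (T.restrict h₂)) : FacP f T := by
  refine (H₁.prod H₂).of_conj (Submodule.prodEquivOfIsCompl W₁ W₂ hc) ?_
  rintro ⟨x₁, x₂⟩
  change ((T.restrict h₁ x₁ : W₁) : V) + ((T.restrict h₂ x₂ : W₂) : V) = T ((x₁ : V) + (x₂ : V))
  rw [map_add]
  rfl

theorem FacP.of_subsingleton [Subsingleton V] (f : F[X]) (T : V →ₗ[F] V) : FacP f T := by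
  have hdet : ∀ S : V →ₗ[F] V, LinearMap.det S = 1 := by
    intro S
    have : S = LinearMap.id := LinearMap.ext fun x => Subsingleton.elim _ _
    rw [this, LinearMap.det_id]
  refine ⟨T, T, LinearEquiv.refl F V, fun x => Subsingleton.elim _ _,
    LinearMap.ext fun x => Subsingleton.elim _ _, LinearMap.ext fun x => Subsingleton.elim _ _, hdet _,
    fun x => Subsingleton.elim _ _, hdet _⟩

/-- Two dimensional spaces. -/
theorem finrank_two_of_gen {k : F[X]} (hk : k.Monic) (hkd : k.natDegree = 2) (hkr : ∀ a, k.eval a ≠ 0)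
    (X₀ : V →ₗ[F] V) (hX : aeval X₀ k = 0) (z : V) (hz : z ≠ 0)
    (hgen : ∀ x, ∃ g : F[X], aeval X₀ g z = x) : finrank F V = 2 := by
  classical
  have hli : LinearIndependent F ![z, X₀ z] := by
    rw [LinearIndependent.pair_iff]
    intro s t hst
    by_cases ht : t = 0
    · subst ht
      rw [zero_smul, add_zero] at hst
      exact ⟨(smul_eq_zero.1 hst).resolve_right hz, rfl⟩
    · exfalso
      have h2 : t • X₀ z = -(s • z) := eq_neg_of_add_eq_zero_right hst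
      have h3 : X₀ z = (-(t⁻¹ * s)) • z := by
        have : X₀ z = t⁻¹ • (t • X₀ z) := by rw [smul_smul, inv_mul_cancel₀ ht, one_smul]
        rw [this, h2, smul_neg, smul_smul, neg_smul]
      have h1 : aeval X₀ k z = k.eval (-(t⁻¹ * s)) • z := Module.End.aeval_apply_of_mem_apply_eq_smul h3
      rw [hX, LinearMap.zero_apply] at h1
      exact hz ((smul_eq_zero.1 h1.symm).resolve_left (hkr _))
  have hspan : Submodule.span F (Set.range ![z, X₀ z]) = ⊤ := by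
    refine Submodule.eq_top_iff'.2 fun x => ?_
    obtain ⟨g, rfl⟩ := hgen x
    have h1 : aeval X₀ g z = aeval X₀ (g %ₘ k) z := by
      conv_lhs => rw [← modByMonic_add_div g k]
      rw [map_add, LinearMap.add_apply, map_mul, hX, zero_mul]
      simp
    have h2 : (g %ₘ k).degree < ((2 : ℕ) : WithBot ℕ) := by
      have := Polynomial.degree_modByMonic_lt g hk
      rwa [degree_eq_natDegree hk.ne_zero, hkd] at this
    rw [h1, aeval_apply_of_degree_lt X₀ z h2, Fin.sum_univ_two]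
    refine Submodule.add_mem _ (Submodule.smul_mem _ _ (Submodule.subset_span ⟨0, ?_⟩))
      (Submodule.smul_mem _ _ (Submodule.subset_span ⟨1, ?_⟩))
    · simp [krylov]
    · simp [krylov]
  have hb := Module.Basis.mk hli (le_of_eq hspan.symm)
  rw [Module.finrank_eq_card_basis hb]
  simp

theorem exists_isCyc_of_two {k : F[X]} (hk : k.Monic) (hkd : k.natDegree = 2) (hkr : ∀ a, k.eval a ≠ 0)
    (X₀ : V →ₗ[F] V) (hX : aeval X₀ k = 0) (hfr : finrank F V = 2) : ∃ z, IsCyc X₀ k z := by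
  classical
  have hnt : Nontrivial V := Module.nontrivial_of_finrank_pos (R := F) (by omega)
  obtain ⟨z, hz⟩ := exists_ne (0 : V)
  have hli : LinearIndependent F ![z, X₀ z] := by
    rw [LinearIndependent.pair_iff]
    intro s t hst
    by_cases ht : t = 0
    · subst ht
      rw [zero_smul, add_zero] at hst
      exact ⟨(smul_eq_zero.1 hst).resolve_right hz, rfl⟩
    · exfalso
      have h2 : t • X₀ z = -(s • z) := eq_neg_of_add_eq_zero_right hst
      have h3 : X₀ z = (-(t⁻¹ * s)) • z := by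
        have : X₀ z = t⁻¹ • (t • X₀ z) := by rw [smul_smul, inv_mul_cancel₀ ht, one_smul]
        rw [this, h2, smul_neg, smul_smul, neg_smul]
      have h1 : aeval X₀ k z = k.eval (-(t⁻¹ * s)) • z := Module.End.aeval_apply_of_mem_apply_eq_smul h3
      rw [hX, LinearMap.zero_apply] at h1
      exact hz ((smul_eq_zero.1 h1.symm).resolve_left (hkr _))
  have hspan : Submodule.span F (Set.range ![z, X₀ z]) = ⊤ :=
    hli.span_eq_top_of_card_eq_finrank (by simp [hfr])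
  refine ⟨z, hk, by rw [hkd, hfr], by rw [hX, LinearMap.zero_apply], fun x => ?_⟩
  have hv : x ∈ Submodule.span F (Set.range ![z, X₀ z]) := by rw [hspan]; trivial
  rw [Matrix.range_cons, Matrix.range_cons, Matrix.range_empty, Set.union_empty,
    Set.singleton_union, Submodule.mem_span_pair] at hv
  obtain ⟨s, t, hst⟩ := hv
  refine ⟨C s + C t * X, ?_⟩
  have h5 : ∀ (r : F) (w : V), (algebraMap F (V →ₗ[F] V) r) w = r • w := fun _ _ => rfl
  rw [map_add, LinearMap.add_apply, map_mul, Module.End.mul_apply, aeval_C, aeval_C, aeval_X, h5, h5, hst]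

/-- Correcting the determinant on a two dimensional cyclic space. -/
theorem exists_corrector {k : F[X]} {X₀ : V →ₗ[F] V} {z : V} (hX : IsCyc X₀ k z) (hfr : finrank F V = 2)
    (a : F) (n : ℕ) : ∃ c : V →ₗ[F] V, LinearMap.det c = (k.eval a) ^ n ∧ ∀ x, c (X₀ x) = X₀ (c x) := by
  refine ⟨aeval X₀ ((X - C a) ^ n), ?_, fun x => ?_⟩
  · rw [map_pow, map_pow]
    congr 1
    have h1 : aeval X₀ (X - C a : F[X]) = (-1 : F) • (algebraMap F (V →ₗ[F] V) a - X₀) := by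
      rw [map_sub, aeval_X, aeval_C, neg_smul, one_smul]
      abel
    rw [h1, LinearMap.det_smul, hfr, ← hX.charpoly_eq, LinearMap.eval_charpoly]
    simp
  · have h1 : Commute (aeval X₀ (X : F[X])) (aeval X₀ ((X - C a) ^ n)) := (commute_X _).map (aeval X₀)
    rw [aeval_X] at h1
    exact (LinearMap.congr_fun h1.eq x).symm

theorem isCyc_prodMap {f g : F[X]} {X₀ : V →ₗ[F] V} {Y₀ : V' →ₗ[F] V'} {z : V} {w : V'}
    (hX : IsCyc X₀ f z) (hY : IsCyc Y₀ g w) (hfg : IsCoprime f g) :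
    IsCyc (X₀.prodMap Y₀) (f * g) (z, w) := by
  obtain ⟨a, b, hab⟩ := hfg
  refine ⟨hX.monic.mul hY.monic, ?_, ?_, ?_⟩
  · rw [hX.monic.natDegree_mul hY.monic, hX.natDegree, hY.natDegree, finrank_prod]
  · rw [aeval_prodMap]
    refine Prod.ext ?_ ?_
    · change aeval X₀ (f * g) z = 0
      rw [map_mul, hX.aeval_eq_zero, zero_mul, LinearMap.zero_apply]
    · change aeval Y₀ (f * g) w = 0
      rw [mul_comm, map_mul, hY.aeval_eq_zero, zero_mul, LinearMap.zero_apply]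
  · rintro ⟨x, y⟩
    obtain ⟨g₁, rfl⟩ := hX.gen x
    obtain ⟨g₂, rfl⟩ := hY.gen y
    refine ⟨g₁ * (b * g) + g₂ * (a * f), ?_⟩
    rw [aeval_prodMap]
    refine Prod.ext ?_ ?_
    · change aeval X₀ (g₁ * (b * g) + g₂ * (a * f)) z = aeval X₀ g₁ z
      have h1 : g₁ * (b * g) + g₂ * (a * f) = g₁ + (g₂ * a - g₁ * a) * f := by
        linear_combination g₁ * hab
      rw [h1, map_add, map_mul, hX.aeval_eq_zero, mul_zero, add_zero]
    · change aeval Y₀ (g₁ * (b * g) + g₂ * (a * f)) w = aeval Y₀ g₂ w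
      have h1 : g₁ * (b * g) + g₂ * (a * f) = g₂ + (g₁ * b - g₂ * b) * g := by
        linear_combination g₂ * hab
      rw [h1, map_add, map_mul, hY.aeval_eq_zero, mul_zero, add_zero]

/-- A block of the exceptional case. -/
theorem exists_block {k : F[X]} (hk : k.Monic) (hkd : k.natDegree = 2) (hkr : ∀ a, k.eval a ≠ 0)
    [Nontrivial V] (T : V →ₗ[F] V) (hT : aeval T k = 0) :
    ∃ W₁ W₂ : Submodule F V, ∃ (h₁ : ∀ x ∈ W₁, T x ∈ W₁) (h₂ : ∀ x ∈ W₂, T x ∈ W₂), IsCompl W₁ W₂ ∧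
      finrank F W₂ = 2 ∧ aeval (T.restrict h₁) k = 0 ∧ aeval (T.restrict h₂) k = 0 := by
  obtain ⟨W₁, W₂, hc, h1, h2, hpos, z, hz, hgen⟩ := exists_split T
  have hres : ∀ (W : Submodule F V) (h : ∀ x ∈ W, T x ∈ W), aeval (T.restrict h) k = 0 := by
    intro W h
    refine LinearMap.ext fun x => Subtype.ext ?_
    rw [coe_aeval_restrict, hT]
    rfl
  refine ⟨W₁, W₂, h1, h2, hc, ?_, hres _ _, hres _ _⟩
  have hnt : Nontrivial W₂ := Module.nontrivial_of_finrank_pos (R := F) hpos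
  have hz0 : (⟨z, hz⟩ : W₂) ≠ 0 := by
    intro h0
    have hz' : z = 0 := congrArg Subtype.val h0
    obtain ⟨x, hx⟩ := exists_ne (0 : W₂)
    obtain ⟨f, hf⟩ := hgen x x.2
    rw [hz', map_zero] at hf
    exact hx (Subtype.ext hf.symm)
  refine finrank_two_of_gen hk hkd hkr (T.restrict h2) (hres _ _) _ hz0 fun x => ?_
  obtain ⟨f, hf⟩ := hgen x x.2
  refine ⟨f, Subtype.ext ?_⟩
  rw [coe_aeval_restrict]
  exact hf

/-- Conjugate with determinant one, on a two dimensional space. -/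
theorem FacP.of_two {f : F[X]} (T B D : V →ₗ[F] V) {z z' : V} (hB : IsCyc B f z) (hD : IsCyc D f z')
    (hfr : finrank F V = 2) (hBD : ∀ x, B x = T (D x)) (hf0 : f.coeff 0 = 1)
    (hgen : ∃ a : F, ∀ s : F, s ≠ 0 → ∃ n : ℕ, s = (f.eval a) ^ n) : FacP f T := by
  obtain ⟨e, he⟩ := hD.exists_conj hB
  set δ := LinearMap.det (e : V →ₗ[F] V) with hδ
  have hδ0 : δ ≠ 0 := (LinearEquiv.isUnit_det' e).ne_zero
  obtain ⟨a, ha⟩ := hgen
  obtain ⟨n, hn⟩ := ha δ⁻¹ (inv_ne_zero hδ0)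
  obtain ⟨c, hc, hcD⟩ := exists_corrector hD hfr a n
  rw [← hn] at hc
  have hc0 : LinearMap.det c ≠ 0 := by rw [hc]; exact inv_ne_zero hδ0
  let ce : V ≃ₗ[F] V := LinearMap.equivOfDetNeZero c hc0
  have hce : ∀ x, ce x = c x := fun _ => rfl
  refine ⟨B, D, ce.trans e, hBD, hB.aeval_eq_zero, hD.aeval_eq_zero, ?_, fun x => ?_, ?_⟩
  · have h1 : ((ce.trans e : V ≃ₗ[F] V) : V →ₗ[F] V) = (e : V →ₗ[F] V) ∘ₗ c := rfl
    rw [h1, LinearMap.det_comp, hc, ← hδ, mul_inv_cancel₀ hδ0]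
  · change e (ce (D x)) = B (e (ce x))
    rw [hce, hce, hcD, he]
  · rw [hB.det_eq, hfr, hf0]
    ring

/-- Three blocks. -/
theorem FacP.of_three {X₁ X₂ X₃ : Type v} [AddCommGroup X₁] [Module F X₁] [FiniteDimensional F X₁]
    [AddCommGroup X₂] [Module F X₂] [FiniteDimensional F X₂]
    [AddCommGroup X₃] [Module F X₃] [FiniteDimensional F X₃]
    {k₁ k₂ k₃ : F[X]} (T₁ B₁ D₁ : X₁ →ₗ[F] X₁) (T₂ B₂ D₂ : X₂ →ₗ[F] X₂) (T₃ B₃ D₃ : X₃ →ₗ[F] X₃)
    {a₁ b₁ : X₁} {a₂ b₂ : X₂} {a₃ b₃ : X₃}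
    (hB₁ : IsCyc B₁ k₂ b₁) (hD₁ : IsCyc D₁ k₁ a₁)
    (hB₂ : IsCyc B₂ k₃ b₂) (hD₂ : IsCyc D₂ k₂ a₂)
    (hB₃ : IsCyc B₃ k₁ b₃) (hD₃ : IsCyc D₃ k₃ a₃)
    (h12 : IsCoprime k₁ k₂) (h13 : IsCoprime k₁ k₃) (h23 : IsCoprime k₂ k₃)
    (hfr : finrank F X₁ = 2) (hfr2 : finrank F X₂ = 2) (hfr3 : finrank F X₃ = 2)
    (hBD₁ : ∀ x, B₁ x = T₁ (D₁ x)) (hBD₂ : ∀ x, B₂ x = T₂ (D₂ x)) (hBD₃ : ∀ x, B₃ x = T₃ (D₃ x))
    (hf0 : (k₁ * (k₂ * k₃)).coeff 0 = 1)
    (hgen : ∃ a : F, ∀ s : F, s ≠ 0 → ∃ n : ℕ, s = (k₁.eval a) ^ n) :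
    FacP (k₁ * (k₂ * k₃)) (T₁.prodMap (T₂.prodMap T₃)) := by
  have hD : IsCyc (D₁.prodMap (D₂.prodMap D₃)) (k₁ * (k₂ * k₃)) (a₁, (a₂, a₃)) :=
    isCyc_prodMap hD₁ (isCyc_prodMap hD₂ hD₃ h23) (h12.mul_right h13)
  have hB' : IsCyc (B₁.prodMap (B₂.prodMap B₃)) (k₂ * (k₃ * k₁)) (b₁, (b₂, b₃)) :=
    isCyc_prodMap hB₁ (isCyc_prodMap hB₂ hB₃ h13.symm) (h23.mul_right h12.symm)
  have hB : IsCyc (B₁.prodMap (B₂.prodMap B₃)) (k₁ * (k₂ * k₃)) (b₁, (b₂, b₃)) := by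
    have h1 : k₁ * (k₂ * k₃) = k₂ * (k₃ * k₁) := by ring
    rw [h1]
    exact hB'
  obtain ⟨e, he⟩ := hD.exists_conj hB
  set δ := LinearMap.det (e : (X₁ × (X₂ × X₃)) →ₗ[F] (X₁ × (X₂ × X₃))) with hδ
  have hδ0 : δ ≠ 0 := (LinearEquiv.isUnit_det' e).ne_zero
  obtain ⟨a, ha⟩ := hgen
  obtain ⟨n, hn⟩ := ha δ⁻¹ (inv_ne_zero hδ0)
  obtain ⟨c₁, hc₁, hcD⟩ := exists_corrector hD₁ hfr a n
  rw [← hn] at hc₁
  let c : (X₁ × (X₂ × X₃)) →ₗ[F] (X₁ × (X₂ × X₃)) := c₁.prodMap LinearMap.id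
  have hc : LinearMap.det c = δ⁻¹ := by
    rw [LinearMap.det_prodMap, LinearMap.det_id, mul_one, hc₁]
  have hc0 : LinearMap.det c ≠ 0 := by rw [hc]; exact inv_ne_zero hδ0
  let ce : (X₁ × (X₂ × X₃)) ≃ₗ[F] (X₁ × (X₂ × X₃)) := LinearMap.equivOfDetNeZero c hc0
  have hce : ∀ x, ce x = c x := fun _ => rfl
  have hcom : ∀ x, c ((D₁.prodMap (D₂.prodMap D₃)) x) = (D₁.prodMap (D₂.prodMap D₃)) (c x) := by
    rintro ⟨x, y⟩
    exact Prod.ext (hcD x) rfl
  refine ⟨_, _, ce.trans e, ?_, hB.aeval_eq_zero, hD.aeval_eq_zero, ?_, fun x => ?_, ?_⟩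
  · rintro ⟨x, y, w⟩
    exact Prod.ext (hBD₁ x) (Prod.ext (hBD₂ y) (hBD₃ w))
  · have h1 : ((ce.trans e : (X₁ × (X₂ × X₃)) ≃ₗ[F] (X₁ × (X₂ × X₃))) :
        (X₁ × (X₂ × X₃)) →ₗ[F] (X₁ × (X₂ × X₃))) =
        (e : (X₁ × (X₂ × X₃)) →ₗ[F] (X₁ × (X₂ × X₃))) ∘ₗ c := rfl
    rw [h1, LinearMap.det_comp, hc, ← hδ, mul_inv_cancel₀ hδ0]
  · change e (ce ((D₁.prodMap (D₂.prodMap D₃)) x)) = (B₁.prodMap (B₂.prodMap B₃)) (e (ce x))
    rw [hce, hce, hcom, he]
  · rw [hB.det_eq, hf0]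
    have h6 : finrank F (X₁ × (X₂ × X₃)) = 6 := by
      rw [finrank_prod, finrank_prod, hfr, hfr2, hfr3]
    rw [h6]
    ring

end FacP

section Char2

variable {V : Type v} [AddCommGroup V] [Module F V] [FiniteDimensional F V]

/-- The quadratic. -/
noncomputable def Qd (a b : F) : F[X] := X ^ 2 + C a * X + C b

theorem Qd_monic (a b : F) : (Qd a b).Monic := by
  unfold Qd
  have h : (C a * X + C b : F[X]).degree < (2 : ℕ) := by
    refine lt_of_le_of_lt degree_linear_le ?_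
    exact_mod_cast (by omega : 1 < 2)
  rw [add_assoc]
  exact monic_X_pow_add h

theorem Qd_natDegree (a b : F) : (Qd a b).natDegree = 2 := by
  unfold Qd
  rw [add_assoc]
  have h : (C a * X + C b : F[X]).degree < ((X : F[X]) ^ 2).degree := by
    rw [degree_X_pow]
    refine lt_of_le_of_lt degree_linear_le ?_
    exact_mod_cast (by omega : 1 < 2)
  rw [natDegree_add_eq_left_of_degree_lt h, natDegree_X_pow]

theorem Qd_eval (a b x : F) : (Qd a b).eval x = x ^ 2 + a * x + b := by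
  simp [Qd]

theorem Qd_coeff_zero (a b : F) : (Qd a b).coeff 0 = b := by
  simp [Qd, coeff_X]

/-- Distinct quadratics without roots are coprime. -/
theorem isCoprime_Qd {a b c d : F} (hr : ∀ x, (Qd a b).eval x ≠ 0) (hne : a ≠ c ∨ b ≠ d) :
    IsCoprime (Qd a b) (Qd c d) := by
  by_cases hac : a = c
  · subst hac
    have hbd : b ≠ d := by
      rcases hne with h | h
      · exact absurd rfl h
      · exact h
    refine ⟨C (b - d)⁻¹, - C (b - d)⁻¹, ?_⟩
    have h1 : Qd a b - Qd a d = C (b - d) := by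
      simp only [Qd, C_sub]
      ring
    have h2 : C (b - d)⁻¹ * C (b - d) = (1 : F[X]) := by
      rw [← C_mul, inv_mul_cancel₀ (sub_ne_zero.2 hbd), C_1]
    linear_combination C (b - d)⁻¹ * h1 + h2
  · -- the root of the difference
    have hac' : a - c ≠ 0 := sub_ne_zero.2 hac
    set r : F := (d - b) * (a - c)⁻¹ with hr'
    have hrr : (a - c) * r = d - b := by
      rw [hr']
      field_simp
    have h1 : Qd a b - Qd c d = C (a - c) * (X - C r) := by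
      have h3 : C (a - c) * C r = (C (d - b) : F[X]) := by rw [← C_mul, hrr]
      simp only [Qd, mul_sub, h3]
      simp only [C_sub]
      ring
    -- `Qd a b` modulo `X - r`
    obtain ⟨g, hg⟩ : ∃ g : F[X], Qd a b = (X - C r) * g + C ((Qd a b).eval r) := by
      refine ⟨(Qd a b) /ₘ (X - C r), ?_⟩
      have := modByMonic_add_div (Qd a b) (X - C r)
      rw [modByMonic_X_sub_C_eq_C_eval] at this
      rw [add_comm]
      exact this.symm
    set v := (Qd a b).eval r with hv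
    have hv0 : v ≠ 0 := hr r
    have hu : C v⁻¹ * C v = (1 : F[X]) := by rw [← C_mul, inv_mul_cancel₀ hv0, C_1]
    have hw : C (a - c)⁻¹ * C (a - c) = (1 : F[X]) := by
      rw [← C_mul, inv_mul_cancel₀ hac', C_1]
    -- `1 = v⁻¹ (Q - (X - r) g)`, `X - r = (a-c)⁻¹ (Q - Q')`
    refine ⟨C v⁻¹ * (1 - g * C (a - c)⁻¹), C v⁻¹ * (g * C (a - c)⁻¹), ?_⟩
    have h5 : (X - C r) = C (a - c)⁻¹ * (Qd a b - Qd c d) := by
      rw [h1, ← mul_assoc, hw, one_mul]
    have h6 : (1 : F[X]) = C v⁻¹ * (Qd a b - (X - C r) * g) := by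
      have : Qd a b - (X - C r) * g = C v := by rw [hg]; ring
      rw [this, hu]
    conv_rhs => rw [h6, h5]
    ring

end Char2

end Cfsg.Agent.Lib.OreU
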