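import Mathlib
import Cfsg.Agent.Lib.OreU.LevTwoE

/-!
# The exceptional case: the two constructions
-/

set_option autoImplicit false
set_option linter.unusedSectionVars false
set_option linter.unusedVariables false
set_option linter.style.haveILetI false

open Polynomial Module

namespace Cfsg.Agent.Lib.OreU

open Cfsg.Agent.Lib.Linalg.Lev

universe u v w

variable {F : Type u} [Field F]

section

variable {V : Type v} [AddCommGroup V] [Module F V] [FiniteDimensional F V]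

theorem aeval_Qd_of (T : V →ₗ[F] V) {k P h : F[X]} (hT : aeval T k = 0) {a b : F}
    (hid : P ^ 2 + C a * P + C b = h * k) : aeval (aeval T P) (Qd a b) = 0 := by
  rw [← aeval_comp]
  have h1 : (Qd a b).comp P = h * k := by
    rw [← hid]
    simp [Qd]
  rw [h1, map_mul, hT, mul_zero]

theorem apply_of_mul (T : V →ₗ[F] V) {k P P' h : F[X]} (hT : aeval T k = 0)
    (hid : X * P = P' + h * k) (x : V) : aeval T P' x = T (aeval T P x) := by
  have h1 := congrArg (fun g => aeval T g x) hid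
  simp only [map_mul, map_add, aeval_X, hT, mul_zero, add_zero, Module.End.mul_apply] at h1
  exact h1.symm

theorem two_X (h2 : (2 : F) = 0) : (2 : F[X]) = 0 := by
  have : (C (2 : F) : F[X]) = 0 := by rw [h2, C_0]
  rwa [map_ofNat] at this

/-- The first construction, on a two dimensional space. -/
theorem fac_E1_unit (h2 : (2 : F) = 0) {t : F} (ht : t ^ 2 + t + 1 = 0) (T : V →ₗ[F] V)
    (hfr : finrank F V = 2) (hT : aeval T (Qd t 1) = 0) (hr : ∀ x, (Qd (t ^ 2) 1).eval x ≠ 0)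
    (hgen : ∃ a : F, ∀ s : F, s ≠ 0 → ∃ n : ℕ, s = ((Qd (t ^ 2) 1).eval a) ^ n) :
    FacP (Qd (t ^ 2) 1) T := by
  have h2X := two_X h2
  have htX : (C t : F[X]) ^ 2 + C t + 1 = 0 := by
    have := congrArg C ht
    simpa using this
  have hD : aeval (aeval T (C t * X + 1 : F[X])) (Qd (t ^ 2) 1) = 0 := by
    refine aeval_Qd_of T (h := C (t ^ 2)) hT ?_
    simp only [Qd, C_pow, C_1]
    grind
  have hB : aeval (aeval T (C t * X + C t : F[X])) (Qd (t ^ 2) 1) = 0 := by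
    refine aeval_Qd_of T (h := C (t ^ 2)) hT ?_
    simp only [Qd, C_pow, C_1]
    grind
  have hBD : ∀ x, aeval T (C t * X + C t : F[X]) x = T (aeval T (C t * X + 1 : F[X]) x) := by
    intro x
    refine apply_of_mul T (h := C t) hT ?_ x
    simp only [Qd, C_1]
    grind
  obtain ⟨z, hz⟩ := exists_isCyc_of_two (Qd_monic _ _) (Qd_natDegree _ _) hr _ hD hfr
  obtain ⟨z', hz'⟩ := exists_isCyc_of_two (Qd_monic _ _) (Qd_natDegree _ _) hr _ hB hfr
  exact FacP.of_two T _ _ hz' hz hfr hBD (Qd_coeff_zero _ _) hgen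

/-- The first construction. -/
theorem fac_E1 (h2 : (2 : F) = 0) {t : F} (ht : t ^ 2 + t + 1 = 0) (hr0 : ∀ x, (Qd t 1).eval x ≠ 0)
    (hr : ∀ x, (Qd (t ^ 2) 1).eval x ≠ 0)
    (hgen : ∃ a : F, ∀ s : F, s ≠ 0 → ∃ n : ℕ, s = ((Qd (t ^ 2) 1).eval a) ^ n) :
    ∀ (n : ℕ) (V : Type v) [AddCommGroup V] [Module F V] [FiniteDimensional F V], finrank F V = n →
      ∀ T : V →ₗ[F] V, aeval T (Qd t 1) = 0 → FacP (Qd (t ^ 2) 1) T := by
  intro n
  induction n using Nat.strong_induction_on with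
  | _ n ih =>
    intro V _ _ _ hn T hT
    rcases subsingleton_or_nontrivial V with hV | hV
    · exact FacP.of_subsingleton _ T
    obtain ⟨W₁, W₂, h₁, h₂, hc, hfr, hT₁, hT₂⟩ := exists_block (Qd_monic _ _) (Qd_natDegree _ _) hr0 T hT
    have hdim : finrank F W₁ + finrank F W₂ = finrank F V := Submodule.finrank_add_eq_of_isCompl hc
    exact FacP.of_isCompl T W₁ W₂ hc h₁ h₂ (ih _ (by omega) W₁ rfl _ hT₁)
      (fac_E1_unit h2 ht _ hfr hT₂ hr hgen)

/-- The data of the second construction. -/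
structure E2Data (u v : F) : Prop where
  two : (2 : F) = 0
  u3 : u ^ 3 = 1
  v3 : v ^ 3 = 1
  rel : u ^ 2 * v + v ^ 2 = u
  ne1 : v ≠ 1
  r1 : ∀ x, (Qd u v).eval x ≠ 0
  r2 : ∀ x, (Qd (u ^ 2) (v ^ 2)).eval x ≠ 0
  r3 : ∀ x, (Qd (1 + u * v) 1).eval x ≠ 0
  gen : ∀ s : F, s ≠ 0 → ∃ n : ℕ, s = v ^ n

/-- The annihilating polynomial of the second construction. -/
noncomputable def fE2 (u v : F) : F[X] := Qd u v * (Qd (u ^ 2) (v ^ 2) * Qd (1 + u * v) 1)

variable {u' v' : F}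

theorem E2Data.v0 (hd : E2Data u' v') : v' ≠ 0 := by
  intro h
  have := hd.v3
  rw [h] at this
  simp at this

theorem E2Data.v2ne (hd : E2Data u' v') : v' ^ 2 ≠ 1 := by
  intro h
  apply hd.ne1
  have h3 := hd.v3
  have : v' ^ 3 = v' ^ 2 * v' := by ring
  rw [this, h, one_mul] at h3
  exact h3

theorem E2Data.c12 (hd : E2Data u' v') : IsCoprime (Qd u' v') (Qd (u' ^ 2) (v' ^ 2)) := by
  refine isCoprime_Qd hd.r1 (Or.inr ?_)
  intro h
  have h0 := hd.v0
  have h1 := hd.ne1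
  grind

theorem E2Data.c13 (hd : E2Data u' v') : IsCoprime (Qd u' v') (Qd (1 + u' * v') 1) :=
  isCoprime_Qd hd.r1 (Or.inr hd.ne1)

theorem E2Data.c23 (hd : E2Data u' v') : IsCoprime (Qd (u' ^ 2) (v' ^ 2)) (Qd (1 + u' * v') 1) :=
  isCoprime_Qd hd.r2 (Or.inr hd.v2ne)

/-- The second construction on three blocks. -/
theorem fac_E2_unit (hd : E2Data u' v') {X₁ X₂ X₃ : Type v} [AddCommGroup X₁] [Module F X₁]
    [FiniteDimensional F X₁] [AddCommGroup X₂] [Module F X₂] [FiniteDimensional F X₂]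
    [AddCommGroup X₃] [Module F X₃] [FiniteDimensional F X₃]
    (T₁ : X₁ →ₗ[F] X₁) (T₂ : X₂ →ₗ[F] X₂) (T₃ : X₃ →ₗ[F] X₃)
    (hf1 : finrank F X₁ = 2) (hf2 : finrank F X₂ = 2) (hf3 : finrank F X₃ = 2)
    (h1 : aeval T₁ (Qd u' v') = 0) (h2 : aeval T₂ (Qd u' v') = 0) (h3 : aeval T₃ (Qd u' v') = 0) :
    FacP (fE2 u' v') (T₁.prodMap (T₂.prodMap T₃)) := by
  have h2X := two_X hd.two
  have hu3 : (C u' : F[X]) ^ 3 = 1 := by
    have := congrArg C hd.u3
    simpa using this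
  have hv3 : (C v' : F[X]) ^ 3 = 1 := by
    have := congrArg C hd.v3
    simpa using this
  have hrel : (C u' : F[X]) ^ 2 * C v' + (C v') ^ 2 = C u' := by
    have := congrArg C hd.rel
    simpa using this
  -- polynomial identities
  have i1 : (C u' * X + C v' : F[X]) ^ 2 + C (u' ^ 2) * (C u' * X + C v') + C (v' ^ 2) =
      C (u' ^ 2) * Qd u' v' := by
    simp only [Qd, C_pow]
    linear_combination (C u' * C v' * X + C v' ^ 2) * h2X
  have i2 : (C (u' ^ 2 + v') * X + C (u' * v') : F[X]) ^ 2 + C (1 + u' * v') *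
      (C (u' ^ 2 + v') * X + C (u' * v')) + C 1 = C ((u' ^ 2 + v') ^ 2) * Qd u' v' := by
    simp only [Qd, C_pow, C_add, C_mul, C_1]
    linear_combination (X * (C u' ^ 2 + C v') * C u' * C v') * h2X +
      (-(X * (C u' ^ 2 + C v')) - C u' * C v') * hu3 - hv3
  have i3 : (X + C u' : F[X]) ^ 2 + C u' * (X + C u') + C v' = 1 * Qd u' v' := by
    simp only [Qd]
    linear_combination (C u' * X + C u' ^ 2) * h2X
  have i4 : (X : F[X]) * X = (C u' * X + C v') + 1 * Qd u' v' := by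
    simp only [Qd]
    linear_combination (-(C u' * X) - C v') * h2X
  have i5 : (X : F[X]) * (C u' * X + C v') = (C (u' ^ 2 + v') * X + C (u' * v')) + C u' * Qd u' v' := by
    simp only [Qd, C_pow, C_add, C_mul]
    linear_combination (-(C u' ^ 2 * X) - C u' * C v') * h2X
  have i6 : (X : F[X]) * (C (u' ^ 2 + v') * X + C (u' * v')) = (X + C u') + C (u' ^ 2 + v') * Qd u' v' := by
    simp only [Qd, C_pow, C_add, C_mul]
    linear_combination (-X - C u') * h2X - X * hu3 - hrel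
  obtain ⟨a₁, ha₁⟩ := exists_isCyc_of_two (Qd_monic _ _) (Qd_natDegree _ _) hd.r1 T₁ h1 hf1
  obtain ⟨b₁, hb₁⟩ := exists_isCyc_of_two (Qd_monic _ _) (Qd_natDegree _ _) hd.r2 _
    (aeval_Qd_of T₁ h1 i1) hf1
  obtain ⟨a₂, ha₂⟩ := exists_isCyc_of_two (Qd_monic _ _) (Qd_natDegree _ _) hd.r2 _
    (aeval_Qd_of T₂ h2 i1) hf2
  obtain ⟨b₂, hb₂⟩ := exists_isCyc_of_two (Qd_monic _ _) (Qd_natDegree _ _) hd.r3 _
    (aeval_Qd_of T₂ h2 i2) hf2
  obtain ⟨a₃, ha₃⟩ := exists_isCyc_of_two (Qd_monic _ _) (Qd_natDegree _ _) hd.r3 _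
    (aeval_Qd_of T₃ h3 i2) hf3
  obtain ⟨b₃, hb₃⟩ := exists_isCyc_of_two (Qd_monic _ _) (Qd_natDegree _ _) hd.r1 _
    (aeval_Qd_of T₃ h3 i3) hf3
  refine FacP.of_three T₁ _ T₁ T₂ _ _ T₃ _ _ hb₁ ha₁ hb₂ ha₂ hb₃ ha₃ hd.c12 hd.c13 hd.c23 hf1 hf2 hf3
    ?_ ?_ ?_ ?_ ⟨0, ?_⟩
  · intro x
    have := apply_of_mul T₁ h1 i4 x
    rwa [aeval_X] at this
  · exact apply_of_mul T₂ h2 i5
  · exact apply_of_mul T₃ h3 i6
  · rw [mul_coeff_zero, mul_coeff_zero, Qd_coeff_zero, Qd_coeff_zero, Qd_coeff_zero, mul_one, ← hd.v3]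
    ring
  · intro s hs
    obtain ⟨n, hn⟩ := hd.gen s hs
    refine ⟨n, ?_⟩
    rw [Qd_eval]
    simpa using hn

theorem FacP.conj_left {f : F[X]} {Y : Type w} [AddCommGroup Y] [Module F Y] [FiniteDimensional F Y]
    (T : V →ₗ[F] V) (W₁ W₂ : Submodule F V) (hc : IsCompl W₁ W₂)
    (h₁ : ∀ x ∈ W₁, T x ∈ W₁) (h₂ : ∀ x ∈ W₂, T x ∈ W₂) (S : Y →ₗ[F] Y)
    (H : FacP f ((T.restrict h₁).prodMap ((T.restrict h₂).prodMap S))) : FacP f (T.prodMap S) := by
  have H1 : FacP f (((T.restrict h₁).prodMap (T.restrict h₂)).prodMap S) := by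
    refine H.of_conj (LinearEquiv.prodAssoc F W₁ W₂ Y).symm ?_
    rintro ⟨x, y, z⟩
    rfl
  refine H1.of_conj ((Submodule.prodEquivOfIsCompl W₁ W₂ hc).prodCongr (LinearEquiv.refl F Y)) ?_
  rintro ⟨⟨x, y⟩, z⟩
  refine Prod.ext ?_ rfl
  change ((T.restrict h₁ x : W₁) : V) + ((T.restrict h₂ y : W₂) : V) = T ((x : V) + (y : V))
  rw [map_add]
  rfl

end

section

theorem fac_E2 {u v' : F} (hd : E2Data u v') :
    ∀ (n : ℕ) (V : Type v) [AddCommGroup V] [Module F V] [FiniteDimensional F V], finrank F V = n → 6 ∣ n →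
      ∀ T : V →ₗ[F] V, aeval T (Qd u v') = 0 → FacP (fE2 u v') T := by
  intro n
  induction n using Nat.strong_induction_on with
  | _ n ih =>
    intro V _ _ _ hn h6 T hT
    rcases subsingleton_or_nontrivial V with hV | hV
    · exact FacP.of_subsingleton _ T
    have hpos : 0 < finrank F V := Module.finrank_pos
    have hn6 : 6 ≤ n := Nat.le_of_dvd (by omega) h6
    have hk := Qd_monic u v'
    have hkd := Qd_natDegree u v'
    obtain ⟨W₁, W₂, h₁, h₂, hc, hfr, hT₁, hT₂⟩ := exists_block hk hkd hd.r1 T hT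
    have hdim : finrank F W₁ + finrank F W₂ = finrank F V := Submodule.finrank_add_eq_of_isCompl hc
    have hW₁ : Nontrivial W₁ := Module.nontrivial_of_finrank_pos (R := F) (by omega)
    obtain ⟨W₁₁, W₁₂, h₁₁, h₁₂, hc₁, hfr₁, hT₁₁, hT₁₂⟩ := exists_block hk hkd hd.r1 _ hT₁
    have hdim₁ : finrank F W₁₁ + finrank F W₁₂ = finrank F W₁ := Submodule.finrank_add_eq_of_isCompl hc₁
    have hW₁₁ : Nontrivial W₁₁ := Module.nontrivial_of_finrank_pos (R := F) (by omega)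
    obtain ⟨W₀, W₃, h₀, h₃, hc₂, hfr₂, hT₀, hT₃⟩ := exists_block hk hkd hd.r1 _ hT₁₁
    have hdim₂ : finrank F W₀ + finrank F W₃ = finrank F W₁₁ := Submodule.finrank_add_eq_of_isCompl hc₂
    have H₀ := ih (finrank F W₀) (by omega) W₀ rfl (by omega) _ hT₀
    have Hu := fac_E2_unit (X₁ := W₃) (X₂ := W₁₂) (X₃ := W₂) hd
      (((T.restrict h₁).restrict h₁₁).restrict h₃) ((T.restrict h₁).restrict h₁₂) (T.restrict h₂)
      hfr₂ hfr₁ hfr hT₃ hT₁₂ hT₂
    have H1 : FacP (fE2 u v') (((T.restrict h₁).restrict h₁₁).prodMap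
        (((T.restrict h₁).restrict h₁₂).prodMap (T.restrict h₂))) :=
      FacP.conj_left ((T.restrict h₁).restrict h₁₁) W₀ W₃ hc₂ h₀ h₃
        (((T.restrict h₁).restrict h₁₂).prodMap (T.restrict h₂)) (H₀.prod Hu)
    have H2 : FacP (fE2 u v') ((T.restrict h₁).prodMap (T.restrict h₂)) :=
      FacP.conj_left (T.restrict h₁) W₁₁ W₁₂ hc₁ h₁₁ h₁₂ (T.restrict h₂) H1
    refine H2.of_conj (Submodule.prodEquivOfIsCompl W₁ W₂ hc) ?_
    rintro ⟨x₁, x₂⟩
    change ((T.restrict h₁ x₁ : W₁) : V) + ((T.restrict h₂ x₂ : W₂) : V) = T ((x₁ : V) + (x₂ : V))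
    rw [map_add]
    rfl

end

end Cfsg.Agent.Lib.OreU
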