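import Mathlib
import Cfsg.Agent.Lib.OreU.LevTwoE2
import Cfsg.Agent.Lib.OreU.Good

/-!
# The polynomials over the field with four elements
-/

set_option autoImplicit false
set_option linter.unusedSectionVars false
set_option linter.unusedVariables false
set_option linter.style.haveILetI false

open Polynomial Module

namespace Cfsg.Agent.Lib.OreU

open Cfsg.Agent.Lib.Linalg.Lev

universe u v w

variable {F : Type u} [Field F]

/-- The field with four elements, in coordinates. -/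
structure F4 (ω : F) : Prop where
  two : (2 : F) = 0
  rel : ω ^ 2 + ω + 1 = 0
  all : ∀ x : F, x = 0 ∨ x = 1 ∨ x = ω ∨ x = ω + 1

theorem exists_F4 [Fintype F] (hF : Fintype.card F = 2 ^ 2) : ∃ ω : F, F4 ω := by
  classical
  have h4 : (4 : F) = 0 := by
    have h := Nat.cast_card_eq_zero F
    rw [hF] at h
    push_cast at h
    linear_combination h
  have h2 : (2 : F) = 0 := by
    have : (2 : F) * 2 = 0 := by linear_combination h4
    exact mul_self_eq_zero.1 this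
  obtain ⟨ω, h0, h1⟩ : ∃ ω : F, ω ≠ 0 ∧ ω ≠ 1 := by
    have hc : 2 < Fintype.card F := by rw [hF]; norm_num
    obtain ⟨a, b, c, hab, hac, hbc⟩ := Fintype.two_lt_card_iff.1 hc
    by_cases ha : a ≠ 0 ∧ a ≠ 1
    · exact ⟨a, ha⟩
    by_cases hb : b ≠ 0 ∧ b ≠ 1
    · exact ⟨b, hb⟩
    refine ⟨c, ?_, ?_⟩ <;> grind
  have hcube : ω ^ 3 = 1 := by
    have := FiniteField.pow_card_sub_one_eq_one ω h0
    rw [hF] at this
    exact this
  have hrel : ω ^ 2 + ω + 1 = 0 := by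
    have : (ω - 1) * (ω ^ 2 + ω + 1) = 0 := by linear_combination hcube
    exact (mul_eq_zero.1 this).resolve_left (sub_ne_zero.2 h1)
  refine ⟨ω, h2, hrel, fun x => ?_⟩
  let S : Finset F := {0, 1, ω, ω + 1}
  have h3 : ω + 1 ≠ 0 := by
    intro h
    apply h1
    linear_combination h - h2
  have h5 : ω + 1 ≠ 1 := by
    intro h
    apply h0
    linear_combination h
  have h6 : ω + 1 ≠ ω := by
    intro h
    apply (one_ne_zero : (1 : F) ≠ 0)
    linear_combination h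
  have hS : S.card = Fintype.card F := by
    rw [hF]
    have hn : (1 : F) ≠ 0 := one_ne_zero
    simp [S, Finset.card_insert_of_notMem, h0.symm, h1.symm, h3.symm, h5.symm, h6.symm, hn.symm]
  have hx : x ∈ S := by
    rw [Finset.eq_univ_of_card S hS]
    exact Finset.mem_univ x
  simpa [S] using hx

section F4Facts

variable {ω : F} (h : F4 ω)

include h

theorem F4.sq : ω ^ 2 = ω + 1 := by
  linear_combination h.rel - (ω + 1) * h.two
theorem F4.cube : ω ^ 3 = 1 := by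
  linear_combination (ω - 1) * h.rel
theorem F4.ne0 : ω ≠ 0 := by
  have := h.rel
  have h1 : (1 : F) ≠ 0 := one_ne_zero
  grind
theorem F4.ne1 : ω ≠ 1 := by
  have := h.rel
  have := h.two
  have h1 : (1 : F) ≠ 0 := one_ne_zero
  grind
theorem F4.ne0' : ω + 1 ≠ 0 := by
  have := h.rel
  have := h.two
  have h1 : (1 : F) ≠ 0 := one_ne_zero
  grind
theorem F4.ne1' : ω + 1 ≠ 1 := by
  have := h.ne0
  grind
theorem F4.ne' : ω + 1 ≠ ω := by
  have h1 : (1 : F) ≠ 0 := one_ne_zero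
  grind

theorem F4.rf {a b : F} (hab : (a = ω ∧ b = 1) ∨ (a = ω + 1 ∧ b = 1) ∨ (a = 1 ∧ b = ω) ∨ (a = 1 ∧ b = ω + 1) ∨
    (a = ω ∧ b = ω) ∨ (a = ω + 1 ∧ b = ω + 1)) : ∀ x, (Qd a b).eval x ≠ 0 := by
  have h2 := h.two
  have hr := h.rel
  have h1 : (1 : F) ≠ 0 := one_ne_zero
  have h3 := h.ne0
  have h4 := h.ne1
  have h5 := h.ne0'
  intro x
  rw [Qd_eval]
  rcases hab with ⟨rfl, rfl⟩ | ⟨rfl, rfl⟩ | ⟨rfl, rfl⟩ | ⟨rfl, rfl⟩ | ⟨rfl, rfl⟩ | ⟨rfl, rfl⟩ <;>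
    rcases h.all x with rfl | rfl | rfl | rfl <;> grind

theorem F4.classify {u v : F} (hr : ∀ x, (Qd u v).eval x ≠ 0) :
    (u = ω ∧ v = 1) ∨ (u = ω + 1 ∧ v = 1) ∨ (u = 1 ∧ v = ω) ∨ (u = 1 ∧ v = ω + 1) ∨
    (u = ω ∧ v = ω) ∨ (u = ω + 1 ∧ v = ω + 1) := by
  have h2 := h.two
  have hrel := h.rel
  have h1 : (1 : F) ≠ 0 := one_ne_zero
  have h3 := h.ne0
  have h4 := h.ne1
  have h5 := h.ne0'
  have e0 := hr 0
  have e1 := hr 1
  have e2 := hr ω
  have e3 := hr (ω + 1)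
  rw [Qd_eval] at e0 e1 e2 e3
  rcases h.all u with rfl | rfl | rfl | rfl <;> rcases h.all v with rfl | rfl | rfl | rfl <;> grind

theorem F4.gen_w : ∀ s : F, s ≠ 0 → ∃ n : ℕ, s = ω ^ n := by
  intro s hs
  rcases h.all s with h0 | h1 | h2 | h3
  · exact absurd h0 hs
  · exact ⟨0, by simp [h1]⟩
  · exact ⟨1, by simp [h2]⟩
  · exact ⟨2, by rw [h3]; exact h.sq.symm⟩

theorem F4.gen_w' : ∀ s : F, s ≠ 0 → ∃ n : ℕ, s = (ω + 1) ^ n := by
  intro s hs
  rcases h.all s with h0 | h1 | h2 | h3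
  · exact absurd h0 hs
  · exact ⟨0, by simp [h1]⟩
  · refine ⟨2, ?_⟩
    rw [h2]
    linear_combination - h.rel
  · exact ⟨1, by simp [h3]⟩

end F4Facts

section Dag

variable [Fintype F] (hF : Fintype.card F = 2 ^ 2)

/-- The conditions on a polynomial. -/
def GoodF (f : F[X]) : Prop :=
  f.coeff 0 ≠ 0 ∧ IsCoprime f (dag hF f) ∧ IsCoprime f (X - 1)

theorem dag_mul₂ (f g : F[X]) : dag hF (f * g) = dag hF f * dag hF g := by
  simp only [dag, reverse_mul_of_domain, Polynomial.map_mul]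

theorem dag_one : dag hF (1 : F[X]) = 1 := by
  have h1 : (1 : F[X]).reverse = 1 := by
    rw [reverse, natDegree_one, ← C_1, reflect_C]
    simp
  simp [dag, h1]

theorem dag_pow (f : F[X]) (n : ℕ) : dag hF (f ^ n) = (dag hF f) ^ n := by
  induction n with
  | zero => simp [dag_one]
  | succ n ih => rw [pow_succ, dag_mul₂, ih, pow_succ]

theorem reverse_Qd (a b : F) : (Qd a b).reverse = C b * X ^ 2 + C a * X + 1 := by
  rw [reverse, Qd_natDegree]
  unfold Qd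
  rw [reflect_add, reflect_add, reflect_monomial, reflect_C]
  have h1 : reflect 2 (C a * X) = C a * X := by
    have := reflect_C_mul_X_pow (R := F) 2 1 (c := a)
    rw [pow_one] at this
    rw [this, show revAt 2 1 = 1 by rfl, pow_one]
  rw [h1, show revAt 2 2 = 0 by rfl, pow_zero]
  ring

theorem dag_Qd (a b : F) (hb3 : b ^ 3 = 1) : dag hF (Qd a b) = C (b ^ 2) * Qd (a ^ 2 * b) b := by
  have hbC : (C b : F[X]) ^ 3 = 1 := by
    have := congrArg C hb3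
    simpa using this
  unfold dag
  rw [reverse_Qd]
  simp only [Qd, Polynomial.map_add, Polynomial.map_mul, map_C, map_X, Polynomial.map_one, Polynomial.map_pow,
    Cfsg.Agent.Lib.Classical.Herm.Basic.sigma_apply, C_pow, C_mul]
  linear_combination (-(1 + C a ^ 2 * X)) * hbC

theorem isCoprime_C (g : F[X]) {c : F} (hc : c ≠ 0) : IsCoprime g (C c) := by
  refine ⟨0, C c⁻¹, ?_⟩
  rw [zero_mul, zero_add, ← C_mul, inv_mul_cancel₀ hc, C_1]

theorem isCoprime_eval {g : F[X]} {a : F} (h : g.eval a ≠ 0) : IsCoprime g (X - C a) := by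
  refine ⟨C (g.eval a)⁻¹, - (C (g.eval a)⁻¹ * (g /ₘ (X - C a))), ?_⟩
  have h1 := modByMonic_add_div g (X - C a)
  rw [modByMonic_X_sub_C_eq_C_eval] at h1
  have h2 : C (g.eval a)⁻¹ * C (g.eval a) = (1 : F[X]) := by
    rw [← C_mul, inv_mul_cancel₀ h, C_1]
  linear_combination (- C (g.eval a)⁻¹) * h1 + h2

theorem isCoprime_X_sub_one {g : F[X]} (h : g.eval 1 ≠ 0) : IsCoprime g (X - 1) := by
  have := isCoprime_eval h
  rwa [C_1] at this

theorem isCoprime_Qd_dag {a b c d : F} (hr : ∀ x, (Qd a b).eval x ≠ 0) (hd0 : d ≠ 0) (hd3 : d ^ 3 = 1)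
    (hne : a ≠ c ^ 2 * d ∨ b ≠ d) : IsCoprime (Qd a b) (dag hF (Qd c d)) := by
  rw [dag_Qd hF c d hd3]
  exact (isCoprime_C _ (pow_ne_zero _ hd0)).mul_right (isCoprime_Qd hr hne)

/-- A quadratic without root and a cubic without root. -/
theorem isCoprime_Qd_cubic {a b : F} (hr : ∀ x, (Qd a b).eval x ≠ 0) {g : F[X]} (hgd : g.natDegree = 3)
    (hg : ∀ x, g.eval x ≠ 0) : IsCoprime (Qd a b) g := by
  classical
  have hirr : Irreducible (Qd a b) := by
    rw [(Qd_monic a b).irreducible_iff_roots_eq_zero_of_degree_le_three (by rw [Qd_natDegree])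
      (by rw [Qd_natDegree]; omega)]
    refine Multiset.eq_zero_of_forall_notMem fun x hx => ?_
    exact hr x ((mem_roots (Qd_monic a b).ne_zero).1 hx)
  refine (hirr.coprime_iff_not_dvd).2 ?_
  rintro ⟨h, rfl⟩
  have h0 : h ≠ 0 := by
    rintro rfl
    simp at hgd
  have h3 : (Qd a b * h).natDegree = 2 + h.natDegree := by
    rw [natDegree_mul (Qd_monic a b).ne_zero h0, Qd_natDegree]
  have h4 : h.natDegree = 1 := by omega
  have hd1 : h.degree = 1 := by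
    rw [degree_eq_natDegree h0, h4]
    rfl
  obtain ⟨x, hx⟩ := exists_root_of_degree_eq_one hd1
  apply hg x
  rw [eval_mul, hx.eq_zero, mul_zero]

theorem isCoprime_Qd_self_dag {a b : F} (hr : ∀ x, (Qd a b).eval x ≠ 0) (hb0 : b ≠ 0) (hb3 : b ^ 3 = 1)
    (hne : a ≠ a ^ 2 * b) : IsCoprime (Qd a b) (dag hF (Qd a b)) :=
  isCoprime_Qd_dag hF hr hb0 hb3 (Or.inl hne)

/-- Goodness of the polynomial of the first construction. -/
theorem goodF_E1 {a : F} (hr : ∀ x, (Qd a 1).eval x ≠ 0) (hne : a ≠ a ^ 2) : GoodF hF (Qd a 1) := by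
  refine ⟨by rw [Qd_coeff_zero]; exact one_ne_zero, ?_, isCoprime_X_sub_one (hr 1)⟩
  exact isCoprime_Qd_dag hF hr one_ne_zero (one_pow 3) (Or.inl (by simpa using hne))

/-- The nine pairs. -/
theorem goodF_triple {k₁ k₂ k₃ d₁ d₂ d₃ : F[X]}
    (h11 : IsCoprime k₁ d₁) (h12 : IsCoprime k₁ d₂) (h13 : IsCoprime k₁ d₃)
    (h21 : IsCoprime k₂ d₁) (h22 : IsCoprime k₂ d₂) (h23 : IsCoprime k₂ d₃)
    (h31 : IsCoprime k₃ d₁) (h32 : IsCoprime k₃ d₂) (h33 : IsCoprime k₃ d₃) (n : ℕ) :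
    IsCoprime (k₁ * (k₂ * k₃ ^ n)) (d₁ * (d₂ * d₃ ^ n)) := by
  refine IsCoprime.mul_left ?_ (IsCoprime.mul_left ?_ (IsCoprime.pow_left ?_))
  · exact h11.mul_right (h12.mul_right h13.pow_right)
  · exact h21.mul_right (h22.mul_right h23.pow_right)
  · exact h31.mul_right (h32.mul_right h33.pow_right)

variable {u' v' : F}

/-- The second construction: extra conditions. -/
structure E2Good (u v : F) : Prop where
  d1 : u ≠ u ^ 2 * v
  d2 : u ^ 2 ≠ (u ^ 2) ^ 2 * v ^ 2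
  d3 : 1 + u * v ≠ (1 + u * v) ^ 2 * 1

theorem E2Data.pairs (hd : E2Data u' v') (hg : E2Good u' v') :
    let k₁ := Qd u' v'; let k₂ := Qd (u' ^ 2) (v' ^ 2); let k₃ := Qd (1 + u' * v') 1
    let d₁ := dag hF k₁; let d₂ := dag hF k₂; let d₃ := dag hF k₃
    IsCoprime k₁ d₁ ∧ IsCoprime k₁ d₂ ∧ IsCoprime k₁ d₃ ∧ IsCoprime k₂ d₁ ∧ IsCoprime k₂ d₂ ∧ IsCoprime k₂ d₃ ∧
      IsCoprime k₃ d₁ ∧ IsCoprime k₃ d₂ ∧ IsCoprime k₃ d₃ := by
  intro k₁ k₂ k₃ d₁ d₂ d₃
  have hv0 := hd.v0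
  have hv3 := hd.v3
  have hv1 := hd.ne1
  have hv2 := hd.v2ne
  have hv20 : v' ^ 2 ≠ 0 := pow_ne_zero _ hv0
  have hv23 : (v' ^ 2) ^ 3 = 1 := by
    rw [← pow_mul, mul_comm, pow_mul, hv3, one_pow]
  have hvv : v' ≠ v' ^ 2 := by
    intro h
    apply hv1
    have h1 : v' * v' = v' * 1 := by
      rw [mul_one, ← sq]
      exact h.symm
    exact mul_left_cancel₀ hv0 h1
  have h10 : (1 : F) ≠ 0 := one_ne_zero
  have h13 : (1 : F) ^ 3 = 1 := one_pow 3
  refine ⟨isCoprime_Qd_dag hF hd.r1 hv0 hv3 (Or.inl hg.d1), isCoprime_Qd_dag hF hd.r1 hv20 hv23 (Or.inr hvv),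
    isCoprime_Qd_dag hF hd.r1 h10 h13 (Or.inr hv1), isCoprime_Qd_dag hF hd.r2 hv0 hv3 (Or.inr hvv.symm),
    isCoprime_Qd_dag hF hd.r2 hv20 hv23 (Or.inl hg.d2), isCoprime_Qd_dag hF hd.r2 h10 h13 (Or.inr hv2),
    isCoprime_Qd_dag hF hd.r3 hv0 hv3 (Or.inr hv1.symm), isCoprime_Qd_dag hF hd.r3 hv20 hv23 (Or.inr hv2.symm),
    isCoprime_Qd_dag hF hd.r3 h10 h13 (Or.inl hg.d3)⟩

theorem goodF_fE2 (hd : E2Data u' v') (hg : E2Good u' v') : GoodF hF (fE2 u' v') := by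
  obtain ⟨h11, h12, h13, h21, h22, h23, h31, h32, h33⟩ := hd.pairs hF hg
  refine ⟨?_, ?_, ?_⟩
  · rw [fE2, mul_coeff_zero, mul_coeff_zero, Qd_coeff_zero, Qd_coeff_zero, Qd_coeff_zero, mul_one]
    exact mul_ne_zero hd.v0 (pow_ne_zero _ hd.v0)
  · rw [fE2, dag_mul₂, dag_mul₂]
    have := goodF_triple h11 h12 h13 h21 h22 h23 h31 h32 h33 1
    simpa using this
  · rw [fE2]
    exact (isCoprime_X_sub_one (hd.r1 1)).mul_left
      ((isCoprime_X_sub_one (hd.r2 1)).mul_left (isCoprime_X_sub_one (hd.r3 1)))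

end Dag

section Instances

variable {ω : F} (h : F4 ω)

include h

theorem F4.e2 {u v : F} (hc : (u = 1 ∧ v = ω) ∨ (u = 1 ∧ v = ω + 1) ∨ (u = ω ∧ v = ω) ∨ (u = ω + 1 ∧ v = ω + 1)) :
    E2Data u v ∧ E2Good u v := by
  have h2 := h.two
  have hrel := h.rel
  have h1 : (1 : F) ≠ 0 := one_ne_zero
  have h3 := h.ne0
  have h4 := h.ne1
  have h5 := h.ne0'
  have hs := h.sq
  have hcu := h.cube
  rcases hc with ⟨rfl, rfl⟩ | ⟨rfl, rfl⟩ | ⟨rfl, rfl⟩ | ⟨rfl, rfl⟩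
  · refine ⟨⟨h2, by simp, hcu, by grind, h4, h.rf (by grind), h.rf (by grind), h.rf (by grind), h.gen_w⟩, ?_⟩
    constructor <;> grind
  · refine ⟨⟨h2, by simp, by grind, by grind, by grind, h.rf (by grind), h.rf (by grind), h.rf (by grind), h.gen_w'⟩, ?_⟩
    constructor <;> grind
  · refine ⟨⟨h2, hcu, hcu, by grind, h4, h.rf (by grind), h.rf (by grind), h.rf (by grind), h.gen_w⟩, ?_⟩
    constructor <;> grind
  · refine ⟨⟨h2, by grind, by grind, by grind, by grind, h.rf (by grind), h.rf (by grind), h.rf (by grind), h.gen_w'⟩, ?_⟩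
    constructor <;> grind

end Instances

end Cfsg.Agent.Lib.OreU
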