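import Mathlib
import Cfsg.Agent.Lib.OreU.LevTwoF4
import Cfsg.Agent.Lib.Linalg.Lev.Scalar

/-!
# The polynomials for large dimension, and the exceptional case
-/

set_option autoImplicit false
set_option linter.unusedSectionVars false
set_option linter.unusedVariables false
set_option linter.style.haveILetI false

open Polynomial Module

namespace Cfsg.Agent.Lib.OreU

open Cfsg.Agent.Lib.Linalg.Lev Cfsg.Agent.Lib.Linalg.RCF

universe u v w

variable {F : Type u} [Field F]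

section Cubic

/-- The cubic. -/
noncomputable def g3 (ω : F) : F[X] := X ^ 3 + X ^ 2 + X + C (ω + 1)

/-- The cubic dual to `g3`. -/
noncomputable def g3' (ω : F) : F[X] := C ω * X ^ 3 + X ^ 2 + X + 1

theorem g3_natDegree_aux (ω : F) : (X ^ 2 + X + C (ω + 1) : F[X]).degree < (3 : ℕ) := by
  have h1 : (X ^ 2 + X + C (ω + 1) : F[X]).natDegree ≤ 2 := by compute_degree
  exact lt_of_le_of_lt (degree_le_of_natDegree_le h1) (by exact_mod_cast (by omega : 2 < 3))

theorem g3_eq (ω : F) : g3 ω = X ^ 3 + (X ^ 2 + X + C (ω + 1)) := by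
  rw [g3]
  ring

theorem g3_monic (ω : F) : (g3 ω).Monic := by
  rw [g3_eq]
  exact monic_X_pow_add (g3_natDegree_aux ω)

theorem g3_natDegree (ω : F) : (g3 ω).natDegree = 3 := by
  rw [g3_eq, natDegree_add_eq_left_of_degree_lt (by rw [degree_X_pow]; exact g3_natDegree_aux ω),
    natDegree_X_pow]

theorem g3_coeff_zero (ω : F) : (g3 ω).coeff 0 = ω + 1 := by
  simp [g3, coeff_X]

theorem g3'_natDegree {ω : F} (hω : ω ≠ 0) : (g3' ω).natDegree = 3 := by
  unfold g3'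
  compute_degree!

section

variable [Fintype F] (hF : Fintype.card F = 2 ^ 2) {ω : F} (h : F4 ω)

theorem dag_g3 (h : F4 ω) : dag hF (g3 ω) = g3' ω := by
  have h1 : (g3 ω).reverse = 1 + X + X ^ 2 + C (ω + 1) * X ^ 3 := by
    rw [reverse, g3_natDegree]
    unfold g3
    rw [reflect_add, reflect_add, reflect_add, reflect_monomial, reflect_monomial, reflect_C]
    have h2 : reflect 3 (X : F[X]) = X ^ 2 := by
      have := reflect_monomial (R := F) 3 1
      rw [pow_one] at this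
      rw [this]
      rfl
    rw [h2, show revAt 3 3 = 0 by rfl, show revAt 3 2 = 1 by rfl, pow_zero, pow_one]
  unfold dag
  rw [h1]
  simp only [g3', Polynomial.map_add, Polynomial.map_mul, map_C, map_X, Polynomial.map_one, Polynomial.map_pow,
    Cfsg.Agent.Lib.Classical.Herm.Basic.sigma_apply]
  have h3 : (ω + 1) ^ 2 = ω := by
    linear_combination h.rel + ω * h.two - ω * h.two
  rw [h3]
  ring

include h

theorem g3_rf : ∀ x, (g3 ω).eval x ≠ 0 := by
  have h2 := h.two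
  have hr := h.rel
  have h1 : (1 : F) ≠ 0 := one_ne_zero
  have h3 := h.ne0
  have h4 := h.ne1
  have h5 := h.ne0'
  intro x
  simp only [g3, eval_add, eval_pow, eval_X, eval_C]
  rcases h.all x with rfl | rfl | rfl | rfl <;> grind

theorem g3'_rf : ∀ x, (g3' ω).eval x ≠ 0 := by
  have h2 := h.two
  have hr := h.rel
  have h1 : (1 : F) ≠ 0 := one_ne_zero
  have h3 := h.ne0
  have h4 := h.ne1
  have h5 := h.ne0'
  intro x
  simp only [g3', eval_add, eval_mul, eval_pow, eval_X, eval_C, eval_one]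
  rcases h.all x with rfl | rfl | rfl | rfl <;> grind

theorem g3_coprime : IsCoprime (g3 ω) (g3' ω) := by
  have h2X := two_X h.two
  have hrX : (C ω : F[X]) ^ 2 + C ω + 1 = 0 := by
    have := congrArg C h.rel
    simpa using this
  have h1 : g3' ω = C (ω + 1) * (X * (X - C 1)) + g3 ω * C ω := by
    simp only [g3, g3', C_add, C_1]
    linear_combination (-(C ω * X ^ 2) + X + 1) * h2X - hrX
  rw [h1]
  apply IsCoprime.add_mul_left_right
  refine (isCoprime_C _ h.ne0').mul_right (IsCoprime.mul_right ?_ ?_)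
  · have := isCoprime_eval (g := g3 ω) (a := 0) (g3_rf h 0)
    simpa using this
  · exact isCoprime_eval (g3_rf h 1)

end

end Cubic

section Large

variable [Fintype F] (hF : Fintype.card F = 2 ^ 2) {ω : F} (h : F4 ω)

include h

/-- The polynomials in large dimension. -/
theorem exists_poly_large (m : ℕ) (hm : 4 ≤ m) : ∃ p k : F[X], p.Monic ∧ p.natDegree + 2 = m ∧
    p.coeff 0 ≠ 0 ∧ k.Monic ∧ k.natDegree = 2 ∧ (∀ a, k.eval a ≠ 0) ∧ IsCoprime k p ∧
    (∃ a : F, ∀ s : F, s ≠ 0 → ∃ n : ℕ, s = (k.eval a) ^ n) ∧ GoodF hF (k * p) ∧ (k * p).coeff 0 = 1 := by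
  obtain ⟨hd, hg⟩ := h.e2 (u := 1) (v := ω) (Or.inl ⟨rfl, rfl⟩)
  obtain ⟨h11, h12, h13, h21, h22, h23, h31, h32, h33⟩ := hd.pairs hF hg
  set k₁ := Qd (1 : F) ω with hk₁
  set k₂ := Qd ((1 : F) ^ 2) (ω ^ 2) with hk₂
  set k₃ := Qd (1 + 1 * ω) (1 : F) with hk₃
  have hk₃m : k₃.Monic := Qd_monic _ _
  have hk₃d : k₃.natDegree = 2 := Qd_natDegree _ _
  have hk₃0 : k₃.coeff 0 = 1 := Qd_coeff_zero _ _
  have hk₃c0 : ∀ n : ℕ, (k₃ ^ n).coeff 0 = 1 := by
    intro n
    rw [coeff_zero_eq_eval_zero, eval_pow, ← coeff_zero_eq_eval_zero, hk₃0, one_pow]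
  have hgen : ∃ a : F, ∀ s : F, s ≠ 0 → ∃ n : ℕ, s = (k₁.eval a) ^ n := by
    refine ⟨0, fun s hs => ?_⟩
    obtain ⟨n, hn⟩ := h.gen_w s hs
    refine ⟨n, ?_⟩
    rw [hk₁, Qd_eval]
    simpa using hn
  rcases Nat.even_or_odd m with ⟨n₀, hn₀⟩ | ⟨n₀, hn₀⟩
  · -- even dimension
    obtain ⟨n, rfl⟩ : ∃ n, n₀ = n + 2 := ⟨n₀ - 2, by omega⟩
    refine ⟨k₂ * k₃ ^ n, k₁, (Qd_monic _ _).mul (hk₃m.pow n), ?_, ?_, Qd_monic _ _, Qd_natDegree _ _, hd.r1,
      hd.c12.mul_right hd.c13.pow_right, hgen, ⟨?_, ?_, ?_⟩, ?_⟩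
    · rw [(Qd_monic _ _).natDegree_mul (hk₃m.pow n), hk₃m.natDegree_pow, hk₃d, Qd_natDegree]
      omega
    · rw [mul_coeff_zero, hk₃c0, mul_one, hk₂, Qd_coeff_zero]
      exact pow_ne_zero _ h.ne0
    · rw [mul_coeff_zero, mul_coeff_zero, hk₃c0, mul_one, hk₁, hk₂, Qd_coeff_zero, Qd_coeff_zero]
      exact mul_ne_zero h.ne0 (pow_ne_zero _ h.ne0)
    · rw [dag_mul₂, dag_mul₂, dag_pow]
      exact goodF_triple h11 h12 h13 h21 h22 h23 h31 h32 h33 n
    · exact (isCoprime_X_sub_one (hd.r1 1)).mul_left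
        ((isCoprime_X_sub_one (hd.r2 1)).mul_left (isCoprime_X_sub_one (hd.r3 1)).pow_left)
    · rw [mul_coeff_zero, mul_coeff_zero, hk₃c0, mul_one, hk₁, hk₂, Qd_coeff_zero, Qd_coeff_zero]
      linear_combination h.cube
  · -- odd dimension
    obtain ⟨n, rfl⟩ : ∃ n, n₀ = n + 2 := ⟨n₀ - 2, by omega⟩
    have hg3 := g3_rf h
    have hg3' := g3'_rf h
    have hd3 := g3_natDegree ω
    have hd3' := g3'_natDegree h.ne0
    have hrf1 : ∀ x, (Qd ((1 : F) ^ 2 * ω) ω).eval x ≠ 0 := h.rf (by grind)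
    have hrf3 : ∀ x, (Qd ((1 + 1 * ω) ^ 2 * 1) (1 : F)).eval x ≠ 0 := h.rf (by
      have := h.rel
      have := h.two
      grind)
    refine ⟨g3 ω * k₃ ^ n, k₁, (g3_monic ω).mul (hk₃m.pow n), ?_, ?_, Qd_monic _ _, Qd_natDegree _ _, hd.r1,
      (isCoprime_Qd_cubic hd.r1 hd3 hg3).mul_right hd.c13.pow_right, hgen, ⟨?_, ?_, ?_⟩, ?_⟩
    · rw [(g3_monic ω).natDegree_mul (hk₃m.pow n), hk₃m.natDegree_pow, hk₃d, hd3]
      omega
    · rw [mul_coeff_zero, hk₃c0, mul_one, g3_coeff_zero]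
      exact h.ne0'
    · rw [mul_coeff_zero, mul_coeff_zero, hk₃c0, mul_one, hk₁, Qd_coeff_zero, g3_coeff_zero]
      exact mul_ne_zero h.ne0 h.ne0'
    · rw [dag_mul₂, dag_mul₂, dag_pow, dag_g3 hF h]
      refine goodF_triple h11 (isCoprime_Qd_cubic hd.r1 hd3' hg3') h13 ?_ (g3_coprime h) ?_ h31
        (isCoprime_Qd_cubic hd.r3 hd3' hg3') h33 n
      · rw [hk₁, dag_Qd hF _ _ h.cube]
        exact (isCoprime_C _ (pow_ne_zero _ h.ne0)).mul_right (isCoprime_Qd_cubic hrf1 hd3 hg3).symm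
      · rw [hk₃, dag_Qd hF _ _ (one_pow 3)]
        exact (isCoprime_C _ (pow_ne_zero _ one_ne_zero)).mul_right (isCoprime_Qd_cubic hrf3 hd3 hg3).symm
    · exact (isCoprime_X_sub_one (hd.r1 1)).mul_left
        ((isCoprime_X_sub_one (hg3 1)).mul_left (isCoprime_X_sub_one (hd.r3 1)).pow_left)
    · rw [mul_coeff_zero, mul_coeff_zero, hk₃c0, mul_one, hk₁, Qd_coeff_zero, g3_coeff_zero]
      linear_combination h.rel - h.two

end Large

section EType

variable {V : Type v} [AddCommGroup V] [Module F V] [FiniteDimensional F V]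

/-- The determinant in the exceptional case. -/
theorem det_E {u₀ v₀ : F} (hr : ∀ x, (Qd u₀ v₀).eval x ≠ 0) :
    ∀ (n : ℕ) (V : Type v) [AddCommGroup V] [Module F V] [FiniteDimensional F V], finrank F V = n →
      ∀ T : V →ₗ[F] V, aeval T (Qd u₀ v₀) = 0 → ∃ l, n = 2 * l ∧ LinearMap.det T = v₀ ^ l := by
  intro n
  induction n using Nat.strong_induction_on with
  | _ n ih =>
    intro V _ _ _ hn T hT
    rcases subsingleton_or_nontrivial V with hV | hV
    · refine ⟨0, ?_, ?_⟩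
      · rw [← hn]
        simp [finrank_zero_of_subsingleton]
      · have : T = LinearMap.id := LinearMap.ext fun x => Subsingleton.elim _ _
        rw [this, LinearMap.det_id, pow_zero]
    obtain ⟨W₁, W₂, h₁, h₂, hc, hfr, hT₁, hT₂⟩ := exists_block (Qd_monic _ _) (Qd_natDegree _ _) hr T hT
    have hdim : finrank F W₁ + finrank F W₂ = finrank F V := Submodule.finrank_add_eq_of_isCompl hc
    obtain ⟨l, hl, hdl⟩ := ih (finrank F W₁) (by omega) W₁ rfl _ hT₁
    obtain ⟨z, hz⟩ := exists_isCyc_of_two (Qd_monic _ _) (Qd_natDegree _ _) hr _ hT₂ hfr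
    have hd₂ : LinearMap.det (T.restrict h₂) = v₀ := by
      rw [hz.det_eq, hfr, Qd_coeff_zero]
      ring
    refine ⟨l + 1, by omega, ?_⟩
    let e : (W₁ × W₂) ≃ₗ[F] V := Submodule.prodEquivOfIsCompl W₁ W₂ hc
    have h1 : T = (e : (W₁ × W₂) →ₗ[F] V) ∘ₗ ((T.restrict h₁).prodMap (T.restrict h₂)) ∘ₗ
        (e.symm : V →ₗ[F] (W₁ × W₂)) := by
      refine LinearMap.ext fun x => ?_
      obtain ⟨y, rfl⟩ := e.surjective x
      obtain ⟨y₁, y₂⟩ := y
      simp only [LinearMap.comp_apply, LinearEquiv.coe_coe, LinearEquiv.symm_apply_apply]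
      change T ((y₁ : V) + (y₂ : V)) = ((T.restrict h₁ y₁ : W₁) : V) + ((T.restrict h₂ y₂ : W₂) : V)
      rw [map_add]
      rfl
    rw [h1, LinearMap.det_conj, LinearMap.det_prodMap, hdl, hd₂, pow_succ]

/-- The exceptional case. -/
theorem fac_E_type [Fintype F] (hF : Fintype.card F = 2 ^ 2) {ω : F} (h : F4 ω) (T : V →ₗ[F] V) {u₀ v₀ : F}
    (hr : ∀ x, (Qd u₀ v₀).eval x ≠ 0) (hT : aeval T (Qd u₀ v₀) = 0) (hdet : LinearMap.det T = 1) :
    ∃ f : F[X], GoodF hF f ∧ FacP f T := by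
  have h2 := h.two
  have hrel := h.rel
  have h1 : (1 : F) ≠ 0 := one_ne_zero
  have h3 := h.ne0
  have h4 := h.ne1
  have h5 := h.ne0'
  have hs := h.sq
  have hcu := h.cube
  have hE2 : ∀ {u v : F}, ((u = 1 ∧ v = ω) ∨ (u = 1 ∧ v = ω + 1) ∨ (u = ω ∧ v = ω) ∨ (u = ω + 1 ∧ v = ω + 1)) →
      aeval T (Qd u v) = 0 → ∃ f : F[X], GoodF hF f ∧ FacP f T := by
    intro u v hc hT'
    obtain ⟨hd, hg⟩ := h.e2 hc
    obtain ⟨l, hl, hdl⟩ := det_E hd.r1 _ V rfl T hT'
    rw [hdet] at hdl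
    have hv3 := hd.v3
    have hvv := hd.ne1
    have hv2 := hd.v2ne
    have h6 : 6 ∣ finrank F V := by
      have h7 : l % 3 = 0 := by
        have h8 : v ^ (l % 3) = 1 := by
          conv_rhs => rw [hdl]
          conv_rhs => rw [← Nat.div_add_mod l 3, pow_add, pow_mul, hv3, one_pow, one_mul]
        have h9 : l % 3 < 3 := Nat.mod_lt _ (by omega)
        by_contra h10
        have h11 : l % 3 = 1 ∨ l % 3 = 2 := by omega
        rcases h11 with h11 | h11
        · rw [h11, pow_one] at h8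
          exact hvv h8
        · rw [h11] at h8
          exact hv2 h8
      omega
    exact ⟨_, goodF_fE2 hF hd hg, fac_E2 hd _ V rfl h6 T hT'⟩
  rcases h.classify hr with ⟨hu, rfl⟩ | ⟨rfl, rfl⟩ | hc | hc | hc | hc
  · -- `t = ω`
    obtain rfl := hu.symm
    have hrf : ∀ x, (Qd (ω ^ 2) (1 : F)).eval x ≠ 0 := h.rf (by grind)
    refine ⟨_, goodF_E1 hF hrf (by grind), fac_E1 h2 hrel hr hrf ⟨1, ?_⟩ _ V rfl T hT⟩
    have e : (Qd (ω ^ 2) (1 : F)).eval 1 = ω + 1 := by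
      rw [Qd_eval]
      grind
    rw [e]
    exact h.gen_w'
  · -- `t = ω + 1`
    have hrel' : (ω + 1) ^ 2 + (ω + 1) + 1 = 0 := by grind
    have hrf : ∀ x, (Qd ((ω + 1) ^ 2) (1 : F)).eval x ≠ 0 := h.rf (by grind)
    refine ⟨_, goodF_E1 hF hrf (by grind), fac_E1 h2 hrel' hr hrf ⟨1, ?_⟩ _ V rfl T hT⟩
    have e : (Qd ((ω + 1) ^ 2) (1 : F)).eval 1 = ω := by
      rw [Qd_eval]
      grind
    rw [e]
    exact h.gen_w
  · exact hE2 (Or.inl hc) hT
  · exact hE2 (Or.inr (Or.inl hc)) hT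
  · exact hE2 (Or.inr (Or.inr (Or.inl hc))) hT
  · exact hE2 (Or.inr (Or.inr (Or.inr hc))) hT

/-- The identity. -/
theorem facP_id {f : F[X]} (hf : f.Monic) (hfd : f.natDegree = finrank F V)
    (hf0 : (-1) ^ finrank F V * f.coeff 0 = 1) : FacP f (LinearMap.id : V →ₗ[F] V) := by
  have hne : f ≠ 0 := hf.ne_zero
  haveI := Q_finite_of_ne hne
  have hc := isCyc_model f hf
  have hfr : finrank F (Q f) = finrank F V := by rw [finrank_Q, hfd]
  have h1 : FacP f (LinearMap.id : Q f →ₗ[F] Q f) := by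
    refine ⟨mulF (Q f) (X : F[X]), mulF (Q f) (X : F[X]), LinearEquiv.refl F (Q f), fun x => rfl, hc.aeval_eq_zero, hc.aeval_eq_zero, ?_, fun x => rfl, ?_⟩
    · change LinearMap.det LinearMap.id = 1
      rw [LinearMap.det_id]
    · rw [hc.det_eq, hfr]
      exact hf0
  exact h1.of_conj (LinearEquiv.ofFinrankEq (Q f) V hfr) (fun x => rfl)

end EType

end Cfsg.Agent.Lib.OreU
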