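import Mathlib
import Cfsg.Agent.Lib.OreU.LevTwoPoly

/-!
# The factorization over the field with four elements in dimension at least four
-/

set_option autoImplicit false
set_option linter.unusedSectionVars false
set_option linter.unusedVariables false
set_option linter.style.haveILetI false

open Polynomial Module

namespace Cfsg.Agent.Lib.OreU

open Cfsg.Agent.Lib.Linalg.Lev Cfsg.Agent.Lib.Linalg.RCF

universe u v

variable {F : Type u} [Field F]

section Linear

variable {V : Type v} [AddCommGroup V] [Module F V] [FiniteDimensional F V]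

theorem exists_functional_one {ξ : V →ₗ[F] F} (hξ : ξ ≠ 0) : ∃ v₁, ξ v₁ = 1 := by
  by_contra hcon
  push Not at hcon
  apply hξ
  refine LinearMap.ext fun x => ?_
  by_contra hx
  apply hcon ((ξ x)⁻¹ • x)
  rw [map_smul, smul_eq_mul, inv_mul_cancel₀ hx]

/-- The situation with an eigenvalue. -/
theorem fac_with_eigenvalue {t : F} (ht0 : t ≠ 0) (ht1 : t ≠ 1) (T : V ≃ₗ[F] V)
    (hdetT : LinearMap.det (T : V →ₗ[F] V) = 1) (hV : 4 ≤ finrank F V) (hns : ¬ ∃ a : F, ∀ x, T x = a • x)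
    (a : F) (ha : ¬ Function.Surjective ((T : V →ₗ[F] V) - a • (LinearMap.id : V →ₗ[F] V)))
    (p k : F[X]) (hp : p.Monic) (hpd : p.natDegree + 2 = finrank F V) (hp0 : p.coeff 0 ≠ 0)
    (hk : k.Monic) (hkd : k.natDegree = 2) (hkr : ∀ a, k.eval a ≠ 0) (hkp : IsCoprime k p)
    (hgen' : ∃ a : F, ∀ s : F, s ≠ 0 → ∃ n : ℕ, s = (k.eval a) ^ n) :
    ∃ (B D : V →ₗ[F] V) (G : V ≃ₗ[F] V) (z : V), (∀ x, B x = T (D x)) ∧ IsCyc B (k * p) z ∧
      aeval D (k * p) = 0 ∧ LinearMap.det (G : V →ₗ[F] V) = 1 ∧ ∀ x, G (D x) = B (G x) := by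
  classical
  have hrange : LinearMap.range ((T : V →ₗ[F] V) - a • (LinearMap.id : V →ₗ[F] V)) < ⊤ :=
    lt_top_iff_ne_top.2 (fun h => ha (LinearMap.range_eq_top.1 h))
  obtain ⟨ξ, hξ0, hξr⟩ := Submodule.exists_le_ker_of_lt_top _ hrange
  have hξT : ∀ x, ξ (T x) = a * ξ x := by
    intro x
    have h1 : ξ (((T : V →ₗ[F] V) - a • (LinearMap.id : V →ₗ[F] V)) x) = 0 := hξr ⟨x, rfl⟩
    have h2 : ((T : V →ₗ[F] V) - a • (LinearMap.id : V →ₗ[F] V)) x = T x - a • x := rfl
    rw [h2, map_sub, map_smul, smul_eq_mul, sub_eq_zero] at h1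
    exact h1
  obtain ⟨v₁, hv₁⟩ := exists_functional_one hξ0
  have hinv : ∀ x, ξ x = 0 → ξ (T x) = 0 := fun x hx => by rw [hξT, hx, mul_zero]
  by_cases hsc : ∃ b : F, ∀ x, ξ x = 0 → T x = b • x
  · obtain ⟨b, hb⟩ := hsc
    set y : V := T v₁ - b • v₁ with hy
    have hTx : ∀ x, T x = b • x + ξ x • y := by
      intro x
      have h1 := hb (x - ξ x • v₁) (by rw [map_sub, map_smul, hv₁, smul_eq_mul, mul_one, sub_self])
      rw [map_sub, map_smul, sub_eq_iff_eq_add] at h1
      rw [h1, hy, smul_sub, smul_sub, smul_smul, smul_smul, mul_comm b]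
      abel
    -- a second functional
    have hS : Submodule.span F (Set.range ![y, v₁]) < ⊤ := by
      rw [lt_top_iff_ne_top]
      intro htop
      have h1 := finrank_range_le_card (R := F) ![y, v₁]
      rw [Set.finrank, htop, finrank_top] at h1
      simp at h1
      omega
    obtain ⟨ξ', hξ'0, hξ'r⟩ := Submodule.exists_le_ker_of_lt_top _ hS
    have hξ'y : ξ' y = 0 := hξ'r (Submodule.subset_span ⟨0, rfl⟩)
    have hξ'v : ξ' v₁ = 0 := hξ'r (Submodule.subset_span ⟨1, rfl⟩)
    obtain ⟨v₂, hv₂⟩ := exists_functional_one hξ'0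
    have hinv' : ∀ x, ξ' x = 0 → ξ' (T x) = 0 := by
      intro x hx
      rw [hTx, map_add, map_smul, map_smul, hx, hξ'y]
      simp
    have hns' : ¬ ∃ a' : F, ∀ x, ξ' x = 0 → T x = a' • x := by
      rintro ⟨a', ha'⟩
      let q : V →ₗ[F] (Fin 2 → F) := LinearMap.pi ![ξ, ξ']
      have hker : LinearMap.ker q ≠ ⊥ := LinearMap.ker_ne_bot_of_finrank_lt (by simp; omega)
      obtain ⟨x₂, hx₂, hx₂0⟩ := Submodule.exists_mem_ne_zero_of_ne_bot hker
      have hx₂' : q x₂ = 0 := hx₂
      have h1 : ξ x₂ = 0 := congrFun hx₂' 0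
      have h2 : ξ' x₂ = 0 := congrFun hx₂' 1
      have h3 : b • x₂ = a' • x₂ := by rw [← hb x₂ h1, ha' x₂ h2]
      have h4 : b = a' := by
        have h5 : (b - a') • x₂ = 0 := by rw [sub_smul, h3, sub_self]
        exact sub_eq_zero.1 ((smul_eq_zero.1 h5).resolve_right hx₂0)
      have h6 : y = 0 := by
        rw [hy, ha' v₁ hξ'v, h4, sub_self]
      apply hns
      refine ⟨b, fun x => ?_⟩
      rw [hTx, h6, smul_zero, add_zero]
    exact fac_case_b ht0 ht1 T hdetT ξ' v₂ hv₂ hinv' hns' (by omega) p k hp hpd hp0 hk hkd hkr hkp hgen'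
  · exact fac_case_b ht0 ht1 T hdetT ξ v₁ hv₁ hinv hsc (by omega) p k hp hpd hp0 hk hkd hkr hkp hgen'

/-- A polynomial of small degree does not vanish in the quotient. -/
theorem mk_ne_zero_of_natDegree_lt {h r : F[X]} (hr : r ≠ 0) (hlt : r.natDegree < h.natDegree) :
    (Submodule.Quotient.mk r : Q h) ≠ 0 := by
  intro h0
  rw [Submodule.Quotient.mk_eq_zero, Submodule.mem_span_singleton] at h0
  obtain ⟨a, ha⟩ := h0
  rw [smul_eq_mul] at ha
  have ha0 : a ≠ 0 := by
    rintro rfl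
    rw [zero_mul] at ha
    exact hr ha.symm
  have hh0 : h ≠ 0 := by
    rintro rfl
    simp at hlt
  rw [← ha, natDegree_mul ha0 hh0] at hlt
  omega

theorem mk_self_eq_zero {h : F[X]} (r : F[X]) : (Submodule.Quotient.mk (h * r) : Q h) = 0 := by
  rw [Submodule.Quotient.mk_eq_zero, Submodule.mem_span_singleton]
  exact ⟨r, by rw [smul_eq_mul, mul_comm]⟩

/-- Two different blocks. -/
theorem fac_merged {t : F} (ht0 : t ≠ 0) (ht1 : t ≠ 1) (T : V ≃ₗ[F] V)
    (hdetT : LinearMap.det (T : V →ₗ[F] V) = 1) {n : ℕ} {c : Fin n → F[X] × ℕ} (g : V ≃ₗ[F] Model c)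
    (hc : ∀ i, Adm (c i)) (hg : ∀ v, g ((T : V →ₗ[F] V) v) = (X : F[X]) • g v) (i j : Fin n) (hij : i ≠ j)
    (hcop : IsCoprime ((c i).1 ^ (c i).2) ((c j).1 ^ (c j).2))
    (hi2 : 2 ≤ ((c i).1 ^ (c i).2).natDegree) (hj2 : 2 ≤ ((c j).1 ^ (c j).2).natDegree)
    (p k : F[X]) (hp : p.Monic) (hpd : p.natDegree + 2 = finrank F V) (hp0 : p.coeff 0 ≠ 0)
    (hk : k.Monic) (hkd : k.natDegree = 2) (hkr : ∀ a, k.eval a ≠ 0) (hkp : IsCoprime k p)
    (hgen' : ∃ a : F, ∀ s : F, s ≠ 0 → ∃ n : ℕ, s = (k.eval a) ^ n) :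
    ∃ (B D : V →ₗ[F] V) (G : V ≃ₗ[F] V) (z : V), (∀ x, B x = T (D x)) ∧ IsCyc B (k * p) z ∧
      aeval D (k * p) = 0 ∧ LinearMap.det (G : V →ₗ[F] V) = 1 ∧ ∀ x, G (D x) = B (G x) := by
  classical
  let S : Set (Fin n) := {i, j}
  let z : V := unitV g i + unitV g j
  have hzi : ∀ f : F[X], g (aeval (T : V →ₗ[F] V) f z) i = Submodule.Quotient.mk f := by
    intro f
    rw [aeval_unitV_apply g _ hg, map_add, Pi.add_apply, map_unitV, map_unitV, Pi.single_eq_same,
      Pi.single_eq_of_ne hij, add_zero, smul_mk_one]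
  have hzj : ∀ f : F[X], g (aeval (T : V →ₗ[F] V) f z) j = Submodule.Quotient.mk f := by
    intro f
    rw [aeval_unitV_apply g _ hg, map_add, Pi.add_apply, map_unitV, map_unitV, Pi.single_eq_same,
      Pi.single_eq_of_ne hij.symm, zero_add, smul_mk_one]
  have hzl : ∀ (f : F[X]) a, a ∉ S → g (aeval (T : V →ₗ[F] V) f z) a = 0 := by
    intro f a ha
    have h1 : a ≠ i := fun h => ha (Or.inl h)
    have h2 : a ≠ j := fun h => ha (Or.inr h)
    rw [aeval_unitV_apply g _ hg, map_add, Pi.add_apply, map_unitV, map_unitV, Pi.single_eq_of_ne h1,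
      Pi.single_eq_of_ne h2, add_zero, smul_zero]
  have hzS : z ∈ supp g S := by
    have h1 := hzl 1
    simpa [mem_supp] using h1
  have hU3 : 3 ≤ finrank F (supp g S) := by
    have hi := finrank_single_block g hc i
    have hj := finrank_single_block g hc j
    have hsup : supp g {i} ⊔ supp g {j} ≤ supp g S := by
      apply sup_le
      · intro x hx a ha
        exact hx a (fun h => ha (Or.inl h))
      · intro x hx a ha
        exact hx a (fun h => ha (Or.inr h))
    have hinf : supp g {i} ⊓ supp g {j} = ⊥ := by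
      rw [eq_bot_iff]
      intro x hx
      have h0 : g x = 0 := by
        funext l
        by_cases hl : l = i
        · subst hl
          exact hx.2 l (by simpa using hij)
        · exact hx.1 l (by simpa using hl)
      simpa using h0
    have h1 := Submodule.finrank_sup_add_finrank_inf_eq (supp g {i}) (supp g {j})
    rw [hinf, finrank_bot, add_zero, hi, hj] at h1
    have h2 := Submodule.finrank_mono hsup
    omega
  refine fac_case_a ht0 ht1 T hdetT (supp g Sᶜ) (supp g S) (isCompl_supp g S) (supp_invariant g _ hg _)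
    (supp_invariant g _ hg _) hU3 z hzS ?_ p k hp hpd hp0 hk hkd hkr hkp hgen'
  intro x hx
  obtain ⟨ri, hri⟩ := Submodule.Quotient.mk_surjective _ (g x i)
  obtain ⟨rj, hrj⟩ := Submodule.Quotient.mk_surjective _ (g x j)
  obtain ⟨a, b, hab⟩ := hcop
  refine ⟨ri * b * ((c j).1 ^ (c j).2) + rj * a * ((c i).1 ^ (c i).2), g.injective ?_⟩
  funext m
  by_cases hmS : m ∈ S
  · rcases hmS with hm | hm
    · have hm' : m = i := hm
      subst hm'
      rw [hzi, ← hri, ← sub_eq_zero, ← Submodule.Quotient.mk_sub]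
      have : ri * b * ((c j).1 ^ (c j).2) + rj * a * ((c m).1 ^ (c m).2) - ri =
          ((c m).1 ^ (c m).2) * (rj * a - ri * a) := by
        linear_combination ri * hab
      rw [this]
      exact mk_self_eq_zero _
    · have hm' : m = j := hm
      subst hm'
      rw [hzj, ← hrj, ← sub_eq_zero, ← Submodule.Quotient.mk_sub]
      have : ri * b * ((c m).1 ^ (c m).2) + rj * a * ((c i).1 ^ (c i).2) - rj =
          ((c m).1 ^ (c m).2) * (ri * b - rj * b) := by
        linear_combination rj * hab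
      rw [this]
      exact mk_self_eq_zero _
  · rw [hzl _ _ hmS, hx m hmS]

end Linear

section Final

variable [Fintype F] (hF : Fintype.card F = 2 ^ 2) {ω : F} (h : F4 ω)
variable {V : Type v} [AddCommGroup V] [Module F V] [FiniteDimensional F V]

include h

/-- Non-scalar elements. -/
theorem fac_linear (T : V ≃ₗ[F] V) (hdetT : LinearMap.det (T : V →ₗ[F] V) = 1) (hV : 4 ≤ finrank F V)
    (hns : ¬ ∃ a : F, ∀ x, T x = a • x) : ∃ f : F[X], GoodF hF f ∧ FacP f (T : V →ₗ[F] V) := by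
  classical
  obtain ⟨p, k, hp, hpd, hp0, hk, hkd, hkr, hkp, hgen, hgood, hf1⟩ := exists_poly_large hF h _ hV
  have ht0 := h.ne0
  have ht1 := h.ne1
  have hneg : (-1 : F) = 1 := by linear_combination (-1 : F) * h.two
  have conv : (∃ (B D : V →ₗ[F] V) (G : V ≃ₗ[F] V) (z : V), (∀ x, B x = T (D x)) ∧ IsCyc B (k * p) z ∧
      aeval D (k * p) = 0 ∧ LinearMap.det (G : V →ₗ[F] V) = 1 ∧ ∀ x, G (D x) = B (G x)) →
      ∃ f : F[X], GoodF hF f ∧ FacP f (T : V →ₗ[F] V) := by
    rintro ⟨B, D, G, z, h1, h2, h3, h4, h5⟩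
    refine ⟨k * p, hgood, B, D, G, h1, h2.aeval_eq_zero, h3, h4, h5, ?_⟩
    rw [h2.det_eq, hf1, hneg, one_pow, one_mul]
  by_cases hI : ∃ a : F, ¬ Function.Surjective ((T : V →ₗ[F] V) - a • (LinearMap.id : V →ₗ[F] V))
  · obtain ⟨a, ha⟩ := hI
    exact conv (fac_with_eigenvalue ht0 ht1 T hdetT hV hns a ha p k hp hpd hp0 hk hkd hkr hkp hgen)
  push Not at hI
  have hinj : ∀ (a : F) (x : V), T x = a • x → x = 0 := by
    intro a x hx
    have h1 : Function.Injective ((T : V →ₗ[F] V) - a • (LinearMap.id : V →ₗ[F] V)) :=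
      LinearMap.injective_iff_surjective.2 (hI a)
    apply h1
    rw [map_zero]
    change T x - a • x = 0
    rw [hx, sub_self]
  obtain ⟨n, c, g, hc, hg⟩ := exists_model (T : V →ₗ[F] V)
  by_cases hA : ∃ i, 3 ≤ ((c i).1 ^ (c i).2).natDegree
  · obtain ⟨i, hi⟩ := hA
    obtain ⟨h1, h2⟩ := single_block g _ hg i
    exact conv (fac_case_a ht0 ht1 T hdetT (supp g {i}ᶜ) (supp g {i}) (isCompl_supp g {i})
      (supp_invariant g _ hg _) (supp_invariant g _ hg _) (by rw [finrank_single_block g hc]; exact hi)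
      (unitV g i) h1 h2 p k hp hpd hp0 hk hkd hkr hkp hgen)
  push Not at hA
  have hmonic : ∀ i, ((c i).1 ^ (c i).2).Monic := fun i => (hc i).1.pow _
  -- no roots
  have hroot : ∀ i (a : F), ((c i).1 ^ (c i).2).eval a ≠ 0 := by
    intro i a h0
    obtain ⟨r, hr⟩ := dvd_iff_isRoot.2 h0
    have hne := adm_ne_zero (hc i)
    have hr0 : r ≠ 0 := by
      rintro rfl
      rw [mul_zero] at hr
      exact hne hr
    have hdeg : r.natDegree < ((c i).1 ^ (c i).2).natDegree := by
      rw [hr, natDegree_mul (X_sub_C_ne_zero a) hr0, natDegree_X_sub_C]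
      omega
    have hkill : aeval (T : V →ₗ[F] V) ((c i).1 ^ (c i).2) (unitV g i) = 0 := by
      apply g.injective
      rw [map_zero]
      funext l
      rw [aeval_unitV_apply g _ hg, map_unitV]
      by_cases hl : l = i
      · subst hl
        rw [Pi.single_eq_same, smul_mk_one]
        have := mk_self_eq_zero (h := (c l).1 ^ (c l).2) 1
        rwa [mul_one] at this
      · rw [Pi.single_eq_of_ne hl, smul_zero]
        rfl
    set x := aeval (T : V →ₗ[F] V) r (unitV g i) with hx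
    have hTx : T x = a • x := by
      have h1 : aeval (T : V →ₗ[F] V) (X - C a : F[X]) x = 0 := by
        rw [hx, aeval_comm_apply, ← hr, hkill]
      rw [map_sub, aeval_X, aeval_C, LinearMap.sub_apply, sub_eq_zero] at h1
      exact h1
    have hx0 := hinj a x hTx
    have h1 : g x i = Submodule.Quotient.mk r := by
      rw [hx, aeval_unitV_apply g _ hg, map_unitV, Pi.single_eq_same, smul_mk_one]
    rw [hx0, map_zero] at h1
    exact mk_ne_zero_of_natDegree_lt hr0 hdeg h1.symm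
  have hdeg2 : ∀ i, ((c i).1 ^ (c i).2).natDegree = 2 := by
    intro i
    have h1 := hA i
    have h2 := adm_natDegree_pos (hc i)
    by_contra h3
    have h4 : ((c i).1 ^ (c i).2).natDegree = 1 := by omega
    have hd1 : ((c i).1 ^ (c i).2).degree = 1 := by
      rw [degree_eq_natDegree (adm_ne_zero (hc i)), h4]
      rfl
    obtain ⟨x, hx⟩ := exists_root_of_degree_eq_one hd1
    exact hroot i x hx
  have hQd : ∀ i, (c i).1 ^ (c i).2 = Qd (((c i).1 ^ (c i).2).coeff 1) (((c i).1 ^ (c i).2).coeff 0) :=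
    fun i => eq_quadratic (hmonic i) (hdeg2 i)
  have hrQ : ∀ i x, (Qd (((c i).1 ^ (c i).2).coeff 1) (((c i).1 ^ (c i).2).coeff 0)).eval x ≠ 0 := by
    intro i x
    rw [← hQd i]
    exact hroot i x
  by_cases hB : ∃ i j, (c i).1 ^ (c i).2 ≠ (c j).1 ^ (c j).2
  · obtain ⟨i, j, hij⟩ := hB
    have hne : i ≠ j := fun h0 => hij (by rw [h0])
    have hcop : IsCoprime ((c i).1 ^ (c i).2) ((c j).1 ^ (c j).2) := by
      have h1 := isCoprime_Qd (a := ((c i).1 ^ (c i).2).coeff 1) (b := ((c i).1 ^ (c i).2).coeff 0)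
        (c := ((c j).1 ^ (c j).2).coeff 1) (d := ((c j).1 ^ (c j).2).coeff 0) (hrQ i) (by
          by_contra hcon
          push Not at hcon
          apply hij
          rw [hQd i, hQd j, hcon.1, hcon.2])
      rwa [← hQd i, ← hQd j] at h1
    exact conv (fac_merged ht0 ht1 T hdetT g hc hg i j hne hcop (by rw [hdeg2]) (by rw [hdeg2]) p k hp hpd hp0
      hk hkd hkr hkp hgen)
  push Not at hB
  have hn : 0 < n := by
    by_contra h0
    have h1 : n = 0 := by omega
    subst h1
    have hs : Subsingleton V := ⟨fun a b => g.injective (Subsingleton.elim _ _)⟩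
    have := finrank_zero_of_subsingleton (R := F) (M := V)
    omega
  let i₀ : Fin n := ⟨0, hn⟩
  have hT₀ : aeval (T : V →ₗ[F] V) ((c i₀).1 ^ (c i₀).2) = 0 := by
    refine LinearMap.ext fun x => ?_
    apply g.injective
    rw [LinearMap.zero_apply, map_zero]
    funext l
    rw [aeval_unitV_apply g _ hg]
    obtain ⟨r, hr⟩ := Submodule.Quotient.mk_surjective _ (g x l)
    rw [← hr, ← Submodule.Quotient.mk_smul, smul_eq_mul, hB i₀ l]
    exact mk_self_eq_zero r
  rw [hQd i₀] at hT₀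
  exact fac_E_type hF h _ (hrQ i₀) hT₀ hdetT

end Final

end Cfsg.Agent.Lib.OreU
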