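import Mathlib
import Cfsg.Agent.Lib.OreU.LevTwoMain

/-!
# `Fac 2 T` in dimension at least four
-/

set_option autoImplicit false
set_option linter.unusedSectionVars false
set_option linter.unusedVariables false
set_option linter.style.haveILetI false

open Polynomial Module Matrix

namespace Cfsg.Agent.Lib.OreU

open Cfsg.Agent.Lib.Linalg.Lev

theorem fac_two_large {F : Type*} [Field F] [Fintype F] {m : ℕ} (hF : Fintype.card F = 2 ^ 2) (hm : 4 ≤ m)
    (T : GL (Fin m) F) (hdet : (T : Matrix (Fin m) (Fin m) F).det = 1)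
    (hT : T = 1 ∨ ¬ ∃ a : F, (T : Matrix (Fin m) (Fin m) F) = a • 1) : Fac 2 T := by
  classical
  obtain ⟨ω, h⟩ := exists_F4 hF
  set AA : Matrix (Fin m) (Fin m) F := (T : Matrix (Fin m) (Fin m) F) with hAA
  have hinj : Function.Injective (Matrix.toLin' AA) := by
    intro x y hxy
    have h1 : AA *ᵥ x = AA *ᵥ y := by simpa using hxy
    have h3 := congrArg (fun v => ((T⁻¹ : GL (Fin m) F) : Matrix (Fin m) (Fin m) F) *ᵥ v) h1
    simpa [mulVec_mulVec, hAA] using h3
  have hfr : finrank F (Fin m → F) = m := by simp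
  have hdetl : LinearMap.det (Matrix.toLin' AA) = 1 := by rw [LinearMap.det_toLin', hdet]
  have hmain : ∃ f : F[X], GoodF hF f ∧ FacP f (Matrix.toLin' AA) := by
    rcases hT with rfl | hns
    · obtain ⟨p, k, hp, hpd, hp0, hk, hkd, hkr, hkp, hgen, hgood, hf1⟩ := exists_poly_large hF h m hm
      refine ⟨k * p, hgood, ?_⟩
      have h1 : Matrix.toLin' AA = LinearMap.id := by
        rw [hAA]
        simp
      rw [h1]
      have hneg : (-1 : F) = 1 := by linear_combination (-1 : F) * h.two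
      refine facP_id (hk.mul hp) ?_ ?_
      · rw [hk.natDegree_mul hp, hkd, hfr]
        omega
      · rw [hf1, hneg, one_pow, one_mul]
    · let Te : (Fin m → F) ≃ₗ[F] (Fin m → F) := LinearEquiv.ofInjectiveEndo (Matrix.toLin' AA) hinj
      have hTe : (Te : (Fin m → F) →ₗ[F] (Fin m → F)) = Matrix.toLin' AA := rfl
      have := fac_linear hF h Te (by rw [hTe]; exact hdetl) (by rw [hfr]; exact hm) (by
        rintro ⟨a, ha⟩
        apply hns
        refine ⟨a, ?_⟩
        apply Matrix.ext_of_mulVec_single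
        intro j
        have := ha (Pi.single j 1)
        change (Matrix.toLin' AA) (Pi.single j 1) = _ at this
        rw [Matrix.toLin'_apply] at this
        rw [this, smul_mulVec, one_mulVec])
      rwa [hTe] at this
  obtain ⟨f, hgood, B', D', G', hBD, hB, hD, hG, hGD, hdB⟩ := hmain
  have hdD : LinearMap.det D' = 1 := by
    have h3 : B' = Matrix.toLin' AA ∘ₗ D' := LinearMap.ext hBD
    rw [h3, LinearMap.det_comp, hdetl, one_mul] at hdB
    exact hdB
  have h10 : (1 : F) ≠ 0 := one_ne_zero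
  have hGdet : (LinearMap.toMatrix' (G' : (Fin m → F) →ₗ[F] (Fin m → F))).det = 1 := by
    rw [LinearMap.det_toMatrix']
    exact hG
  have hBdet : (LinearMap.toMatrix' B').det = 1 := by rw [LinearMap.det_toMatrix']; exact hdB
  have hDdet : (LinearMap.toMatrix' D').det = 1 := by rw [LinearMap.det_toMatrix']; exact hdD
  let BB : GL (Fin m) F := Matrix.GeneralLinearGroup.mkOfDetNeZero _ (by rw [hBdet]; exact h10)
  let DD : GL (Fin m) F := Matrix.GeneralLinearGroup.mkOfDetNeZero _ (by rw [hDdet]; exact h10)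
  let GG : GL (Fin m) F := Matrix.GeneralLinearGroup.mkOfDetNeZero _ (by rw [hGdet]; exact h10)
  have hBB : (BB : Matrix (Fin m) (Fin m) F) = LinearMap.toMatrix' B' := rfl
  have hDD : (DD : Matrix (Fin m) (Fin m) F) = LinearMap.toMatrix' D' := rfl
  have hGG : (GG : Matrix (Fin m) (Fin m) F) = LinearMap.toMatrix' (G' : (Fin m → F) →ₗ[F] (Fin m → F)) := rfl
  have h1 : BB = T * DD := by
    apply Units.ext
    rw [Units.val_mul, hBB, hDD, ← hAA]
    have h3 : B' = Matrix.toLin' AA ∘ₗ D' := LinearMap.ext hBD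
    rw [h3, LinearMap.toMatrix'_comp, LinearMap.toMatrix'_toLin']
  have h3 : GG * DD = BB * GG := by
    apply Units.ext
    rw [Units.val_mul, Units.val_mul, hBB, hDD, hGG, ← LinearMap.toMatrix'_comp, ← LinearMap.toMatrix'_comp]
    congr 1
    exact LinearMap.ext hGD
  have haev : ∀ X' : (Fin m → F) →ₗ[F] (Fin m → F), aeval X' f = 0 →
      aeval (LinearMap.toMatrix' X') f = 0 := by
    intro X' hX'
    have h4 := Polynomial.aeval_algHom_apply (LinearMap.toMatrixAlgEquiv' : _ ≃ₐ[F] Matrix (Fin m) (Fin m) F).toAlgHom X' f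
    have h5 : ((LinearMap.toMatrixAlgEquiv' : _ ≃ₐ[F] Matrix (Fin m) (Fin m) F).toAlgHom) X' = LinearMap.toMatrix' X' := rfl
    rw [h5, hX'] at h4
    rw [h4]
    simp
  refine ⟨BB, DD, GG, ?_, ?_, hGdet, hBdet, ?_, ?_⟩
  · rw [h1, mul_inv_cancel_right]
  · rw [h3, mul_inv_cancel_right]
  · exact goodM_of_coprime hF BB f hgood.1 (by rw [hBB]; exact haev B' hB) hgood.2.1 hgood.2.2
  · exact goodM_of_coprime hF DD f hgood.1 (by rw [hDD]; exact haev D' hD) hgood.2.1 hgood.2.2

end Cfsg.Agent.Lib.OreU
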