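import Mathlib
import Cfsg.Agent.Lib.OreU.PosDefs
import Cfsg.Agent.Lib.OreU.PosSixTab

/-!
# Position lemma for `q = 2`, `m ≤ 3`, from a transvection

Over a field with four elements: if `d = 1 + y φ` is a transvection and `(c, e, d)` a row with `c ≠ 0`, an admissible
update gives `1` or a nonscalar matrix which is not of the form `1 + y' φ'`.  By the normal form `1 + E₀₁` of a
transvection and witness tables over `F₄` (`PosSixTab`).
-/

set_option autoImplicit false
set_option linter.unusedSectionVars false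
set_option linter.unusedSimpArgs false
set_option linter.unusedVariables false

namespace Cfsg.Agent.Lib.OreU.PosSix

open Matrix
open Cfsg.Agent.Lib.Compute.GF4
open Cfsg.Agent.Lib.Classical.Herm.Basic

section Good

variable {K L : Type*} [Field K] [Field L] {m : ℕ}

/-- The target property. -/
def Good (X : Matrix (Fin m) (Fin m) K) : Prop :=
  X.det = 1 ∧ (X = 1 ∨ ((¬ ∃ a : K, X = a • 1) ∧ ¬ ∃ u v : Fin m → K, X = 1 + vecMulVec u v))

theorem Good.conj {X P Q : Matrix (Fin m) (Fin m) K} (hPQ : P * Q = 1) (hQP : Q * P = 1)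
    (h : Good (Q * X * P)) : Good X := by
  have e : P * (Q * X * P) * Q = X := by
    calc P * (Q * X * P) * Q = (P * Q) * X * (P * Q) := by simp only [mul_assoc]
      _ = X := by rw [hPQ, one_mul, mul_one]
  obtain ⟨h1, h2⟩ := h
  refine ⟨?_, ?_⟩
  · rw [← h1, Matrix.det_mul, Matrix.det_mul, mul_comm Q.det, mul_assoc, ← Matrix.det_mul, hQP, Matrix.det_one,
      mul_one]
  · rcases h2 with h2 | ⟨h2, h3⟩
    · left
      rw [← e, h2, mul_one, hPQ]
    · right
      refine ⟨?_, ?_⟩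
      · rintro ⟨a, ha⟩
        apply h2
        refine ⟨a, ?_⟩
        rw [ha, Matrix.mul_smul, Matrix.smul_mul, mul_one, hQP]
      · rintro ⟨u, v, huv⟩
        apply h3
        refine ⟨Q *ᵥ u, v ᵥ* P, ?_⟩
        rw [huv, mul_add, add_mul, mul_one, hQP, mul_vecMulVec, vecMulVec_mul]

theorem Good.of_map (e : K ≃+* L) {X : Matrix (Fin m) (Fin m) K} (h : Good (X.map e)) : Good X := by
  have hinj : Function.Injective (fun A : Matrix (Fin m) (Fin m) K => A.map e) := by
    intro A B hAB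
    ext i j
    exact e.injective (by simpa using congrFun (congrFun hAB i) j)
  have hone : (1 : Matrix (Fin m) (Fin m) K).map e = 1 := by
    ext i j
    simp [Matrix.one_apply, apply_ite e]
  obtain ⟨h1, h2⟩ := h
  refine ⟨?_, ?_⟩
  · have : e X.det = 1 := by
      rw [← h1]
      exact RingHom.map_det (e : K →+* L) X
    exact e.injective (by rw [this, map_one])
  · rcases h2 with h2 | ⟨h2, h3⟩
    · left
      exact hinj (by simp only [h2, hone])
    · right
      refine ⟨?_, ?_⟩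
      · rintro ⟨a, ha⟩
        apply h2
        refine ⟨e a, ?_⟩
        ext i j
        rw [ha]
        simp [Matrix.smul_apply, Matrix.one_apply, apply_ite e]
      · rintro ⟨u, v, huv⟩
        apply h3
        refine ⟨fun i => e (u i), fun i => e (v i), ?_⟩
        ext i j
        rw [huv]
        simp [Matrix.add_apply, Matrix.one_apply, apply_ite e, vecMulVec_apply]

/-- The normal form of a transvection. -/
def E (m : ℕ) (K : Type*) [Field K] : Matrix (Fin m) (Fin m) K :=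
  of fun i j => if i = j then 1 else if i.val = 0 ∧ j.val = 1 then 1 else 0

theorem E_map (e : K ≃+* L) : (E m K).map e = E m L := by
  ext i j
  simp only [E, Matrix.map_apply, of_apply]
  split_ifs <;> simp

/-- The statement in normal form. -/
def NF (m : ℕ) (K : Type*) [Field K] : Prop :=
  ∀ (y : Fin m → K) (s₁ : Matrix (Fin m) (Fin m) K), (∀ i j, s₁ i j + s₁ j i ^ 2 + y i * y j ^ 2 = 0) → s₁ ≠ 0 →
    ∃ (f : Fin m → K) (s : Matrix (Fin m) (Fin m) K), (y = 0 → f = 0) ∧
      (∀ i j, s i j + s j i ^ 2 + f i ^ 2 * f j = 0) ∧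
      Good (E m K * (1 + vecMulVec y f + s₁ * s))

theorem NF.transport (e : K ≃+* L) (h : NF m L) : NF m K := by
  intro y s₁ hs hs0
  obtain ⟨f', s', h1, h2, h3⟩ := h (fun i => e (y i)) (s₁.map e) (by
      intro i j
      have := congrArg e (hs i j)
      simpa using this) (by
      intro h0
      apply hs0
      ext i j
      have := congrFun (congrFun h0 i) j
      exact e.injective (by simpa using this))
  refine ⟨fun i => e.symm (f' i), s'.map e.symm, ?_, ?_, ?_⟩
  · intro hy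
    have : f' = 0 := h1 (by
      funext i
      simp [hy])
    funext i
    simp [this]
  · intro i j
    apply e.injective
    have := h2 i j
    simpa using this
  · apply Good.of_map e
    have : (E m K * (1 + vecMulVec y (fun i => e.symm (f' i)) + s₁ * s'.map e.symm)).map e =
        E m L * (1 + vecMulVec (fun i => e (y i)) f' + s₁.map e * s') := by
      have h4 : ∀ A B : Matrix (Fin m) (Fin m) K, (A * B).map e = A.map e * B.map e := by
        intro A B
        exact Matrix.map_mul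
      rw [h4, E_map]
      congr 1
      ext i j
      simp [Matrix.add_apply, Matrix.one_apply, apply_ite e, vecMulVec_apply, Matrix.mul_apply, map_sum]
    rw [this]
    exact h3

end Good

section Tv

variable {K : Type*} [Field K]

theorem exists_dot_one {m : ℕ} {φ₀ : Fin m → K} (hφ : φ₀ ≠ 0) : ∃ x : Fin m → K, φ₀ ⬝ᵥ x = 1 := by
  classical
  obtain ⟨i, hi⟩ := Function.ne_iff.mp hφ
  refine ⟨Pi.single i (φ₀ i)⁻¹, ?_⟩
  rw [dotProduct_single, mul_inv_cancel₀ hi]

/-- Normal form for `m = 2`. -/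
theorem tv_nf2 (y₀ φ₀ : Fin 2 → K) (h0 : φ₀ ⬝ᵥ y₀ = 0) (hy : y₀ ≠ 0) (hφ : φ₀ ≠ 0) :
    ∃ P Q : Matrix (Fin 2) (Fin 2) K, P * Q = 1 ∧ Q * P = 1 ∧ (1 + vecMulVec y₀ φ₀) * P = P * E 2 K := by
  obtain ⟨x, hx⟩ := exists_dot_one hφ
  let P : Matrix (Fin 2) (Fin 2) K := of fun i j => ![y₀, x] j i
  have hP : ∀ c : Fin 2 → K, P *ᵥ c = c 0 • y₀ + c 1 • x := by
    intro c
    funext i
    simp [P, mulVec, dotProduct, Fin.sum_univ_two]
    ring
  have hinj : Function.Injective P.mulVec := by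
    intro c c' hcc
    rw [hP, hP] at hcc
    have h1 : c 1 = c' 1 := by
      have := congrArg (fun v => φ₀ ⬝ᵥ v) hcc
      simpa [dotProduct_add, dotProduct_smul, h0, hx] using this
    rw [h1] at hcc
    have h2 : c 0 • y₀ = c' 0 • y₀ := add_right_cancel hcc
    have h3 : c 0 = c' 0 := smul_left_injective K hy h2
    funext i
    fin_cases i
    · exact h3
    · exact h1
  have hU : IsUnit P := Matrix.mulVec_injective_iff_isUnit.1 hinj
  have hd := (Matrix.isUnit_iff_isUnit_det P).1 hU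
  refine ⟨P, P⁻¹, Matrix.mul_nonsing_inv P hd, Matrix.nonsing_inv_mul P hd, ?_⟩
  rw [add_mul, one_mul, vecMulVec_mul]
  ext i j
  have h5 : ∀ j, (φ₀ ᵥ* P) j = φ₀ ⬝ᵥ (![y₀, x] j) := by
    intro j
    rfl
  simp only [Matrix.add_apply, vecMulVec_apply, h5]
  fin_cases j
  · simp [h0, Matrix.mul_apply, Fin.sum_univ_two, E, P]
  · simp [hx, Matrix.mul_apply, Fin.sum_univ_two, E, P]
    ring

/-- Normal form for `m = 3`. -/
theorem tv_nf3 (y₀ φ₀ : Fin 3 → K) (h0 : φ₀ ⬝ᵥ y₀ = 0) (hy : y₀ ≠ 0) (hφ : φ₀ ≠ 0) :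
    ∃ P Q : Matrix (Fin 3) (Fin 3) K, P * Q = 1 ∧ Q * P = 1 ∧ (1 + vecMulVec y₀ φ₀) * P = P * E 3 K := by
  obtain ⟨x, hx⟩ := exists_dot_one hφ
  let ψ : (Fin 3 → K) →ₗ[K] K :=
    { toFun := fun v => φ₀ ⬝ᵥ v
      map_add' := fun a b => dotProduct_add _ _ _
      map_smul' := fun c v => by simp [dotProduct_smul] }
  have hψ : ∀ v, ψ v = φ₀ ⬝ᵥ v := fun v => rfl
  have hsurj : LinearMap.range ψ = ⊤ := by
    apply LinearMap.range_eq_top.2
    intro c
    refine ⟨c • x, ?_⟩
    rw [hψ, dotProduct_smul, hx]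
    simp
  have hker : Module.finrank K (LinearMap.ker ψ) = 2 := by
    have := ψ.finrank_range_add_finrank_ker
    rw [hsurj, finrank_top, Module.finrank_self, Module.finrank_fin_fun] at this
    omega
  have hN : Module.finrank K (Submodule.span K {y₀}) = 1 := finrank_span_singleton hy
  have hle : Submodule.span K {y₀} ≤ LinearMap.ker ψ := by
    rw [Submodule.span_singleton_le_iff_mem]
    exact h0
  have hlt : Submodule.span K {y₀} < LinearMap.ker ψ := by
    refine lt_of_le_of_ne hle ?_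
    intro h
    rw [h, hker] at hN
    omega
  obtain ⟨z, hz, hz'⟩ := SetLike.exists_of_lt hlt
  have hz0 : φ₀ ⬝ᵥ z = 0 := hz
  let P : Matrix (Fin 3) (Fin 3) K := of fun i j => ![y₀, x, z] j i
  have hP : ∀ c : Fin 3 → K, P *ᵥ c = c 0 • y₀ + c 1 • x + c 2 • z := by
    intro c
    funext i
    simp [P, mulVec, dotProduct, Fin.sum_univ_three]
    ring
  have hinj : Function.Injective P.mulVec := by
    intro c c' hcc
    rw [hP, hP] at hcc
    have h1 : c 1 = c' 1 := by
      have := congrArg (fun v => φ₀ ⬝ᵥ v) hcc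
      simpa [dotProduct_add, dotProduct_smul, h0, hx, hz0] using this
    rw [h1] at hcc
    have h2 : (c 0 - c' 0) • y₀ = (c' 2 - c 2) • z := by
      have : c 0 • y₀ + c 2 • z = c' 0 • y₀ + c' 2 • z := by
        have h3 : c 0 • y₀ + c' 1 • x + c 2 • z - (c' 0 • y₀ + c' 1 • x + c' 2 • z) = 0 := sub_eq_zero.2 hcc
        have h4 : c 0 • y₀ + c 2 • z - (c' 0 • y₀ + c' 2 • z) = 0 := by
          rw [← h3]
          abel
        exact sub_eq_zero.1 h4
      rw [sub_smul, sub_smul]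
      have h5 : c 0 • y₀ - c' 0 • y₀ - (c' 2 • z - c 2 • z) = c 0 • y₀ + c 2 • z - (c' 0 • y₀ + c' 2 • z) := by
        abel
      exact sub_eq_zero.1 (by rw [h5, this, sub_self])
    have h3 : c' 2 - c 2 = 0 := by
      by_contra hne
      apply hz'
      have : z = ((c' 2 - c 2)⁻¹ * (c 0 - c' 0)) • y₀ := by
        rw [mul_smul, h2, smul_smul, inv_mul_cancel₀ hne, one_smul]
      rw [this]
      exact Submodule.smul_mem _ _ (Submodule.mem_span_singleton_self y₀)
    rw [h3, zero_smul] at h2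
    have h4 : c 0 - c' 0 = 0 := by
      rcases smul_eq_zero.1 h2 with h | h
      · exact h
      · exact absurd h hy
    funext i
    fin_cases i
    · exact sub_eq_zero.1 h4
    · exact h1
    · exact (sub_eq_zero.1 h3).symm
  have hU : IsUnit P := Matrix.mulVec_injective_iff_isUnit.1 hinj
  have hd := (Matrix.isUnit_iff_isUnit_det P).1 hU
  refine ⟨P, P⁻¹, Matrix.mul_nonsing_inv P hd, Matrix.nonsing_inv_mul P hd, ?_⟩
  rw [add_mul, one_mul, vecMulVec_mul]
  ext i j
  have h5 : ∀ j, (φ₀ ᵥ* P) j = φ₀ ⬝ᵥ (![y₀, x, z] j) := by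
    intro j
    rfl
  simp only [Matrix.add_apply, vecMulVec_apply, h5]
  fin_cases j
  · simp [h0, Matrix.mul_apply, Fin.sum_univ_three, E, P]
  · simp [hx, Matrix.mul_apply, Fin.sum_univ_three, E, P]
    ring
  · simp [hz0, Matrix.mul_apply, Fin.sum_univ_three, E, P]

end Tv

section F4Part

open F4

theorem add_self_F4 (x : F4) : x + x = 0 := by cases x <;> decide

theorem add_eq_zero_F4 {x y : F4} (h : x + y = 0) : x = y := by
  revert h
  cases x <;> cases y <;> decide

theorem eq0_false {x : F4} : eq0 x = false ↔ x ≠ 0 := by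
  cases x <;> simp [eq0] <;> decide

theorem sub_F4 (a b : F4) : a - b = a + b := CharTwo.sub_eq_add a b

theorem add_one_add_one (a : F4) : 1 + a + 1 = a := by
  revert a
  decide

theorem key_tv {u v : Fin 3 → F4} (a b c d : Fin 3) :
    (u a * v c) * (u b * v d) + (u a * v d) * (u b * v c) = 0 := by
  rw [show (u a * v d) * (u b * v c) = (u a * v c) * (u b * v d) by ring]
  exact add_self_F4 _

/-- The final test gives the target. -/
theorem good_of_good3 {x00 x01 x02 x10 x11 x12 x20 x21 x22 : F4}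
    (h : good3 x00 x01 x02 x10 x11 x12 x20 x21 x22 = true) :
    Good !![x00, x01, x02; x10, x11, x12; x20, x21, x22] := by
  simp only [good3, Bool.and_eq_true, Bool.or_eq_true, Bool.not_eq_true', eq0_false, ne_eq, eq0_iff, eq1_iff,
    ← F4.add_def, ← F4.mul_def, ← F4.one_def] at h
  obtain ⟨hd, h⟩ := h
  refine ⟨?_, ?_⟩
  · rw [Matrix.det_fin_three]
    simp only [Matrix.of_apply, Matrix.cons_val', Matrix.cons_val_zero, Matrix.cons_val_one, Matrix.cons_val,
      Matrix.cons_val_fin_one, sub_F4]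
    rw [← hd]
  · rcases h with h | ⟨hn, hm⟩
    · left
      obtain ⟨⟨⟨⟨⟨⟨⟨⟨h00, h01⟩, h02⟩, h10⟩, h11⟩, h12⟩, h20⟩, h21⟩, h22⟩ := h
      subst h00 h01 h02 h10 h11 h12 h20 h21 h22
      ext i j
      fin_cases i <;> fin_cases j <;> simp
    · right
      refine ⟨?_, ?_⟩
      · rintro ⟨a, ha⟩
        have hx : ∀ i j, !![x00, x01, x02; x10, x11, x12; x20, x21, x22] i j = a * (1 : Matrix (Fin 3) (Fin 3) F4) i j := by
          intro i j
          rw [ha]
          simp
        have e00 : x00 = a := by simpa using hx 0 0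
        have e01 : x01 = 0 := by simpa using hx 0 1
        have e02 : x02 = 0 := by simpa using hx 0 2
        have e10 : x10 = 0 := by simpa using hx 1 0
        have e11 : x11 = a := by simpa using hx 1 1
        have e12 : x12 = 0 := by simpa using hx 1 2
        have e20 : x20 = 0 := by simpa using hx 2 0
        have e21 : x21 = 0 := by simpa using hx 2 1
        have e22 : x22 = a := by simpa using hx 2 2
        subst e00
        subst e01 e02 e10 e12 e20 e21
        rw [e11, e22] at hn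
        simp [add_self_F4] at hn
      · rintro ⟨u, v, huv⟩
        have hx : ∀ i j, !![x00, x01, x02; x10, x11, x12; x20, x21, x22] i j =
            (1 : Matrix (Fin 3) (Fin 3) F4) i j + u i * v j := by
          intro i j
          rw [huv]
          simp [Matrix.add_apply, vecMulVec_apply]
        have e00 : x00 + 1 = u 0 * v 0 := by
          have : x00 = 1 + u 0 * v 0 := by simpa using hx 0 0
          rw [this, add_one_add_one]
        have e01 : x01 = u 0 * v 1 := by simpa using hx 0 1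
        have e02 : x02 = u 0 * v 2 := by simpa using hx 0 2
        have e10 : x10 = u 1 * v 0 := by simpa using hx 1 0
        have e11 : x11 + 1 = u 1 * v 1 := by
          have : x11 = 1 + u 1 * v 1 := by simpa using hx 1 1
          rw [this, add_one_add_one]
        have e12 : x12 = u 1 * v 2 := by simpa using hx 1 2
        have e20 : x20 = u 2 * v 0 := by simpa using hx 2 0
        have e21 : x21 = u 2 * v 1 := by simpa using hx 2 1
        have e22 : x22 + 1 = u 2 * v 2 := by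
          have : x22 = 1 + u 2 * v 2 := by simpa using hx 2 2
          rw [this, add_one_add_one]
        rcases hm with (((((((hm | hm) | hm) | hm) | hm) | hm) | hm) | hm) | hm
        · exact hm (by rw [e00, e11, e01, e10]; exact key_tv 0 1 0 1)
        · exact hm (by rw [e00, e12, e02, e10]; exact key_tv 0 1 0 2)
        · exact hm (by rw [e01, e12, e02, e11]; exact key_tv 0 1 1 2)
        · exact hm (by rw [e00, e21, e01, e20]; exact key_tv 0 2 0 1)
        · exact hm (by rw [e00, e22, e02, e20]; exact key_tv 0 2 0 2)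
        · exact hm (by rw [e01, e22, e02, e21]; exact key_tv 0 2 1 2)
        · exact hm (by rw [e10, e21, e11, e20]; exact key_tv 1 2 0 1)
        · exact hm (by rw [e10, e22, e12, e20]; exact key_tv 1 2 0 2)
        · exact hm (by rw [e11, e22, e12, e21]; exact key_tv 1 2 1 2)

theorem key_tv2 {u v : Fin 2 → F4} (a b c d : Fin 2) :
    (u a * v c) * (u b * v d) + (u a * v d) * (u b * v c) = 0 := by
  rw [show (u a * v d) * (u b * v c) = (u a * v c) * (u b * v d) by ring]
  exact add_self_F4 _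

theorem good_of_good2 {x00 x01 x10 x11 : F4} (h : good2 x00 x01 x10 x11 = true) :
    Good !![x00, x01; x10, x11] := by
  simp only [good2, Bool.and_eq_true, Bool.or_eq_true, Bool.not_eq_true', eq0_false, ne_eq, eq0_iff, eq1_iff,
    ← F4.add_def, ← F4.mul_def, ← F4.one_def] at h
  obtain ⟨hd, h⟩ := h
  refine ⟨?_, ?_⟩
  · rw [Matrix.det_fin_two]
    simp only [Matrix.of_apply, Matrix.cons_val', Matrix.cons_val_zero, Matrix.cons_val_one, Matrix.cons_val,
      Matrix.cons_val_fin_one, sub_F4]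
    rw [← hd]
  · rcases h with h | ⟨hn, hm⟩
    · left
      obtain ⟨⟨⟨h00, h01⟩, h10⟩, h11⟩ := h
      subst h00 h01 h10 h11
      ext i j
      fin_cases i <;> fin_cases j <;> simp
    · right
      refine ⟨?_, ?_⟩
      · rintro ⟨a, ha⟩
        have hx : ∀ i j, !![x00, x01; x10, x11] i j = a * (1 : Matrix (Fin 2) (Fin 2) F4) i j := by
          intro i j
          rw [ha]
          simp
        have e00 : x00 = a := by simpa using hx 0 0
        have e01 : x01 = 0 := by simpa using hx 0 1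
        have e10 : x10 = 0 := by simpa using hx 1 0
        have e11 : x11 = a := by simpa using hx 1 1
        subst e00
        subst e01 e10
        rw [e11] at hn
        simp [add_self_F4] at hn
      · rintro ⟨u, v, huv⟩
        have hx : ∀ i j, !![x00, x01; x10, x11] i j =
            (1 : Matrix (Fin 2) (Fin 2) F4) i j + u i * v j := by
          intro i j
          rw [huv]
          simp [Matrix.add_apply, vecMulVec_apply]
        have e00 : x00 + 1 = u 0 * v 0 := by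
          have : x00 = 1 + u 0 * v 0 := by simpa using hx 0 0
          rw [this, add_one_add_one]
        have e01 : x01 = u 0 * v 1 := by simpa using hx 0 1
        have e10 : x10 = u 1 * v 0 := by simpa using hx 1 0
        have e11 : x11 + 1 = u 1 * v 1 := by
          have : x11 = 1 + u 1 * v 1 := by simpa using hx 1 1
          rw [this, add_one_add_one]
        exact hm (by rw [e00, e11, e01, e10]; exact key_tv2 0 1 0 1)

/-- From one verified leaf to the statement, `m = 3`. -/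
theorem of_leafV3 {y : Fin 3 → F4} {s₁ : Matrix (Fin 3) (Fin 3) F4}
    {f0 f1 f2 t00 t01 t02 t10 t11 t12 t20 t21 t22 : F4}
    (h : leafV3 (y 0) (y 1) (y 2) (s₁ 0 0) (s₁ 0 1) (s₁ 0 2) (s₁ 1 0) (s₁ 1 1) (s₁ 1 2) (s₁ 2 0) (s₁ 2 1) (s₁ 2 2)
      f0 f1 f2 t00 t01 t02 t10 t11 t12 t20 t21 t22 = true) :
    (y = 0 → ![f0, f1, f2] = 0) ∧
    (∀ i j, (!![t00, t01, t02; t10, t11, t12; t20, t21, t22] : Matrix (Fin 3) (Fin 3) F4) i j +
        (!![t00, t01, t02; t10, t11, t12; t20, t21, t22] : Matrix (Fin 3) (Fin 3) F4) j i ^ 2 +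
        (![f0, f1, f2] : Fin 3 → F4) i ^ 2 * (![f0, f1, f2] : Fin 3 → F4) j = 0) ∧
    Good (E 3 F4 * (1 + vecMulVec y ![f0, f1, f2] + s₁ * !![t00, t01, t02; t10, t11, t12; t20, t21, t22])) := by
  simp only [leafV3, force_eq, Bool.and_eq_true, Bool.or_eq_true, Bool.not_eq_true', eq0_iff] at h
  obtain ⟨⟨⟨⟨⟨⟨⟨⟨⟨⟨h1, h2⟩, h3⟩, h4⟩, h5⟩, h6⟩, h7⟩, h8⟩, h9⟩, hz⟩, hg⟩ := h
  refine ⟨?_, ?_, ?_⟩
  · intro hy
    rcases hz with hz | hz
    · exfalso
      have e : eq0 (y 0) = true ∧ eq0 (y 1) = true ∧ eq0 (y 2) = true := by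
        rw [hy]
        exact ⟨rfl, rfl, rfl⟩
      simp [e.1, e.2.1, e.2.2] at hz
    · obtain ⟨⟨e0, e1⟩, e2⟩ := hz
      funext i
      fin_cases i
      · exact e0
      · exact e1
      · exact e2
  · intro i j
    fin_cases i <;> fin_cases j
    · show t00 + t00 ^ 2 + f0 ^ 2 * f0 = 0
      rw [pow_two, pow_two]; exact h1
    · show t01 + t10 ^ 2 + f0 ^ 2 * f1 = 0
      rw [pow_two, pow_two]; exact h2
    · show t02 + t20 ^ 2 + f0 ^ 2 * f2 = 0
      rw [pow_two, pow_two]; exact h3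
    · show t10 + t01 ^ 2 + f1 ^ 2 * f0 = 0
      rw [pow_two, pow_two]; exact h4
    · show t11 + t11 ^ 2 + f1 ^ 2 * f1 = 0
      rw [pow_two, pow_two]; exact h5
    · show t12 + t21 ^ 2 + f1 ^ 2 * f2 = 0
      rw [pow_two, pow_two]; exact h6
    · show t20 + t02 ^ 2 + f2 ^ 2 * f0 = 0
      rw [pow_two, pow_two]; exact h7
    · show t21 + t12 ^ 2 + f2 ^ 2 * f1 = 0
      rw [pow_two, pow_two]; exact h8
    · show t22 + t22 ^ 2 + f2 ^ 2 * f2 = 0
      rw [pow_two, pow_two]; exact h9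
  · have hA : ∀ i j, (1 + vecMulVec y ![f0, f1, f2] + s₁ * !![t00, t01, t02; t10, t11, t12; t20, t21, t22]) i j =
        (1 : Matrix (Fin 3) (Fin 3) F4) i j + y i * (![f0, f1, f2] : Fin 3 → F4) j +
          (s₁ i 0 * (!![t00, t01, t02; t10, t11, t12; t20, t21, t22] : Matrix (Fin 3) (Fin 3) F4) 0 j +
           s₁ i 1 * (!![t00, t01, t02; t10, t11, t12; t20, t21, t22] : Matrix (Fin 3) (Fin 3) F4) 1 j +
           s₁ i 2 * (!![t00, t01, t02; t10, t11, t12; t20, t21, t22] : Matrix (Fin 3) (Fin 3) F4) 2 j) := by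
      intro i j
      rw [Matrix.add_apply, Matrix.add_apply, vecMulVec_apply, Matrix.mul_apply, Fin.sum_univ_three]
    have hg' := good_of_good3 hg
    simp only [← F4.add_def, ← F4.mul_def, ← F4.one_def] at hg'
    convert hg' using 1
    ext i j
    rw [Matrix.mul_apply, Fin.sum_univ_three]
    simp only [hA]
    fin_cases i <;> fin_cases j <;> simp [E, Matrix.one_apply] <;> ring

/-- From one verified leaf to the statement, `m = 2`. -/
theorem of_leafV2 {y : Fin 2 → F4} {s₁ : Matrix (Fin 2) (Fin 2) F4}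
    {f0 f1 t00 t01 t10 t11 : F4}
    (h : leafV2 (y 0) (y 1) (s₁ 0 0) (s₁ 0 1) (s₁ 1 0) (s₁ 1 1) f0 f1 t00 t01 t10 t11 = true) :
    (y = 0 → ![f0, f1] = 0) ∧
    (∀ i j, (!![t00, t01; t10, t11] : Matrix (Fin 2) (Fin 2) F4) i j +
        (!![t00, t01; t10, t11] : Matrix (Fin 2) (Fin 2) F4) j i ^ 2 +
        (![f0, f1] : Fin 2 → F4) i ^ 2 * (![f0, f1] : Fin 2 → F4) j = 0) ∧
    Good (E 2 F4 * (1 + vecMulVec y ![f0, f1] + s₁ * !![t00, t01; t10, t11])) := by
  simp only [leafV2, force_eq, Bool.and_eq_true, Bool.or_eq_true, Bool.not_eq_true', eq0_iff] at h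
  obtain ⟨⟨⟨⟨⟨h1, h2⟩, h3⟩, h4⟩, hz⟩, hg⟩ := h
  refine ⟨?_, ?_, ?_⟩
  · intro hy
    rcases hz with hz | hz
    · exfalso
      have e : eq0 (y 0) = true ∧ eq0 (y 1) = true := by
        rw [hy]
        exact ⟨rfl, rfl⟩
      simp [e.1, e.2] at hz
    · obtain ⟨e0, e1⟩ := hz
      funext i
      fin_cases i
      · exact e0
      · exact e1
  · intro i j
    fin_cases i <;> fin_cases j
    · show t00 + t00 ^ 2 + f0 ^ 2 * f0 = 0
      rw [pow_two, pow_two]; exact h1
    · show t01 + t10 ^ 2 + f0 ^ 2 * f1 = 0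
      rw [pow_two, pow_two]; exact h2
    · show t10 + t01 ^ 2 + f1 ^ 2 * f0 = 0
      rw [pow_two, pow_two]; exact h3
    · show t11 + t11 ^ 2 + f1 ^ 2 * f1 = 0
      rw [pow_two, pow_two]; exact h4
  · have hA : ∀ i j, (1 + vecMulVec y ![f0, f1] + s₁ * !![t00, t01; t10, t11]) i j =
        (1 : Matrix (Fin 2) (Fin 2) F4) i j + y i * (![f0, f1] : Fin 2 → F4) j +
          (s₁ i 0 * (!![t00, t01; t10, t11] : Matrix (Fin 2) (Fin 2) F4) 0 j +
           s₁ i 1 * (!![t00, t01; t10, t11] : Matrix (Fin 2) (Fin 2) F4) 1 j) := by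
      intro i j
      rw [Matrix.add_apply, Matrix.add_apply, vecMulVec_apply, Matrix.mul_apply, Fin.sum_univ_two]
    have hg' := good_of_good2 hg
    simp only [← F4.add_def, ← F4.mul_def, ← F4.one_def] at hg'
    convert hg' using 1
    ext i j
    rw [Matrix.mul_apply, Fin.sum_univ_two]
    simp only [hA]
    fin_cases i <;> fin_cases j <;> simp [E, Matrix.one_apply] <;> ring

theorem add_eq_of_add_add {a b c : F4} (h : a + b + c = 0) : a = b + c := by
  revert h
  revert a b c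
  decide

theorem dg_of {s y : F4} (h : s + s ^ 2 + y * y ^ 2 = 0) : dg s y = true := by
  rw [dg]
  show eq0 (s + s * s + y * y * y) = true
  rw [eq0_iff]
  rw [← h]
  ring

/-- The table check for `m = 3`. -/
theorem nf3 : NF 3 F4 := by
  intro y s₁ hs hs0
  have h0 := check3p_all (y 0) (y 1)
  have h1 := allF4_spec (allF4_spec (allF4_spec (allF4_spec (allF4_spec h0 (y 2)) (s₁ 0 1)) (s₁ 0 2)) (s₁ 1 2)) (s₁ 0 0)
  rw [dg_of (hs 0 0), Bool.not_true, Bool.false_or] at h1
  have h2 := allF4_spec h1 (s₁ 1 1)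
  rw [dg_of (hs 1 1), Bool.not_true, Bool.false_or] at h2
  have h3 := allF4_spec h2 (s₁ 2 2)
  rw [dg_of (hs 2 2), Bool.not_true, Bool.false_or] at h3
  have e10 : s₁ 1 0 = s₁ 0 1 * s₁ 0 1 + y 1 * (y 0 * y 0) := by
    have := add_eq_of_add_add (hs 1 0)
    rw [this, pow_two, pow_two]
  have e20 : s₁ 2 0 = s₁ 0 2 * s₁ 0 2 + y 2 * (y 0 * y 0) := by
    have := add_eq_of_add_add (hs 2 0)
    rw [this, pow_two, pow_two]
  have e21 : s₁ 2 1 = s₁ 1 2 * s₁ 1 2 + y 2 * (y 1 * y 1) := by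
    have := add_eq_of_add_add (hs 2 1)
    rw [this, pow_two, pow_two]
  rw [Bool.or_eq_true] at h3
  rcases h3 with h4 | h4
  · exfalso
    apply hs0
    simp only [Bool.and_eq_true, eq0_iff] at h4
    obtain ⟨⟨⟨⟨⟨⟨⟨⟨hy0, hy1⟩, hy2⟩, h01⟩, h02⟩, h12⟩, h00⟩, h11⟩, h22⟩ := h4
    ext i j
    fin_cases i <;> fin_cases j
    · exact h00
    · exact h01
    · exact h02
    · show s₁ 1 0 = 0
      rw [e10, h01, hy0]; simp
    · exact h11
    · exact h12
    · show s₁ 2 0 = 0
      rw [e20, h02, hy0]; simp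
    · show s₁ 2 1 = 0
      rw [e21, h12, hy1]; simp
    · exact h22
  · simp only [leaf3, force_eq, forceN_eq] at h4
    have e10' : F4.add (F4.mul (s₁ 0 1) (s₁ 0 1)) (F4.mul (y 1) (F4.mul (y 0) (y 0))) = s₁ 1 0 := e10.symm
    have e20' : F4.add (F4.mul (s₁ 0 2) (s₁ 0 2)) (F4.mul (y 2) (F4.mul (y 0) (y 0))) = s₁ 2 0 := e20.symm
    have e21' : F4.add (F4.mul (s₁ 1 2) (s₁ 1 2)) (F4.mul (y 2) (F4.mul (y 1) (y 1))) = s₁ 2 1 := e21.symm
    rw [e10', e20', e21'] at h4
    exact ⟨_, _, of_leafV3 h4⟩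

/-- The table check for `m = 2`. -/
theorem nf2 : NF 2 F4 := by
  intro y s₁ hs hs0
  have h0 := check2_eq
  have h1 := allF4_spec (allF4_spec (allF4_spec (allF4_spec h0 (y 0)) (y 1)) (s₁ 0 1)) (s₁ 0 0)
  rw [dg_of (hs 0 0), Bool.not_true, Bool.false_or] at h1
  have h2 := allF4_spec h1 (s₁ 1 1)
  rw [dg_of (hs 1 1), Bool.not_true, Bool.false_or] at h2
  have e10 : s₁ 1 0 = s₁ 0 1 * s₁ 0 1 + y 1 * (y 0 * y 0) := by
    have := add_eq_of_add_add (hs 1 0)
    rw [this, pow_two, pow_two]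
  rw [Bool.or_eq_true] at h2
  rcases h2 with h4 | h4
  · exfalso
    apply hs0
    simp only [Bool.and_eq_true, eq0_iff] at h4
    obtain ⟨⟨⟨⟨hy0, hy1⟩, h01⟩, h00⟩, h11⟩ := h4
    ext i j
    fin_cases i <;> fin_cases j
    · exact h00
    · exact h01
    · show s₁ 1 0 = 0
      rw [e10, h01, hy0]; simp
    · exact h11
  · simp only [leaf2, force_eq, forceN_eq] at h4
    have e10' : F4.add (F4.mul (s₁ 0 1) (s₁ 0 1)) (F4.mul (y 1) (F4.mul (y 0) (y 0))) = s₁ 1 0 := e10.symm
    rw [e10'] at h4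
    exact ⟨_, _, of_leafV2 h4⟩

end F4Part

section Main

variable {F : Type*} [Field F] [Fintype F] {m : ℕ}

open Cfsg.Agent.Lib.OreU

theorem vec_pow_two (hF : Fintype.card F = 2 ^ 2) (Q : Matrix (Fin m) (Fin m) F) (y : Fin m → F) (j : Fin m) :
    (Q *ᵥ y) j ^ 2 = ((fun i => y i ^ 2) ᵥ* ct 2 Q) j := by
  simp only [mulVec, dotProduct, vecMul, ct_apply]
  rw [pow_q_sum hF]
  refine Finset.sum_congr rfl fun k _ => ?_
  rw [mul_pow, mul_comm]

/-- The statement for a general matrix conjugate to `E m F`, in vector form. -/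
theorem pos_six_core (hF : Fintype.card F = 2 ^ 2) (hnf : NF m F) (D P Q : Matrix (Fin m) (Fin m) F)
    (hPQ : P * Q = 1) (hQP : Q * P = 1) (hD : D * P = P * E m F)
    (y : Fin m → F) (s₁ : Matrix (Fin m) (Fin m) F)
    (hs : ∀ i j, s₁ i j + s₁ j i ^ 2 + y i * y j ^ 2 = 0) (hs0 : s₁ ≠ 0) :
    ∃ (f : Fin m → F) (s : Matrix (Fin m) (Fin m) F), (y = 0 → f = 0) ∧
      (∀ i j, s i j + s j i ^ 2 + f i ^ 2 * f j = 0) ∧
      Good (D * (1 + vecMulVec y f + s₁ * s)) := by
  have hcQP : ct 2 Q * ct 2 P = 1 := by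
    rw [← ct_mul' hF, hPQ, ct_one hF]
  have hcPQ : ct 2 P * ct 2 Q = 1 := by
    rw [← ct_mul' hF, hQP, ct_one hF]
  have hH : s₁ + ct 2 s₁ + vecMulVec y (fun j => y j ^ 2) = 0 := by
    ext i j
    simpa [Matrix.add_apply, ct_apply, vecMulVec_apply] using hs i j
  let s₁' := Q * s₁ * ct 2 Q
  let y' := Q *ᵥ y
  have hH' : s₁' + ct 2 s₁' + vecMulVec y' (fun j => y' j ^ 2) = 0 := by
    have e1 : ct 2 s₁' = Q * ct 2 s₁ * ct 2 Q := by
      simp only [s₁']
      rw [ct_mul' hF, ct_mul' hF, ct_ct hF, mul_assoc]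
    have e2 : vecMulVec y' (fun j => y' j ^ 2) = Q * vecMulVec y (fun j => y j ^ 2) * ct 2 Q := by
      rw [mul_vecMulVec, vecMulVec_mul]
      congr 1
      funext j
      exact vec_pow_two hF Q y j
    rw [e1, e2]
    have : Q * s₁ * ct 2 Q + Q * ct 2 s₁ * ct 2 Q + Q * vecMulVec y (fun j => y j ^ 2) * ct 2 Q =
        Q * (s₁ + ct 2 s₁ + vecMulVec y (fun j => y j ^ 2)) * ct 2 Q := by
      simp only [mul_add, add_mul]
    show Q * s₁ * ct 2 Q + Q * ct 2 s₁ * ct 2 Q + Q * vecMulVec y (fun j => y j ^ 2) * ct 2 Q = 0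
    rw [this, hH, mul_zero, zero_mul]
  have hs' : ∀ i j, s₁' i j + s₁' j i ^ 2 + y' i * y' j ^ 2 = 0 := by
    intro i j
    have := congrFun (congrFun hH' i) j
    simpa [Matrix.add_apply, ct_apply, vecMulVec_apply] using this
  have hs0' : s₁' ≠ 0 := by
    intro h0
    apply hs0
    have : P * s₁' * ct 2 P = s₁ := by
      calc P * s₁' * ct 2 P = (P * Q) * s₁ * (ct 2 Q * ct 2 P) := by
            simp only [s₁', mul_assoc]
        _ = s₁ := by rw [hPQ, hcQP, one_mul, mul_one]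
    rw [← this, h0, mul_zero, zero_mul]
  obtain ⟨f', s', h1, h2, h3⟩ := hnf y' s₁' hs' hs0'
  refine ⟨f' ᵥ* Q, ct 2 Q * s' * Q, ?_, ?_, ?_⟩
  · intro hy
    have : f' = 0 := h1 (by simp [y', hy])
    rw [this, zero_vecMul]
  · have hH2 : s' + ct 2 s' + vecMulVec (fun i => f' i ^ 2) f' = 0 := by
      ext i j
      simpa [Matrix.add_apply, ct_apply, vecMulVec_apply] using h2 i j
    have e0 : ct 2 (ct 2 Q * s' * Q) = ct 2 Q * ct 2 s' * Q := by
      rw [ct_mul' hF, ct_mul' hF, ct_ct hF, mul_assoc]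
    have e1 : (fun i => (f' ᵥ* Q) i ^ 2) = ct 2 Q *ᵥ (fun i => f' i ^ 2) := by
      funext i
      simp only [vecMul, mulVec, dotProduct, ct_apply]
      rw [pow_q_sum hF]
      refine Finset.sum_congr rfl fun k _ => ?_
      rw [mul_pow, mul_comm]
    have e2 : vecMulVec (fun i => (f' ᵥ* Q) i ^ 2) (f' ᵥ* Q) = ct 2 Q * vecMulVec (fun i => f' i ^ 2) f' * Q := by
      rw [e1, mul_vecMulVec, vecMulVec_mul]
    have hH3 : ct 2 Q * s' * Q + ct 2 (ct 2 Q * s' * Q) + vecMulVec (fun i => (f' ᵥ* Q) i ^ 2) (f' ᵥ* Q) = 0 := by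
      rw [e0, e2]
      have : ct 2 Q * s' * Q + ct 2 Q * ct 2 s' * Q + ct 2 Q * vecMulVec (fun i => f' i ^ 2) f' * Q =
          ct 2 Q * (s' + ct 2 s' + vecMulVec (fun i => f' i ^ 2) f') * Q := by
        simp only [mul_add, add_mul]
      rw [this, hH2, mul_zero, zero_mul]
    intro i j
    have := congrFun (congrFun hH3 i) j
    simpa [Matrix.add_apply, ct_apply, vecMulVec_apply] using this
  · apply Good.conj hPQ hQP
    have e1 : Q * D * P = E m F := by
      rw [mul_assoc, hD, ← mul_assoc, hQP, one_mul]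
    have e2 : Q * (1 + vecMulVec y (f' ᵥ* Q) + s₁ * (ct 2 Q * s' * Q)) * P =
        1 + vecMulVec y' f' + s₁' * s' := by
      have e3 : Q * vecMulVec y (f' ᵥ* Q) * P = vecMulVec y' f' := by
        rw [mul_vecMulVec, vecMulVec_mul, vecMul_vecMul, hQP, vecMul_one]
      have e4 : Q * (s₁ * (ct 2 Q * s' * Q)) * P = s₁' * s' := by
        calc Q * (s₁ * (ct 2 Q * s' * Q)) * P = (Q * s₁ * ct 2 Q) * s' * (Q * P) := by
              simp only [mul_assoc]
          _ = s₁' * s' := by rw [hQP, mul_one]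
      rw [mul_add, mul_add, add_mul, add_mul, mul_one, hQP, e3, e4]
    have e5 : Q * (D * (1 + vecMulVec y (f' ᵥ* Q) + s₁ * (ct 2 Q * s' * Q))) * P =
        (Q * D * P) * (Q * (1 + vecMulVec y (f' ᵥ* Q) + s₁ * (ct 2 Q * s' * Q)) * P) := by
      calc Q * (D * (1 + vecMulVec y (f' ᵥ* Q) + s₁ * (ct 2 Q * s' * Q))) * P
          = Q * D * (P * Q) * (1 + vecMulVec y (f' ᵥ* Q) + s₁ * (ct 2 Q * s' * Q)) * P := by
            rw [hPQ, mul_one]
            simp only [mul_assoc]
        _ = _ := by simp only [mul_assoc]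
    rw [e5, e1, e2]
    exact h3

/-- **Step (6)**, vector form. -/
theorem pos_six (hF : Fintype.card F = 2 ^ 2) (hm : m = 2 ∨ m = 3) (y₀ φ₀ : Fin m → F)
    (hdet : (1 + vecMulVec y₀ φ₀ : Matrix (Fin m) (Fin m) F).det = 1) (hne : vecMulVec y₀ φ₀ ≠ 0)
    (y : Fin m → F) (s₁ : Matrix (Fin m) (Fin m) F)
    (hs : ∀ i j, s₁ i j + s₁ j i ^ 2 + y i * y j ^ 2 = 0) (hs0 : s₁ ≠ 0) :
    ∃ (f : Fin m → F) (s : Matrix (Fin m) (Fin m) F), (y = 0 → f = 0) ∧
      (∀ i j, s i j + s j i ^ 2 + f i ^ 2 * f j = 0) ∧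
      Good ((1 + vecMulVec y₀ φ₀) * (1 + vecMulVec y f + s₁ * s)) := by
  have e : F ≃+* F4 := equivOfCard F (by rw [hF]; norm_num)
  have hy : y₀ ≠ 0 := by
    rintro rfl
    apply hne
    ext i j
    simp [vecMulVec_apply]
  have hφ : φ₀ ≠ 0 := by
    rintro rfl
    apply hne
    ext i j
    simp [vecMulVec_apply]
  have h0 : φ₀ ⬝ᵥ y₀ = 0 := by
    have e1 : (1 + vecMulVec y₀ φ₀ : Matrix (Fin m) (Fin m) F) =
        1 + replicateCol Unit y₀ * replicateRow Unit φ₀ := by
      congr 1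
      ext i j
      simp [Matrix.mul_apply, vecMulVec_apply]
    rw [e1, det_one_add_replicateCol_mul_replicateRow] at hdet
    simpa using hdet
  rcases hm with rfl | rfl
  · obtain ⟨P, Q, h1, h2, h3⟩ := tv_nf2 y₀ φ₀ h0 hy hφ
    exact pos_six_core hF (NF.transport e nf2) _ P Q h1 h2 h3 y s₁ hs hs0
  · obtain ⟨P, Q, h1, h2, h3⟩ := tv_nf3 y₀ φ₀ h0 hy hφ
    exact pos_six_core hF (NF.transport e nf3) _ P Q h1 h2 h3 y s₁ hs hs0

end Main

end Cfsg.Agent.Lib.OreU.PosSix

namespace Cfsg.Agent.Lib.OreU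

open Matrix Cfsg.Agent.Lib.Classical.Herm.Basic Cfsg.Agent.Lib.OreU.PosSix Cfsg.Agent.Lib.Compute.GF4

variable {F : Type*} [Field F] [Fintype F] {m ε : ℕ}

theorem cst_mul_two (hF : Fintype.card F = 2 ^ 2) (A : Matrix (Fin m) (Fin m) F) (B : Matrix (Fin m) (Fin ε) F) :
    cst 2 (A * B) = cst 2 B * ct 2 A := by
  ext r c
  simp only [cst_apply, ct_apply, Matrix.mul_apply]
  rw [pow_q_sum hF]
  refine Finset.sum_congr rfl fun k _ => ?_
  rw [mul_pow, mul_comm]

/-- **Position for `q = 2`, `m ≤ 3`**: an update of a transvection which is `1` or a nonscalar matrix, not a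
transvection. -/
theorem exists_upd_two (hF : Fintype.card F = 2 ^ 2) (hε : ε ≤ 1) (hm : m = 2 ∨ m = 3)
    (c : Matrix (Fin m) (Fin m) F) (e : Matrix (Fin m) (Fin ε) F) (d : Matrix (Fin m) (Fin m) F)
    (hR : RowRel 2 c e d) (hc : c ≠ 0) (hdet : d.det = 1) (hns : ¬ ∃ a : F, d = a • 1)
    (y φ : Fin m → F) (hd : d = 1 + vecMulVec y φ) :
    ∃ (Z : Matrix (Fin ε) (Fin m) F) (S : Matrix (Fin m) (Fin m) F), IsAdm 2 Z S ∧ (updD 2 c e d Z S).det = 1 ∧
      (updD 2 c e d Z S = 1 ∨ ((¬ ∃ a : F, updD 2 c e d Z S = a • 1) ∧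
        ¬ ∃ y' φ' : Fin m → F, updD 2 c e d Z S = 1 + vecMulVec y' φ')) := by
  classical
  have eF : F ≃+* F4 := equivOfCard F (by rw [hF]; norm_num)
  haveI : CharP F 2 := charP_of_injective_ringHom (f := (eF.symm : F4 →+* F)) eF.symm.injective 2
  have hne : vecMulVec y φ ≠ 0 := by
    intro h
    apply hns
    exact ⟨1, by rw [hd, h, add_zero, one_smul]⟩
  have hU : IsUnit d.det := by
    rw [hdet]
    exact isUnit_one
  have hdI1 : d * d⁻¹ = 1 := mul_nonsing_inv d hU
  have hdI2 : d⁻¹ * d = 1 := nonsing_inv_mul d hU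
  let s₁ := d⁻¹ * c
  let Y := d⁻¹ * e
  let yv : Fin m → F := fun i => ∑ k, Y i k
  have hcs : d * s₁ = c := by
    simp only [s₁]
    rw [← mul_assoc, hdI1, one_mul]
  have hes : d * Y = e := by
    simp only [Y]
    rw [← Matrix.mul_assoc, hdI1, Matrix.one_mul]
  have hs0 : s₁ ≠ 0 := by
    intro h
    apply hc
    rw [← hcs, h, mul_zero]
  have hM : s₁ + Y * cst 2 Y + ct 2 s₁ = 0 := by
    have h1 : d⁻¹ * (c * ct 2 d + e * cst 2 e + d * ct 2 c) * ct 2 d⁻¹ = 0 := by
      have : c * ct 2 d + e * cst 2 e + d * ct 2 c = 0 := hR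
      rw [this, mul_zero, zero_mul]
    have h2 : ct 2 d * ct 2 d⁻¹ = 1 := by
      rw [← ct_mul' hF, hdI2, ct_one hF]
    have h3 : d⁻¹ * (c * ct 2 d + e * cst 2 e + d * ct 2 c) * ct 2 d⁻¹ = s₁ + Y * cst 2 Y + ct 2 s₁ := by
      have e1 : cst 2 Y = cst 2 e * ct 2 d⁻¹ := cst_mul_two hF _ _
      have e2 : ct 2 s₁ = ct 2 c * ct 2 d⁻¹ := ct_mul' hF _ _
      rw [e1, e2]
      simp only [mul_add, add_mul]
      congr 1
      · congr 1
        · show d⁻¹ * (c * ct 2 d) * ct 2 d⁻¹ = d⁻¹ * c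
          rw [← mul_assoc, mul_assoc (d⁻¹ * c), h2, mul_one]
        · simp only [Y, Matrix.mul_assoc]
      · rw [← mul_assoc d⁻¹, hdI2, one_mul]
    rw [← h3, h1]
  have hsum : ∀ i j, (Y * cst 2 Y) i j = yv i * yv j ^ 2 := by
    intro i j
    simp only [Matrix.mul_apply, cst_apply, yv]
    obtain rfl | rfl : ε = 0 ∨ ε = 1 := by omega
    · simp
    · simp
  have hs : ∀ i j, s₁ i j + s₁ j i ^ 2 + yv i * yv j ^ 2 = 0 := by
    intro i j
    have := congrFun (congrFun hM i) j
    simp only [Matrix.add_apply, hsum, ct_apply, Matrix.zero_apply] at this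
    rw [← this]
    ring
  have hdet' : (1 + vecMulVec y φ : Matrix (Fin m) (Fin m) F).det = 1 := by
    rw [← hd]
    exact hdet
  obtain ⟨f, s, hf0, hadm, hG⟩ := pos_six hF hm y φ hdet' hne yv s₁ hs hs0
  let Z : Matrix (Fin ε) (Fin m) F := of fun _ j => f j
  have hZ : ∀ i j, ∑ k, Z k i ^ 2 * Z k j = f i ^ 2 * f j := by
    intro i j
    obtain rfl | rfl : ε = 0 ∨ ε = 1 := by omega
    · have hy0 : yv = 0 := by
        funext l
        simp [yv]
      rw [hf0 hy0]
      simp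
    · simp [Z]
  have hYZ : Y * Z = vecMulVec yv f := by
    ext i j
    simp only [Matrix.mul_apply, vecMulVec_apply, yv, Z, of_apply, Finset.sum_mul]
  refine ⟨Z, ct 2 s, ?_, ?_⟩
  · intro i j
    rw [hZ]
    simp only [ct_apply, pow_q_pow_q hF]
    rw [← hadm i j]
    ring
  · have hup : updD 2 c e d Z (ct 2 s) = d * (1 + vecMulVec yv f + s₁ * s) := by
      simp only [updD]
      rw [ct_ct hF, mul_add, mul_add, mul_one, ← mul_assoc d s₁, hcs, ← hYZ, ← Matrix.mul_assoc d Y, hes]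
      ext i j
      simp only [Matrix.sub_apply, Matrix.add_apply, CharTwo.sub_eq_add]
      ring
    rw [hup, hd]
    exact hG

end Cfsg.Agent.Lib.OreU
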